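import Cfsg.Agent.Lib.FusionBasics.Criterion.Main
import Cfsg.Agent.Lib.FusionBasics.PPower.Inner

/-!
A saturated system with a single essential subgroup `P`: the system generated by the inner system
of `S` and a group `Δ` of automorphisms of `P` with `Aut_S(P)` of index three.
-/

set_option autoImplicit false
set_option linter.style.haveILetI false
set_option linter.unusedSectionVars false

namespace CfsgLib.FusionBicyclic

open Cfsg Cfsg.FusionSystem CfsgLib.Alperin CfsgLib.FusionBasics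

variable {Ω : Type*} [Group Ω] {S : Subgroup Ω}

/-- The subgroup `Q` lies in a conjugate of `P`. -/
def InConj (S P Q : Subgroup Ω) : Prop := ∃ t ∈ S, ∀ x ∈ Q, t * x * t⁻¹ ∈ P

/-- The subgroup `Q` contains a conjugate of `P`. -/
def ContainsConj (S P Q : Subgroup Ω) : Prop := ∃ t ∈ S, ∀ x ∈ P, t * x * t⁻¹ ∈ Q

/-- A map that is conjugation into `P`, a member of `Δ`, and a conjugation. -/
def Twisted (S : Subgroup Ω) {P : Subgroup Ω} (Δ : Subgroup (MulAut P)) {Q : Subgroup Ω}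
    (φ : Q →* Ω) : Prop :=
  ∃ t ∈ S, ∃ s ∈ S, ∃ δ ∈ Δ, ∃ ht : ∀ x : Q, t * (x : Ω) * t⁻¹ ∈ P,
    ∀ x : Q, φ x = s * ((δ ⟨_, ht x⟩ : P) : Ω) * s⁻¹

/-- A map between subgroups inside conjugates of `P`, twisted on those of full order. -/
def Mixed (S : Subgroup Ω) {P : Subgroup Ω} (Δ : Subgroup (MulAut P)) {Q : Subgroup Ω}
    (φ : Q →* Ω) : Prop :=
  InConj S P Q ∧ InConj S P φ.range ∧ Function.Injective φ ∧
    (Nat.card Q = Nat.card P → Twisted S Δ φ)

section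

variable [Finite S] {P : Subgroup Ω} {Δ : Subgroup (MulAut P)}

theorem InConj.le_top {Q : Subgroup Ω} (hP : P ≤ S) (h : InConj S P Q) : Q ≤ S := by
  obtain ⟨t, ht, h⟩ := h
  intro x hx
  have := S.mul_mem (S.mul_mem (S.inv_mem ht) (hP (h x hx))) ht
  rwa [show t⁻¹ * (t * x * t⁻¹) * t = x by group] at this

theorem InConj.card_le {Q : Subgroup Ω} (hP : P ≤ S) (h : InConj S P Q) :
    Nat.card Q ≤ Nat.card P := by
  obtain ⟨t, -, h⟩ := h
  haveI := finite_of_le hP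
  exact Nat.card_le_card_of_injective (fun x : Q => (⟨_, h x x.2⟩ : P))
    fun a b e => Subtype.ext (mul_left_cancel (mul_right_cancel (congrArg Subtype.val e :)))

theorem InConj.mono {Q R : Subgroup Ω} (h : InConj S P Q) (hR : R ≤ Q) : InConj S P R := by
  obtain ⟨t, ht, h⟩ := h
  exact ⟨t, ht, fun x hx => h x (hR hx)⟩

theorem ContainsConj.card_le {Q : Subgroup Ω} (hQ : Q ≤ S) (h : ContainsConj S P Q) :
    Nat.card P ≤ Nat.card Q := by
  obtain ⟨t, -, h⟩ := h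
  haveI := finite_of_le hQ
  exact Nat.card_le_card_of_injective (fun x : P => (⟨_, h x x.2⟩ : Q))
    fun a b e => Subtype.ext (mul_left_cancel (mul_right_cancel (congrArg Subtype.val e :)))

theorem mem_normalizer_of_forall (hP : P ≤ S) {n : Ω} (h : ∀ y ∈ P, n * y * n⁻¹ ∈ P) :
    n ∈ Subgroup.normalizer (P : Set Ω) := by
  haveI := finite_of_le hP
  refine Subgroup.mem_normalizer_iff.mpr fun y => ⟨h y, fun hy => ?_⟩
  let f : P → P := fun a => ⟨_, h a a.2⟩
  have hf : Function.Injective f := fun a b e =>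
    Subtype.ext (mul_left_cancel (mul_right_cancel (congrArg Subtype.val e :)))
  obtain ⟨a, ha⟩ := Finite.surjective_of_injective hf ⟨_, hy⟩
  have ha' : n * (a : Ω) * n⁻¹ = n * y * n⁻¹ := congrArg Subtype.val ha
  rw [← mul_left_cancel (mul_right_cancel ha')]
  exact a.2

/-- Conjugation into `P` from a subgroup of the same order is onto. -/
theorem exists_conj_eq {Q : Subgroup Ω} (hP : P ≤ S) (hcard : Nat.card Q = Nat.card P) {t : Ω}
    (ht : ∀ x : Q, t * (x : Ω) * t⁻¹ ∈ P) (y : P) : ∃ x : Q, t * (x : Ω) * t⁻¹ = y := by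
  haveI := finite_of_le hP
  haveI : Finite Q := Nat.finite_of_card_ne_zero (by rw [hcard]; exact Nat.card_pos.ne')
  have hf : Function.Injective fun x : Q => (⟨_, ht x⟩ : P) := fun a b e =>
    Subtype.ext (mul_left_cancel (mul_right_cancel (congrArg Subtype.val e :)))
  obtain ⟨x, hx⟩ := (hf.bijective_of_nat_card_le hcard.ge).2 y
  exact ⟨x, congrArg Subtype.val hx⟩

/-- An inner map on a conjugate of `P` is twisted. -/
theorem twisted_of_inner {Q : Subgroup Ω} (hQ : InConj S P Q) {φ : Q →* Ω}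
    (hφ : φ ∈ (innerFusionSystem S).Hom Q) : Twisted S Δ φ := by
  obtain ⟨t, ht, h⟩ := hQ
  obtain ⟨-, g, hg, hx⟩ := hφ
  refine ⟨t, ht, g * t⁻¹, S.mul_mem hg (S.inv_mem ht), 1, Δ.one_mem, fun x => h x x.2, fun x => ?_⟩
  rw [hx, MulAut.one_apply]
  group

/-- An inner map keeps `InConj`. -/
theorem inConj_inner_range {Q : Subgroup Ω} (hQ : InConj S P Q) {φ : Q →* Ω}
    (hφ : φ ∈ (innerFusionSystem S).Hom Q) : InConj S P φ.range := by
  obtain ⟨t, ht, h⟩ := hQ
  obtain ⟨-, g, hg, hx⟩ := hφ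
  refine ⟨t * g⁻¹, S.mul_mem ht (S.inv_mem hg), ?_⟩
  rintro _ ⟨x, rfl⟩
  rw [hx, show t * g⁻¹ * (g * (x : Ω) * g⁻¹) * (t * g⁻¹)⁻¹ = t * (x : Ω) * t⁻¹ by group]
  exact h x x.2

/-- The large system. -/
def bigSystem (hP : P ≤ S) (hΔ : autInducedBy S P ≤ Δ) : FusionSystem S where
  Hom Q := {φ | φ ∈ (innerFusionSystem S).Hom Q ∨ Mixed S Δ φ}
  le_of_mem := by
    rintro Q φ (h | ⟨h1, h2, -, -⟩)
    · exact (innerFusionSystem S).le_of_mem h
    · exact ⟨h1.le_top hP, fun x => h2.le_top hP ⟨x, rfl⟩⟩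
  injective_of_mem := by
    rintro Q φ (h | ⟨-, -, h, -⟩)
    · exact (innerFusionSystem S).injective_of_mem h
    · exact h
  conj_mem := fun hQ hg => Or.inl ((innerFusionSystem S).conj_mem hQ hg)
  comp_mem := by
    intro Q R φ ψ hφ hψ h
    by_cases hin : φ ∈ (innerFusionSystem S).Hom Q ∧ ψ ∈ (innerFusionSystem S).Hom R
    · exact Or.inl ((innerFusionSystem S).comp_mem hin.1 hin.2 h)
    right
    have hQ : InConj S P Q := by
      rcases hφ with hφ' | hφ'
      · obtain ⟨t, ht, hR⟩ := (hψ.resolve_left fun hψ' => hin ⟨hφ', hψ'⟩).1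
        obtain ⟨-, g, hg, hx⟩ := hφ'
        refine ⟨t * g, S.mul_mem ht hg, fun x hx' => ?_⟩
        have := hR _ (h ⟨x, hx'⟩)
        rw [hx] at this
        rwa [show t * g * x * (t * g)⁻¹ = t * (g * x * g⁻¹) * t⁻¹ by group]
      · exact hφ'.1
    have hφi : Function.Injective φ := by
      rcases hφ with h' | ⟨-, -, h', -⟩
      · exact (innerFusionSystem S).injective_of_mem h'
      · exact h'
    have hψi : Function.Injective ψ := by
      rcases hψ with h' | ⟨-, -, h', -⟩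
      · exact (innerFusionSystem S).injective_of_mem h'
      · exact h'
    refine ⟨hQ, ?_, fun a b e => hφi (congrArg Subtype.val (hψi e) :), fun hc => ?_⟩
    · rcases hψ with hψ' | hψ'
      · obtain ⟨t, ht, hr⟩ := (hφ.resolve_left fun hφ' => hin ⟨hφ', hψ'⟩).2.1
        obtain ⟨-, g, hg, hx⟩ := hψ'
        refine ⟨t * g⁻¹, S.mul_mem ht (S.inv_mem hg), ?_⟩
        rintro _ ⟨x, rfl⟩
        rw [MonoidHom.comp_apply, hx]
        show t * g⁻¹ * (g * φ x * g⁻¹) * (t * g⁻¹)⁻¹ ∈ P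
        rw [show t * g⁻¹ * (g * φ x * g⁻¹) * (t * g⁻¹)⁻¹ = t * φ x * t⁻¹ by group]
        exact hr _ ⟨x, rfl⟩
      · refine hψ'.2.1.mono ?_
        rintro _ ⟨x, rfl⟩
        exact ⟨_, rfl⟩
    obtain ⟨t, ht, s, hs, δ, hδ, htm, hφx⟩ : Twisted S Δ φ := by
      rcases hφ with h' | h'
      · exact twisted_of_inner hQ h'
      · exact h'.2.2.2 hc
    rcases hψ with ⟨-, g, hg, hψx⟩ | hψ'
    · refine ⟨t, ht, g * s, S.mul_mem hg hs, δ, hδ, htm, fun x => ?_⟩
      rw [MonoidHom.comp_apply, hψx]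
      show g * φ x * g⁻¹ = _
      rw [hφx]
      group
    · have hcR : Nat.card R = Nat.card P := by
        refine le_antisymm (hψ'.1.card_le hP) (hc ▸ ?_)
        haveI := finite_of_le (hψ'.1.le_top hP)
        exact Nat.card_le_card_of_injective _ (fun a b e => hφi (congrArg Subtype.val e :)
          : Function.Injective (φ.codRestrict R h))
      obtain ⟨t', ht', s', hs', δ', hδ', htm', hψx⟩ := hψ'.2.2.2 hcR
      have hn : t' * s ∈ Subgroup.normalizer (P : Set Ω) := by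
        refine mem_normalizer_of_forall hP fun y hy => ?_
        obtain ⟨x, hx⟩ := exists_conj_eq hP hc htm (δ⁻¹ ⟨y, hy⟩)
        have hy' : φ x = s * y * s⁻¹ := by
          rw [hφx, show (⟨_, htm x⟩ : P) = δ⁻¹ ⟨y, hy⟩ from Subtype.ext hx,
            MulAut.apply_inv_self]
        have := htm' ⟨_, h x⟩
        rw [show ((⟨φ x, h x⟩ : R) : Ω) = s * y * s⁻¹ from hy'] at this
        rwa [show t' * s * y * (t' * s)⁻¹ = t' * (s * y * s⁻¹) * t'⁻¹ by group]
      refine ⟨t, ht, s', hs', δ' * conjAut P _ hn * δ,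
        Δ.mul_mem (Δ.mul_mem hδ' (hΔ (conjAut_mem (S.mul_mem ht' hs) hn))) hδ, htm, fun x => ?_⟩
      rw [MonoidHom.comp_apply, hψx, MulAut.mul_apply, MulAut.mul_apply]
      congr 3
      congr 1
      refine Subtype.ext ?_
      rw [conjAut_apply]
      show t' * φ x * t'⁻¹ = _
      rw [hφx]
      group
  inv_mem := by
    intro Q φ hφ
    rcases hφ with hφ | ⟨hQ, hr, hinj, htw⟩
    · obtain ⟨ψ, hψ, hx⟩ := (innerFusionSystem S).inv_mem hφ
      exact ⟨ψ, Or.inl hψ, hx⟩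
    · haveI := finite_of_le (hQ.le_top hP)
      let e := MonoidHom.ofInjective hinj
      let ψ : φ.range →* Ω := Q.subtype.comp e.symm.toMonoidHom
      have hψ : ∀ x : Q, ψ ⟨φ x, ⟨x, rfl⟩⟩ = (x : Ω) := fun x => by
        show ((e.symm (e x) : Q) : Ω) = x
        rw [MulEquiv.symm_apply_apply]
      refine ⟨ψ, Or.inr ⟨hr, hQ.mono ?_, Subtype.val_injective.comp e.symm.injective,
        fun hc => ?_⟩, hψ⟩
      · rintro _ ⟨y, rfl⟩
        exact (e.symm y).2
      have hcQ : Nat.card Q = Nat.card P := (card_range_eq hinj).symm.trans hc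
      obtain ⟨t, ht, s, hs, δ, hδ, htm, hφx⟩ := htw hcQ
      have htm' : ∀ y : φ.range, s⁻¹ * (y : Ω) * s⁻¹⁻¹ ∈ P := by
        rintro ⟨_, x, rfl⟩
        rw [inv_inv]
        show s⁻¹ * φ x * s ∈ P
        rw [hφx, show s⁻¹ * (s * ((δ ⟨_, htm x⟩ : P) : Ω) * s⁻¹) * s = (δ ⟨_, htm x⟩ : P) by group]
        exact (δ ⟨_, htm x⟩ : P).2
      refine ⟨s⁻¹, S.inv_mem hs, t⁻¹, S.inv_mem ht, δ⁻¹, Δ.inv_mem hδ, htm', ?_⟩
      rintro ⟨_, x, rfl⟩
      rw [hψ, show (⟨_, htm' ⟨φ x, x, rfl⟩⟩ : P) = δ ⟨_, htm x⟩ from Subtype.ext (by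
        show s⁻¹ * φ x * s⁻¹⁻¹ = _
        rw [hφx]; group), MulAut.inv_apply_self]
      group

/-- The system generated by the inner system and `Δ`. -/
def system (hP : P ≤ S) (hΔ : autInducedBy S P ≤ Δ) : FusionSystem S where
  Hom Q := {φ | φ ∈ (bigSystem hP hΔ).Hom Q ∧ ∀ E : FusionSystem S,
    (∀ δ ∈ Δ, P.subtype.comp δ.toMonoidHom ∈ E.Hom P) → φ ∈ E.Hom Q}
  le_of_mem h := (bigSystem hP hΔ).le_of_mem h.1
  injective_of_mem h := (bigSystem hP hΔ).injective_of_mem h.1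
  conj_mem hQ hg := ⟨(bigSystem hP hΔ).conj_mem hQ hg, fun E _ => E.conj_mem hQ hg⟩
  comp_mem hφ hψ h :=
    ⟨(bigSystem hP hΔ).comp_mem hφ.1 hψ.1 h, fun E hE => E.comp_mem (hφ.2 E hE) (hψ.2 E hE) h⟩
  inv_mem := by
    intro Q φ hφ
    obtain ⟨ψ, hψ, hx⟩ := (bigSystem hP hΔ).inv_mem hφ.1
    refine ⟨ψ, ⟨hψ, fun E hE => ?_⟩, hx⟩
    obtain ⟨χ, hχ, hχx⟩ := E.inv_mem (hφ.2 E hE)
    refine mem_of_apply_eq hχ ?_
    rintro ⟨_, x, rfl⟩
    rw [hx, hχx]

variable (hP : P ≤ S) (hΔ : autInducedBy S P ≤ Δ)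

theorem delta_mem {δ : MulAut P} (hδ : δ ∈ Δ) :
    P.subtype.comp δ.toMonoidHom ∈ (system hP hΔ).Hom P := by
  have h1 : ∀ x : P, (1 : Ω) * (x : Ω) * 1⁻¹ ∈ P := fun x => by simp
  refine ⟨Or.inr ⟨⟨1, S.one_mem, fun x hx => h1 ⟨x, hx⟩⟩, ⟨1, S.one_mem, ?_⟩,
    Subtype.val_injective.comp δ.injective,
    fun _ => ⟨1, S.one_mem, 1, S.one_mem, δ, hδ, h1, fun x => ?_⟩⟩, fun E hE => hE δ hδ⟩
  · rintro _ ⟨x, rfl⟩
    exact h1 (δ x)
  · show ((δ x : P) : Ω) = _
    rw [show (⟨_, h1 x⟩ : P) = x from Subtype.ext (by simp)]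
    simp

theorem twisted_of_card {Q : Subgroup Ω} {φ : Q →* Ω} (hφ : φ ∈ (system hP hΔ).Hom Q)
    (hQ : InConj S P Q) (hc : Nat.card Q = Nat.card P) : Twisted S Δ φ := by
  rcases hφ.1 with h | h
  · exact twisted_of_inner hQ h
  · exact h.2.2.2 hc

theorem inner_of_not_inConj {Q : Subgroup Ω} {φ : Q →* Ω} (hφ : φ ∈ (system hP hΔ).Hom Q)
    (hQ : ¬ InConj S P Q) : φ ∈ (innerFusionSystem S).Hom Q :=
  hφ.1.resolve_right fun h => hQ h.1

theorem not_inConj_of_conj {Q R : Subgroup Ω} (h : (system hP hΔ).IsConj R Q)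
    (hQ : ¬ InConj S P Q) : ¬ InConj S P R := by
  intro hR
  obtain ⟨φ, hφ, rfl⟩ := h
  rcases hφ.1 with h' | h'
  · exact hQ (inConj_inner_range hR h')
  · exact hQ h'.2.1

/-- The automorphisms induced on `P` are those in `Δ`. -/
theorem autGroup_P : (system hP hΔ).autGroup P = Δ := by
  refine le_antisymm (fun α hα => ?_) fun δ hδ =>
    (mem_autGroup_iff _ hP).mpr (delta_mem hP hΔ hδ)
  obtain ⟨t, ht, s, hs, δ, hδ, htm, hx⟩ := twisted_of_card hP hΔ
    ((mem_autGroup_iff _ hP).mp hα) ⟨1, S.one_mem, fun x hx => by simpa using hx⟩ rfl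
  have htn : t ∈ Subgroup.normalizer (P : Set Ω) :=
    mem_normalizer_of_forall hP fun y hy => htm ⟨y, hy⟩
  have hx' : ∀ y : P, ((α y : P) : Ω) = s * ((δ ⟨_, htm y⟩ : P) : Ω) * s⁻¹ := hx
  have hsn : s ∈ Subgroup.normalizer (P : Set Ω) := by
    refine mem_normalizer_of_forall hP fun y hy => ?_
    obtain ⟨x, hxe⟩ := exists_conj_eq hP rfl htm (δ⁻¹ ⟨y, hy⟩)
    have := hx' x
    rw [show (⟨_, htm x⟩ : P) = δ⁻¹ ⟨y, hy⟩ from Subtype.ext hxe, MulAut.apply_inv_self] at this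
    exact this ▸ (α x).2
  have : α = conjAut P s hsn * δ * conjAut P t htn := by
    refine MulEquiv.ext fun y => Subtype.ext ?_
    rw [hx', MulAut.mul_apply, MulAut.mul_apply, conjAut_apply]
    rfl
  rw [this]
  exact Δ.mul_mem (Δ.mul_mem (hΔ (conjAut_mem hs hsn)) hδ) (hΔ (conjAut_mem ht htn))

end

section Main

variable [Finite S] {P : Subgroup Ω} {Δ : Subgroup (MulAut P)}

/-- An element of `Δ` normalising `Aut_S(P)` lies in it. -/
theorem mem_of_normalizes (hP : P ≤ S) (hΔ : autInducedBy S P ≤ Δ)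
    (hcard : Nat.card Δ = 3 * Nat.card (autInducedBy S P))
    (hnn : ¬ ((autInducedBy S P).subgroupOf Δ).Normal) {δ : MulAut P} (hδ : δ ∈ Δ)
    (h : ∀ a ∈ autInducedBy S P, δ * a * δ⁻¹ ∈ autInducedBy S P) : δ ∈ autInducedBy S P := by
  haveI := finite_of_le hP
  haveI := finite_mulAut (P := P)
  set A := (autInducedBy S P).subgroupOf Δ with hA
  have hAcard : Nat.card A = Nat.card (autInducedBy S P) :=
    Nat.card_congr (Subgroup.subgroupOfEquivOfLe hΔ).toEquiv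
  have hidx : A.index = 3 := by
    have := A.card_mul_index
    rw [hAcard, hcard] at this
    have hpos : 0 < Nat.card (autInducedBy S P) := Nat.card_pos
    nlinarith
  have hmap : ∀ a ∈ A, ⟨δ, hδ⟩ * a * (⟨δ, hδ⟩ : Δ)⁻¹ ∈ A := fun a ha =>
    Subgroup.mem_subgroupOf.mpr (h _ (Subgroup.mem_subgroupOf.mp ha))
  have hmem : (⟨δ, hδ⟩ : Δ) ∈ Subgroup.normalizer (A : Set Δ) := by
    refine Subgroup.mem_normalizer_iff.mpr fun a => ⟨hmap a, fun ha => ?_⟩
    let f : A → A := fun b => ⟨_, hmap b b.2⟩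
    have hf : Function.Injective f := fun a b e =>
      Subtype.ext (mul_left_cancel (mul_right_cancel (congrArg Subtype.val e :)))
    obtain ⟨b, hb⟩ := Finite.surjective_of_injective hf ⟨_, ha⟩
    have hb' : ⟨δ, hδ⟩ * (b : Δ) * (⟨δ, hδ⟩ : Δ)⁻¹ = ⟨δ, hδ⟩ * a * (⟨δ, hδ⟩ : Δ)⁻¹ :=
      congrArg Subtype.val hb
    rw [← mul_left_cancel (mul_right_cancel hb')]
    exact b.2
  have hle : A ≤ Subgroup.normalizer (A : Set Δ) := Subgroup.le_normalizer
  have hd : (Subgroup.normalizer (A : Set Δ)).index ∣ 3 := hidx ▸ Subgroup.index_dvd_of_le hle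
  rcases (Nat.dvd_prime Nat.prime_three).mp hd with h1 | h3
  · exact absurd (Subgroup.normalizer_eq_top_iff.mp (Subgroup.index_eq_one.mp h1)) hnn
  · have heq : A = Subgroup.normalizer (A : Set Δ) := by
      refine Subgroup.eq_of_le_of_card_ge hle ?_
      have h4 := A.card_mul_index
      have h5 := (Subgroup.normalizer (A : Set Δ)).card_mul_index
      rw [hidx] at h4
      rw [h3] at h5
      omega
    exact Subgroup.mem_subgroupOf.mp (heq.ge hmem)

/-- `Aut_S(P)` is a Sylow subgroup of the automorphism group. -/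
theorem fullyAutomized_P (hS : IsPGroup 2 S) (hP : P ≤ S) (hΔ : autInducedBy S P ≤ Δ)
    (hcard : Nat.card Δ = 3 * Nat.card (autInducedBy S P)) :
    (system hP hΔ).IsFullyAutomized 2 P := by
  haveI := finite_of_le hP
  haveI := finite_mulAut (P := P)
  haveI : Fact (Nat.Prime 2) := ⟨Nat.prime_two⟩
  have hle := autInducedBy_le_autGroup (system hP hΔ) hP
  obtain ⟨k, hk⟩ := IsPGroup.iff_card.mp (isPGroup_autInducedBy hS P)
  refine ⟨hP, Sylow.ofCard ((autInducedBy S P).subgroupOf ((system hP hΔ).autGroup P)) ?_, rfl⟩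
  rw [Nat.card_congr (Subgroup.subgroupOfEquivOfLe hle).toEquiv, autGroup_P hP hΔ, hcard, hk,
    Nat.factorization_mul (by norm_num) (pow_ne_zero _ two_ne_zero), Finsupp.add_apply,
    Nat.prime_two.factorization_pow, Finsupp.single_eq_same,
    Nat.factorization_eq_zero_of_not_dvd (by norm_num), zero_add]

/-- `P` is receptive. -/
theorem receptive_P (hP : P ≤ S) (hΔ : autInducedBy S P ≤ Δ) (hC : centralizerIn S P ≤ P)
    (hN : Nat.card (normalizerIn S P) = 2 * Nat.card P)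
    (hcard : Nat.card Δ = 3 * Nat.card (autInducedBy S P))
    (hnn : ¬ ((autInducedBy S P).subgroupOf Δ).Normal) :
    (system hP hΔ).IsReceptive P := by
  haveI := finite_of_le hP
  refine ⟨hP, fun R φ hφ hr => ?_⟩
  have hcR : Nat.card R = Nat.card P := by
    rw [← card_range_eq ((system hP hΔ).injective_of_mem hφ), hr]
  have hRS : R ≤ S := dom_le hφ
  have hInR : InConj S P R := by
    rcases hφ.1 with ⟨-, g, hg, hx⟩ | h
    · exact ⟨g, hg, fun x hx' => by rw [← hr]; exact ⟨⟨x, hx'⟩, hx _⟩⟩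
    · exact h.1
  obtain ⟨t, ht, s, hs, δ₀, hδ₀, htm, hφx₀⟩ := twisted_of_card hP hΔ hφ hInR hcR
  have hsn : s ∈ Subgroup.normalizer (P : Set Ω) := by
    refine mem_normalizer_of_forall hP fun y hy => ?_
    obtain ⟨x, hx⟩ := exists_conj_eq hP hcR htm (δ₀⁻¹ ⟨y, hy⟩)
    have := hφx₀ x
    rw [show (⟨_, htm x⟩ : P) = δ₀⁻¹ ⟨y, hy⟩ from Subtype.ext hx, MulAut.apply_inv_self] at this
    exact this ▸ hr.le ⟨x, rfl⟩
  set δ := conjAut P s hsn * δ₀ with hδdef
  have hδ : δ ∈ Δ := Δ.mul_mem (hΔ (conjAut_mem hs hsn)) hδ₀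
  have hφx : ∀ x : R, φ x = ((δ ⟨_, htm x⟩ : P) : Ω) := fun x => by
    rw [hφx₀, hδdef, MulAut.mul_apply, conjAut_apply]
  by_cases hδA : δ ∈ autInducedBy S P
  · obtain ⟨a, ha, hax⟩ := mem_autInducedBy_iff.mp hδA
    refine ⟨conjHom _ (a * t),
      (system hP hΔ).conj_mem (extender_le R φ) (S.mul_mem ha ht), fun x hxR hxN => ?_⟩
    rw [conjHom_apply, hφx, hax]
    group
  have hle : extender S R φ ≤ R := by
    intro g hg
    obtain ⟨hgS, hgN, h, hh, hgh⟩ := mem_extender_iff.mp hg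
    set n := t * g * t⁻¹ with hndef
    have hnS : n ∈ S := S.mul_mem (S.mul_mem ht hgS) (S.inv_mem ht)
    have hnN : n ∈ Subgroup.normalizer (P : Set Ω) := by
      refine mem_normalizer_of_forall hP fun y hy => ?_
      obtain ⟨x, hx⟩ := exists_conj_eq hP hcR htm ⟨y, hy⟩
      have := htm ⟨_, mem_normalizer_conj hgN x.2⟩
      simp only at hx this
      rwa [← hx, hndef, show t * g * t⁻¹ * (t * (x : Ω) * t⁻¹) * (t * g * t⁻¹)⁻¹ =
        t * (g * x * g⁻¹) * t⁻¹ by group]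
    by_contra hgR
    have hnP : n ∉ P := by
      intro hmem
      obtain ⟨x, hx⟩ := exists_conj_eq hP hcR htm ⟨n, hmem⟩
      exact hgR (mul_left_cancel (mul_right_cancel (hx.trans hndef)) ▸ x.2)
    -- `δ` carries conjugation by `n` to conjugation by `h`
    have hkey : δ * conjAut P n hnN * δ⁻¹ ∈ autInducedBy S P := by
      refine mem_autInducedBy_iff.mpr ⟨h, hh, fun y => ?_⟩
      obtain ⟨x, hx⟩ := exists_conj_eq hP hcR htm (δ⁻¹ y)
      have hxy : (⟨_, htm x⟩ : P) = δ⁻¹ y := Subtype.ext hx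
      have hgx := hgh x (mem_normalizer_conj hgN x.2)
      rw [hφx, hφx, hxy, MulAut.apply_inv_self] at hgx
      rw [MulAut.mul_apply, MulAut.mul_apply, ← hgx]
      congr 2
      refine Subtype.ext ?_
      rw [conjAut_apply, ← hxy, hndef]
      show _ = t * (g * (x : Ω) * g⁻¹) * t⁻¹
      group
    refine hδA (mem_of_normalizes hP hΔ hcard hnn hδ fun a ha => ?_)
    obtain ⟨m, hm, hmx⟩ := mem_autInducedBy_iff.mp ha
    have hinP : ∀ y : P, δ * MulAut.conj y * δ⁻¹ ∈ autInducedBy S P := fun y => by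
      rw [show δ * MulAut.conj y * δ⁻¹ = MulAut.conj (δ y) from MulEquiv.ext fun z => by simp]
      exact mem_autInducedBy_iff.mpr ⟨_, hP (δ y).2, fun z => rfl⟩
    have hmN : m ∈ normalizerIn S P := ⟨hm, normalizer_of_induced hmx⟩
    have haeq : a = conjAut P m hmN.2 := MulEquiv.ext fun z => Subtype.ext (hmx z)
    by_cases hmP : m ∈ P
    · have : a = MulAut.conj ⟨m, hmP⟩ := MulEquiv.ext fun z => Subtype.ext (by rw [hmx]; rfl)
      rw [this]
      exact hinP _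
    · set P' := P.subgroupOf (normalizerIn S P) with hP'
      have hidx : P'.index = 2 := by
        have h1 := P'.card_mul_index
        rw [Nat.card_congr (Subgroup.subgroupOfEquivOfLe (le_normalizerIn hP)).toEquiv, hN] at h1
        have hpos : 0 < Nat.card P := Nat.card_pos
        nlinarith
      have hy : n⁻¹ * m ∈ P := by
        have h1 := (Subgroup.mul_mem_iff_of_index_two hidx
          (a := (⟨n, hnS, hnN⟩ : ↥(normalizerIn S P))⁻¹) (b := ⟨m, hmN⟩)).mpr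
          (iff_of_false (fun e => hnP (by have h' := P'.inv_mem e; rw [inv_inv] at h'; exact h')) hmP)
        exact h1
      have : a = conjAut P n hnN * MulAut.conj ⟨_, hy⟩ := MulEquiv.ext fun z => Subtype.ext (by
        rw [hmx, MulAut.mul_apply, conjAut_apply]
        show _ = n * (n⁻¹ * m * (z : Ω) * (n⁻¹ * m)⁻¹) * n⁻¹
        group)
      rw [this, show δ * (conjAut P n hnN * MulAut.conj ⟨_, hy⟩) * δ⁻¹ =
        (δ * conjAut P n hnN * δ⁻¹) * (δ * MulAut.conj ⟨_, hy⟩ * δ⁻¹) by group]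
      exact mul_mem hkey (hinP _)
  refine ⟨φ.comp (Subgroup.inclusion hle), restrict_mem hφ hle, fun x hxR hxN => rfl⟩

/-- Inner goodness passes to a system whose maps onto the member are inner. -/
theorem good_of_inner (hP : P ≤ S) (hΔ : autInducedBy S P ≤ Δ) {Q : Subgroup Ω}
    (hQ : ¬ InConj S P Q) (h1 : (innerFusionSystem S).IsFullyAutomized 2 Q)
    (h2 : (innerFusionSystem S).IsReceptive Q) :
    (system hP hΔ).IsFullyAutomized 2 Q ∧ (system hP hΔ).IsReceptive Q := by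
  have hQS := h1.1
  have haut : (system hP hΔ).autGroup Q = (innerFusionSystem S).autGroup Q := by
    ext α
    rw [mem_autGroup_iff _ hQS, mem_autGroup_iff _ hQS]
    exact ⟨fun h => inner_of_not_inConj hP hΔ h hQ,
      fun h => CfsgLib.FusionExamples.inner_le (system hP hΔ) Q h⟩
  refine ⟨?_, hQS, fun R φ hφ hr => ?_⟩
  · obtain ⟨-, T, hT⟩ := h1
    refine ⟨hQS, ?_⟩
    rw [haut]
    exact ⟨T, hT⟩
  · have hR : ¬ InConj S P R := not_inConj_of_conj hP hΔ ⟨φ, hφ, hr⟩ hQ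
    obtain ⟨ψ, hψ, hψx⟩ := h2.2 R φ (inner_of_not_inConj hP hΔ hφ hR) hr
    exact ⟨ψ, CfsgLib.FusionExamples.inner_le _ _ hψ, hψx⟩

/-- The automorphisms of a centric subgroup without a conjugate of `P` form a 2-group. -/
theorem isPGroup_autGroup (hS : IsPGroup 2 S) (hP : P ≤ S) (hΔ : autInducedBy S P ≤ Δ)
    (hsub : ∀ R : Subgroup Ω, R < P → centralizerIn S R ≤ R → IsPGroup 2 (MulAut R))
    {Q : Subgroup Ω} (hQ : (system hP hΔ).IsCentric Q) (hnc : ¬ ContainsConj S P Q) :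
    IsPGroup 2 ((system hP hΔ).autGroup Q) := by
  by_cases hin : InConj S P Q
  · obtain ⟨t, ht, htQ⟩ := hin
    set R := (conjHom Q t).range with hR
    have hconj : (system hP hΔ).IsConj Q R := ⟨_, (system hP hΔ).conj_mem hQ.1 ht, rfl⟩
    have hRP : R < P := by
      refine lt_of_le_of_ne ?_ fun e => hnc ⟨t⁻¹, S.inv_mem ht, fun y hy => ?_⟩
      · rintro _ ⟨x, rfl⟩
        exact htQ x x.2
      · obtain ⟨x, hx⟩ := e.ge hy
        rw [← hx, conjHom_apply, show t⁻¹ * (t * (x : Ω) * t⁻¹) * t⁻¹⁻¹ = x by group]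
        exact x.2
    have hinj : Function.Injective (conjHom Q t) :=
      (system hP hΔ).injective_of_mem ((system hP hΔ).conj_mem hQ.1 ht)
    exact ((hsub R hRP (hQ.2 R hconj)).of_equiv
      (MulAut.congr (MonoidHom.ofInjective hinj)).symm).to_subgroup _
  · refine (isPGroup_autInducedBy hS Q).to_le fun α hα => ?_
    obtain ⟨-, g, hg, hx⟩ :=
      inner_of_not_inConj hP hΔ ((mem_autGroup_iff _ hQ.1).mp hα) hin
    exact mem_autInducedBy_iff.mpr ⟨g, hg, hx⟩

/-- **One-essential saturated system**, the automorphism groups of the centric subgroups without a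
conjugate of `P` being 2-groups. -/
theorem exists_saturated_of_isPGroup {Ω : Type*} [Group Ω] {S : Subgroup Ω} [Finite S]
    (hS : IsPGroup 2 S) (P : Subgroup Ω) (hP : P ≤ S) (hC : FusionSystem.centralizerIn S P ≤ P)
    (hN : Nat.card (FusionSystem.normalizerIn S P) = 2 * Nat.card P) (Δ : Subgroup (MulAut P))
    (hΔ : autInducedBy S P ≤ Δ) (hcard : Nat.card Δ = 3 * Nat.card (autInducedBy S P))
    (hnn : ¬ ((autInducedBy S P).subgroupOf Δ).Normal)
    (hsub : ∀ Q : Subgroup Ω, (system hP hΔ).IsCentric Q → ¬ ContainsConj S P Q →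
      IsPGroup 2 ((system hP hΔ).autGroup Q)) :
    ∃ F : FusionSystem S, F.IsSaturated 2 ∧
      ¬ ∀ Q : Subgroup Ω, F.Hom Q = (innerFusionSystem S).Hom Q := by
  haveI : Fact (Nat.Prime 2) := ⟨Nat.prime_two⟩
  haveI := finite_of_le hP
  haveI := finite_mulAut (P := P)
  set F := system hP hΔ with hF
  have hPP : ContainsConj S P P := ⟨1, S.one_mem, fun x hx => by simpa using hx⟩
  have hcardIn : ∀ {Q : Subgroup Ω}, Q ≤ S → InConj S P Q → ContainsConj S P Q →
      Nat.card Q = Nat.card P := fun hQ h1 h2 => le_antisymm (h1.card_le hP) (h2.card_le hQ)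
  refine ⟨F, isSaturated_of_family hS F {Q | Q ≤ S ∧ ContainsConj S P Q} ?_ ?_ ?_ ?_, ?_⟩
  · rintro Q ⟨hQS, hQ⟩ R ⟨φ, hφ, rfl⟩
    refine ⟨range_le hφ, ?_⟩
    rcases hφ.1 with ⟨-, g, hg, hx⟩ | h
    · obtain ⟨t, ht, htP⟩ := hQ
      refine ⟨g * t, S.mul_mem hg ht, fun y hy => ⟨⟨_, htP y hy⟩, ?_⟩⟩
      rw [hx]
      show g * (t * y * t⁻¹) * g⁻¹ = _
      group
    · have hc := hcardIn hQS h.1 hQ
      obtain ⟨t, ht, s, hs, δ, hδ, htm, hx⟩ := h.2.2.2 hc
      refine ⟨s, hs, fun y hy => ?_⟩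
      obtain ⟨x, hxe⟩ := exists_conj_eq hP hc htm (δ⁻¹ ⟨y, hy⟩)
      refine ⟨x, ?_⟩
      rw [hx, show (⟨_, htm x⟩ : P) = δ⁻¹ ⟨y, hy⟩ from Subtype.ext hxe, MulAut.apply_inv_self]
  · rintro Q ⟨hQS, hQ⟩
    by_cases hin : InConj S P Q
    · obtain ⟨t, ht, htQ⟩ := id hin
      refine ⟨P, ⟨_, F.conj_mem hQS ht, ?_⟩, fullyAutomized_P hS hP hΔ hcard,
        receptive_P hP hΔ hC hN hcard hnn⟩
      refine Subgroup.eq_of_le_of_card_ge ?_ ?_
      · rintro _ ⟨x, rfl⟩
        exact htQ x x.2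
      · rw [card_range_eq (F.injective_of_mem (F.conj_mem hQS ht)), hcardIn hQS hin hQ]
    · obtain ⟨Q', ⟨φ, hφ, hr⟩, h1, h2⟩ := (PPower.inner_isSaturated (p := 2) hS) Q hQS
      have hφF : φ ∈ F.Hom Q := CfsgLib.FusionExamples.inner_le F Q hφ
      have hQ' : ¬ InConj S P Q' := fun h => by
        have hc : F.IsConj Q' Q := CfsgLib.Alperin.IsConj.symm ⟨φ, hφF, hr⟩
        exact not_inConj_of_conj hP hΔ hc hin h
      exact ⟨Q', ⟨φ, hφF, hr⟩, good_of_inner hP hΔ hQ' h1 h2⟩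
  · intro E hE Q φ hφ
    exact hφ.2 E fun δ hδ => hE P ⟨hP, hPP⟩ (delta_mem hP hΔ hδ)
  · intro Q hQ hnot
    refine ⟨Q, isConj_refl F hQ.1, fun hle => ?_⟩
    have hnc : ¬ ContainsConj S P Q := fun h => hnot ⟨hQ.1, h⟩
    have hlt : Q < S := lt_of_le_of_ne hQ.1 fun e =>
      hnc ⟨1, S.one_mem, fun x hx => by rw [e]; simpa using hP hx⟩
    obtain ⟨g, hg, hgN, hgQ⟩ := CfsgLib.FusionSub.exists_mem_normalizer_not_mem hS hlt le_rfl
    haveI : ((⊤ : Subgroup (F.autGroup Q))).Normal := inferInstance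
    have hcore : autCore F 2 Q = F.autGroup Q := by
      rw [autCore, show pCore 2 (F.autGroup Q) = ⊤ from top_le_iff.mp (CfsgLib.Cores.le_pCore
        ((hsub Q hQ hnc).to_subgroup ⊤)), ← MonoidHom.range_eq_map,
        Subgroup.range_subtype]
    have hgA : conjAut Q g hgN ∈ autInducedBy S Q := conjAut_mem hg hgN
    obtain ⟨y, hy⟩ := hle ⟨hgA, hcore.symm ▸ autInducedBy_le_autGroup F hQ.1 hgA⟩
    refine hgQ ?_
    have hz : (y : Ω)⁻¹ * g ∈ centralizerIn S Q := by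
      refine ⟨S.mul_mem (S.inv_mem (hQ.1 y.2)) hg, Subgroup.mem_centralizer_iff.mpr fun x hx => ?_⟩
      have := congrArg (fun β : MulAut Q => ((β ⟨x, hx⟩ : Q) : Ω)) hy
      have e : (y : Ω) * x * (y : Ω)⁻¹ = g * x * g⁻¹ := this
      calc x * ((y : Ω)⁻¹ * g) = (y : Ω)⁻¹ * ((y : Ω) * x * (y : Ω)⁻¹) * g := by group
        _ = _ := by rw [e]; group
    have := Q.mul_mem y.2 (hQ.2 Q (isConj_refl F hQ.1) hz)
    rwa [mul_inv_cancel_left] at this
  · intro hall
    obtain ⟨δ, hδ, hδA⟩ : ∃ δ ∈ Δ, δ ∉ autInducedBy S P := by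
      by_contra h
      push Not at h
      have := Subgroup.card_le_of_le (h : Δ ≤ autInducedBy S P)
      have hpos : 0 < Nat.card (autInducedBy S P) := Nat.card_pos
      omega
    have h := delta_mem hP hΔ hδ
    rw [← hF, hall P] at h
    obtain ⟨-, g, hg, hx⟩ := h
    exact hδA (mem_autInducedBy_iff.mpr ⟨g, hg, hx⟩)

/-- **One-essential saturated system.** -/
theorem exists_saturated_of_automorphisms {Ω : Type*} [Group Ω] {S : Subgroup Ω} [Finite S]
    (hS : IsPGroup 2 S) (P : Subgroup Ω) (hP : P ≤ S) (hC : FusionSystem.centralizerIn S P ≤ P)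
    (hN : Nat.card (FusionSystem.normalizerIn S P) = 2 * Nat.card P) (Δ : Subgroup (MulAut P))
    (hΔ : autInducedBy S P ≤ Δ) (hcard : Nat.card Δ = 3 * Nat.card (autInducedBy S P))
    (hnn : ¬ ((autInducedBy S P).subgroupOf Δ).Normal)
    (hsub : ∀ R : Subgroup Ω, R < P → FusionSystem.centralizerIn S R ≤ R →
      IsPGroup 2 (MulAut R)) :
    ∃ F : FusionSystem S, F.IsSaturated 2 ∧
      ¬ ∀ Q : Subgroup Ω, F.Hom Q = (innerFusionSystem S).Hom Q :=
  exists_saturated_of_isPGroup hS P hP hC hN Δ hΔ hcard hnn fun _ hQ hnc =>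
    isPGroup_autGroup hS hP hΔ hsub hQ hnc

end Main

end CfsgLib.FusionBicyclic
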