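import Mathlib.GroupTheory.Nilpotent
import Mathlib.GroupTheory.Frattini
import Mathlib.GroupTheory.SpecificGroups.Cyclic
import Cfsg.Prelude.Def_OddOrderLocal
import Cfsg.Agent.Lib.PGroups.Frattini

/-!
Bicyclic `2`-groups `S = ⟨x⟩⟨y⟩`: the derived subgroup is abelian, and when `S` is not metacyclic it
is generated by two elements one of which squares into the Frattini part of the derived subgroup.
-/

set_option autoImplicit false
set_option linter.unusedSectionVars false

namespace CfsgLib.FusionBicyclic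

open scoped commutatorElement

variable {G : Type*} [Group G]

/-- `G` is a product of two cyclic subgroups. -/
def IsBicyclic (G : Type*) [Group G] : Prop := ∃ x y : G, ∀ g, ∃ i j : ℤ, g = x ^ i * y ^ j

theorem exists_swap {x y : G} (h : ∀ g, ∃ i j : ℤ, g = x ^ i * y ^ j) (g : G) :
    ∃ i j : ℤ, g = y ^ i * x ^ j := by
  obtain ⟨i, j, hij⟩ := h g⁻¹
  exact ⟨-j, -i, by rw [← inv_inv g, hij, mul_inv_rev, zpow_neg, zpow_neg]⟩

theorem closure_eq_top {x y : G} (h : ∀ g, ∃ i j : ℤ, g = x ^ i * y ^ j) :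
    Subgroup.closure ({x, y} : Set G) = ⊤ := by
  refine top_le_iff.mp fun g _ => ?_
  obtain ⟨i, j, rfl⟩ := h g
  have hx : x ∈ Subgroup.closure ({x, y} : Set G) := Subgroup.subset_closure (Or.inl rfl)
  have hy : y ∈ Subgroup.closure ({x, y} : Set G) := Subgroup.subset_closure (Or.inr rfl)
  exact mul_mem (zpow_mem hx _) (zpow_mem hy _)

theorem IsBicyclic.map {H : Type*} [Group H] (h : IsBicyclic G) (f : G →* H)
    (hf : Function.Surjective f) : IsBicyclic H := by
  obtain ⟨x, y, hxy⟩ := h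
  refine ⟨f x, f y, fun g => ?_⟩
  obtain ⟨g, rfl⟩ := hf g
  obtain ⟨i, j, rfl⟩ := hxy g
  exact ⟨i, j, by rw [map_mul, map_zpow, map_zpow]⟩

/-- The commutator subgroup lies in every normal subgroup containing the commutator of two
generators. -/
theorem commutator_le_of_mem {a b : G} (hgen : Subgroup.closure ({a, b} : Set G) = ⊤)
    {N : Subgroup G} [N.Normal] (h : a * b * a⁻¹ * b⁻¹ ∈ N) : commutator G ≤ N := by
  have hab : Commute (QuotientGroup.mk' N a) (QuotientGroup.mk' N b) := by
    have h1 : QuotientGroup.mk' N (a * b * a⁻¹ * b⁻¹) = 1 := (QuotientGroup.eq_one_iff _).mpr h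
    rw [map_mul, map_mul, map_mul, map_inv, map_inv, mul_inv_eq_one, mul_inv_eq_iff_eq_mul] at h1
    exact h1
  have htop : Subgroup.closure ({QuotientGroup.mk' N a, QuotientGroup.mk' N b} : Set (G ⧸ N)) = ⊤ := by
    rw [← Set.image_pair, ← MonoidHom.map_closure, hgen,
      Subgroup.map_top_of_surjective _ (QuotientGroup.mk'_surjective N)]
  have hgenc : ∀ s ∈ ({QuotientGroup.mk' N a, QuotientGroup.mk' N b} : Set (G ⧸ N)),
      ∀ t ∈ ({QuotientGroup.mk' N a, QuotientGroup.mk' N b} : Set (G ⧸ N)), s * t = t * s := by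
    intro s hs t ht
    rcases hs with rfl | rfl <;> rcases ht with rfl | rfl
    · rfl
    · exact hab
    · exact hab.symm
    · rfl
  have hcomm := Subgroup.isMulCommutative_closure hgenc
  rw [commutator_def, Subgroup.commutator_le]
  intro p _ q _
  rw [← QuotientGroup.eq_one_iff]
  show QuotientGroup.mk' N ⁅p, q⁆ = 1
  rw [map_commutatorElement, commutatorElement_eq_one_iff_mul_comm]
  exact congrArg Subtype.val (hcomm.is_comm.comm
    (⟨_, htop ▸ Subgroup.mem_top (QuotientGroup.mk' N p)⟩ : Subgroup.closure _)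
    ⟨_, htop ▸ Subgroup.mem_top (QuotientGroup.mk' N q)⟩)

theorem commutatorElement_mul_left_of_commute {g y b : G} (h : Commute y b) :
    ⁅g * y, b⁆ = ⁅g, b⁆ := by
  rw [commutatorElement_def, commutatorElement_def, mul_inv_rev]
  calc g * y * b * (y⁻¹ * g⁻¹) * b⁻¹ = g * (y * b * y⁻¹) * g⁻¹ * b⁻¹ := by group
    _ = _ := by rw [h.eq, mul_inv_cancel_right]

theorem commutatorElement_mul_right_of_commute {a y x : G} (h : Commute a x) :
    ⁅a, y * x⁆ = ⁅a, y⁆ := by
  rw [commutatorElement_def, commutatorElement_def, mul_inv_rev]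
  calc a * (y * x) * a⁻¹ * (x⁻¹ * y⁻¹) = a * y * (x * a⁻¹ * x⁻¹) * y⁻¹ := by group
    _ = _ := by rw [h.symm.inv_right.eq, mul_inv_cancel_right]

/-- Itô: the derived subgroup of a product of two cyclic groups is abelian. -/
theorem commutator_comm (h : IsBicyclic G) {f g : G} (hf : f ∈ commutator G) (hg : g ∈ commutator G) :
    f * g = g * f := by
  obtain ⟨x, y, hxy⟩ := h
  set C : Set G := {c | ∃ i j : ℤ, c = ⁅x ^ i, y ^ j⁆} with hC
  have hconjy : ∀ (k i j : ℤ), ∃ i' : ℤ, y ^ k * ⁅x ^ i, y ^ j⁆ * (y ^ k)⁻¹ = ⁅x ^ i', y ^ j⁆ ∧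
      ∀ j' : ℤ, y ^ k * ⁅x ^ i, y ^ j'⁆ * (y ^ k)⁻¹ = ⁅x ^ i', y ^ j'⁆ := by
    intro k i j
    obtain ⟨i', j'', hi'⟩ := hxy (y ^ k * x ^ i * (y ^ k)⁻¹)
    have key : ∀ j' : ℤ, y ^ k * ⁅x ^ i, y ^ j'⁆ * (y ^ k)⁻¹ = ⁅x ^ i', y ^ j'⁆ := by
      intro j'
      rw [conjugate_commutatorElement, hi', (Commute.zpow_zpow_self y k j').eq, mul_inv_cancel_right,
        commutatorElement_mul_left_of_commute (Commute.zpow_zpow_self y j'' j')]
    exact ⟨i', key j, key⟩
  have hconjx : ∀ (k j : ℤ), ∃ j' : ℤ,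
      ∀ i : ℤ, x ^ k * ⁅x ^ i, y ^ j⁆ * (x ^ k)⁻¹ = ⁅x ^ i, y ^ j'⁆ := by
    intro k j
    obtain ⟨j', i', hj'⟩ := exists_swap hxy (x ^ k * y ^ j * (x ^ k)⁻¹)
    refine ⟨j', fun i => ?_⟩
    rw [conjugate_commutatorElement, hj', (Commute.zpow_zpow_self x k i).eq, mul_inv_cancel_right,
      commutatorElement_mul_right_of_commute (Commute.zpow_zpow_self x i i')]
  have hcomm : ∀ c ∈ C, ∀ d ∈ C, c * d = d * c := by
    rintro _ ⟨i, j, rfl⟩ _ ⟨k, l, rfl⟩
    obtain ⟨i', -, hi'⟩ := hconjy (-l) i j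
    obtain ⟨j', hj'⟩ := hconjx (-k) j
    have e : x ^ (-k) * y ^ (-l) * ⁅x ^ i, y ^ j⁆ * (x ^ (-k) * y ^ (-l))⁻¹ =
        y ^ (-l) * x ^ (-k) * ⁅x ^ i, y ^ j⁆ * (y ^ (-l) * x ^ (-k))⁻¹ := by
      calc x ^ (-k) * y ^ (-l) * ⁅x ^ i, y ^ j⁆ * (x ^ (-k) * y ^ (-l))⁻¹
          = x ^ (-k) * (y ^ (-l) * ⁅x ^ i, y ^ j⁆ * (y ^ (-l))⁻¹) * (x ^ (-k))⁻¹ := by group
        _ = ⁅x ^ i', y ^ j'⁆ := by rw [hi', hj']
        _ = y ^ (-l) * (x ^ (-k) * ⁅x ^ i, y ^ j⁆ * (x ^ (-k))⁻¹) * (y ^ (-l))⁻¹ := by rw [hj', hi']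
        _ = _ := by group
    have hd : ⁅x ^ k, y ^ l⁆ = (y ^ (-l) * x ^ (-k))⁻¹ * (x ^ (-k) * y ^ (-l)) := by
      rw [commutatorElement_def]; group
    rw [hd]
    set p := x ^ (-k) * y ^ (-l)
    set q := y ^ (-l) * x ^ (-k)
    set c := ⁅x ^ i, y ^ j⁆
    have e2 : q⁻¹ * (p * c * p⁻¹) * p = q⁻¹ * (q * c * q⁻¹) * p := by rw [e]
    calc c * (q⁻¹ * p) = q⁻¹ * (q * c * q⁻¹) * p := by group
      _ = q⁻¹ * (p * c * p⁻¹) * p := e2.symm
      _ = q⁻¹ * p * c := by group
  haveI : (Subgroup.closure C).Normal := by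
    refine ⟨fun n hn g => ?_⟩
    obtain ⟨k, l, rfl⟩ := hxy g
    have hmap : (Subgroup.closure C).map (MulAut.conj (x ^ k * y ^ l)).toMonoidHom ≤
        Subgroup.closure C := by
      rw [MonoidHom.map_closure, Subgroup.closure_le]
      rintro _ ⟨_, ⟨i, j, rfl⟩, rfl⟩
      obtain ⟨i', -, hi'⟩ := hconjy l i j
      obtain ⟨j', hj'⟩ := hconjx k j
      refine Subgroup.subset_closure ⟨i', j', ?_⟩
      show x ^ k * y ^ l * ⁅x ^ i, y ^ j⁆ * (x ^ k * y ^ l)⁻¹ = _
      calc x ^ k * y ^ l * ⁅x ^ i, y ^ j⁆ * (x ^ k * y ^ l)⁻¹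
          = x ^ k * (y ^ l * ⁅x ^ i, y ^ j⁆ * (y ^ l)⁻¹) * (x ^ k)⁻¹ := by group
        _ = _ := by rw [hi', hj']
    exact hmap ⟨n, hn, rfl⟩
  have hle : commutator G ≤ Subgroup.closure C :=
    commutator_le_of_mem (closure_eq_top hxy)
      (Subgroup.subset_closure ⟨1, 1, by rw [zpow_one, zpow_one, commutatorElement_def]⟩)
  exact congrArg Subtype.val ((Subgroup.isMulCommutative_closure hcomm).is_comm.comm
    ⟨f, hle hf⟩ ⟨g, hle hg⟩)

/-- The squares of the derived subgroup. -/
def sqSub (G : Type*) [Group G] : Subgroup G :=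
  Subgroup.closure {g | ∃ f ∈ commutator G, f * f = g}

/-- Squares of the derived subgroup together with `[S', S]`. -/
def derR (G : Type*) [Group G] : Subgroup G := sqSub G ⊔ ⁅commutator G, (⊤ : Subgroup G)⁆

theorem sq_mem_sqSub {f : G} (hf : f ∈ commutator G) : f * f ∈ sqSub G :=
  Subgroup.subset_closure ⟨f, hf, rfl⟩

theorem sqSub_le : sqSub G ≤ commutator G := by
  rw [sqSub, Subgroup.closure_le]
  rintro _ ⟨f, hf, rfl⟩
  exact mul_mem hf hf

instance sqSub_normal : (sqSub G).Normal := by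
  refine ⟨fun n hn g => ?_⟩
  have hmap : (sqSub G).map (MulAut.conj g).toMonoidHom ≤ sqSub G := by
    rw [sqSub, MonoidHom.map_closure, Subgroup.closure_le]
    rintro _ ⟨_, ⟨f, hf, rfl⟩, rfl⟩
    refine Subgroup.subset_closure ⟨g * f * g⁻¹, Subgroup.Normal.conj_mem inferInstance f hf g, ?_⟩
    show g * f * g⁻¹ * (g * f * g⁻¹) = g * (f * f) * g⁻¹
    group
  exact hmap ⟨n, hn, rfl⟩

instance derR_normal : (derR G).Normal :=
  haveI := Subgroup.commutator_normal (commutator G) (⊤ : Subgroup G)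
  Subgroup.sup_normal _ _

theorem derR_le : derR G ≤ commutator G :=
  sup_le sqSub_le (Subgroup.commutator_le_left _ _)

/-- In a nilpotent group `V ≤ M [V, G]` forces `V ≤ M`. -/
theorem le_of_le_sup_commutator [Group.IsNilpotent G] {V M : Subgroup G} [M.Normal]
    (h : V ≤ M ⊔ ⁅V, (⊤ : Subgroup G)⁆) : V ≤ M := by
  set π := QuotientGroup.mk' M
  have hstep : V.map π ≤ ⁅V.map π, (⊤ : Subgroup (G ⧸ M))⁆ := by
    have := Subgroup.map_mono (f := π) h
    rwa [Subgroup.map_sup, Subgroup.map_commutator, Subgroup.map_top_of_surjective _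
      (QuotientGroup.mk'_surjective _), QuotientGroup.map_mk'_self, bot_sup_eq] at this
  haveI : Group.IsNilpotent (G ⧸ M) :=
    Group.nilpotent_of_surjective π (QuotientGroup.mk'_surjective _)
  obtain ⟨m, hm⟩ := (Subgroup.isNilpotent_iff_lowerCentralSeries (⊤ : Subgroup (G ⧸ M))).1
    (Group.isNilpotent_top.2 (inferInstance : Group.IsNilpotent (G ⧸ M)))
  have hall : ∀ i, V.map π ≤ Subgroup.lowerCentralSeries (⊤ : Subgroup (G ⧸ M)) i := by
    intro i
    induction i with
    | zero => exact le_top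
    | succ i ih => exact hstep.trans (Subgroup.commutator_mono ih le_rfl)
  have hbot := hall m
  rw [hm] at hbot
  intro v hv
  exact (QuotientGroup.eq_one_iff v).mp (Subgroup.mem_bot.mp (hbot ⟨v, hv, rfl⟩))

/-- A subgroup of an abelian derived `2`-group that fills it modulo squares is everything. -/
theorem le_of_le_sup_sqSub [Finite G] (hG : IsPGroup 2 G)
    (hab : ∀ f ∈ commutator G, ∀ g ∈ commutator G, f * g = g * f) {M : Subgroup G}
    (hM : M ≤ commutator G) (h : commutator G ≤ M ⊔ sqSub G) : commutator G ≤ M := by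
  haveI : Fact (Nat.Prime 2) := ⟨Nat.prime_two⟩
  haveI : IsMulCommutative (commutator G) :=
    ⟨⟨fun a b => Subtype.ext (hab a a.2 b b.2)⟩⟩
  set A := commutator G
  have hA : IsPGroup 2 A := hG.to_subgroup A
  haveI := hA.isNilpotent
  have hfr : (sqSub G).subgroupOf A ≤ frattini A := by
    rw [← Subgroup.map_le_map_iff_of_injective A.subtype_injective,
      Subgroup.map_subgroupOf_eq_of_le sqSub_le, sqSub, Subgroup.closure_le]
    rintro _ ⟨f, hf, rfl⟩
    exact ⟨⟨f, hf⟩ * ⟨f, hf⟩, pow_two (⟨f, hf⟩ : A) ▸ CfsgLib.PGroups.pow_mem_frattini hA _, rfl⟩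
  have htop : M.subgroupOf A = ⊤ := by
    refine frattini_nongenerating (top_le_iff.mp ?_)
    rw [← Subgroup.map_le_map_iff_of_injective A.subtype_injective, ← MonoidHom.range_eq_map,
      Subgroup.range_subtype, Subgroup.map_sup, Subgroup.map_subgroupOf_eq_of_le hM]
    refine h.trans (sup_le_sup_left ?_ M)
    rw [← Subgroup.map_subgroupOf_eq_of_le sqSub_le]
    exact Subgroup.map_mono hfr
  exact Subgroup.subgroupOf_eq_top.mp htop

/-- In the quotient with derived subgroup `{1, c}`: a power of a generator is `c`, or a generator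
squares to `1`. -/
theorem exists_gen_aux [Finite G] (hG : IsPGroup 2 G) {x y : G}
    (hxy : ∀ g, ∃ i j : ℤ, g = x ^ i * y ^ j) {c : G} (hc : x * y = c * (y * x)) (hc2 : c * c = 1)
    (hcen : ∀ g, Commute c g) (hc1 : c ≠ 1) :
    ∃ a b : G, Subgroup.closure ({a, b} : Set G) = ⊤ ∧ (c ∈ Subgroup.zpowers a ∨ b * b = 1) := by
  classical
  have hgen := closure_eq_top hxy
  have key : ∀ (x y : G), Subgroup.closure ({x, y} : Set G) = ⊤ → x * y = c * (y * x) →
      ∀ e i' l : ℕ, Odd i' → c = x ^ (2 ^ e * i') * y ^ (2 ^ e * l) →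
      ∃ a b : G, Subgroup.closure ({a, b} : Set G) = ⊤ ∧ (c ∈ Subgroup.zpowers a ∨ b * b = 1) := by
    intro x y hgen hc e i' l hi' hcij
    have hyx : y * x = c * (x * y) := by rw [hc, ← mul_assoc, hc2, one_mul]
    have hx2 : ∀ n : ℕ, y * x ^ (2 * n) = x ^ (2 * n) * y := by
      intro n
      induction n with
      | zero => simp
      | succ n ih =>
        have h2 : y * (x * x) = x * x * y :=
          calc y * (x * x) = c * (x * y) * x := by rw [← mul_assoc, hyx]
            _ = c * x * (y * x) := by simp only [mul_assoc]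
            _ = c * x * c * (x * y) := by rw [hyx]; simp only [mul_assoc]
            _ = c * c * (x * x * y) := by rw [mul_assoc c x c, ← (hcen x).eq]; simp only [mul_assoc]
            _ = _ := by rw [hc2, one_mul]
        rw [show 2 * (n + 1) = 2 * n + 2 by ring, pow_add, ← mul_assoc, ih, mul_assoc, pow_two, h2,
          ← mul_assoc]
    have hy2 : ∀ n : ℕ, x * y ^ (2 * n) = y ^ (2 * n) * x := by
      intro n
      induction n with
      | zero => simp
      | succ n ih =>
        have h2 : x * (y * y) = y * y * x :=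
          calc x * (y * y) = c * (y * x) * y := by rw [← mul_assoc, hc]
            _ = c * y * (x * y) := by simp only [mul_assoc]
            _ = c * y * c * (y * x) := by rw [hc]; simp only [mul_assoc]
            _ = c * c * (y * y * x) := by rw [mul_assoc c y c, ← (hcen y).eq]; simp only [mul_assoc]
            _ = _ := by rw [hc2, one_mul]
        rw [show 2 * (n + 1) = 2 * n + 2 by ring, pow_add, ← mul_assoc, ih, mul_assoc, pow_two, h2,
          ← mul_assoc]
    have hpowgen : ∀ (z : G) (m : ℕ), Odd m → z ∈ Subgroup.zpowers (z ^ m) := by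
      intro z m hm
      obtain ⟨k, hk⟩ := IsPGroup.iff_orderOf.mp hG z
      obtain ⟨n, hn⟩ := exists_pow_eq_self_of_coprime (n := m) (x := z) (by
        rw [hk]; exact Nat.Coprime.pow_right _ (Nat.coprime_two_right.mpr hm))
      exact ⟨(n : ℤ), by simpa using hn⟩
    -- replace `x` by `x ^ i'`
    set x' := x ^ i' with hx'
    have hgen' : Subgroup.closure ({x', y} : Set G) = ⊤ := by
      refine top_le_iff.mp (hgen ▸ (Subgroup.closure_le _).mpr ?_)
      rintro z (rfl | rfl)
      · have hm1 : x' ∈ Subgroup.closure ({x', y} : Set G) := Subgroup.subset_closure (Or.inl rfl)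
        exact (Subgroup.zpowers_le.mpr hm1) (hpowgen _ _ hi')
      · exact Subgroup.subset_closure (Or.inr rfl)
    have hc' : x' * y = c * (y * x') := by
      obtain ⟨t, ht⟩ := hi'
      rw [hx', ht, pow_succ, mul_assoc, hc, ← mul_assoc, ← ((hcen (x ^ (2 * t))).eq), mul_assoc,
        ← mul_assoc (x ^ (2 * t)), ← hx2, mul_assoc]
    rcases e with _ | e
    · -- odd exponent: `x ∈ ⟨c, y⟩`
      exfalso
      apply hc1
      have hxm : x' = c * (y ^ l)⁻¹ := by
        rw [eq_mul_inv_iff_mul_eq, hx']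
        simpa using hcij.symm
      have : Commute x' y := by
        rw [hxm]
        exact (hcen y).mul_left (Commute.pow_self y l).inv_left
      rw [this.eq] at hc'
      simpa using hc'.symm
    · have hcij' : c = x' ^ (2 ^ (e + 1)) * (y ^ l) ^ (2 ^ (e + 1)) := by
        rw [hcij, hx', ← pow_mul, ← pow_mul, mul_comm i', mul_comm l]
      set m := y ^ l with hm
      have hgen'' : Subgroup.closure ({x' * m, y} : Set G) = ⊤ := by
        refine top_le_iff.mp (hgen' ▸ (Subgroup.closure_le _).mpr ?_)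
        rintro z (rfl | rfl)
        · have h1 : x' * m * m⁻¹ = x' := mul_inv_cancel_right _ _
          have hm1 : x' * m ∈ Subgroup.closure ({x' * m, y} : Set G) :=
            Subgroup.subset_closure (Or.inl rfl)
          have hm2 : y ∈ Subgroup.closure ({x' * m, y} : Set G) := Subgroup.subset_closure (Or.inr rfl)
          have h3 := mul_mem hm1 (inv_mem (pow_mem hm2 l))
          rw [← hm, h1] at h3
          exact h3
        · exact Subgroup.subset_closure (Or.inr rfl)
      rcases Nat.even_or_odd l with ⟨t, ht⟩ | hl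
      · have hcomm : Commute x' m := by
          rw [hm, ht, ← two_mul, hx']
          exact (show Commute x (y ^ (2 * t)) from hy2 t).pow_left _
        exact ⟨x' * m, y, hgen'', Or.inl (hcij' ▸ (hcomm.mul_pow _).symm ▸
          Subgroup.pow_mem _ (Subgroup.mem_zpowers _) _)⟩
      · obtain ⟨t, ht⟩ := hl
        have hyx' : y * x' = c * (x' * y) := by rw [hc', ← mul_assoc, hc2, one_mul]
        have hmx : m * x' = c * (x' * m) := by
          have hxy2 : Commute x' (y ^ (2 * t)) := by
            rw [hx']; exact (show Commute x (y ^ (2 * t)) from hy2 t).pow_left _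
          rw [hm, ht, pow_succ, mul_assoc, hyx', ← mul_assoc, ← (hcen (y ^ (2 * t))).eq, mul_assoc,
            ← mul_assoc (y ^ (2 * t)), ← hxy2.eq, mul_assoc]
        have hsq : x' * m * (x' * m) = c * (x' * x' * (m * m)) :=
          calc x' * m * (x' * m) = x' * (m * x') * m := by simp only [mul_assoc]
            _ = x' * c * (x' * m * m) := by rw [hmx]; simp only [mul_assoc]
            _ = c * (x' * x' * (m * m)) := by rw [← (hcen x').eq]; simp only [mul_assoc]
        rcases e with _ | e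
        · refine ⟨y, x' * m, by rw [Set.pair_comm]; exact hgen'', Or.inr ?_⟩
          rw [hsq, ← pow_two x', ← pow_two m, ← show c = x' ^ 2 * m ^ 2 by simpa using hcij', hc2]
        · refine ⟨x' * m, y, hgen'', Or.inl ?_⟩
          have hcc : Commute (x' * x') (m * m) := by
            have h0 : Commute x' (m * m) := by
              rw [hm, ← pow_add, ← two_mul, hx']
              exact (show Commute x (y ^ (2 * l)) from hy2 l).pow_left _
            exact h0.mul_left h0
          have h4 : (x' * m) ^ (2 ^ (e + 2)) = c := by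
            have hp : (x' * m) ^ 2 = c * (x' * x' * (m * m)) := by rw [pow_two, hsq]
            have hc0 : c ^ 2 ^ (e + 1) = 1 := by
              rw [pow_succ' 2, pow_mul, pow_two, hc2, one_pow]
            rw [show 2 ^ (e + 2) = 2 * 2 ^ (e + 1) by ring, pow_mul, hp,
              ((hcen _).mul_pow), hcc.mul_pow, hc0, one_mul, ← pow_two x', ← pow_two m, ← pow_mul,
              ← pow_mul, show 2 * 2 ^ (e + 1) = 2 ^ (e + 1 + 1) by ring]
            rw [hcij', hx', ← pow_mul x, ← pow_mul, ← pow_succ']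
          exact h4 ▸ Subgroup.pow_mem _ (Subgroup.mem_zpowers _) _
  obtain ⟨i, j, hij⟩ := hxy c
  obtain ⟨i, hi⟩ : ∃ n : ℕ, x ^ n = x ^ i :=
    (mem_powers_iff_mem_zpowers.mpr ⟨i, rfl⟩ : x ^ i ∈ Submonoid.powers x)
  obtain ⟨j, hj⟩ : ∃ n : ℕ, y ^ n = y ^ j :=
    (mem_powers_iff_mem_zpowers.mpr ⟨j, rfl⟩ : y ^ j ∈ Submonoid.powers y)
  rw [← hi, ← hj] at hij
  rcases eq_or_ne i 0 with rfl | hi0
  · exact ⟨y, x, by rw [Set.pair_comm]; exact hgen,
      Or.inl (by rw [hij, pow_zero, one_mul]; exact Subgroup.pow_mem _ (Subgroup.mem_zpowers _) _)⟩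
  rcases eq_or_ne j 0 with rfl | hj0
  · exact ⟨x, y, hgen,
      Or.inl (by rw [hij, pow_zero, mul_one]; exact Subgroup.pow_mem _ (Subgroup.mem_zpowers _) _)⟩
  obtain ⟨e₁, i', hi', rfl⟩ := Nat.exists_eq_two_pow_mul_odd hi0
  obtain ⟨e₂, j', hj', rfl⟩ := Nat.exists_eq_two_pow_mul_odd hj0
  rcases le_total e₁ e₂ with he | he
  · obtain ⟨d, rfl⟩ := Nat.exists_eq_add_of_le he
    exact key x y hgen hc e₁ i' (2 ^ d * j') hi' (by rw [hij, pow_add, mul_assoc (2 ^ e₁)])
  · obtain ⟨d, rfl⟩ := Nat.exists_eq_add_of_le he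
    refine key y x (by rw [Set.pair_comm]; exact hgen)
      (by rw [hc, ← mul_assoc, hc2, one_mul]) e₂ j' (2 ^ d * i') hj' ?_
    have hco : Commute (x ^ (2 ^ (e₂ + d) * i')) (y ^ (2 ^ e₂ * j')) := by
      have h1 : x ^ (2 ^ (e₂ + d) * i') = c * (y ^ (2 ^ e₂ * j'))⁻¹ := by
        rw [eq_mul_inv_iff_mul_eq]; exact hij.symm
      rw [h1]
      exact (hcen _).mul_left (Commute.refl _).inv_left
    rw [hij, hco.eq, pow_add, mul_assoc (2 ^ e₂)]

/-- The generators of a bicyclic nonmetacyclic `2`-group. -/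
theorem exists_gen [Finite G] (hG : IsPGroup 2 G) (hb : IsBicyclic G)
    (hm : ¬ Cfsg.IsMetacyclic G) :
    ∃ a b : G, Subgroup.closure ({a, b} : Set G) = ⊤ ∧ b * b ∈ derR G := by
  classical
  haveI : Fact (Nat.Prime 2) := ⟨Nat.prime_two⟩
  haveI := hG.isNilpotent
  obtain ⟨x, y, hxy⟩ := hb
  have hab : ∀ f ∈ commutator G, ∀ g ∈ commutator G, f * g = g * f :=
    fun f hf g hg => commutator_comm ⟨x, y, hxy⟩ hf hg
  have meta_of : ∀ a b : G, Subgroup.closure ({a, b} : Set G) = ⊤ →
      commutator G ≤ Subgroup.zpowers a → False := by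
    intro a b hgen hle
    haveI hn : (Subgroup.zpowers a).Normal := Subgroup.Normal.of_commutator_le (G := G) hle
    refine hm ⟨Subgroup.zpowers a, hn, inferInstance,
      ⟨⟨QuotientGroup.mk' _ b, fun q => ?_⟩⟩⟩
    obtain ⟨g, rfl⟩ := QuotientGroup.mk'_surjective (Subgroup.zpowers a) q
    have hle : Subgroup.closure ({a, b} : Set G) ≤
        (Subgroup.zpowers (QuotientGroup.mk' (Subgroup.zpowers a) b)).comap
          (QuotientGroup.mk' (Subgroup.zpowers a)) := by
      rw [Subgroup.closure_le]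
      rintro _ (rfl | rfl)
      · rw [SetLike.mem_coe, Subgroup.mem_comap]
        rw [show QuotientGroup.mk' (Subgroup.zpowers _) _ = 1 from
          (QuotientGroup.eq_one_iff _).mpr (Subgroup.mem_zpowers _)]
        exact one_mem _
      · exact Subgroup.mem_zpowers _
    exact hle (hgen ▸ Subgroup.mem_top g)
  by_contra hcon
  push Not at hcon
  set c := x * y * x⁻¹ * y⁻¹ with hcdef
  have hcA : c ∈ commutator G := by
    rw [hcdef, ← commutatorElement_def, commutator_def]
    exact Subgroup.commutator_mem_commutator (Subgroup.mem_top _) (Subgroup.mem_top _)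
  have hcR : c ∉ derR G := by
    intro h
    have h1 : commutator G ≤ sqSub G ⊔ ⁅commutator G, (⊤ : Subgroup G)⁆ :=
      commutator_le_of_mem (N := derR G) (closure_eq_top hxy) h
    have h2 := le_of_le_sup_commutator (M := sqSub G) h1
    have h3 := le_of_le_sup_sqSub hG hab (M := ⊥) bot_le (h2.trans le_sup_right)
    exact meta_of x y (closure_eq_top hxy) (h3.trans bot_le)
  -- the quotient
  set π := QuotientGroup.mk' (derR G) with hπ
  have hcen : ∀ g, Commute (π c) g := by
    intro g
    obtain ⟨g, rfl⟩ := QuotientGroup.mk'_surjective (derR G) g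
    refine commutatorElement_eq_one_iff_commute.mp ?_
    rw [← map_commutatorElement]
    exact (QuotientGroup.eq_one_iff _).mpr
      (Subgroup.mem_sup_right (Subgroup.commutator_mem_commutator hcA (Subgroup.mem_top g)))
  obtain ⟨a', b', hgen', hcase⟩ := exists_gen_aux (hG.to_quotient (derR G)) (x := π x) (y := π y)
    (fun q => by
      obtain ⟨g, rfl⟩ := QuotientGroup.mk'_surjective (derR G) q
      obtain ⟨i, j, rfl⟩ := hxy g
      exact ⟨i, j, by rw [map_mul, map_zpow, map_zpow]⟩)
    (c := π c)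
    (by rw [← map_mul, ← map_mul, ← map_mul, hcdef]; group)
    (by rw [← map_mul]; exact (QuotientGroup.eq_one_iff _).mpr (Subgroup.mem_sup_left (sq_mem_sqSub hcA)))
    hcen (fun h => hcR ((QuotientGroup.eq_one_iff _).mp h))
  obtain ⟨a, rfl⟩ := QuotientGroup.mk'_surjective (derR G) a'
  obtain ⟨b, rfl⟩ := QuotientGroup.mk'_surjective (derR G) b'
  have hgen : Subgroup.closure ({a, b} : Set G) = ⊤ := by
    refine frattini_nongenerating (top_le_iff.mp fun g _ => ?_)
    have hg : π g ∈ (Subgroup.closure ({a, b} : Set G)).map π := by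
      rw [MonoidHom.map_closure, Set.image_pair]; exact hgen' ▸ Subgroup.mem_top _
    rw [← Subgroup.mem_comap, Subgroup.comap_map_eq, hπ, QuotientGroup.ker_mk'] at hg
    exact sup_le_sup_left (derR_le.trans (CfsgLib.PGroups.commutator_le_frattini hG)) _ hg
  rcases hcase with hca | hb2
  · obtain ⟨m, hm'⟩ := hca
    have hvR : c⁻¹ * a ^ m ∈ derR G := by
      rw [← QuotientGroup.eq_one_iff]
      show π (c⁻¹ * a ^ m) = 1
      rw [map_mul, map_inv, map_zpow, show π a ^ m = π c from hm', inv_mul_cancel]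
    have hvA : a ^ m ∈ commutator G := by
      have := mul_mem hcA (derR_le hvR)
      rwa [mul_inv_cancel_left] at this
    have hmev : Even m := by
      rcases Int.even_or_odd m with h | h
      · exact h
      exfalso
      have hafr : a ∈ frattini G := by
        obtain ⟨k, hk⟩ := IsPGroup.iff_orderOf.mp hG a
        have hcop : Int.gcd m (orderOf a : ℤ) = 1 := by
          rw [hk, Int.gcd_comm, ← Int.isCoprime_iff_gcd_eq_one, Nat.cast_pow]
          exact (Int.prime_two.coprime_iff_not_dvd.mpr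
            (fun h2 => (Int.not_even_iff_odd.mpr h) (even_iff_two_dvd.mpr h2))).pow_left
        obtain ⟨s, t, hst⟩ := (Int.isCoprime_iff_gcd_eq_one.mpr hcop)
        have : (a ^ m) ^ s = a := by
          rw [← zpow_mul, show m * s = 1 - t * (orderOf a : ℤ) by linarith, zpow_sub, zpow_one,
            mul_comm t, zpow_mul, zpow_natCast, pow_orderOf_eq_one, one_zpow, inv_one, mul_one]
        exact this ▸ zpow_mem ((CfsgLib.PGroups.commutator_le_frattini hG) hvA) s
      have hbt : Subgroup.zpowers b = ⊤ := by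
        refine frattini_nongenerating (top_le_iff.mp (hgen ▸ (Subgroup.closure_le _).mpr ?_))
        rintro _ (rfl | rfl)
        · exact Subgroup.mem_sup_right hafr
        · exact Subgroup.mem_sup_left (Subgroup.mem_zpowers _)
      haveI : IsMulCommutative G := by
        refine ⟨⟨fun p q => ?_⟩⟩
        obtain ⟨i, rfl⟩ := (hbt ▸ Subgroup.mem_top p : p ∈ Subgroup.zpowers b)
        obtain ⟨j, rfl⟩ := (hbt ▸ Subgroup.mem_top q : q ∈ Subgroup.zpowers b)
        exact (Commute.zpow_zpow_self b i j).eq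
      exact meta_of a b hgen ((commutator_def G).le.trans (Subgroup.commutator_le.mpr fun p _ q _ => by
        rw [commutatorElement_eq_one_iff_mul_comm.mpr (IsMulCommutative.is_comm.comm p q)]
        exact one_mem _))
    -- everything is central modulo `N₀`
    set A := commutator G
    set N₀ := sqSub G ⊔ ⁅⁅A, (⊤ : Subgroup G)⁆, (⊤ : Subgroup G)⁆ with hN₀
    haveI : ⁅A, (⊤ : Subgroup G)⁆.Normal := Subgroup.commutator_normal _ _
    haveI : ⁅⁅A, (⊤ : Subgroup G)⁆, (⊤ : Subgroup G)⁆.Normal := Subgroup.commutator_normal _ _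
    haveI : N₀.Normal := Subgroup.sup_normal _ _
    set π₀ := QuotientGroup.mk' N₀ with hπ₀
    have hRc : ∀ r ∈ derR G, ∀ g, Commute (π₀ r) (π₀ g) := by
      intro r hr g
      have : derR G ≤ (Subgroup.centralizer {π₀ g}).comap π₀ := by
        refine sup_le (fun s hs => ?_) (fun s hs => ?_)
        · rw [Subgroup.mem_comap, Subgroup.mem_centralizer_singleton_iff,
            show π₀ s = 1 from (QuotientGroup.eq_one_iff _).mpr (Subgroup.mem_sup_left hs)]
          simp
        · rw [Subgroup.mem_comap, Subgroup.mem_centralizer_singleton_iff]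
          refine commutatorElement_eq_one_iff_mul_comm.mp ?_
          rw [← map_commutatorElement]
          exact (QuotientGroup.eq_one_iff _).mpr
            (Subgroup.mem_sup_right (Subgroup.commutator_mem_commutator hs (Subgroup.mem_top g)))
      have h0 := Subgroup.mem_centralizer_singleton_iff.mp (this hr)
      first | exact h0 | exact h0.symm
    set u := a * b * a⁻¹ * b⁻¹ with hu
    have huA : u ∈ A := by
      rw [hu, ← commutatorElement_def]
      exact Subgroup.commutator_mem_commutator (Subgroup.mem_top _) (Subgroup.mem_top _)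
    have hAle : A ≤ Subgroup.zpowers (a ^ m) ⊔ derR G := by
      haveI : (Subgroup.zpowers (a ^ m) ⊔ derR G).Normal := by
        refine Subgroup.Normal.of_commutator_le _ ?_
        have : commutator G ≤ Subgroup.zpowers c ⊔ derR G := by
          haveI : (Subgroup.zpowers c ⊔ derR G).Normal := by
            constructor
            intro n hn g
            have hle : Subgroup.zpowers c ⊔ derR G ≤ (Subgroup.zpowers c ⊔ derR G).comap
                (MulAut.conj g).toMonoidHom := by
              refine sup_le (Subgroup.zpowers_le.mpr ?_) (fun r hr => ?_)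
              · show g * c * g⁻¹ ∈ Subgroup.zpowers c ⊔ derR G
                have : ⁅c, g⁆ ∈ derR G :=
                  Subgroup.mem_sup_right (Subgroup.commutator_mem_commutator hcA (Subgroup.mem_top g))
                have h1 : g * c * g⁻¹ = ⁅c, g⁆⁻¹ * c := by rw [commutatorElement_def]; group
                rw [h1]
                exact mul_mem (Subgroup.mem_sup_right (inv_mem this))
                  (Subgroup.mem_sup_left (Subgroup.mem_zpowers c))
              · exact Subgroup.mem_sup_right ((derR_normal (G := G)).conj_mem r hr g)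
            exact hle hn
          exact commutator_le_of_mem (closure_eq_top hxy) (Subgroup.mem_sup_left (Subgroup.mem_zpowers c))
        refine this.trans (sup_le (Subgroup.zpowers_le.mpr ?_) le_sup_right)
        have : a ^ m * (c⁻¹ * a ^ m)⁻¹ = c := by group
        rw [← this]
        exact mul_mem (Subgroup.mem_sup_left (Subgroup.mem_zpowers _))
          (Subgroup.mem_sup_right (inv_mem hvR))
      refine commutator_le_of_mem (closure_eq_top hxy) ?_
      show c ∈ _
      have : a ^ m * (c⁻¹ * a ^ m)⁻¹ = c := by group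
      rw [← this]
      exact mul_mem (Subgroup.mem_sup_left (Subgroup.mem_zpowers _))
        (Subgroup.mem_sup_right (inv_mem hvR))
    have hau : Commute (π₀ a) (π₀ u) := by
      obtain ⟨v, ⟨i, rfl⟩, r, hr, hvr⟩ := Subgroup.mem_sup_of_normal_right.mp (hAle huA)
      rw [← hvr, map_mul, map_zpow, map_zpow]
      exact (((Commute.refl _).zpow_right m).zpow_right i).mul_right (hRc r hr a).symm
    have hvb : Commute (π₀ (a ^ m)) (π₀ b) := by
      obtain ⟨k, rfl⟩ := hmev
      have h1 : π₀ b * π₀ a * (π₀ b)⁻¹ = (π₀ u)⁻¹ * π₀ a := by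
        rw [← map_inv, ← map_inv, ← map_mul, ← map_mul, ← map_mul, hu]; group
      have h2 : π₀ b * π₀ (a ^ (k + k)) * (π₀ b)⁻¹ = π₀ (a ^ (k + k)) := by
        rw [map_zpow, ← conj_zpow, h1, hau.symm.inv_left.mul_zpow, zpow_add,
          ← mul_inv_cancel_right ((π₀ u)⁻¹ ^ k) ((π₀ u)⁻¹ ^ k)⁻¹]
        have : (π₀ u)⁻¹ ^ k * (π₀ u)⁻¹ ^ k = 1 := by
          rw [inv_zpow, ← mul_inv_rev, ← map_zpow, ← map_mul, inv_eq_one]
          exact (QuotientGroup.eq_one_iff _).mpr (Subgroup.mem_sup_left (sq_mem_sqSub (zpow_mem huA k)))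
        rw [mul_inv_cancel_right, this, one_mul]
      exact (mul_inv_eq_iff_eq_mul.mp h2).symm
    have hAc : ∀ f ∈ A, ∀ g, Commute (π₀ f) (π₀ g) := by
      intro f hf g
      obtain ⟨v, ⟨i, rfl⟩, r, hr, rfl⟩ := Subgroup.mem_sup_of_normal_right.mp (hAle hf)
      rw [map_mul, map_zpow]
      refine (Commute.zpow_left ?_ i).mul_left (hRc r hr g)
      have : Subgroup.closure ({a, b} : Set G) ≤
          (Subgroup.centralizer {π₀ (a ^ m)}).comap π₀ := by
        rw [Subgroup.closure_le]
        rintro _ (rfl | rfl) <;> rw [SetLike.mem_coe, Subgroup.mem_comap,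
          Subgroup.mem_centralizer_singleton_iff]
        · rw [map_zpow]; exact (Commute.self_zpow (π₀ _) m).eq
        · exact hvb.eq.symm
      exact (Subgroup.mem_centralizer_singleton_iff.mp (this (hgen ▸ Subgroup.mem_top g))).symm
    have h1 : ⁅A, (⊤ : Subgroup G)⁆ ≤ N₀ := by
      rw [Subgroup.commutator_le]
      intro f hf g _
      rw [← QuotientGroup.eq_one_iff]
      show π₀ ⁅f, g⁆ = 1
      rw [map_commutatorElement, commutatorElement_eq_one_iff_commute]
      exact hAc f hf g
    have h2 : ⁅A, (⊤ : Subgroup G)⁆ ≤ sqSub G :=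
      le_of_le_sup_commutator (M := sqSub G) h1
    have hA2 : A ≤ Subgroup.zpowers (a ^ m) ⊔ sqSub G :=
      hAle.trans (sup_le le_sup_left (sup_le le_sup_right (h2.trans le_sup_right)))
    exact meta_of a b hgen ((le_of_le_sup_sqSub hG hab (Subgroup.zpowers_le.mpr hvA) hA2).trans
      (Subgroup.zpowers_le.mpr (Subgroup.zpow_mem _ (Subgroup.mem_zpowers a) m)))
  · refine hcon a b hgen ?_
    rw [← QuotientGroup.eq_one_iff]
    exact (map_mul π b b).trans hb2

end CfsgLib.FusionBicyclic
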