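import Cfsg.Agent.Lib.FusionBicyclic.Setup

/-!
No radical data on a subgroup of `⟨a ^ 2⟩ S'`.
-/

set_option autoImplicit false
set_option linter.unusedSectionVars false
set_option linter.style.haveILetI false

namespace CfsgLib.FusionBicyclic.Data

open CfsgLib.FusionBicyclic

variable {G : Type*} [Group G] {a b : G} {n : ℕ} (h : Data a b n) [Finite G] (hG : IsPGroup 2 G)
include h hG

/-- Powers of `a` in the derived subgroup. -/
theorem dvd_of_zpow_mem {i : ℤ} (hi : a ^ i ∈ commutator G) : (n : ℤ) ∣ i :=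
  ((h.mem_iff i 0).mp (by simpa using hi)).1

theorem even_of_dvd {i : ℤ} (hi : (n : ℤ) ∣ i) : Even i := by
  have h4 : ((4 : ℕ) : ℤ) ∣ (n : ℤ) := Int.natCast_dvd_natCast.mpr h.four
  exact even_iff_two_dvd.mpr ((Int.dvd_trans (by norm_num) h4).trans hi)

/-- An element of an even power coset outside `S'` has a power congruent to `a ^ n`. -/
theorem exists_congr_power (i : ℤ) {f : G} (hf : f ∈ commutator G) (hi : ¬ (n : ℤ) ∣ 2 * i) :
    ∃ k : ℤ, (a ^ n)⁻¹ * (a ^ (2 * i) * f) ^ (2 * k) ∈ sqSub G := by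
  obtain ⟨r, hr2, hr⟩ := h.exists_pow_two hG
  have hi0 : 2 * i ≠ 0 := fun e => hi (e ▸ dvd_zero _)
  obtain ⟨e, o, ho, he⟩ := Nat.exists_eq_two_pow_mul_odd (n := (2 * i).natAbs) (by simpa using hi0)
  obtain ⟨o', ho', he'⟩ : ∃ o' : ℤ, Odd o' ∧ 2 * i = 2 ^ e * o' := by
    rcases Int.natAbs_eq (2 * i) with hh | hh
    · exact ⟨o, by exact_mod_cast ho, by rw [hh, he]; push_cast; rfl⟩
    · exact ⟨-o, (by exact_mod_cast ho : Odd (o : ℤ)).neg, by rw [hh, he]; push_cast; ring⟩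
  have her : e < r := by
    by_contra hge
    refine hi ?_
    rw [hr, he']
    push_cast
    exact Dvd.dvd.mul_right (pow_dvd_pow 2 (Nat.le_of_not_lt hge)) _
  obtain ⟨d, hd⟩ : ∃ d, r = e + (d + 1) := ⟨r - e - 1, by omega⟩
  refine ⟨2 ^ d, ?_⟩
  set π := QuotientGroup.mk' (sqSub G)
  have h2 : π ((a ^ (2 * i) * f) ^ (2 : ℤ)) = π (a ^ (4 * i)) := by
    have := h.sq_mem_even hG i hf
    rw [← zpow_two] at this
    exact ((QuotientGroup.eq).mpr this).symm
  obtain ⟨t, ht⟩ := ho'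
  have hz : π ((a ^ n) ^ (2 * t)) = 1 := by
    refine (QuotientGroup.eq_one_iff _).mpr ?_
    rw [zpow_mul, zpow_two]
    exact zpow_mem (sq_mem_sqSub h.pow_mem) t
  rw [← QuotientGroup.eq_one_iff]
  show π _ = 1
  rw [map_mul, zpow_mul, map_zpow, h2, ← map_zpow, ← zpow_mul,
    show 4 * i * 2 ^ d = ((n : ℕ) : ℤ) * (2 * t + 1) by
      rw [show (4 : ℤ) * i = 2 * (2 * i) by ring, he', hr, hd, ← ht]; push_cast; ring,
    zpow_mul, zpow_natCast, zpow_add_one, map_mul, hz, one_mul, map_inv, inv_mul_cancel]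

theorem false_of_even {P : Subgroup G} {Δ : Subgroup (MulAut P)} (R : Rad P Δ)
    (hM : ∀ x ∈ P, ∃ i : ℤ, ∃ f ∈ commutator G, x = a ^ (2 * i) * f) : False := by
  by_cases hA : commutator G ≤ P
  · have hpow : ∀ i : ℤ, ∀ f ∈ commutator G, a ^ (2 * i) * f ∈ P → a ^ (2 * i) ∈ P := fun i f hf hx =>
      by simpa using P.mul_mem hx (P.inv_mem (hA hf))
    have hsq : sqSub G ≤ fr P := by
      rw [sqSub, Subgroup.closure_le]
      rintro _ ⟨f, hf, rfl⟩
      exact sq_mem_fr hG (hA hf)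
    have ha2 : a * a ∈ P := by
      obtain ⟨t, ht⟩ := h.exists_conj_sq hG
      refine R.mem_of_trivial_fr hG fun x hx => ?_
      obtain ⟨i, f, hf, rfl⟩ := hM x hx
      obtain ⟨p, q, rfl⟩ := h.exists_repr hG hf
      set f := uOf a b ^ p * (a ^ n) ^ q with hfdef
      have e : a * a * (a ^ (2 * i) * f) * (a * a)⁻¹ * (a ^ (2 * i) * f)⁻¹ =
          a ^ (2 * i) * (a * a * f * (a * a)⁻¹ * f⁻¹) * (a ^ (2 * i))⁻¹ := by group
      rw [e]
      refine fr_conj_mem (hpow i f hf hx) (hsq ?_)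
      rw [hfdef, ht, ← hfdef, (h.commute hf (zpow_mem h.w_mem _)).eq, mul_inv_cancel_right,
        show 2 * t * p = t * p + t * p by ring, zpow_add]
      exact sq_mem_sqSub (zpow_mem h.w_mem _)
    have hz : a ^ n ∈ fr P := by
      obtain ⟨d, hd⟩ := h.four
      rw [hd, show 4 * d = 2 * (2 * d) by ring, pow_mul, pow_two, ← zpow_natCast,
        show ((2 * d : ℕ) : ℤ) = 2 * (d : ℤ) by push_cast; rfl]
      exact zpow_even_mem_fr hG ha2 _
    have hw : derR G ≤ fr P := (h.derR_le_pow hG).trans (sup_le (Subgroup.zpowers_le.mpr hz) hsq)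
    have haP : a ∈ P := by
      refine R.mem_of_trivial_fr hG fun x hx => ?_
      obtain ⟨i, f, hf, rfl⟩ := hM x hx
      obtain ⟨p, q, rfl⟩ := h.exists_repr hG hf
      set f := uOf a b ^ p * (a ^ n) ^ q with hfdef
      have e : a * (a ^ (2 * i) * f) * a⁻¹ * (a ^ (2 * i) * f)⁻¹ =
          a ^ (2 * i) * (a * f * a⁻¹ * f⁻¹) * (a ^ (2 * i))⁻¹ := by group
      rw [e]
      exact fr_conj_mem (hpow i f hf hx) (hw (commElt_mem_derR hf a))
    obtain ⟨i, f, hf, hai⟩ := hM a haP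
    have h1 : a ^ (1 - 2 * i) ∈ commutator G := by
      have e : a ^ (1 - 2 * i) = f := by
        rw [sub_eq_neg_add, zpow_add, zpow_one, zpow_neg]
        exact inv_mul_eq_of_eq_mul hai
      rwa [e]
    exact Int.not_even_iff_odd.mpr ⟨-i, by ring⟩ (h.even_of_dvd hG (h.dvd_of_zpow_mem hG h1))
  · -- some element of `P` lies outside the derived subgroup
    obtain ⟨x₀, hx₀, i, f, hf, hxe, hni⟩ : ∃ x ∈ P, ∃ (i : ℤ) (f : G), f ∈ commutator G ∧
        x = a ^ (2 * i) * f ∧ ¬ (n : ℤ) ∣ 2 * i := by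
      by_contra hcon
      push Not at hcon
      have hPA : P ≤ commutator G := fun x hx => by
        obtain ⟨i, f, hf, rfl⟩ := hM x hx
        obtain ⟨d, hd⟩ := hcon _ hx i f hf rfl
        rw [hd, zpow_mul, zpow_natCast]
        exact mul_mem (zpow_mem h.pow_mem d) hf
      exact hA fun g hg => R.centric (Subgroup.mem_centralizer_iff.mpr fun x hx =>
        h.comm x (hPA hx) g hg)
    obtain ⟨k, ho⟩ := h.exists_congr_power hG i hf hni
    rw [← hxe] at ho
    set o := x₀ ^ (2 * k)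
    have hoP : o ∈ P := zpow_mem hx₀ _
    obtain ⟨q, hq, hqmin, hD⟩ := h.exists_level hG ho hoP
    rcases q with _ | q
    · refine hA fun g hg => ?_
      obtain ⟨j, y, rfl⟩ := h.exists_repr' hG ho hg
      rw [pow_zero, zpow_one] at hq
      exact mul_mem (zpow_mem hoP _) (zpow_mem hq _)
    obtain ⟨j, r, hwe⟩ := h.exists_w_eq hG ho
    have hoA : o ∈ commutator G := derR_le (h.mem_derR_of_congr hG ho)
    have hwP : wOf a b ^ ((2 : ℤ) ^ q) ∈ P := by
      rw [hwe, h.mul_zpow' (zpow_mem hoA _) (zpow_mem h.u_mem _), ← zpow_mul (uOf a b),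
        show 2 * r * 2 ^ q = 2 ^ (q + 1) * r by ring, zpow_mul (uOf a b)]
      exact mul_mem (zpow_mem (zpow_mem hoP _) _) (zpow_mem hq _)
    have hσ : uOf a b ^ ((2 : ℤ) ^ q) ∈ P := by
      refine R.mem_of_trivial_fr hG fun x hx => ?_
      obtain ⟨i', f', hf', rfl⟩ := hM x hx
      obtain ⟨c, hc⟩ := h.exists_conj_even hG i'
      set σ := uOf a b ^ ((2 : ℤ) ^ q) with hσdef
      have hσA : σ ∈ commutator G := zpow_mem h.u_mem _
      have h1 : a ^ (2 * i') * σ * (a ^ (2 * i'))⁻¹ = σ * wOf a b ^ (2 * c * 2 ^ q) := by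
        simpa using hc (2 ^ q) 0
      have e : σ * (a ^ (2 * i') * f') * σ⁻¹ * (a ^ (2 * i') * f')⁻¹ =
          σ * (a ^ (2 * i') * (f' * σ⁻¹ * f'⁻¹) * (a ^ (2 * i'))⁻¹) := by group
      rw [e, (h.commute hf' (inv_mem hσA)).eq, mul_inv_cancel_right, ← conj_inv, h1, mul_inv_rev,
        (h.commute (inv_mem (zpow_mem h.w_mem _)) (inv_mem hσA)).eq, mul_inv_cancel_left,
        show 2 * c * 2 ^ q = 2 ^ q * c * 2 by ring, zpow_mul, zpow_mul, zpow_two, mul_inv_rev]
      exact sq_mem_fr hG (inv_mem (zpow_mem hwP c))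
    have := hqmin _ hσ
    have h2 := Int.le_of_dvd (by positivity) this
    rw [pow_succ] at h2
    have : (0 : ℤ) < 2 ^ q := by positivity
    linarith

end CfsgLib.FusionBicyclic.Data
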