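import Cfsg.Agent.Lib.FusionBicyclic.Setup

/-!
No radical data on a subgroup of `⟨a ^ 2, b⟩ S'` meeting both cosets `b S'` and `a ^ 2 S'`.
-/

set_option autoImplicit false
set_option linter.unusedSectionVars false
set_option linter.style.haveILetI false

namespace CfsgLib.FusionBicyclic.Data

open CfsgLib.FusionBicyclic

variable {G : Type*} [Group G] {a b : G} {n : ℕ} (h : Data a b n) [Finite G] (hG : IsPGroup 2 G)
include h hG

variable {P : Subgroup G} {Δ : Subgroup (MulAut P)}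

/-- The elements of `P` moved by `σ` into the Frattini subgroup form a subgroup containing the
generators; an element moving `P` into a stable layer lies in `P`. -/
theorem mem_of_mover (R : Rad P Δ) {β g p σ : G}
    (hβ : β ∈ P) (hg : g ∈ P) (hp : p ∈ P)
    (hgen : P ≤ Subgroup.closure ({β, g} ∪ {f | f ∈ commutator G ∧ f ∈ P}))
    (hσg : σ * g * σ⁻¹ * g⁻¹ ∈ fr P) (hσβ : p⁻¹ * (σ * β * σ⁻¹ * β⁻¹) ∈ fr P)
    (hσD : ∀ f ∈ commutator G, f ∈ P → σ * f * σ⁻¹ * f⁻¹ ∈ fr P)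
    {S0 : Set G} (hS : Stable Δ S0) (hSP : S0 ⊆ P) (hpS : p ∈ S0)
    (hrep : ∀ x ∈ S0, ∃ i : ℤ, ∃ d ∈ commutator G, d ∈ P ∧ x = g ^ i * d) : σ ∈ P := by
  set Y : Subgroup G := Subgroup.closure S0 ⊔ fr P with hYdef
  have hclP : Subgroup.closure S0 ≤ P := (Subgroup.closure_le P).mpr hSP
  have hYP : Y ≤ P := sup_le hclP (fr_le P)
  have hY : Stable Δ (Y : Set G) := (hS.closure hSP).sup stable_fr hclP (fr_le P)
  have hfrY : fr P ≤ Y := le_sup_right
  have hgens : ({β, g} ∪ {f | f ∈ commutator G ∧ f ∈ P} : Set G) ⊆ P := by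
    rintro x ((rfl | rfl) | ⟨-, hx⟩)
    exacts [hβ, hg, hx]
  have h1 : ∀ x ∈ P, σ * x * σ⁻¹ * x⁻¹ ∈ Y := by
    refine R.forall_comm_mem hY hYP hgens hgen ?_
    rintro x ((rfl | rfl) | ⟨hxA, hxP⟩)
    · have e := Y.mul_mem (Subgroup.mem_sup_left (Subgroup.subset_closure hpS) : p ∈ Y) (hfrY hσβ)
      rwa [mul_inv_cancel_left] at e
    · exact hfrY hσg
    · exact hfrY (hσD x hxA hxP)
  have hσN := mem_normalizer_of_move fun x hx => hYP (h1 x hx)
  let K : Subgroup G :=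
    { carrier := {x | x ∈ P ∧ σ * x * σ⁻¹ * x⁻¹ ∈ fr P}
      one_mem' := ⟨one_mem _, by simp⟩
      mul_mem' := by
        rintro x y ⟨hxP, hx⟩ ⟨hyP, hy⟩
        refine ⟨mul_mem hxP hyP, ?_⟩
        have e : σ * (x * y) * σ⁻¹ * (x * y)⁻¹ =
            σ * x * σ⁻¹ * x⁻¹ * (x * (σ * y * σ⁻¹ * y⁻¹) * x⁻¹) := by group
        rw [e]
        exact mul_mem hx (fr_conj_mem hxP hy)
      inv_mem' := by
        rintro x ⟨hxP, hx⟩
        refine ⟨inv_mem hxP, ?_⟩
        have e : σ * x⁻¹ * σ⁻¹ * x⁻¹⁻¹ = x⁻¹ * (σ * x * σ⁻¹ * x⁻¹)⁻¹ * x⁻¹⁻¹ := by group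
        rw [e]
        exact fr_conj_mem (inv_mem hxP) (inv_mem hx) }
  have hYK : Y ≤ K := by
    refine sup_le ((Subgroup.closure_le K).mpr fun x hx => ?_) fun y hy => ?_
    · obtain ⟨i, d, hdA, hdP, rfl⟩ := hrep x hx
      exact mul_mem (zpow_mem (⟨hg, hσg⟩ : g ∈ K) i) (⟨hdP, hσD d hdA hdP⟩ : d ∈ K)
    · have h2 : σ * y * σ⁻¹ ∈ fr P :=
        stable_fr _ (R.conjOn_mem ⟨σ, hσN⟩) ⟨y, fr_le P hy⟩ hy
      exact ⟨fr_le P hy, mul_mem h2 (inv_mem hy)⟩
  exact R.mem_of_trivial hG hY hfrY hYP h1 fun y hy => (hYK hy).2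

/-- The action of an element of `a ^ (2 * i) b S'` on the derived subgroup is a twisted inversion. -/
theorem exists_twist (i : ℤ) : ∃ K : ℤ, ∀ x y : ℤ,
    a ^ (2 * i) * (b * (uOf a b ^ x * (a ^ n) ^ y) * b⁻¹) * (a ^ (2 * i))⁻¹ =
      (uOf a b ^ x * (a ^ n) ^ y)⁻¹ * wOf a b ^ (2 * K * x) := by
  obtain ⟨l, m, -, -, hlm⟩ := h.exists_conj hG
  obtain ⟨k, hk⟩ := h.exists_conj_b hG
  obtain ⟨c, hc⟩ := h.exists_conj_even hG i
  obtain ⟨hw, -⟩ := h.conj_w hG hlm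
  have hcw : a ^ (2 * i) * wOf a b * (a ^ (2 * i))⁻¹ = wOf a b ^ (1 + 2 * c * (l - 1)) := by
    rw [zpow_add, zpow_one]
    conv_lhs => rw [hw, hc (l - 1) m, ← hw]
  refine ⟨-c + (1 + 2 * c * (l - 1)) * k, fun x y => ?_⟩
  rw [hk]
  set f := uOf a b ^ x * (a ^ n) ^ y with hfdef
  have e : a ^ (2 * i) * (f⁻¹ * wOf a b ^ (2 * k * x)) * (a ^ (2 * i))⁻¹ =
      (a ^ (2 * i) * f * (a ^ (2 * i))⁻¹)⁻¹ *
        (a ^ (2 * i) * wOf a b ^ (2 * k * x) * (a ^ (2 * i))⁻¹) := by group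
  rw [e, ← conj_zpow, hcw, hfdef, hc, ← hfdef, mul_inv_rev,
    (h.commute (inv_mem (zpow_mem h.w_mem _))
      (inv_mem (mul_mem (zpow_mem h.u_mem x) (zpow_mem h.pow_mem y)))).eq, ← zpow_neg, ← zpow_mul,
    mul_assoc, ← zpow_add]
  congr 2
  ring

/-- No radical data on `P`. -/
theorem false_of_large (R : Rad P Δ)
    (hM : ∀ x ∈ P, ∃ i e : ℤ, ∃ f ∈ commutator G, x = a ^ (2 * i) * b ^ e * f)
    {f₀ h₀ : G} (hf₀ : f₀ ∈ commutator G) (hh₀ : h₀ ∈ commutator G) (hβ : b * f₀ ∈ P)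
    (hg : a * a * h₀ ∈ P) : False := by
  obtain ⟨l, m, hl, hm, hlm⟩ := h.exists_conj hG
  obtain ⟨k, hk⟩ := h.exists_conj_b hG
  obtain ⟨t, ht⟩ := h.exists_conj_sq hG
  set β := b * f₀ with hβdef
  set g := a * a * h₀ with hgdef
  have hn : (commutator G).Normal := inferInstance
  have hgact : ∀ x y : ℤ, g * (uOf a b ^ x * (a ^ n) ^ y) * g⁻¹ =
      uOf a b ^ x * (a ^ n) ^ y * wOf a b ^ (2 * t * x) := by
    intro x y
    rw [← ht x y, hgdef]
    set f := uOf a b ^ x * (a ^ n) ^ y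
    rw [show a * a * h₀ * f * (a * a * h₀)⁻¹ = a * a * (h₀ * f * h₀⁻¹) * (a * a)⁻¹ by group,
      (h.commute hh₀ (mul_mem (zpow_mem h.u_mem x) (zpow_mem h.pow_mem y))).eq, mul_inv_cancel_right]
  have hβact : ∀ x y : ℤ, β * (uOf a b ^ x * (a ^ n) ^ y) * β⁻¹ =
      (uOf a b ^ x * (a ^ n) ^ y)⁻¹ * wOf a b ^ (2 * k * x) := by
    intro x y
    rw [← hk x y, hβdef]
    set f := uOf a b ^ x * (a ^ n) ^ y
    rw [show b * f₀ * f * (b * f₀)⁻¹ = b * (f₀ * f * f₀⁻¹) * b⁻¹ by group,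
      (h.commute hf₀ (mul_mem (zpow_mem h.u_mem x) (zpow_mem h.pow_mem y))).eq, mul_inv_cancel_right]
  -- the decomposition of the elements of `P`
  have hrep : ∀ x ∈ P, ∃ i : ℤ, ∃ d ∈ commutator G, d ∈ P ∧ (x = g ^ i * d ∨ x = g ^ i * β * d) := by
    intro x hx
    obtain ⟨i, e, f, hf, hxe⟩ := hM x hx
    set π := QuotientGroup.mk' (commutator G)
    have hπ : ∀ y ∈ commutator G, π y = 1 := fun y hy => (QuotientGroup.eq_one_iff y).mpr hy
    have hπg : π (g ^ i) = π (a ^ (2 * i)) := by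
      rw [map_zpow, hgdef, map_mul π, hπ h₀ hh₀, mul_one, ← map_zpow, zpow_mul, zpow_two]
    have hπb : π b * π b = 1 := by rw [← map_mul]; exact hπ _ (derR_le h.sq)
    have hπx : π x = π (a ^ (2 * i)) * π b ^ e := by
      rw [hxe, map_mul, map_mul, hπ f hf, mul_one, map_zpow π b]
    refine ⟨i, ?_⟩
    rcases Int.even_or_odd e with ⟨s, hs⟩ | ⟨s, hs⟩
    · refine ⟨(g ^ i)⁻¹ * x, (QuotientGroup.eq_one_iff _).mp ?_,
        mul_mem (inv_mem (zpow_mem hg i)) hx, Or.inl (by group)⟩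
      show π _ = 1
      rw [map_mul, map_inv, hπg, hπx, inv_mul_cancel_left, hs, ← two_mul, zpow_mul, zpow_two, hπb,
        one_zpow]
    · refine ⟨(g ^ i * β)⁻¹ * x, (QuotientGroup.eq_one_iff _).mp ?_,
        mul_mem (inv_mem (mul_mem (zpow_mem hg i) hβ)) hx, Or.inr (by group)⟩
      show π _ = 1
      rw [map_mul, map_inv, map_mul π (g ^ i), hπg, hβdef, map_mul π b, hπ f₀ hf₀, mul_one,
        mul_inv_rev, mul_assoc, hπx, inv_mul_cancel_left, hs, zpow_add_one,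
        zpow_mul, zpow_two, hπb, one_zpow, one_mul, inv_mul_cancel]
  have hgen : P ≤ Subgroup.closure ({β, g} ∪ {f | f ∈ commutator G ∧ f ∈ P}) := by
    intro x hx
    have hb' := Subgroup.subset_closure
      (show β ∈ ({β, g} ∪ {f | f ∈ commutator G ∧ f ∈ P} : Set G) from Or.inl (Or.inl rfl))
    have hg' := Subgroup.subset_closure
      (show g ∈ ({β, g} ∪ {f | f ∈ commutator G ∧ f ∈ P} : Set G) from Or.inl (Or.inr rfl))
    obtain ⟨i, d, hdA, hdP, rfl | rfl⟩ := hrep x hx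
    · exact mul_mem (zpow_mem hg' i) (Subgroup.subset_closure (Or.inr ⟨hdA, hdP⟩))
    · exact mul_mem (mul_mem (zpow_mem hg' i) hb') (Subgroup.subset_closure (Or.inr ⟨hdA, hdP⟩))
  -- the commutator of the two generators
  set e₁ := β * g * β⁻¹ * g⁻¹ with he₁
  have he₁A : e₁ ∈ commutator G := comm_mem β g
  have he₁fr : e₁ ∈ fr P := comm_mem_fr hG hβ hg
  have he₁P : e₁ ∈ P := fr_le P he₁fr
  have ho : (a ^ n)⁻¹ * e₁ ∈ sqSub G := by
    set π := QuotientGroup.mk' (sqSub G)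
    have hsq : ∀ f ∈ commutator G, π f * π f = 1 := fun f hf => by
      rw [← map_mul]; exact (QuotientGroup.eq_one_iff _).mpr (sq_mem_sqSub hf)
    have htriv : ∀ f ∈ commutator G, π (g * f * g⁻¹) = π f ∧ π (β * f * β⁻¹) = π f := by
      intro f hf
      obtain ⟨x, y, rfl⟩ := h.exists_repr hG hf
      have hw2 : ∀ s : ℤ, π (wOf a b ^ (2 * s)) = 1 := fun s => by
        rw [mul_comm, zpow_mul, zpow_two, map_mul]
        exact hsq _ (zpow_mem h.w_mem s)
      constructor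
      · rw [hgact, map_mul π _ (wOf a b ^ (2 * t * x)), mul_assoc 2 t x, hw2, mul_one]
      · rw [hβact, map_mul π _ (wOf a b ^ (2 * k * x)), mul_assoc 2 k x, hw2, mul_one, map_inv]
        exact inv_eq_of_mul_eq_one_left (hsq _ hf)
    have haab : b * (a * a) * b⁻¹ * (a * a)⁻¹ = (uOf a b ^ (l + 1) * (a ^ n) ^ m)⁻¹ := by
      have h1 : a * a * b * (a * a)⁻¹ * b⁻¹ = a * uOf a b * a⁻¹ * uOf a b := by
        rw [uOf_eq h]; group
      rw [show b * (a * a) * b⁻¹ * (a * a)⁻¹ = (a * a * b * (a * a)⁻¹ * b⁻¹)⁻¹ by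
          simp only [mul_inv_rev, inv_inv, mul_assoc], h1, hlm,
        mul_assoc, (h.commute (zpow_mem h.pow_mem m) h.u_mem).eq, ← mul_assoc, ← zpow_add_one]
    have hb2 : ∀ f ∈ commutator G, π (b * f * b⁻¹) = π f := by
      intro f hf
      have e := (htriv f hf).2
      rwa [hβdef, show b * f₀ * f * (b * f₀)⁻¹ = b * (f₀ * f * f₀⁻¹) * b⁻¹ by group,
        (h.commute hf₀ hf).eq, mul_inv_cancel_right] at e
    have ha2 : ∀ f ∈ commutator G, π (a * a * f * (a * a)⁻¹) = π f := by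
      intro f hf
      have e := (htriv f hf).1
      rwa [hgdef, show a * a * h₀ * f * (a * a * h₀)⁻¹ = a * a * (h₀ * f * h₀⁻¹) * (a * a)⁻¹ by group,
        (h.commute hh₀ hf).eq, mul_inv_cancel_right] at e
    -- `[β, g] ≡ [b, a ^ 2]`
    have hkey : π e₁ = π (b * (a * a) * b⁻¹ * (a * a)⁻¹) := by
      have hba : b * (a * a) * b⁻¹ * (a * a)⁻¹ ∈ commutator G := comm_mem b (a * a)
      have e : e₁ = β * (a * a) * β⁻¹ * (a * a)⁻¹ *
          (a * a * (β * h₀ * β⁻¹ * h₀⁻¹) * (a * a)⁻¹) := by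
        rw [he₁, hgdef]; group
      have e' : β * (a * a) * β⁻¹ * (a * a)⁻¹ = b * (f₀ * (a * a * f₀⁻¹ * (a * a)⁻¹)) * b⁻¹ *
          (b * (a * a) * b⁻¹ * (a * a)⁻¹) := by
        rw [hβdef]
        generalize a * a = c
        group
      have hfA : f₀ * (a * a * f₀⁻¹ * (a * a)⁻¹) ∈ commutator G :=
        mul_mem hf₀ (hn.conj_mem _ (inv_mem hf₀) _)
      have hhA : β * h₀ * β⁻¹ * h₀⁻¹ ∈ commutator G := comm_mem β h₀
      rw [e, map_mul, ha2 _ hhA, e', map_mul π (b * (f₀ * (a * a * f₀⁻¹ * (a * a)⁻¹)) * b⁻¹),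
        hb2 _ hfA, map_mul π f₀, ha2 _ (inv_mem hf₀), map_mul π (β * h₀ * β⁻¹), (htriv h₀ hh₀).2,
        map_inv, map_inv, mul_inv_cancel, mul_inv_cancel, one_mul, mul_one]
    rw [← QuotientGroup.eq_one_iff]
    show π _ = 1
    obtain ⟨s, hs⟩ := hl.add_odd odd_one
    obtain ⟨s', hs'⟩ := hm
    rw [map_mul, map_inv, hkey, haab, map_inv, map_mul, hs, zpow_add, map_mul,
      hsq _ (zpow_mem h.u_mem s), one_mul, hs', zpow_add_one, map_mul, zpow_mul, zpow_two, map_zpow,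
      map_mul, hsq _ h.pow_mem, one_zpow, one_mul, ← mul_inv_rev, hsq _ h.pow_mem, inv_one]
  obtain ⟨q, hq, hqmin, hD⟩ := h.exists_level hG ho he₁P
  set p := uOf a b ^ ((2 : ℤ) ^ q) with hpdef
  have hpA : p ∈ commutator G := zpow_mem h.u_mem _
  obtain ⟨i₀, r, hwe⟩ := h.exists_w_eq hG ho
  have hwP : ∀ j s : ℤ, 2 * j = 2 ^ q * s → wOf a b ^ j ∈ P := by
    intro j s hjs
    rw [hwe, h.mul_zpow' (zpow_mem he₁A _) (zpow_mem h.u_mem _), ← zpow_mul (uOf a b),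
      show 2 * r * j = 2 ^ q * (r * s) by rw [mul_left_comm, ← hjs]; ring, zpow_mul (uOf a b)]
    exact mul_mem (zpow_mem (zpow_mem he₁P _) _) (zpow_mem hq _)
  -- it suffices to find a stable subset
  suffices hS : ∃ S0 : Set G, Stable Δ S0 ∧ S0 ⊆ P ∧ p ∈ S0 ∧
      ∀ (i : ℤ) (d : G), d ∈ commutator G → d ∈ P → g ^ i * β * d ∉ S0 by
    obtain ⟨S0, hS0, hS0P, hpS, hout⟩ := hS
    have hrep' : ∀ x ∈ S0, ∃ i : ℤ, ∃ d ∈ commutator G, d ∈ P ∧ x = g ^ i * d := by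
      intro x hx
      obtain ⟨i, d, hdA, hdP, e | e⟩ := hrep x (hS0P hx)
      · exact ⟨i, d, hdA, hdP, e⟩
      · exact absurd (e ▸ hx) (hout i d hdA hdP)
    rcases q with _ | q
    · -- `S' ≤ P`
      have hA : commutator G ≤ P := by
        intro f hf
        obtain ⟨i, x, rfl⟩ := h.exists_repr' hG ho hf
        rw [hpdef, pow_zero, zpow_one] at hq
        exact mul_mem (zpow_mem he₁P i) (zpow_mem hq x)
      have ha2 : a * a ∈ P := by
        have := mul_mem hg (inv_mem (hA hh₀))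
        rwa [hgdef, mul_inv_cancel_right] at this
      have hbP : b ∈ P := by
        have := mul_mem hβ (inv_mem (hA hf₀))
        rwa [hβdef, mul_inv_cancel_right] at this
      have hwfr : wOf a b ∈ fr P := by
        rw [hwe]
        exact mul_mem (zpow_mem he₁fr _) (zpow_even_mem_fr hG (hA h.u_mem) r)
      have hafr : ∀ f ∈ commutator G, a * f * a⁻¹ * f⁻¹ ∈ fr P := by
        intro f hf
        obtain ⟨x, y, rfl⟩ := h.exists_repr hG hf
        rw [h.conj_a hG, (h.commute (mul_mem (zpow_mem h.u_mem x) (zpow_mem h.pow_mem y))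
          (zpow_mem h.w_mem x)).eq, mul_inv_cancel_right]
        exact zpow_mem hwfr x
      have haP : a ∈ P := by
        refine h.mem_of_mover hG R hβ hg (hS0P hpS) hgen ?_ ?_ (fun f hf _ => hafr f hf) hS0 hS0P
          hpS hrep'
        · have e : a * g * a⁻¹ * g⁻¹ = a * a * (a * h₀ * a⁻¹ * h₀⁻¹) * (a * a)⁻¹ := by
            rw [hgdef]; group
          rw [e]
          exact fr_conj_mem ha2 (hafr h₀ hh₀)
        · have e : p⁻¹ * (a * β * a⁻¹ * β⁻¹) = b * (a * f₀ * a⁻¹ * f₀⁻¹) * b⁻¹ := by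
            rw [hpdef, pow_zero, zpow_one, hβdef, uOf_eq h]; group
          rw [e]
          exact fr_conj_mem hbP (hafr f₀ hf₀)
      obtain ⟨i, e, f, hf, hae⟩ := hM a haP
      have h1 : a ^ (1 - 2 * i) * b ^ (-e) ∈ commutator G := by
        rw [← QuotientGroup.eq_one_iff]
        show QuotientGroup.mk' (commutator G) _ = 1
        have h2 := congrArg (QuotientGroup.mk' (commutator G)) hae
        rw [map_mul _ (a ^ (2 * i) * b ^ e), show QuotientGroup.mk' (commutator G) f = 1 from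
          (QuotientGroup.eq_one_iff f).mpr hf, mul_one, map_mul, map_zpow, map_zpow] at h2
        rw [map_mul, map_zpow, map_zpow, show (1 : ℤ) - 2 * i = -(2 * i) + 1 by ring, zpow_add,
          zpow_one, zpow_neg, zpow_neg]
        nth_rw 2 [h2]
        group
      have h3 := ((h.mem_iff _ _).mp h1).1
      have h4 : ((4 : ℕ) : ℤ) ∣ (n : ℤ) := Int.natCast_dvd_natCast.mpr h.four
      have := h4.trans h3
      push_cast at this
      omega
    · have hσ : uOf a b ^ ((2 : ℤ) ^ q) ∈ P := by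
        set σ := uOf a b ^ ((2 : ℤ) ^ q) with hσdef
        have hσA : σ ∈ commutator G := zpow_mem h.u_mem _
        have hsq : ∀ s : ℤ, wOf a b ^ (2 * (2 ^ q * s)) ∈ fr P := fun s => by
          rw [mul_comm 2, zpow_mul, zpow_two]
          exact sq_mem_fr hG (hwP _ s (by rw [pow_succ]; ring))
        refine h.mem_of_mover hG R hβ hg hq hgen ?_ ?_ (fun f hf _ => ?_) hS0 hS0P hpS hrep'
        · have e : σ * g * σ⁻¹ * g⁻¹ = σ * (g * σ * g⁻¹)⁻¹ := by group
          have e2 : g * σ * g⁻¹ = σ * wOf a b ^ (2 * (2 ^ q * t)) := by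
            have := hgact (2 ^ q) 0
            rw [zpow_zero, mul_one] at this
            rw [hσdef, this]; congr 2; ring
          rw [e, e2, mul_inv_rev, (h.commute (inv_mem (zpow_mem h.w_mem _)) (inv_mem hσA)).eq,
            mul_inv_cancel_left]
          exact inv_mem (hsq t)
        · have e : p⁻¹ * (σ * β * σ⁻¹ * β⁻¹) = p⁻¹ * (σ * (β * σ * β⁻¹)⁻¹) := by group
          have e2 : β * σ * β⁻¹ = σ⁻¹ * wOf a b ^ (2 * (2 ^ q * k)) := by
            have := hβact (2 ^ q) 0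
            rw [zpow_zero, mul_one] at this
            rw [hσdef, this]; congr 2; ring
          have hpσ : p = σ * σ := by rw [hpdef, hσdef, ← zpow_add, pow_succ, mul_two]
          rw [e, e2, mul_inv_rev, inv_inv, (h.commute (inv_mem (zpow_mem h.w_mem _)) hσA).eq,
            ← mul_assoc σ σ, hpσ, inv_mul_cancel_left]
          exact inv_mem (hsq k)
        · rw [(h.commute hσA hf).eq, mul_inv_cancel_right, mul_inv_cancel]
          exact one_mem _
      have := hqmin _ hσ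
      have h2 := Int.le_of_dvd (by positivity) this
      rw [pow_succ] at h2
      have : (0 : ℤ) < 2 ^ q := by positivity
      linarith
  by_cases hinv : ∀ s ∈ P, ∀ s' ∈ P, s * s' * s⁻¹ * s'⁻¹ * (s * s' * s⁻¹ * s'⁻¹) = 1
  · -- all commutators of `P` are involutions
    have hw2 : wOf a b ^ (2 : ℤ) = uOf a b ^ (4 * r) := by
      have he2 : e₁ * e₁ = 1 := hinv β hβ g hg
      rw [hwe, h.mul_zpow' (zpow_mem he₁A _) (zpow_mem h.u_mem _), ← zpow_mul, mul_comm i₀ 2,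
        zpow_mul, zpow_two e₁, he2, one_zpow, one_mul, ← zpow_mul, show 2 * r * 2 = 4 * r by ring]
    have hw4 : ∀ s : ℤ, wOf a b ^ (2 * (2 ^ q * s)) = p ^ (4 * r * s) := fun s => by
      rw [zpow_mul (wOf a b), hw2, hpdef, ← zpow_mul, ← zpow_mul]
      congr 1
      ring
    have hpg : g * p * g⁻¹ = p * p ^ (4 * r * t) := by
      have := hgact (2 ^ q) 0
      rw [zpow_zero, mul_one] at this
      rw [← hw4, hpdef, this]; congr 2; ring
    have hpβ : β * p * β⁻¹ = p⁻¹ * p ^ (4 * r * k) := by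
      have := hβact (2 ^ q) 0
      rw [zpow_zero, mul_one] at this
      rw [← hw4, hpdef, this]; congr 2; ring
    have hp4 : p ^ (4 : ℤ) = 1 := by
      have h1 := hinv β hβ p hq
      rw [hpβ, show p⁻¹ * p ^ (4 * r * k) * p⁻¹ * (p⁻¹ * p ^ (4 * r * k) * p⁻¹) =
        p ^ ((4 : ℤ) * (2 * r * k - 1)) by group] at h1
      refine eq_one_of_zpow_odd hG (m := 2 * r * k - 1) ⟨r * k - 1, by ring⟩ ?_
      rwa [← zpow_mul]
    have hp4' : ∀ s : ℤ, p ^ (4 * r * s) = 1 := fun s => by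
      rw [mul_assoc, zpow_mul, hp4, one_zpow]
    rw [hp4', mul_one] at hpg hpβ
    have hgp : Commute g p := mul_inv_eq_iff_eq_mul.mp hpg
    have hge : Commute g e₁ := by
      obtain ⟨x, y, hxy⟩ := h.exists_repr hG he₁A
      have he2 : e₁ * e₁ = 1 := hinv β hβ g hg
      rw [hxy] at he2
      have hw0 := h.w_zpow_eq_one_of_sq hG he2
      refine mul_inv_eq_iff_eq_mul.mp ?_
      rw [hxy, hgact, show 2 * t * x = 2 * x * t by ring, zpow_mul, hw0, one_zpow, mul_one]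
    have hgD : ∀ f ∈ commutator G, f ∈ P → Commute g f := by
      intro f hf hfP
      obtain ⟨i, j, rfl⟩ := hD f hf hfP
      refine (hge.zpow_right i).mul_right ?_
      rw [zpow_mul]
      exact hgp.zpow_right j
    have hcomm : ∀ (i : ℤ) (d : G), d ∈ commutator G → d ∈ P →
        g ^ i * β * d * g * (g ^ i * β * d)⁻¹ * g⁻¹ = e₁ := by
      intro i d hdA hdP
      rw [show g ^ i * β * d * g * (g ^ i * β * d)⁻¹ * g⁻¹ =
        g ^ i * (β * (d * g * d⁻¹) * β⁻¹ * g⁻¹) * (g ^ i)⁻¹ by group, ← (hgD d hdA hdP).eq,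
        mul_inv_cancel_right, ← he₁, (hge.zpow_left i).eq, mul_inv_cancel_right]
    have he1ne : e₁ ∉ sqSub G := fun he => h.top (by
      have := mul_mem he (inv_mem ho)
      rwa [mul_inv_rev, inv_inv, mul_inv_cancel_left] at this)
    by_cases hp2 : p * p = 1
    · -- `p` is central in `P`
      refine ⟨{x | x ∈ P ∧ ∀ y ∈ P, x * y = y * x}, ?_, fun x hx => hx.1, ?_, ?_⟩
      · intro φ _ x hx
        refine ⟨SetLike.coe_mem _, fun y hy => ?_⟩
        have := congrArg φ (Subtype.ext (hx.2 _ (φ⁻¹ ⟨y, hy⟩).2) :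
          x * φ⁻¹ ⟨y, hy⟩ = φ⁻¹ ⟨y, hy⟩ * x)
        rw [map_mul, map_mul, MulAut.apply_inv_self] at this
        exact congrArg Subtype.val this
      · refine ⟨hq, fun y hy => ?_⟩
        obtain ⟨i, d, hdA, hdP, rfl | rfl⟩ := hrep y hy
        · exact (((hgp.zpow_left i).symm).mul_right (h.commute hpA hdA)).eq
        · have hb : Commute p β := by
            refine (mul_inv_eq_iff_eq_mul.mp ?_ : β * p = p * β).symm
            rw [hpβ, inv_eq_of_mul_eq_one_left hp2]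
          exact ((((hgp.zpow_left i).symm).mul_right hb).mul_right (h.commute hpA hdA)).eq
      · intro i d hdA hdP hx
        have h1 := hcomm i d hdA hdP
        rw [hx.2 g hg, mul_inv_cancel_right, mul_inv_cancel] at h1
        exact he1ne (h1 ▸ one_mem _)
    · -- the nontrivial commutators with `p` all agree
      refine ⟨{x | x ∈ P ∧ ∀ s ∈ P, ∀ s' ∈ P, x * s * x⁻¹ * s⁻¹ ≠ 1 → x * s' * x⁻¹ * s'⁻¹ ≠ 1 →
        x * s * x⁻¹ * s⁻¹ = x * s' * x⁻¹ * s'⁻¹}, ?_, fun x hx => hx.1, ?_, ?_⟩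
      · intro φ _ x hx
        refine ⟨SetLike.coe_mem _, fun s hs s' hs' h1 h2 => ?_⟩
        have key : ∀ y : P, ((φ x : P) : G) * y * ((φ x : P) : G)⁻¹ * (y : G)⁻¹ =
            (φ ⟨(x : G) * (φ⁻¹ y : P) * (x : G)⁻¹ * ((φ⁻¹ y : P) : G)⁻¹,
              (x * φ⁻¹ y * x⁻¹ * (φ⁻¹ y)⁻¹).2⟩ : P) := by
          intro y
          have : φ (x * φ⁻¹ y * x⁻¹ * (φ⁻¹ y)⁻¹) = φ x * y * (φ x)⁻¹ * y⁻¹ := by
            rw [map_mul, map_mul, map_mul, map_inv, map_inv, MulAut.apply_inv_self]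
          exact (congrArg Subtype.val this).symm
        have h1' : (x : G) * (φ⁻¹ ⟨s, hs⟩ : P) * (x : G)⁻¹ * ((φ⁻¹ ⟨s, hs⟩ : P) : G)⁻¹ ≠ 1 := by
          intro h0
          refine h1 ?_
          rw [key ⟨s, hs⟩]
          simp only [h0]
          exact congrArg Subtype.val (map_one φ)
        have h2' : (x : G) * (φ⁻¹ ⟨s', hs'⟩ : P) * (x : G)⁻¹ * ((φ⁻¹ ⟨s', hs'⟩ : P) : G)⁻¹ ≠ 1 := by
          intro h0
          refine h2 ?_
          rw [key ⟨s', hs'⟩]
          simp only [h0]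
          exact congrArg Subtype.val (map_one φ)
        rw [key ⟨s, hs⟩, key ⟨s', hs'⟩]
        simp only [hx.2 _ (φ⁻¹ ⟨s, hs⟩).2 _ (φ⁻¹ ⟨s', hs'⟩).2 h1' h2']
      · have hval : ∀ s ∈ P, p * s * p⁻¹ * s⁻¹ = 1 ∨ p * s * p⁻¹ * s⁻¹ = p * p := by
          intro s hs
          obtain ⟨i, d, hdA, hdP, rfl | rfl⟩ := hrep s hs
          · left
            rw [(((hgp.zpow_left i).symm).mul_right (h.commute hpA hdA)).eq, mul_inv_cancel_right,
              mul_inv_cancel]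
          · right
            rw [show p * (g ^ i * β * d) * p⁻¹ * (g ^ i * β * d)⁻¹ =
              p * (g ^ i * (β * (d * p⁻¹ * d⁻¹) * β⁻¹) * (g ^ i)⁻¹) by group,
              (h.commute hdA (inv_mem hpA)).eq, mul_inv_cancel_right, ← conj_inv, hpβ, inv_inv,
              (hgp.zpow_left i).eq, mul_inv_cancel_right]
        refine ⟨hq, fun s hs s' hs' h1 h2 => ?_⟩
        rw [(hval s hs).resolve_left h1, (hval s' hs').resolve_left h2]
      · intro i d hdA hdP hx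
        have h1 := hcomm i d hdA hdP
        have h2 : g ^ i * β * d * p * (g ^ i * β * d)⁻¹ * p⁻¹ = p⁻¹ * p⁻¹ := by
          rw [show g ^ i * β * d * p * (g ^ i * β * d)⁻¹ * p⁻¹ =
            g ^ i * (β * (d * p * d⁻¹) * β⁻¹) * (g ^ i)⁻¹ * p⁻¹ by group,
            (h.commute hdA hpA).eq, mul_inv_cancel_right, hpβ, (hgp.inv_right.zpow_left i).eq,
            mul_inv_cancel_right]
        have hne : p⁻¹ * p⁻¹ ≠ 1 := fun e => hp2 (by
          rw [← mul_inv_rev, inv_eq_one] at e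
          exact e)
        have := hx.2 g hg p hq (by rw [h1]; exact fun e => he1ne (e ▸ one_mem _))
          (by rw [h2]; exact hne)
        rw [h1, h2] at this
        exact he1ne (this ▸ sq_mem_sqSub (inv_mem hpA))
  · -- some commutator of `P` has order more than two
    simp only [not_forall] at hinv
    obtain ⟨s, hs, s', hs', hc⟩ := hinv
    refine ⟨{x | x ∈ P ∧ ∀ y ∈ P, ∀ y' ∈ P,
      x * (y * y' * y⁻¹ * y'⁻¹) = y * y' * y⁻¹ * y'⁻¹ * x}, ?_, fun x hx => hx.1, ?_, ?_⟩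
    · intro φ _ x hx
      refine ⟨SetLike.coe_mem _, fun y hy y' hy' => ?_⟩
      have h1 : x * (φ⁻¹ ⟨y, hy⟩ * φ⁻¹ ⟨y', hy'⟩ * (φ⁻¹ ⟨y, hy⟩)⁻¹ * (φ⁻¹ ⟨y', hy'⟩)⁻¹) =
          φ⁻¹ ⟨y, hy⟩ * φ⁻¹ ⟨y', hy'⟩ * (φ⁻¹ ⟨y, hy⟩)⁻¹ * (φ⁻¹ ⟨y', hy'⟩)⁻¹ * x :=
        Subtype.ext (hx.2 _ (φ⁻¹ ⟨y, hy⟩).2 _ (φ⁻¹ ⟨y', hy'⟩).2)
      have h2 := congrArg φ h1
      simp only [map_mul, map_inv, MulAut.apply_inv_self] at h2
      exact congrArg Subtype.val h2
    · exact ⟨hq, fun y _ y' _ => (h.commute hpA (comm_mem y y')).eq⟩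
    · intro i d hdA hdP hx
      obtain ⟨K, hK⟩ := h.exists_twist hG i
      obtain ⟨x, y, hxy⟩ := h.exists_repr hG (comm_mem s s')
      refine hc ?_
      rw [hxy] at hc ⊢
      set c := uOf a b ^ x * (a ^ n) ^ y with hcdef
      have hcA : c ∈ commutator G := mul_mem (zpow_mem h.u_mem x) (zpow_mem h.pow_mem y)
      have hfix : g ^ i * β * d * c * (g ^ i * β * d)⁻¹ = c := by
        have := hx.2 s hs s' hs'
        rw [hxy] at this
        rw [this, mul_inv_cancel_right]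
      have hga : (a ^ (2 * i))⁻¹ * g ^ i ∈ commutator G := by
        rw [← QuotientGroup.eq_one_iff]
        show QuotientGroup.mk' (commutator G) _ = 1
        rw [map_mul, map_inv, map_zpow, map_zpow, hgdef, map_mul _ (a * a),
          show QuotientGroup.mk' (commutator G) h₀ = 1 from (QuotientGroup.eq_one_iff h₀).mpr hh₀,
          mul_one, map_mul, zpow_mul, zpow_two, inv_mul_cancel]
      have hβc : β * c * β⁻¹ ∈ commutator G := hn.conj_mem c hcA β
      have hbc : β * c * β⁻¹ = b * c * b⁻¹ := by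
        rw [hβdef, show b * f₀ * c * (b * f₀)⁻¹ = b * (f₀ * c * f₀⁻¹) * b⁻¹ by group,
          (h.commute hf₀ hcA).eq, mul_inv_cancel_right]
      refine h.sq_eq_one_of_twist_fixed hG (K := K) (x := x) (y := y) ?_
      rw [← hK x y, ← hcdef]
      conv_rhs => rw [← hfix]
      rw [show g ^ i * β * d * c * (g ^ i * β * d)⁻¹ = a ^ (2 * i) *
        ((a ^ (2 * i))⁻¹ * g ^ i * (β * (d * c * d⁻¹) * β⁻¹) * ((a ^ (2 * i))⁻¹ * g ^ i)⁻¹) *
          (a ^ (2 * i))⁻¹ by group, (h.commute hdA hcA).eq, mul_inv_cancel_right,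
        (h.commute hga hβc).eq, mul_inv_cancel_right, hbc]

end CfsgLib.FusionBicyclic.Data
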