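import Cfsg.Agent.Lib.FusionBicyclic.Setup

/-!
No radical subgroup `P ≤ ⟨g⟩ S'` contains an element `g` outside `Φ(S)` of infinite type: the
kernel of `x ↦ x ^ e` modulo the squares of `P'` is an invariant maximal subgroup, and the next
element of the derived subgroup (or `b`) acts trivially on the two layers.
-/

set_option autoImplicit false
set_option linter.unusedSectionVars false
set_option linter.style.haveILetI false

namespace CfsgLib.FusionBicyclic

/-- If the commutator of `X` and `Y` is a central involution, fourth powers multiply. -/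
theorem mul_pow_of_four_dvd {H : Type*} [Group H] {X Y c : H} (hYX : Y * X = X * Y * c)
    (hcX : Commute c X) (hcY : Commute c Y) (hc2 : c * c = 1) {e : ℕ} (he : 4 ∣ e) :
    (X * Y) ^ e = X ^ e * Y ^ e := by
  have hY2 : Commute (Y * Y) X :=
    calc Y * Y * X = Y * (Y * X) := mul_assoc _ _ _
      _ = Y * (X * Y * c) := by rw [hYX]
      _ = Y * X * (Y * c) := by simp only [mul_assoc]
      _ = X * Y * (c * (Y * c)) := by rw [hYX]; simp only [mul_assoc]
      _ = X * (Y * Y) := by rw [← mul_assoc c, hcY.eq, mul_assoc Y, hc2, mul_one, mul_assoc]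
  have hsq : X * Y * (X * Y) = X * X * (Y * Y) * c :=
    calc X * Y * (X * Y) = X * (Y * X) * Y := by simp only [mul_assoc]
      _ = X * X * (Y * (c * Y)) := by rw [hYX]; simp only [mul_assoc]
      _ = X * X * (Y * Y) * c := by rw [hcY.eq]; simp only [mul_assoc]
  have hXY : Commute (X * X) (Y * Y) := (hY2.symm.mul_left hY2.symm)
  have h4 : (X * Y) ^ 4 = X ^ 4 * Y ^ 4 := by
    have hc : Commute (X * X * (Y * Y)) c := ((hcX.mul_right hcX).mul_right (hcY.mul_right hcY)).symm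
    rw [show (4 : ℕ) = 2 * 2 from rfl, pow_mul, pow_mul, pow_mul, sq (X * Y), hsq, hc.mul_pow,
      sq c, hc2, mul_one, hXY.mul_pow, sq X, sq Y]
  have hc4 : Commute (X ^ 4) (Y ^ 4) := by
    rw [show (4 : ℕ) = 2 * 2 from rfl, pow_mul, pow_mul, sq X, sq Y]
    exact hXY.pow_pow _ _
  obtain ⟨k, rfl⟩ := he
  rw [pow_mul, h4, hc4.mul_pow, ← pow_mul, ← pow_mul]

variable {G : Type*} [Group G] {g b : G} {n : ℕ}

/-- A cyclic subgroup moved into itself by both generators is normal. -/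
theorem normal_zpowers_of_gen [Finite G] (hgen : Subgroup.closure ({g, b} : Set G) = ⊤) {c : G}
    (hg : ∃ i : ℤ, g * c * g⁻¹ = c ^ i) (hb : ∃ i : ℤ, b * c * b⁻¹ = c ^ i) :
    (Subgroup.zpowers c).Normal := by
  rw [← Subgroup.normalizer_eq_top_iff, eq_top_iff, ← hgen, Subgroup.closure_le]
  rintro x (rfl | rfl) <;> refine Subgroup.mem_normalizer_fintype fun k hk => ?_ <;>
    obtain ⟨j, rfl⟩ := Subgroup.mem_zpowers_iff.mp hk <;> rw [← conj_zpow]
  · obtain ⟨i, hi⟩ := hg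
    rw [hi, ← zpow_mul]
    exact Subgroup.zpow_mem_zpowers _ _
  · obtain ⟨i, hi⟩ := hb
    rw [hi, ← zpow_mul]
    exact Subgroup.zpow_mem_zpowers _ _

namespace Data

/-- The radical subgroup cannot be `⟨g⟩ (P ∩ S')`. -/
theorem false_of_odd (h : Data g b n) [Finite G] (hG : IsPGroup 2 G) {P : Subgroup G}
    {Δ : Subgroup (MulAut P)} (R : Rad P Δ) (hg : g ∈ P)
    (hP : ∀ x ∈ P, ∃ i : ℤ, ∃ f ∈ commutator G, x = g ^ i * f) : False := by
  classical
  haveI : Fact (Nat.Prime 2) := ⟨Nat.prime_two⟩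
  haveI hAn : (commutator G).Normal := inferInstance
  obtain ⟨l, m, hl, -, hlm⟩ := h.exists_conj hG
  obtain ⟨hwe, hgw⟩ := h.conj_w hG hlm
  set u := uOf g b with hu
  set z := g ^ n with hz
  set w := wOf g b with hw
  have hzP : z ∈ P := P.pow_mem hg n
  have ho : (g ^ n)⁻¹ * z ∈ sqSub G := by rw [inv_mul_cancel]; exact one_mem _
  obtain ⟨q, hpP, hlev, hD⟩ := h.exists_level hG ho hzP
  set N : ℤ := 2 ^ q with hN
  have hdec : ∀ x ∈ P, ∃ (i : ℤ) (f : G), f ∈ commutator G ∧ f ∈ P ∧ x = g ^ i * f := by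
    intro x hx
    obtain ⟨i, f, hf, rfl⟩ := hP x hx
    refine ⟨i, f, hf, ?_, rfl⟩
    have := P.mul_mem (P.inv_mem (P.zpow_mem hg i)) hx
    rwa [inv_mul_cancel_left] at this
  -- `[g, p] = w ^ N` for `p = u ^ N`
  have hga : ∀ x y : ℤ, g * (u ^ x * z ^ y) * g⁻¹ = u ^ x * z ^ y * w ^ x := h.conj_a hG
  have hgp : g * u ^ N * g⁻¹ = u ^ N * w ^ N := by simpa using hga N 0
  have hwN : w ^ N ∈ fr P := by
    have hc := comm_mem_fr hG hg hpP
    rw [hgp, (h.commute (zpow_mem h.u_mem N) (zpow_mem h.w_mem N)).eq, mul_inv_cancel_right] at hc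
    exact hc
  -- the commutators of `P`
  have hWn : ∀ i : ℤ, (Subgroup.zpowers (w ^ i)).Normal := fun i => by
    obtain ⟨c, hc⟩ := h.exists_conj_b_w hG
    refine normal_zpowers_of_gen h.gen ⟨l, ?_⟩ ⟨c, ?_⟩
    · rw [← conj_zpow, hgw, ← zpow_mul, ← zpow_mul, mul_comm]
    · rw [← conj_zpow, hc, ← zpow_mul, ← zpow_mul, mul_comm]
  haveI hW1 := hWn N
  haveI hW2 := hWn 2
  have hW : ∀ x ∈ P, ∀ y ∈ P, x * y * x⁻¹ * y⁻¹ ∈ Subgroup.zpowers (w ^ N) := by
    set π₁ := QuotientGroup.mk' (Subgroup.zpowers (w ^ N))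
    have hgf : ∀ f ∈ commutator G, f ∈ P → Commute (π₁ g) (π₁ f) := by
      intro f hf hfP
      obtain ⟨i, j, rfl⟩ := hD f hf hfP
      have h1 : g * (z ^ i * u ^ (N * j)) * g⁻¹ = z ^ i * u ^ (N * j) * (w ^ N) ^ j := by
        rw [(h.commute (zpow_mem h.pow_mem i) (zpow_mem h.u_mem _)).eq, hga, zpow_mul w]
      have h2 : π₁ (g * (z ^ i * u ^ (N * j)) * g⁻¹) = π₁ (z ^ i * u ^ (N * j)) := by
        rw [h1, map_mul π₁ _ ((w ^ N) ^ j), show π₁ ((w ^ N) ^ j) = 1 from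
          (QuotientGroup.eq_one_iff _).mpr (Subgroup.zpow_mem_zpowers _ _), mul_one]
      rw [map_mul, map_mul π₁ g, map_inv] at h2
      exact mul_inv_eq_iff_eq_mul.mp h2
    intro x hx y hy
    obtain ⟨i, f, hf, hfP, rfl⟩ := hdec x hx
    obtain ⟨j, f', hf', hf'P, rfl⟩ := hdec y hy
    have hcomm : Commute (π₁ (g ^ i * f)) (π₁ (g ^ j * f')) := by
      rw [map_mul, map_mul, map_zpow, map_zpow]
      exact ((Commute.zpow_zpow_self _ i j).mul_right ((hgf f' hf' hf'P).zpow_left i)).mul_left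
        (((hgf f hf hfP).zpow_left j).symm.mul_right ((h.commute hf hf').map π₁))
    rw [← QuotientGroup.eq_one_iff]
    show π₁ _ = 1
    rw [map_mul, map_mul, map_mul, map_inv, map_inv, hcomm.eq, mul_inv_cancel_right, mul_inv_cancel]
  -- their squares
  set K0 := Subgroup.zpowers (w ^ (2 * N)) with hK0
  have hK0sq : K0 ≤ sqSub G := by
    rw [hK0, Subgroup.zpowers_le, two_mul, zpow_add]
    exact sq_mem_sqSub (zpow_mem h.w_mem N)
  haveI hK0n : K0.Normal := hWn _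
  have hK0s : Stable Δ (K0 : Set G) := by
    set T : Set G := {c | ∃ x ∈ P, ∃ y ∈ P, c = x * y * x⁻¹ * y⁻¹ * (x * y * x⁻¹ * y⁻¹)} with hT
    have hTP : T ⊆ P := by
      rintro _ ⟨x, hx, y, hy, rfl⟩
      have := P.mul_mem (P.mul_mem (P.mul_mem hx hy) (P.inv_mem hx)) (P.inv_mem hy)
      exact P.mul_mem this this
    have hTs : Stable Δ T := by
      rintro φ - c ⟨x, hx, y, hy, hc⟩
      refine ⟨_, (φ ⟨x, hx⟩).2, _, (φ ⟨y, hy⟩).2, ?_⟩
      have hc' : c = (⟨x, hx⟩ * ⟨y, hy⟩ * ⟨x, hx⟩⁻¹ * ⟨y, hy⟩⁻¹ *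
          (⟨x, hx⟩ * ⟨y, hy⟩ * ⟨x, hx⟩⁻¹ * ⟨y, hy⟩⁻¹) : P) := Subtype.ext hc
      rw [hc']
      simp only [map_mul, map_inv, Subgroup.coe_mul, Subgroup.coe_inv]
    have hcl : Subgroup.closure T = K0 := by
      refine le_antisymm ((Subgroup.closure_le _).mpr ?_) (Subgroup.zpowers_le.mpr ?_)
      · rintro _ ⟨x, hx, y, hy, rfl⟩
        obtain ⟨i, hi⟩ := Subgroup.mem_zpowers_iff.mp (hW x hx y hy)
        rw [← hi, ← zpow_add, ← zpow_mul, show N * (i + i) = 2 * N * i by ring, zpow_mul]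
        exact Subgroup.zpow_mem_zpowers _ _
      · refine Subgroup.subset_closure ⟨g, hg, u ^ N, hpP, ?_⟩
        rw [hgp, (h.commute (zpow_mem h.u_mem N) (zpow_mem h.w_mem N)).eq, mul_inv_cancel_right,
          ← zpow_add, two_mul]
    rw [← hcl]
    exact hTs.closure hTP
  set π := QuotientGroup.mk' K0
  have hπw : ∀ i : ℤ, π (w ^ (2 * N * i)) = 1 := fun i =>
    (QuotientGroup.eq_one_iff _).mpr (by rw [zpow_mul]; exact Subgroup.zpow_mem_zpowers _ _)
  -- the order of `g` modulo `K0`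
  obtain ⟨r, hr2, hnr⟩ := h.exists_pow_two hG
  obtain ⟨t, ht⟩ := IsPGroup.iff_orderOf.mp (hG.to_quotient K0) (π g)
  have hord : ∀ i : ℤ, π g ^ i = 1 ↔ ((2 ^ t : ℕ) : ℤ) ∣ i := fun i => by
    rw [← ht]; exact orderOf_dvd_iff_zpow_eq_one.symm
  have hgA : g ^ ((2 ^ t : ℕ) : ℤ) ∈ K0 := by
    rw [← QuotientGroup.eq_one_iff]
    exact (map_zpow π g _).trans ((hord _).mpr dvd_rfl)
  have hrt : r < t := by
    have hdvd : (n : ℤ) ∣ ((2 ^ t : ℕ) : ℤ) :=
      ((h.mem_iff _ 0).mp (by rw [zpow_zero, mul_one]; exact sqSub_le (hK0sq hgA))).1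
    rw [hnr] at hdvd
    refine lt_of_le_of_ne ((Nat.pow_dvd_pow_iff_le_right (show 1 < 2 by norm_num)).mp
      (by exact_mod_cast hdvd)) fun he => h.top ?_
    rw [hnr, he, ← zpow_natCast]
    exact hK0sq hgA
  obtain ⟨s, rfl⟩ : ∃ s, t = r + 1 + s := ⟨t - (r + 1), by omega⟩
  set e : ℕ := 2 ^ (r + s) with he
  have h4e : 4 ∣ e := by
    rw [he, show (4 : ℕ) = 2 ^ 2 from rfl]; exact pow_dvd_pow 2 (by omega)
  have hde : ((2 ^ (r + 1 + s) : ℕ) : ℤ) = 2 * (e : ℤ) := by rw [he]; push_cast; ring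
  have hge : ∀ i : ℤ, π g ^ (i * e) = 1 ↔ Even i := fun i => by
    rw [hord, hde, even_iff_two_dvd, mul_dvd_mul_iff_right (by positivity : (e : ℤ) ≠ 0)]
  -- `p ^ e ∈ K0`
  have hzpow : ∀ i : ℤ, π (z ^ (2 * 2 ^ s * i)) = 1 := fun i => by
    rw [hz, ← zpow_natCast g n, ← zpow_mul, map_zpow, hord, hnr]
    exact ⟨i, by push_cast; ring⟩
  have hfe : ∀ f ∈ commutator G, f ∈ P → π f ^ e = 1 := by
    intro f hf hfP
    obtain ⟨i, j, rfl⟩ := hD f hf hfP
    obtain ⟨_, ⟨A, rfl⟩, B', hB', hAB⟩ :=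
      Subgroup.mem_sup_of_normal_right.mp
        (show u ^ (n : ℤ) ∈ Subgroup.zpowers (z ^ (2 : ℤ)) ⊔
            (Subgroup.zpowers (w ^ (2 : ℤ)) : Subgroup G) from h.pow_n_mem hG)
    obtain ⟨B, rfl⟩ := hB'
    simp only at hAB
    rw [← map_pow, ← zpow_natCast, h.mul_zpow' (zpow_mem h.pow_mem i) (zpow_mem h.u_mem _),
      ← zpow_mul, ← zpow_mul, map_mul]
    have h1 : π (z ^ (i * (e : ℤ))) = 1 := by
      rw [hz, ← zpow_natCast g n, ← zpow_mul, map_zpow, hord, hnr, he]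
      obtain ⟨r', rfl⟩ := Nat.exists_eq_add_of_le hr2
      exact ⟨2 ^ (r' + 1) * i, by push_cast; ring⟩
    have h2 : π (u ^ (N * j * (e : ℤ))) = 1 := by
      rw [show N * j * (e : ℤ) = (n : ℤ) * (2 ^ s * N * j) by rw [he, hnr]; push_cast; ring,
        zpow_mul, ← hAB, h.mul_zpow' (zpow_mem (zpow_mem h.pow_mem _) _) (zpow_mem (zpow_mem h.w_mem _) _),
        ← zpow_mul, ← zpow_mul, ← zpow_mul, ← zpow_mul, map_mul,
        show 2 * (A * (2 ^ s * N * j)) = 2 * 2 ^ s * (A * N * j) by ring,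
        show 2 * (B * (2 ^ s * N * j)) = 2 * N * (B * 2 ^ s * j) by ring, hzpow, hπw, one_mul]
    rw [h1, h2, one_mul]
  -- the `e`-th power map
  have hcent : ∀ c ∈ Subgroup.zpowers (w ^ N), ∀ x ∈ P, Commute (π c) (π x) ∧ π c * π c = 1 := by
    intro c hc x hx
    obtain ⟨k, rfl⟩ := Subgroup.mem_zpowers_iff.mp hc
    refine ⟨?_, ?_⟩
    · obtain ⟨i, f, hf, -, rfl⟩ := hdec x hx
      rw [map_zpow π (w ^ N) k, map_mul π (g ^ i) f, map_zpow π g i]
      refine ((Commute.zpow_right ?_ i).mul_right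
        ((h.commute (zpow_mem h.w_mem N) hf).map π)).zpow_left k
      obtain ⟨l', hl'⟩ := hl
      have h1 : g * w ^ N * g⁻¹ = w ^ N * w ^ (2 * N * l') := by
        rw [← conj_zpow, hgw, ← zpow_mul, ← zpow_add, hl']; ring_nf
      have h2 : π (g * w ^ N * g⁻¹) = π (w ^ N) := by rw [h1, map_mul, hπw, mul_one]
      rw [map_mul, map_mul, map_inv] at h2
      exact (mul_inv_eq_iff_eq_mul.mp h2).symm
    · rw [← map_mul, ← zpow_add, ← zpow_mul, show N * (k + k) = 2 * N * k by ring, hπw]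
  let Θ : P →* G ⧸ K0 := MonoidHom.mk' (fun x => π x ^ e) fun x y => by
    show π ((x : G) * y) ^ e = π x ^ e * π y ^ e
    have hc := hW _ (P.inv_mem y.2) _ (P.inv_mem x.2)
    rw [inv_inv, inv_inv] at hc
    rw [map_mul]
    refine mul_pow_of_four_dvd (c := π ((y : G)⁻¹ * (x : G)⁻¹ * y * x)) ?_ (hcent _ hc _ x.2).1
      (hcent _ hc _ y.2).1 (hcent _ hc _ x.2).2 h4e
    rw [← map_mul, ← map_mul, ← map_mul]
    congr 1
    group
  have hΘ : ∀ x : P, Θ x = π x ^ e := fun _ => rfl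
  have hΘv : ∀ (i : ℤ) (f : G) (hx : g ^ i * f ∈ P), f ∈ commutator G →
      Θ ⟨g ^ i * f, hx⟩ = π g ^ (i * e) := by
    intro i f hx hf
    have hfP : f ∈ P := by
      have := P.mul_mem (P.inv_mem (P.zpow_mem hg i)) hx
      rwa [inv_mul_cancel_left] at this
    rw [show (⟨g ^ i * f, hx⟩ : P) = ⟨g ^ i, P.zpow_mem hg i⟩ * ⟨f, hfP⟩ from rfl, map_mul, hΘ, hΘ,
      hfe f hf hfP, mul_one, map_zpow, zpow_mul, zpow_natCast]
  set Y := Θ.ker.map P.subtype with hY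
  have hYP : Y ≤ P := Subgroup.map_subtype_le _
  have hmemY : ∀ x (hx : x ∈ P), x ∈ Y ↔ Θ ⟨x, hx⟩ = 1 := fun x hx =>
    Subgroup.mem_map_iff_mem P.subtype_injective (x := (⟨x, hx⟩ : P))
  have hAY : ∀ f ∈ commutator G, f ∈ P → f ∈ Y := fun f hf hfP => by
    rw [hmemY f hfP, hΘ]; exact hfe f hf hfP
  have hYs : Stable Δ (Y : Set G) := by
    intro φ hφ x hx
    have hk : ((x ^ e : P) : G) ∈ K0 := by
      rw [SubmonoidClass.coe_pow, ← QuotientGroup.eq_one_iff]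
      exact (map_pow π _ _).trans ((hmemY _ x.2).mp hx)
    have hk' := hK0s φ hφ (x ^ e) hk
    rw [map_pow, SubmonoidClass.coe_pow] at hk'
    rw [SetLike.mem_coe, hmemY _ (φ x).2, hΘ, ← map_pow]
    exact (QuotientGroup.eq_one_iff _).mpr hk'
  have hYfr : fr P ≤ Y := by
    refine Subgroup.map_mono (CfsgLib.PGroups.frattini_le_of (p := 2) ?_ fun x => ?_)
    · rw [commutator_def, Subgroup.commutator_le]
      intro x _ y _
      obtain ⟨i, f, hf, -, hxe⟩ := hdec x x.2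
      obtain ⟨j, f', hf', -, hye⟩ := hdec y y.2
      have hx' : Θ x = π g ^ (i * e) := by
        rw [← hΘv i f (hxe ▸ x.2) hf]; congr 1; exact Subtype.ext hxe
      have hy' : Θ y = π g ^ (j * e) := by
        rw [← hΘv j f' (hye ▸ y.2) hf']; congr 1; exact Subtype.ext hye
      rw [MonoidHom.mem_ker, map_commutatorElement, hx', hy',
        commutatorElement_eq_one_iff_commute]
      exact Commute.zpow_zpow_self _ _ _
    · obtain ⟨i, f, hf, -, hxe⟩ := hdec x x.2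
      have hx' : Θ x = π g ^ (i * e) := by
        rw [← hΘv i f (hxe ▸ x.2) hf]; congr 1; exact Subtype.ext hxe
      rw [MonoidHom.mem_ker, map_pow, hx', ← zpow_natCast, ← zpow_mul,
        show i * e * ((2 : ℕ) : ℤ) = 2 * i * e by push_cast; ring, hge]
      exact even_two_mul i
  have hYeven : ∀ y ∈ Y, ∃ j : ℤ, ∃ f ∈ commutator G, f ∈ P ∧ y = g ^ (2 * j) * f := by
    intro y hy
    obtain ⟨i, f, hf, hfP, rfl⟩ := hdec y (hYP hy)
    have h1 := (hmemY _ (hYP hy)).mp hy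
    rw [hΘv i f _ hf, hge] at h1
    obtain ⟨j, rfl⟩ := h1
    exact ⟨j, f, hf, hfP, by rw [two_mul]⟩
  rcases Nat.eq_zero_or_pos q with hq | hq
  · -- the derived subgroup lies in `P`
    have hA : ∀ f ∈ commutator G, f ∈ P := by
      intro f hf
      obtain ⟨i, x, rfl⟩ := h.exists_repr' hG ho hf
      rw [hN, hq, pow_zero, zpow_one] at hpP
      exact P.mul_mem (P.zpow_mem hzP i) (P.zpow_mem hpP x)
    have hbP : b ∉ P := by
      intro hb
      obtain ⟨i, f, hf, hbe⟩ := hP b hb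
      have h1 : g ^ (-i) * b ^ (1 : ℤ) ∈ commutator G := by
        rw [zpow_neg, zpow_one, hbe, inv_mul_cancel_left]
        exact hf
      exact absurd ((h.mem_iff _ _).mp h1).2 (by norm_num)
    refine hbP (R.mem_of_trivial hG hYs hYfr hYP (fun x _ => hAY _ (comm_mem b x) (hA _ (comm_mem b x)))
      fun y hy => ?_)
    obtain ⟨j, f, hf, hfP, rfl⟩ := hYeven y hy
    have hg2 : g * g ∈ fr P := sq_mem_fr hG hg
    have huP : u ∈ P := hA _ h.u_mem
    have hwfr : w ∈ fr P := by rw [hw, wOf]; exact comm_mem_fr hG hg huP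
    have hbg2 : b * (g * g) * b⁻¹ ∈ fr P := by
      have e1 : b * (g * g) * b⁻¹ = (g * u * g⁻¹ * u)⁻¹ * (g * g) := by
        rw [hu, uOf]; simp [mul_assoc]
      have e2 : g * u * g⁻¹ * u = w * (u * u) := by
        rw [hw, wOf, mul_assoc (g * uOf g b * g⁻¹)]
        simp [hu, mul_assoc]
      rw [e1, e2]
      exact mul_mem (inv_mem (mul_mem hwfr (sq_mem_fr hG huP))) hg2
    have hgj : g ^ (2 * j) = (g * g) ^ j := by rw [zpow_mul, zpow_two]
    obtain ⟨x, y, rfl⟩ := h.exists_repr hG hf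
    obtain ⟨k, hk⟩ := h.exists_conj_b hG
    set f := u ^ x * z ^ y with hfdef
    have e3 : b * (g ^ (2 * j) * f) * b⁻¹ * (g ^ (2 * j) * f)⁻¹ =
        (b * (g * g) * b⁻¹) ^ j * (b * f * b⁻¹ * f⁻¹) * ((g * g) ^ j)⁻¹ := by
      rw [conj_zpow, ← hgj]; group
    have e4 : b * f * b⁻¹ * f⁻¹ = w ^ (2 * (k * x)) * f ^ (2 * (-1) : ℤ) := by
      rw [show b * f * b⁻¹ = f⁻¹ * w ^ (2 * k * x) from hk x y,
        (h.commute (inv_mem hf) (zpow_mem h.w_mem _)).eq, mul_assoc, mul_assoc (2 : ℤ) k x,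
        show f ^ (2 * (-1) : ℤ) = f⁻¹ * f⁻¹ by rw [mul_comm (2 : ℤ) (-1), zpow_mul, zpow_neg_one, zpow_two]]
    rw [e3, e4]
    exact mul_mem (mul_mem (zpow_mem hbg2 j) (mul_mem (zpow_even_mem_fr hG (fr_le P hwfr) _)
      (zpow_even_mem_fr hG hfP _))) (inv_mem (zpow_mem hg2 j))
  · -- `u ^ (N / 2)` acts trivially on both layers
    obtain ⟨q, rfl⟩ := Nat.exists_eq_succ_of_ne_zero hq.ne'
    set M : ℤ := 2 ^ q with hM
    have hNM : N = 2 * M := by rw [hN, hM, pow_succ']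
    have hσ : u ^ M ∉ P := fun hc => by
      have := hlev M hc
      rw [hNM] at this
      have hpos : (0 : ℤ) < M := by positivity
      have := Int.le_of_dvd hpos this
      linarith
    have hwM : w ^ M ∈ P := by
      obtain ⟨l', hl'⟩ := hl
      rw [hwe, h.mul_zpow' (zpow_mem h.u_mem _) (zpow_mem h.pow_mem _), ← zpow_mul, ← zpow_mul, hl',
        show (2 * l' + 1 - 1) * M = N * l' by rw [hNM]; ring, zpow_mul]
      exact P.mul_mem (P.zpow_mem hpP _) (P.zpow_mem hzP _)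
    -- `[g ^ (2 j), u ^ M]` is a power of `w ^ N`
    have heven : ∀ j : ℤ, ∃ c : ℤ, g ^ (2 * j) * u ^ M * (g ^ (2 * j))⁻¹ = u ^ M * (w ^ N) ^ c := by
      intro j
      obtain ⟨c, hc⟩ := h.exists_conj_even hG j
      refine ⟨c, ?_⟩
      have h1 := hc M 0
      rw [zpow_zero, mul_one, ← hu, ← hw] at h1
      rw [h1, ← zpow_mul, show 2 * c * M = N * c by rw [hNM]; ring]
    have hsplit : ∀ (a f : G), f ∈ commutator G →
        u ^ M * (a * f) * (u ^ M)⁻¹ * (a * f)⁻¹ = (a * u ^ M * a⁻¹ * (u ^ M)⁻¹)⁻¹ := by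
      intro a f hf
      have hcf : f * (u ^ M)⁻¹ = (u ^ M)⁻¹ * f :=
        (h.commute hf (inv_mem (zpow_mem h.u_mem M))).eq
      calc u ^ M * (a * f) * (u ^ M)⁻¹ * (a * f)⁻¹
          = u ^ M * a * (f * (u ^ M)⁻¹) * f⁻¹ * a⁻¹ := by group
        _ = _ := by rw [hcf]; group
    have hwNA : w ^ N ∈ commutator G := zpow_mem h.w_mem N
    refine hσ (R.mem_of_trivial hG hYs hYfr hYP (fun x hx => ?_) fun y hy => ?_)
    · obtain ⟨i, f, hf, -, rfl⟩ := hdec x hx
      rw [hsplit _ f hf]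
      refine inv_mem ?_
      rcases Int.even_or_odd i with ⟨j, rfl⟩ | ⟨j, rfl⟩
      · obtain ⟨c, hc⟩ := heven j
        rw [← two_mul, hc, (h.commute (zpow_mem h.u_mem M) (zpow_mem hwNA c)).eq, mul_inv_cancel_right]
        exact zpow_mem (hAY _ hwNA (fr_le P hwN)) c
      · obtain ⟨c, hc⟩ := heven j
        have h1 : g ^ (2 * j + 1) * u ^ M * (g ^ (2 * j + 1))⁻¹ =
            u ^ M * (w ^ M * (w ^ N) ^ (l * c)) := by
          have h2 : g * u ^ M * g⁻¹ = u ^ M * w ^ M := by simpa using hga M 0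
          calc g ^ (2 * j + 1) * u ^ M * (g ^ (2 * j + 1))⁻¹
              = g * (g ^ (2 * j) * u ^ M * (g ^ (2 * j))⁻¹) * g⁻¹ := by group
            _ = g * u ^ M * g⁻¹ * (g * (w ^ N) ^ c * g⁻¹) := by rw [hc]; group
            _ = _ := by
              rw [h2, mul_assoc, ← conj_zpow, ← conj_zpow, hgw, ← zpow_mul, ← zpow_mul, ← zpow_mul,
                show l * (N * c) = N * (l * c) by ring]
        rw [h1, (h.commute (zpow_mem h.u_mem M) (mul_mem (zpow_mem h.w_mem M)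
          (zpow_mem hwNA _))).eq, mul_inv_cancel_right]
        exact mul_mem (hAY _ (zpow_mem h.w_mem M) hwM) (zpow_mem (hAY _ hwNA (fr_le P hwN)) _)
    · obtain ⟨j, f, hf, -, rfl⟩ := hYeven y hy
      rw [hsplit _ f hf]
      obtain ⟨c, hc⟩ := heven j
      refine inv_mem ?_
      rw [hc, (h.commute (zpow_mem h.u_mem M) (zpow_mem hwNA c)).eq, mul_inv_cancel_right]
      exact zpow_mem hwN c

end Data

end CfsgLib.FusionBicyclic
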