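import Mathlib

/-!
Automorphism groups of an elementary abelian group of order eight: a group with trivial largest
normal `2`-subgroup has no Sylow `2`-subgroup of order four that fixes a hyperplane or is cyclic.
-/

set_option autoImplicit false
set_option linter.style.haveILetI false
set_option linter.unusedSectionVars false

namespace CfsgLib.FusionBicyclic

section Basics

variable {P : Type*} [Group P] (hexp : ∀ x : P, x * x = 1)

include hexp

theorem eight_inv (x : P) : x⁻¹ = x := inv_eq_of_mul_eq_one_left (hexp x)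

theorem eight_comm (x y : P) : x * y = y * x := by
  calc x * y = (x * y)⁻¹ := (eight_inv hexp _).symm
    _ = y⁻¹ * x⁻¹ := mul_inv_rev x y
    _ = y * x := by rw [eight_inv hexp, eight_inv hexp]

theorem eight_mul_eq_one {x y : P} : x * y = 1 ↔ x = y := by
  rw [mul_eq_one_iff_eq_inv, eight_inv hexp]

theorem eight_mul_cancel (x y : P) : x * y * y = x := by rw [mul_assoc, hexp, mul_one]

end Basics

/-- The nontrivial element `z` by which the transvection `f` moves. -/
def IsMover {P : Type*} [Group P] (f : MulAut P) (z : P) : Prop :=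
  z ≠ 1 ∧ ∀ a, f a = a ∨ f a = a * z

section Movers

variable {P : Type*} [Group P] [Finite P] {f g : MulAut P} {w z : P}

theorem IsMover.fix (h : IsMover f z) (hexp : ∀ x : P, x * x = 1) : f z = z := by
  refine (h.2 z).resolve_right fun h' => h.1 ?_
  rw [hexp] at h'
  exact f.injective (h'.trans f.map_one.symm)

theorem IsMover.unique (hf : f ≠ 1) (h : IsMover f w) (h' : IsMover f z) : w = z := by
  obtain ⟨a, ha⟩ : ∃ a, f a ≠ a := by
    by_contra hc
    push Not at hc
    exact hf (MulEquiv.ext hc)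
  exact mul_left_cancel (((h.2 a).resolve_left ha).symm.trans ((h'.2 a).resolve_left ha))

theorem IsMover.conj (h : IsMover f z) (g : MulAut P) : IsMover (g * f * g⁻¹) (g z) := by
  refine ⟨fun h' => h.1 (g.injective (h'.trans g.map_one.symm)), fun a => ?_⟩
  show g (f (g⁻¹ a)) = a ∨ g (f (g⁻¹ a)) = a * g z
  have ha : g (g⁻¹ a) = a := MulAut.apply_inv_self P g a
  rcases h.2 (g⁻¹ a) with e | e <;> rw [e]
  · exact Or.inl ha
  · exact Or.inr (by rw [map_mul, ha])

/-- The fixed subgroup of an automorphism. -/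
def fixOf (f : MulAut P) : Subgroup P := MonoidHom.eqLocus f.toMonoidHom (MonoidHom.id P)

theorem mem_fixOf {a : P} : a ∈ fixOf f ↔ f a = a := Iff.rfl

/-- An involution is a transvection. -/
theorem exists_mover (hexp : ∀ x : P, x * x = 1) (hcard : Nat.card P = 8) (h2 : f * f = 1)
    (h1 : f ≠ 1) : ∃ z, IsMover f z ∧ Nat.card (fixOf f) = 4 := by
  let D : P →* P := MonoidHom.mk' (fun a => f a * a) fun a b => by
    show f (a * b) * (a * b) = f a * a * (f b * b)
    rw [map_mul, mul_assoc (f a), ← mul_assoc (f b), eight_comm hexp (f b) a, mul_assoc a,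
      ← mul_assoc (f a)]
  have hD : ∀ a, D a = f a * a := fun a => rfl
  have hker : D.ker = fixOf f := by
    ext a
    rw [MonoidHom.mem_ker, hD, mem_fixOf, eight_mul_eq_one hexp]
  have hle : D.range ≤ fixOf f := by
    rintro _ ⟨a, rfl⟩
    have hff : f (f a) = a := DFunLike.congr_fun h2 a
    show f (f a * a) = f a * a
    rw [map_mul, hff, eight_comm hexp]
  have hprod : Nat.card (fixOf f) * Nat.card D.range = 8 := by
    rw [← hker, ← Subgroup.index_ker, Subgroup.card_mul_index, hcard]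
  have hr1 : 1 < Nat.card D.range := by
    by_contra hc
    have hbot : D.range = ⊥ := Subgroup.eq_bot_of_card_le _ (not_lt.mp hc)
    refine h1 (MulEquiv.ext fun a => (eight_mul_eq_one hexp).mp ?_)
    exact (Subgroup.eq_bot_iff_forall _).mp hbot _ ⟨a, rfl⟩
  have hrle : Nat.card D.range ≤ Nat.card (fixOf f) := Subgroup.card_le_of_le hle
  have hr : Nat.card D.range = 2 ∧ Nat.card (fixOf f) = 4 := by
    generalize Nat.card D.range = r at *
    generalize Nat.card (fixOf f) = k at *
    have : r < 3 := by nlinarith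
    interval_cases r
    exact ⟨rfl, by omega⟩
  obtain ⟨b, hb, hu⟩ := (Nat.card_eq_two_iff' (1 : D.range)).mp hr.1
  refine ⟨b, ⟨fun h => hb (Subtype.ext h), fun a => ?_⟩, hr.2⟩
  by_cases ha : D a = 1
  · exact Or.inl ((eight_mul_eq_one hexp).mp ha)
  · refine Or.inr ?_
    have hab : D a = (b : P) :=
      congrArg Subtype.val (hu ⟨D a, a, rfl⟩ fun h => ha (congrArg Subtype.val h))
    rw [← hab, hD, ← mul_assoc, eight_comm hexp a (f a), eight_mul_cancel hexp]

/-- Two transvections, the first fixing the mover of the second, have product of order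
dividing four. -/
theorem mover_mul_pow (hexp : ∀ x : P, x * x = 1) (hf : IsMover f w) (hg : IsMover g z)
    (hfz : f z = z) : (f * g) * (f * g) * ((f * g) * (f * g)) = 1 := by
  set c := f * g
  have hc : ∀ a, c a = f (g a) := fun a => rfl
  have hcz : c z = z := by rw [hc, hg.fix hexp, hfz]
  have hfw := hf.fix hexp
  have hcw : c w = w ∨ c w = w * z := by
    rw [hc]
    rcases hg.2 w with e | e <;> rw [e]
    · exact Or.inl hfw
    · exact Or.inr (by rw [map_mul, hfw, hfz])
  have hsq : ∀ a, c (c a) = a ∨ c (c a) = a * z := by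
    intro a
    have hca : c a = a ∨ c a = a * z ∨ c a = a * w ∨ c a = a * w * z := by
      rw [hc]
      rcases hg.2 a with e | e <;> rw [e]
      · rcases hf.2 a with e' | e' <;> rw [e']
        · exact Or.inl rfl
        · exact Or.inr (Or.inr (Or.inl rfl))
      · rw [map_mul, hfz]
        rcases hf.2 a with e' | e' <;> rw [e']
        · exact Or.inr (Or.inl rfl)
        · exact Or.inr (Or.inr (Or.inr rfl))
    rcases hca with e | e | e | e
    · exact Or.inl (by rw [e, e])
    · exact Or.inl (by rw [e, map_mul, hcz, e, eight_mul_cancel hexp])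
    · rcases hcw with e' | e'
      · exact Or.inl (by rw [e, map_mul, e', e, eight_mul_cancel hexp])
      · exact Or.inr (by rw [e, map_mul, e', e, ← mul_assoc, eight_mul_cancel hexp])
    · have hcaz : c a * c w * z = a ∨ c a * c w * z = a * z := by
        rcases hcw with e' | e' <;> rw [e', e]
        · left
          rw [mul_assoc (a * w) z w, eight_comm hexp z w, ← mul_assoc, eight_mul_cancel hexp,
            eight_mul_cancel hexp]
        · right
          rw [← mul_assoc (a * w * z) w z, eight_mul_cancel hexp, mul_assoc (a * w) z w,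
            eight_comm hexp z w, ← mul_assoc, eight_mul_cancel hexp]
      rw [e, map_mul, map_mul, hcz]
      exact hcaz
  refine MulEquiv.ext fun a => ?_
  show c (c (c (c a))) = a
  rcases hsq a with e | e <;> rw [e]
  · exact e
  · rw [map_mul, map_mul, hcz, hcz, e, eight_mul_cancel hexp]

end Movers

/-- A cyclic group has at most one involution. -/
theorem eq_of_involutions {A : Type*} [Group A] [Finite A] [IsCyclic A] {a b : A}
    (ha : a * a = 1) (ha1 : a ≠ 1) (hb : b * b = 1) (hb1 : b ≠ 1) : a = b := by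
  by_contra h
  classical
  have := Fintype.ofFinite A
  have hsub : ({1, a, b} : Finset A) ⊆ Finset.univ.filter (fun x : A => x ^ 2 = 1) := by
    intro x hx
    simp only [Finset.mem_insert, Finset.mem_singleton] at hx
    rcases hx with rfl | rfl | rfl <;> simp [sq, ha, hb]
  have h2 := (Finset.card_le_card hsub).trans (IsCyclic.card_pow_eq_one_le (α := A) two_pos)
  have h3 : ({1, a, b} : Finset A).card = 3 :=
    Finset.card_eq_three.mpr ⟨1, a, b, ha1.symm, hb1.symm, h, rfl⟩
  omega

variable {P : Type*} [Group P] [Finite P] (hexp : ∀ x : P, x * x = 1) (hcard : Nat.card P = 8)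
  (Δ R : Subgroup (MulAut P)) (hRΔ : R ≤ Δ)
  (hrad : ∀ K : Subgroup (MulAut P), K ≤ Δ → (∀ d ∈ Δ, ∀ k ∈ K, d * k * d⁻¹ ∈ K) →
    IsPGroup 2 K → K = ⊥)
  (hmax : ∀ K : Subgroup (MulAut P), K ≤ Δ → IsPGroup 2 K → R ≤ K → K ≤ R)
  (hR : Nat.card R = 4)

include hexp hcard hRΔ hrad hmax hR

/-- The maximal `2`-subgroup of order four is not the stabilizer of a hyperplane. -/
theorem false_of_axis (W : Subgroup P) (hW : Nat.card W = 4)
    (hfix : ∀ φ ∈ R, ∀ x ∈ W, φ x = x) : False := by
  haveI : Fact (Nat.Prime 2) := ⟨Nat.prime_two⟩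
  have hRp : IsPGroup 2 R := IsPGroup.of_card (n := 2) (by rw [hR]; norm_num)
  have hidx : W.index = 2 := by
    have := W.card_mul_index
    rw [hW, hcard] at this
    omega
  obtain ⟨u, hu⟩ : ∃ u, u ∉ W := by
    by_contra hc
    push Not at hc
    have htop : W = ⊤ := eq_top_iff.mpr fun x _ => hc x
    rw [htop, Subgroup.card_top] at hW
    omega
  have hext : ∀ φ ψ : MulAut P, (∀ x ∈ W, φ x = x) → (∀ x ∈ W, ψ x = x) → φ u = ψ u → φ = ψ :=
    fun φ ψ h h' he => MulEquiv.ext fun x => by
      by_cases hx : x ∈ W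
      · rw [h x hx, h' x hx]
      · have hxu : x * u ∈ W :=
          (Subgroup.mul_mem_iff_of_index_two hidx).mpr (iff_of_false hx hu)
        have : φ (x * u * u) = ψ (x * u * u) := by
          rw [map_mul φ (x * u), map_mul ψ (x * u), h _ hxu, h' _ hxu, he]
        rwa [eight_mul_cancel hexp] at this
  have hin : ∀ φ : MulAut P, (∀ x ∈ W, φ x = x) → φ u * u ∈ W := fun φ h =>
    (Subgroup.mul_mem_iff_of_index_two hidx).mpr
      (iff_of_false (fun hc => hu (φ.injective (h _ hc) ▸ hc)) hu)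
  let θ : R → W := fun φ => ⟨φ.1 u * u, hin _ (hfix _ φ.2)⟩
  have hθ : Function.Injective θ := fun φ ψ h => Subtype.ext (hext _ _ (hfix _ φ.2) (hfix _ ψ.2)
    (mul_right_cancel (congrArg Subtype.val h)))
  have hsurj : Function.Surjective θ :=
    (hθ.bijective_of_nat_card_le (by rw [hW, hR])).2
  have hfull : ∀ φ : MulAut P, (∀ x ∈ W, φ x = x) → φ ∈ R := fun φ h => by
    obtain ⟨ψ, hψ⟩ := hsurj ⟨φ u * u, hin φ h⟩
    exact hext _ _ (hfix _ ψ.2) h (mul_right_cancel (congrArg Subtype.val hψ)) ▸ ψ.2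
  obtain ⟨d, hd, w, hw, hdw⟩ : ∃ d ∈ Δ, ∃ w ∈ W, d w ∉ W := by
    by_contra hc
    push Not at hc
    have hR0 := hrad R hRΔ (fun d hd k hk => hfull _ fun x hx => by
      show d (k (d⁻¹ x)) = x
      rw [hfix k hk _ (hc d⁻¹ (Δ.inv_mem hd) x hx), MulAut.apply_inv_self]) hRp
    rw [hR0, Subgroup.card_bot] at hR
    omega
  set W' := W.map d.toMonoidHom with hW'
  obtain ⟨z, hz, hz', hz1⟩ : ∃ z ∈ W, z ∈ W' ∧ z ≠ 1 := by
    by_contra hc
    push Not at hc
    have hdisj : Disjoint W W' := Subgroup.disjoint_def.mpr fun hx hx' => hc _ hx hx'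
    have h16 := Subgroup.card_le_card_group (W ⊔ W')
    have hinj := Subgroup.mul_injective_of_disjoint hdisj
    have := Nat.card_le_card_of_injective _ hinj
    rw [Nat.card_prod, hW, Nat.card_congr (W.equivMapOfInjective _ d.injective).toEquiv.symm, hW,
      hcard] at this
    omega
  obtain ⟨z₀, hz₀, rfl⟩ := hz'
  obtain ⟨⟨φ, hφR⟩, hφ⟩ := hsurj ⟨z₀, hz₀⟩
  have hφu : φ u = u * z₀ := by
    have h : φ u * u = z₀ := congrArg Subtype.val hφ
    rw [← h, ← mul_assoc, eight_comm hexp u (φ u), eight_mul_cancel hexp]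
  have hmv : IsMover φ z₀ := by
    refine ⟨fun h => hz1 (by rw [h]; exact map_one _), fun a => ?_⟩
    by_cases ha : a ∈ W
    · exact Or.inl (hfix φ hφR a ha)
    · have hau : a * u ∈ W := (Subgroup.mul_mem_iff_of_index_two hidx).mpr (iff_of_false ha hu)
      right
      calc φ a = φ (a * u * u) := by rw [eight_mul_cancel hexp]
        _ = a * u * (u * z₀) := by rw [map_mul, hfix φ hφR _ hau, hφu]
        _ = a * z₀ := by rw [← mul_assoc, eight_mul_cancel hexp]
  set r := d * φ * d⁻¹ with hr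
  have hrmv : IsMover r (d z₀) := hmv.conj d
  have hrΔ : r ∈ Δ := Δ.mul_mem (Δ.mul_mem hd (hRΔ hφR)) (Δ.inv_mem hd)
  have hrW : ∀ x ∈ W, r x ∈ W := fun x hx => by
    rcases hrmv.2 x with e | e <;> rw [e]
    exacts [hx, W.mul_mem hx hz]
  have hrn : Subgroup.zpowers r ≤ Subgroup.normalizer (R : Set (MulAut P)) := by
    refine Subgroup.zpowers_le.mpr (Subgroup.mem_normalizer_fintype fun k hk => hfull _ ?_)
    intro x hx
    show r (k (r⁻¹ x)) = x
    have hb : r⁻¹ x ∈ W := by
      have hbij : Function.Surjective (fun y : W => (⟨r y, hrW y y.2⟩ : W)) :=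
        Finite.injective_iff_surjective.mp fun a b h =>
          Subtype.ext (r.injective (congrArg Subtype.val h))
      obtain ⟨y, hy⟩ := hbij ⟨x, hx⟩
      have hy' : r y = x := congrArg Subtype.val hy
      rw [← hy', MulAut.inv_apply_self]
      exact y.2
    rw [hfix k hk _ hb, MulAut.apply_inv_self]
  have hφp : IsPGroup 2 (Subgroup.zpowers r) := by
    have h2 : r * r = 1 := MulEquiv.ext fun a => by
      show r (r a) = a
      rcases hrmv.2 a with e | e <;> rw [e]
      · exact e
      · rw [map_mul, e, hrmv.fix hexp, eight_mul_cancel hexp]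
    refine IsPGroup.of_card (n := 1) ?_
    rw [Nat.card_zpowers, pow_one]
    refine orderOf_eq_prime (by rw [sq]; exact h2) fun h => ?_
    have hφ1 : φ = 1 := by
      have h' : d * φ * d⁻¹ = 1 := h
      rwa [conj_eq_one_iff] at h'
    have : φ u = u := by rw [hφ1]; rfl
    rw [hφu] at this
    exact hmv.1 (mul_eq_left.mp this)
  have hle := hmax (R ⊔ Subgroup.zpowers r) (sup_le hRΔ (Subgroup.zpowers_le.mpr hrΔ))
    (hRp.to_sup_of_normal_left' hφp hrn) le_sup_left
  have hrR : r ∈ R := hle (Subgroup.mem_sup_right (Subgroup.mem_zpowers r))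
  have h1 := hfix r hrR
  have hdw' : r (d w) = d w := by
    show d (φ (d⁻¹ (d w))) = d w
    rw [MulAut.inv_apply_self, hfix φ hφR w hw]
  have hall : ∀ x, r x = x := by
    intro x
    by_cases hx : x ∈ W
    · exact h1 x hx
    · have hxw : x * d w ∈ W :=
        (Subgroup.mul_mem_iff_of_index_two hidx).mpr (iff_of_false hx hdw)
      have h := h1 _ hxw
      rw [map_mul, hdw'] at h
      exact mul_right_cancel h
  have h3 : r (d u) = d u := hall _
  have h4 : d (φ (d⁻¹ (d u))) = d u := h3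
  rw [MulAut.inv_apply_self, hφu] at h4
  exact hmv.1 (mul_eq_left.mp (d.injective h4))

/-- The maximal `2`-subgroup of order four is not cyclic. -/
theorem false_of_cyclic (hcyc : IsCyclic R) : False := by
  haveI : Fact (Nat.Prime 2) := ⟨Nat.prime_two⟩
  have hRp : IsPGroup 2 R := IsPGroup.of_card (n := 2) (by rw [hR]; norm_num)
  let S₀ : Sylow 2 Δ :=
    { toSubgroup := R.subgroupOf Δ
      isPGroup' := hRp.comap_of_injective _ Subtype.val_injective
      is_maximal' := by
        intro Q hQ hle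
        refine le_antisymm (fun x hx => ?_) hle
        refine hmax (Q.map Δ.subtype) ?_ (hQ.map _) ?_ ⟨x, hx, rfl⟩
        · rintro _ ⟨y, -, rfl⟩
          exact y.2
        · exact fun y hy => ⟨⟨y, hRΔ hy⟩, hle hy, rfl⟩ }
  -- distinct involutions of `Δ` do not commute
  have hcomm : ∀ x ∈ Δ, ∀ y ∈ Δ, x * x = 1 → x ≠ 1 → y * y = 1 → y ≠ 1 → x * y = y * x →
      x = y := by
    intro x hx y hy hx2 hx1 hy2 hy1 hc
    let x' : Δ := ⟨x, hx⟩
    let y' : Δ := ⟨y, hy⟩
    have hc' : x' * y' = y' * x' := Subtype.ext hc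
    have hnorm : Subgroup.zpowers y' ≤
        Subgroup.normalizer (Subgroup.zpowers x' : Set Δ) := by
      refine Subgroup.zpowers_le.mpr (Subgroup.mem_normalizer_fintype fun k hk => ?_)
      obtain ⟨i, rfl⟩ := Subgroup.mem_zpowers_iff.mp hk
      rw [((Commute.zpow_right (show Commute y' x' from hc'.symm) i)).eq, mul_inv_cancel_right]
      exact Subgroup.zpow_mem _ (Subgroup.mem_zpowers x') i
    have hp : ∀ v : Δ, v * v = 1 → IsPGroup 2 (Subgroup.zpowers v) := fun v hv k => ⟨1, by
      obtain ⟨i, hi⟩ := Subgroup.mem_zpowers_iff.mp k.2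
      refine Subtype.ext ?_
      push_cast
      rw [← hi]
      rw [← zpow_natCast, ← zpow_mul, mul_comm, zpow_mul, zpow_natCast, sq, hv, one_zpow]⟩
    obtain ⟨T, hT⟩ := ((hp x' (Subtype.ext hx2)).to_sup_of_normal_left'
      (hp y' (Subtype.ext hy2)) hnorm).exists_le_sylow
    haveI : IsCyclic (T : Subgroup Δ) := by
      haveI := hcyc
      exact isCyclic_of_surjective ((Subgroup.subgroupOfEquivOfLe hRΔ).symm.trans
        (Sylow.equiv S₀ T) : R ≃* (T : Subgroup Δ)) (MulEquiv.surjective _)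
    have hxT : x' ∈ (T : Subgroup Δ) := hT (Subgroup.mem_sup_left (Subgroup.mem_zpowers x'))
    have hyT : y' ∈ (T : Subgroup Δ) := hT (Subgroup.mem_sup_right (Subgroup.mem_zpowers y'))
    exact congrArg (fun v : Δ => (v : MulAut P))
      (congrArg Subtype.val (eq_of_involutions (A := (T : Subgroup Δ)) (a := ⟨x', hxT⟩)
        (b := ⟨y', hyT⟩) (Subtype.ext (Subtype.ext hx2)) (fun h => hx1 (congrArg (fun v : (T : Subgroup Δ) => ((v : Δ) : MulAut P)) h))
        (Subtype.ext (Subtype.ext hy2)) (fun h => hy1 (congrArg (fun v : (T : Subgroup Δ) => ((v : Δ) : MulAut P)) h))))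
  have hpair : ∀ x ∈ Δ, ∀ y ∈ Δ, x * x = 1 → x ≠ 1 → y * y = 1 → y ≠ 1 →
      ∀ w z, IsMover x w → IsMover y z → x z = z → x = y := by
    intro x hx y hy hx2 hx1 hy2 hy1 w z hw hz hxz
    set c := x * y with hc
    have h4 := mover_mul_pow hexp hw hz hxz
    have hinv : x * c * x = c⁻¹ := by
      rw [hc, mul_inv_rev, inv_eq_of_mul_eq_one_left hy2, inv_eq_of_mul_eq_one_left hx2,
        ← mul_assoc, hx2, one_mul]
    by_cases hc2 : c * c = 1
    · refine hcomm x hx y hy hx2 hx1 hy2 hy1 ?_
      rw [← hc, ← inv_eq_of_mul_eq_one_left hc2, hc, mul_inv_rev, inv_eq_of_mul_eq_one_left hy2,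
        inv_eq_of_mul_eq_one_left hx2]
    · exfalso
      have hxc : x * c = c⁻¹ * x := by rw [← hinv, mul_assoc, hx2, mul_one]
      have hcm : x * (c * c) = c * c * x := by
        rw [← mul_assoc, hxc, mul_assoc, hxc, ← mul_assoc, ← mul_inv_rev,
          inv_eq_of_mul_eq_one_left h4]
      have hxe := hcomm x hx (c * c) (Δ.mul_mem (Δ.mul_mem hx hy) (Δ.mul_mem hx hy)) hx2 hx1 h4
        hc2 hcm
      have hcx : x * c = c * x := by rw [hxe, mul_assoc]
      apply hc2
      rw [hcx] at hxc
      exact mul_eq_one_iff_eq_inv.mpr (mul_right_cancel hxc)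
  -- the involution of `R`
  obtain ⟨⟨j, hjR⟩, hj⟩ := hcyc.exists_generator
  have hord : orderOf j = 4 := by
    rw [← Subgroup.orderOf_mk j hjR, orderOf_eq_card_of_forall_mem_zpowers hj, hR]
  set t := j * j with ht
  have ht2 : t * t = 1 := by
    rw [ht, ← sq, ← sq, ← pow_mul, show 2 * 2 = orderOf j from hord.symm, pow_orderOf_eq_one]
  have ht1 : t ≠ 1 := fun h => by
    have := orderOf_dvd_of_pow_eq_one (x := j) (n := 2) (by rw [sq]; exact h)
    rw [hord] at this
    omega
  have hjΔ : j ∈ Δ := hRΔ hjR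
  have htΔ : t ∈ Δ := Δ.mul_mem hjΔ hjΔ
  obtain ⟨d, hd, hne⟩ : ∃ d ∈ Δ, d * t * d⁻¹ ≠ t := by
    by_contra hcon
    push Not at hcon
    have h0 := hrad (Subgroup.zpowers t) (Subgroup.zpowers_le.mpr htΔ) (fun d hd k hk => by
        obtain ⟨i, rfl⟩ := Subgroup.mem_zpowers_iff.mp hk
        rw [← conj_zpow, hcon d hd]
        exact Subgroup.zpow_mem _ (Subgroup.mem_zpowers t) i)
      (IsPGroup.of_card (n := 1) (by
        rw [Nat.card_zpowers, pow_one]
        exact orderOf_eq_prime (by rw [sq]; exact ht2) ht1))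
    exact ht1 (Subgroup.zpowers_eq_bot.mp h0)
  set t' := d * t * d⁻¹ with ht'
  have ht'Δ : t' ∈ Δ := Δ.mul_mem (Δ.mul_mem hd htΔ) (Δ.inv_mem hd)
  have ht'2 : t' * t' = 1 := by
    rw [ht', conj_mul, ht2, mul_one, mul_inv_cancel]
  have ht'1 : t' ≠ 1 := fun h => ht1 (conj_eq_one_iff.mp h)
  obtain ⟨z, hz, hWc⟩ := exists_mover hexp hcard ht2 ht1
  obtain ⟨z', hz', hW'c⟩ := exists_mover hexp hcard ht'2 ht'1
  set W := fixOf t
  have hz'W : z' ∉ W := fun h => hne (hpair t htΔ t' ht'Δ ht2 ht1 ht'2 ht'1 z z' hz hz' h).symm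
  have hidx : W.index = 2 := by
    have := W.card_mul_index
    rw [hWc, hcard] at this
    omega
  -- the second point of the axis of `t'` outside `W`
  obtain ⟨e, he, he', he1⟩ : ∃ e ∈ W, e ∈ fixOf t' ∧ e ≠ 1 := by
    by_contra hcon
    push Not at hcon
    have hdisj : Disjoint W (fixOf t') := Subgroup.disjoint_def.mpr fun hx hx' => hcon _ hx hx'
    have h := Nat.card_le_card_of_injective _ (Subgroup.mul_injective_of_disjoint hdisj)
    rw [Nat.card_prod, hWc, hW'c, hcard] at h
    omega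
  have hwW : z' * e ∉ W := fun h => hz'W ((Subgroup.mul_mem_cancel_right W he).mp h)
  have hfixw : t' (z' * e) = z' * e := by rw [map_mul, hz'.fix hexp, mem_fixOf.mp he']
  -- `j` permutes the four points outside `W` transitively
  have htj : ∀ a, t (j a) = j (t a) := fun a => rfl
  have hjW : ∀ a, j a ∈ W ↔ a ∈ W := fun a => by
    rw [mem_fixOf, mem_fixOf, htj, j.injective.eq_iff]
  let o : Fin 4 → {a : P // a ∉ W} :=
    ![⟨z', hz'W⟩, ⟨j z', fun h => hz'W ((hjW _).mp h)⟩, ⟨t z', fun h => hz'W (t.injective h ▸ h)⟩,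
      ⟨j (t z'), fun h => hz'W (t.injective ((hjW _).mp h) ▸ (hjW _).mp h)⟩]
  have hne0 : t z' ≠ z' := hz'W
  have hne1 : j z' ≠ z' := fun h => hne0 (by show j (j z') = z'; rw [h, h])
  have hne2 : j (t z') ≠ z' := fun h => hne1 (by
    have h' := congrArg j h
    rwa [show j (j (t z')) = z' from DFunLike.congr_fun ht2 z', eq_comm] at h')
  have h12 : j z' ≠ t z' := fun h => hne1 ((j.injective (h : j z' = j (j z'))).symm)
  have h13 : j z' ≠ j (t z') := fun h => hne0 (j.injective h).symm
  have h23 : t z' ≠ j (t z') := fun h => h12 (j.injective (h : j (j z') = j (t z')))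
  have hinj : Function.Injective o := by
    intro a b hab
    have hab' : (o a : P) = o b := congrArg Subtype.val hab
    fin_cases a <;> fin_cases b <;> simp [o] at hab' ⊢ <;>
      simp [hne0, hne0.symm, hne1, hne1.symm, hne2, hne2.symm, h12, h12.symm, h13, h13.symm,
        h23, h23.symm] at hab'
  have hsurj : Function.Surjective o := by
    refine (hinj.bijective_of_nat_card_le ?_).2
    classical
    have hc : Nat.card {a : P // a ∈ W} + Nat.card {a : P // a ∉ W} = 8 := by
      rw [← Nat.card_sum, Nat.card_congr (Equiv.sumCompl (· ∈ W)), hcard]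
    have hc' : Nat.card {a : P // a ∈ W} = 4 := hWc
    rw [Nat.card_fin]
    omega
  obtain ⟨i, hi⟩ := hsurj ⟨z' * e, hwW⟩
  obtain ⟨g, hg, hgz⟩ : ∃ g ∈ Δ, g z' = z' * e := by
    have hi' : (o i : P) = z' * e := congrArg Subtype.val hi
    fin_cases i
    · exact ⟨1, Δ.one_mem, hi'⟩
    · exact ⟨j, hjΔ, hi'⟩
    · exact ⟨t, htΔ, hi'⟩
    · exact ⟨j * t, Δ.mul_mem hjΔ htΔ, hi'⟩
  set t'' := g * t' * g⁻¹ with ht''
  have hmv : IsMover t'' (z' * e) := hgz ▸ hz'.conj g
  have ht''1 : t'' ≠ 1 := fun h => ht'1 (conj_eq_one_iff.mp h)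
  have heq := hpair t' ht'Δ t'' (Δ.mul_mem (Δ.mul_mem hg ht'Δ) (Δ.inv_mem hg)) ht'2 ht'1
    (by rw [ht'', conj_mul, ht'2, mul_one, mul_inv_cancel]) ht''1 z' (z' * e) hz' hmv hfixw
  rw [← heq] at hmv
  exact he1 (mul_eq_left.mp (hz'.unique ht'1 hmv).symm)

end CfsgLib.FusionBicyclic
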