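import Cfsg.Agent.Lib.FusionBicyclic.SmallCore
import Cfsg.Agent.Lib.FusionBicyclic.EightAut

/-!
The small case with `P` elementary abelian of order eight: the automorphisms induced by `S` fix a
hyperplane or form a cyclic group of order four, and are then no Sylow subgroup of a radical `Δ`.
-/

set_option autoImplicit false
set_option linter.unusedSectionVars false
set_option linter.style.haveILetI false

namespace CfsgLib.FusionBicyclic

variable {G : Type*} [Group G]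

/-- Conjugation by the normalizer, as a homomorphism. -/
def conjHomOn (P : Subgroup G) : Subgroup.normalizer (P : Set G) →* MulAut P :=
  MonoidHom.mk' conjOn fun g h => MulEquiv.ext fun x => Subtype.ext (by
    rw [MulAut.mul_apply, conjOn_apply, conjOn_apply, conjOn_apply]
    simp [mul_assoc])

theorem conjHomOn_apply (P : Subgroup G) (g : Subgroup.normalizer (P : Set G)) (x : P) :
    (conjHomOn P g x : G) = g * x * (g : G)⁻¹ := rfl

/-- The properties of the induced automorphisms used for elementary abelian `P`. -/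
theorem Rad.induced {P : Subgroup G} {Δ : Subgroup (MulAut P)} [Finite G] (hG : IsPGroup 2 G)
    (R : Rad P Δ) (hab : ∀ x ∈ P, ∀ y ∈ P, Commute x y) :
    (conjHomOn P).range ≤ Δ ∧
    (∀ K : Subgroup (MulAut P), K ≤ Δ → (∀ d ∈ Δ, ∀ k ∈ K, d * k * d⁻¹ ∈ K) → IsPGroup 2 K → K = ⊥) ∧
    ∀ K : Subgroup (MulAut P), K ≤ Δ → IsPGroup 2 K → (conjHomOn P).range ≤ K →
      K ≤ (conjHomOn P).range := by
  refine ⟨?_, fun K hK hn hp => ?_, fun K hK hp hle k hk => ?_⟩
  · rintro _ ⟨g, rfl⟩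
    exact R.conjOn_mem g
  · rw [eq_bot_iff]
    intro k hk
    obtain ⟨p, rfl⟩ := R.radical K hK hn hp hk
    refine MulEquiv.ext fun x => Subtype.ext ?_
    show (p : G) * x * (p : G)⁻¹ = x
    rw [(hab p p.2 x x.2).eq, mul_inv_cancel_right]
  · obtain ⟨g, hg, hgx⟩ := R.sylow K hK hp (fun g hg φ hφ => hle ⟨⟨g, hg⟩, MulEquiv.ext fun x =>
      Subtype.ext (hφ x).symm⟩) k hk
    exact ⟨⟨g, hg⟩, MulEquiv.ext fun x => Subtype.ext (hgx x).symm⟩

namespace Data

variable {a b : G} {n : ℕ} (h : Data a b n)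
include h

/-- Coordinates modulo the derived subgroup. -/
theorem exists_coset (x : G) : ∃ i e : ℤ, ∃ f ∈ commutator G, x = a ^ i * b ^ e * f := by
  set π := QuotientGroup.mk' (commutator G)
  have hc : Commute (π a) (π b) := by
    show π a * π b = π b * π a
    rw [← map_mul, ← map_mul]
    exact quot_comm a b
  have hall : ∀ y : G, ∃ i e : ℤ, π y = π a ^ i * π b ^ e := by
    intro y
    have hy : y ∈ Subgroup.closure ({a, b} : Set G) := h.gen ▸ Subgroup.mem_top y
    induction hy using Subgroup.closure_induction with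
    | mem y hy =>
      rcases hy with rfl | rfl
      · exact ⟨1, 0, by simp⟩
      · exact ⟨0, 1, by simp⟩
    | one => exact ⟨0, 0, by simp⟩
    | mul p q _ _ hp hq =>
      obtain ⟨i, e, hp⟩ := hp
      obtain ⟨i', e', hq⟩ := hq
      refine ⟨i + i', e + e', ?_⟩
      rw [map_mul, hp, hq, zpow_add, zpow_add, mul_assoc, ← mul_assoc (π b ^ e),
        ← (hc.zpow_zpow i' e).eq]
      simp only [mul_assoc]
    | inv p _ hp =>
      obtain ⟨i, e, hp⟩ := hp
      exact ⟨-i, -e, by rw [map_inv, hp, mul_inv_rev, zpow_neg, zpow_neg,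
        ((hc.zpow_zpow i e).inv_inv).eq]⟩
  obtain ⟨i, e, hie⟩ := hall x
  exact ⟨i, e, eq_mul_of_quot (by rw [map_mul, map_zpow, map_zpow]; exact hie)⟩

variable [Finite G] (hG : IsPGroup 2 G)
include hG

/-- An element `a ^ (2 t) b ^ e f` fixes the involutions of the derived subgroup. -/
theorem invol_fixed (t e : ℤ) {f c : G} (hf : f ∈ commutator G) (hc : c ∈ commutator G)
    (hc2 : c * c = 1) : Commute (a ^ (2 * t) * b ^ e * f) c := by
  obtain ⟨p, q, rfl⟩ := h.exists_repr hG hc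
  set c := uOf a b ^ p * (a ^ n) ^ q with hcd
  have hw := h.w_zpow_eq_one_of_sq hG (x := p) (y := q) hc2
  obtain ⟨c', hc'⟩ := h.exists_conj_even hG t
  obtain ⟨k, hk⟩ := h.exists_conj_b hG
  have h1 : Commute (a ^ (2 * t)) c := by
    refine mul_inv_eq_iff_eq_mul.mp ?_
    rw [hcd, hc', show 2 * c' * p = 2 * p * c' by ring, zpow_mul, hw, one_zpow, mul_one]
  have h2 : Commute b c := by
    refine mul_inv_eq_iff_eq_mul.mp ?_
    rw [hcd, hk, ← hcd, show 2 * k * p = 2 * p * k by ring, zpow_mul, hw, one_zpow, mul_one,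
      inv_eq_of_mul_eq_one_left hc2]
  exact (h1.mul_left (h2.zpow_left e)).mul_left (h.commute hf hc)

end Data

namespace Small

variable {a b : G} {n : ℕ} {P : Subgroup G} {j : ℤ} {f₀ : G} (S : Small a b n P j f₀)
  [Finite G] (hG : IsPGroup 2 G) (hfree : ∀ i : ℤ, ∀ f ∈ commutator G,
    a ^ (2 * i) * f ∈ P → a ^ (2 * i) * f ∈ commutator G) (hexp : ∀ x ∈ P, x * x = 1)
include S hG hfree hexp

theorem beta_not_mem : a ^ (2 * j) * b * f₀ ∉ commutator G := by
  intro hc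
  have h1 : a ^ (2 * j) * b ^ (1 : ℤ) ∈ commutator G := by
    rw [zpow_one]
    exact (Subgroup.mul_mem_cancel_right _ S.mem_f).mp hc
  exact absurd ((S.data.mem_iff _ _).mp h1).2 (by norm_num)

theorem mem_or_mul_mem {x : G} (hx : x ∈ P) :
    x ∈ commutator G ∨ a ^ (2 * j) * b * f₀ * x ∈ commutator G := by
  obtain ⟨e, d, hd, -, rfl⟩ := S.exists_form hG hfree hx
  have hβ2 := hexp _ S.mem_beta
  set β := a ^ (2 * j) * b * f₀
  rcases Int.even_or_odd e with ⟨k, rfl⟩ | ⟨k, rfl⟩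
  · left
    rw [← two_mul, zpow_mul, zpow_two, hβ2, one_zpow, one_mul]
    exact hd
  · right
    rw [zpow_add_one, zpow_mul, zpow_two, hβ2, one_zpow, one_mul, ← mul_assoc, hβ2, one_mul]
    exact hd

theorem card_P (hW : Nat.card ((commutator G).subgroupOf P) = 4) : Nat.card P = 8 := by
  have hβA := S.beta_not_mem hG hfree hexp
  have hidx : ((commutator G).subgroupOf P).index = 2 := by
    refine Subgroup.index_eq_two_iff.mpr ⟨⟨_, S.mem_beta⟩, fun x => ?_⟩
    simp only [Subgroup.mem_subgroupOf, Subgroup.coe_mul]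
    rcases S.mem_or_mul_mem hG hfree hexp x.2 with hx | hx
    · exact Or.inr ⟨hx, fun hc => hβA ((Subgroup.mul_mem_cancel_left _ hx).mp hc)⟩
    · have hcomm : a ^ (2 * j) * b * f₀ * (x : G) = x * (a ^ (2 * j) * b * f₀) := by
        have := hexp _ (P.mul_mem x.2 S.mem_beta)
        rw [mul_eq_one_iff_eq_inv, mul_inv_rev, inv_eq_of_mul_eq_one_left (hexp _ S.mem_beta),
          inv_eq_of_mul_eq_one_left (hexp _ x.2)] at this
        exact this.symm
      rw [hcomm] at hx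
      exact Or.inl ⟨hx, fun hc => hβA ((Subgroup.mul_mem_cancel_left _ hc).mp hx)⟩
  rw [← Subgroup.card_mul_index ((commutator G).subgroupOf P), hW, hidx]

theorem commute_P {x y : G} (hx : x ∈ P) (hy : y ∈ P) : Commute x y := by
  have h := hexp _ (P.mul_mem hx hy)
  rw [mul_eq_one_iff_eq_inv, mul_inv_rev, inv_eq_of_mul_eq_one_left (hexp x hx),
    inv_eq_of_mul_eq_one_left (hexp y hy)] at h
  exact h

/-- The elementary abelian case with two independent movers. -/
theorem false_of_eight {Δ : Subgroup (MulAut P)} (R : Rad P Δ) (hu2 : uOf a b ^ (2 : ℤ) ≠ 1)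
    {g₁ g₂ : G}
    (hn₁ : g₁ ∈ Subgroup.normalizer (P : Set G)) (hn₂ : g₂ ∈ Subgroup.normalizer (P : Set G))
    (h₁ : g₁ * (a ^ (2 * j) * b * f₀) * g₁⁻¹ * (a ^ (2 * j) * b * f₀)⁻¹ ≠ 1)
    (h₂ : g₂ * (a ^ (2 * j) * b * f₀) * g₂⁻¹ * (a ^ (2 * j) * b * f₀)⁻¹ ≠ 1)
    (h₁₂ : g₁ * (a ^ (2 * j) * b * f₀) * g₁⁻¹ * (a ^ (2 * j) * b * f₀)⁻¹ ≠
      g₂ * (a ^ (2 * j) * b * f₀) * g₂⁻¹ * (a ^ (2 * j) * b * f₀)⁻¹) : False := by
  set β := a ^ (2 * j) * b * f₀ with hβ
  have hβP : β ∈ P := S.mem_beta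
  have hab : ∀ x ∈ P, ∀ y ∈ P, Commute x y := fun x hx y hy => S.commute_P hG hfree hexp hx hy
  have hmv : ∀ x ∈ Subgroup.normalizer (P : Set G),
      x * β * x⁻¹ * β⁻¹ ∈ P ∧ x * β * x⁻¹ * β⁻¹ ∈ commutator G := fun x hx =>
    ⟨P.mul_mem ((Subgroup.mem_normalizer_iff.mp hx β).mp hβP) (P.inv_mem hβP), comm_mem x β⟩
  -- the normalizer fixes `P ∩ S'`
  have hfixA : ∀ x ∈ Subgroup.normalizer (P : Set G), ∀ c ∈ P, c ∈ commutator G → Commute x c := by
    intro x hx c hcP hcA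
    obtain ⟨i, e, f, hf, rfl⟩ := S.data.exists_coset x
    rcases Int.even_or_odd i with ⟨t, rfl⟩ | ⟨t, rfl⟩
    · rw [← two_mul]
      exact S.data.invol_fixed hG t e hf hcA (hexp c hcP)
    exfalso
    obtain ⟨hdP, hdA⟩ := hmv _ hx
    set x := a ^ (2 * t + 1) * b ^ e * f
    obtain ⟨p, q, hd⟩ := S.data.exists_repr hG hdA
    have hd2 := hexp _ hdP
    rw [hd] at hd2
    obtain ⟨l, m, hl, hm, hlm⟩ := S.data.exists_conj hG
    -- `p` is odd
    have hp : Odd p := by
      set π := QuotientGroup.mk' (derR G)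
      have hcen : ∀ g ∈ commutator G, ∀ y : G, Commute (π g) (π y) := by
        intro g hg y
        have h1 : π (y * g * y⁻¹ * g⁻¹) = 1 :=
          (QuotientGroup.eq_one_iff _).mpr (commElt_mem_derR hg y)
        rw [map_mul, map_mul, map_mul, map_inv, map_inv, mul_inv_eq_one, mul_inv_eq_iff_eq_mul] at h1
        exact h1.symm
      have ha2b : Commute (π (a * a)) (π b) := by
        have h1 : π (a * a * b * (a * a)⁻¹ * b⁻¹) = 1 := by
          refine (QuotientGroup.eq_one_iff _).mpr ?_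
          have e : a * a * b * (a * a)⁻¹ * b⁻¹ =
              a * uOf a b * a⁻¹ * (uOf a b)⁻¹ * (uOf a b * uOf a b) := by rw [uOf]; group
          rw [e]
          exact mul_mem (commElt_mem_derR S.data.u_mem a)
            (Subgroup.mem_sup_left (sq_mem_sqSub S.data.u_mem))
        rw [map_mul, map_mul, map_mul, map_inv, map_inv, mul_inv_eq_one, mul_inv_eq_iff_eq_mul] at h1
        exact h1
      have ha2a : Commute (π (a * a)) (π a) := ((Commute.refl a).mul_left (Commute.refl a)).map π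
      have hpw : ∀ s : ℤ, π (a ^ (2 * s)) = π (a * a) ^ s := fun s => by
        rw [← map_zpow, ← zpow_two, ← zpow_mul]
      have hβc : Commute (π β) (π (a ^ (2 * t) * b ^ e * f)) := by
        have hsub : Commute (π (a * a) ^ j * π b) (π (a * a) ^ t * π b ^ e) :=
          (((Commute.refl _).zpow_zpow j t).mul_right (ha2b.zpow_zpow j e)).mul_left
            ((ha2b.zpow_left t).symm.mul_right ((Commute.refl _).zpow_right e))
        have hf' : Commute (π (a ^ (2 * j) * b)) (π f) := (hcen _ hf _).symm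
        rw [hβ, map_mul π _ f₀]
        refine Commute.mul_left ?_ (hcen _ S.mem_f _)
        rw [map_mul π _ f]
        refine Commute.mul_right ?_ hf'
        rw [map_mul, map_mul, map_zpow π b e, hpw, hpw]
        exact hsub
      have hπd : π (x * β * x⁻¹ * β⁻¹) = π (uOf a b) := by
        have e1 : x * β * x⁻¹ * β⁻¹ = a * (a ^ (2 * t) * b ^ e * f * β *
            (a ^ (2 * t) * b ^ e * f)⁻¹ * β⁻¹) * a⁻¹ * (a * β * a⁻¹ * β⁻¹) := by
          simp only [x]; group
        have e2 : a * β * a⁻¹ * β⁻¹ =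
            a ^ (2 * j) * (a * b * (f₀ * a⁻¹ * f₀⁻¹ * a) * a⁻¹ * b⁻¹) * (a ^ (2 * j))⁻¹ := by
          rw [hβ]; group
        have h0 : π (f₀ * a⁻¹ * f₀⁻¹ * a) = 1 := by
          rw [map_mul, map_mul, map_mul, map_inv, map_inv, ((hcen _ S.mem_f a).inv_right).eq,
            mul_inv_cancel_right, inv_mul_cancel]
        rw [e1, map_mul, map_mul, map_mul]
        rw [show π (a ^ (2 * t) * b ^ e * f * β * (a ^ (2 * t) * b ^ e * f)⁻¹ * β⁻¹) = 1 by
          rw [map_mul, map_mul, map_inv, map_inv, map_mul, ← hβc.eq, mul_inv_cancel_right,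
            mul_inv_cancel]]
        rw [mul_one, map_inv, mul_inv_cancel, one_mul, e2, map_mul, map_mul, map_mul π _ b⁻¹,
          map_mul π _ a⁻¹, map_mul π _ (f₀ * a⁻¹ * f₀⁻¹ * a), h0, mul_one, ← map_mul π _ a⁻¹,
          ← map_mul π _ b⁻¹, show a * b * a⁻¹ * b⁻¹ = uOf a b from rfl,
          (hcen _ S.data.u_mem (a ^ (2 * j))).symm.eq, map_inv, mul_inv_cancel_right]
      rw [hd] at hπd
      have hmem : uOf a b ^ (p - 1) ∈ derR G := by
        rw [← QuotientGroup.eq_one_iff]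
        show π _ = 1
        have hz : π ((a ^ n) ^ q) = 1 :=
          (QuotientGroup.eq_one_iff _).mpr (zpow_mem (S.data.pow_mem_derR hG) q)
        rw [map_mul, hz, mul_one] at hπd
        rw [zpow_sub_one, map_mul, hπd, map_inv, mul_inv_cancel]
      have h2 := (S.data.even_of_zpow_mem hG hmem).add_odd odd_one
      rwa [sub_add_cancel] at h2
    set u := uOf a b
    set z := a ^ n
    have hw2 : wOf a b ^ (2 : ℤ) = 1 := by
      refine eq_one_of_zpow_odd hG hp ?_
      rw [← zpow_mul]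
      exact S.data.w_zpow_eq_one_of_sq hG hd2
    rw [← zpow_two, S.data.mul_zpow' (zpow_mem S.data.u_mem _) (zpow_mem S.data.pow_mem _),
      ← zpow_mul, ← zpow_mul] at hd2
    obtain ⟨s, hs⟩ : u ^ (2 : ℤ) ∈ Subgroup.zpowers (z ^ (2 : ℤ)) := by
      refine mem_of_zpow_odd hG hp ⟨-q, ?_⟩
      show (z ^ (2 : ℤ)) ^ (-q) = _
      rw [← zpow_mul, ← zpow_mul, mul_comm 2 p, eq_inv_of_mul_eq_one_left hd2,
        show 2 * -q = -(q * 2) by ring, zpow_neg]
    have hs' : u ^ (2 : ℤ) = (z ^ (2 : ℤ)) ^ s := hs.symm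
    obtain ⟨k, hk⟩ : Even (l - 1) := hl.sub_odd odd_one
    rw [(S.data.conj_w hG hlm).1, S.data.mul_zpow' (zpow_mem S.data.u_mem _)
      (zpow_mem S.data.pow_mem _), ← zpow_mul, ← zpow_mul, mul_comm (l - 1) 2, zpow_mul u, hs',
      ← zpow_mul, ← zpow_mul, ← zpow_add] at hw2
    refine hu2 ?_
    rw [hs', show z ^ (2 : ℤ) = 1 from eq_one_of_zpow_odd hG
      (m := s * (l - 1) + m) (Even.add_odd ⟨s * k, by rw [hk]; ring⟩ hm)
      (by rw [← zpow_mul, ← hw2]; congr 1; ring), one_zpow]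
  -- the trace of `S'`
  set c₁ := g₁ * β * g₁⁻¹ * β⁻¹ with hc₁
  set c₂ := g₂ * β * g₂⁻¹ * β⁻¹ with hc₂
  obtain ⟨hc₁P, hc₁A⟩ := hmv g₁ hn₁
  obtain ⟨hc₂P, hc₂A⟩ := hmv g₂ hn₂
  set W := (commutator G).subgroupOf P with hW
  have hcases : ∀ w : P, w ∈ W → (w : G) = 1 ∨ (w : G) = c₁ ∨ (w : G) = c₂ ∨ (w : G) = c₁ * c₂ :=
    fun w hw => S.invol_cases hG hc₁A hc₂A (hexp _ hc₁P) (hexp _ hc₂P) h₁ h₂ h₁₂
      (Subgroup.mem_subgroupOf.mp hw) (hexp _ w.2)
  let o : Fin 4 → W :=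
    ![1, ⟨⟨c₁, hc₁P⟩, hc₁A⟩, ⟨⟨c₂, hc₂P⟩, hc₂A⟩,
      ⟨⟨c₁ * c₂, P.mul_mem hc₁P hc₂P⟩, mul_mem hc₁A hc₂A⟩]
  have hoinj : Function.Injective o := by
    have h3 : c₁ * c₂ ≠ 1 := fun e => h₁₂ (by
      rw [eq_inv_of_mul_eq_one_left e, inv_eq_of_mul_eq_one_left (hexp _ hc₂P)])
    have h4 : c₁ * c₂ ≠ c₁ := fun e => h₂ (mul_eq_left.mp e)
    have h5 : c₁ * c₂ ≠ c₂ := fun e => h₁ (mul_eq_right.mp e)
    intro x y hxy
    have hxy' : (((o x : W) : P) : G) = ((o y : W) : P) := by rw [hxy]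
    fin_cases x <;> fin_cases y <;> simp [o] at hxy' ⊢ <;>
      simp [h₁, h₁.symm, h₂, h₂.symm, h₁₂, h₁₂.symm, h3, h3.symm, h4, h4.symm, h5, h5.symm] at hxy'
  have hosurj : Function.Surjective o := fun w => by
    rcases hcases w w.2 with e | e | e | e
    · exact ⟨0, Subtype.ext (Subtype.ext e.symm)⟩
    · exact ⟨1, Subtype.ext (Subtype.ext e.symm)⟩
    · exact ⟨2, Subtype.ext (Subtype.ext e.symm)⟩
    · exact ⟨3, Subtype.ext (Subtype.ext e.symm)⟩
  have hWc : Nat.card W = 4 := by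
    rw [← Nat.card_eq_of_bijective o ⟨hoinj, hosurj⟩, Nat.card_fin]
  obtain ⟨hle, hrad, hmax⟩ := R.induced hG hab
  set T := (conjHomOn P).range
  have hfix : ∀ φ ∈ T, ∀ w ∈ W, φ w = w := by
    rintro _ ⟨g, rfl⟩ w hw
    refine Subtype.ext ?_
    rw [conjHomOn_apply, (hfixA g g.2 w w.2 (Subgroup.mem_subgroupOf.mp hw)).eq, mul_inv_cancel_right]
  have hθmem : ∀ φ ∈ T, φ ⟨β, hβP⟩ * ⟨β, hβP⟩⁻¹ ∈ W := by
    rintro _ ⟨g, rfl⟩
    exact comm_mem (g : G) β
  let θ : T → W := fun φ => ⟨_, hθmem φ φ.2⟩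
  have hθinj : Function.Injective θ := by
    intro φ ψ hφψ
    have hb : φ.1 ⟨β, hβP⟩ = ψ.1 ⟨β, hβP⟩ := mul_right_cancel (congrArg Subtype.val hφψ)
    refine Subtype.ext (MulEquiv.ext fun x => ?_)
    rcases S.mem_or_mul_mem hG hfree hexp x.2 with hx | hx
    · rw [hfix _ φ.2 x hx, hfix _ ψ.2 x hx]
    · have hm : (⟨β, hβP⟩ : P) * x ∈ W := hx
      have := (hfix _ φ.2 _ hm).trans (hfix _ ψ.2 _ hm).symm
      rw [map_mul, map_mul, hb] at this
      exact mul_left_cancel this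
  have hθsurj : Function.Surjective θ := by
    have hmk : ∀ (g : G) (hg : g ∈ Subgroup.normalizer (P : Set G)) (w : W),
        g * β * g⁻¹ * β⁻¹ = ((w : P) : G) → ∃ φ, θ φ = w := fun g hg w e =>
      ⟨⟨conjHomOn P ⟨g, hg⟩, _, rfl⟩, Subtype.ext (Subtype.ext e)⟩
    intro w
    rcases hcases w w.2 with e | e | e | e
    · exact hmk 1 (one_mem _) w (by rw [e, one_mul, inv_one, mul_one, mul_inv_cancel])
    · exact hmk g₁ hn₁ w e.symm
    · exact hmk g₂ hn₂ w e.symm
    · refine hmk (g₁ * g₂) (mul_mem hn₁ hn₂) w ?_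
      have h2 : g₂ * β * g₂⁻¹ = c₂ * β := (inv_mul_cancel_right _ _).symm
      have h1' : g₁ * β * g₁⁻¹ = c₁ * β := (inv_mul_cancel_right _ _).symm
      have hfixc : g₁ * c₂ * g₁⁻¹ = c₂ := by
        rw [(hfixA g₁ hn₁ c₂ hc₂P hc₂A).eq, mul_inv_cancel_right]
      calc g₁ * g₂ * β * (g₁ * g₂)⁻¹ * β⁻¹ = g₁ * (g₂ * β * g₂⁻¹) * g₁⁻¹ * β⁻¹ := by group
        _ = g₁ * c₂ * g₁⁻¹ * (g₁ * β * g₁⁻¹) * β⁻¹ := by rw [h2]; group
        _ = ((w : P) : G) := by
          rw [hfixc, h1', e, ← mul_assoc, mul_inv_cancel_right,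
            (S.data.commute hc₁A hc₂A).eq]
  have hT : Nat.card T = 4 := by rw [Nat.card_eq_of_bijective θ ⟨hθinj, hθsurj⟩, hWc]
  exact false_of_axis (fun x => Subtype.ext (hexp x x.2)) (S.card_P hG hfree hexp hWc) Δ T hle hrad
    hmax hT W hWc hfix

/-- The elementary abelian case with `u` an involution. -/
theorem false_of_eight_small {Δ : Subgroup (MulAut P)} (R : Rad P Δ)
    (hu : uOf a b ^ (2 : ℤ) = 1) : False := by
  haveI : Fact (Nat.Prime 2) := ⟨Nat.prime_two⟩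
  have hab : ∀ x ∈ P, ∀ y ∈ P, Commute x y := fun x hx y hy => S.commute_P hG hfree hexp hx hy
  obtain ⟨l, m, hl, hm, hlm⟩ := S.data.exists_conj hG
  obtain ⟨k, hk⟩ := hl.sub_odd odd_one
  set u := uOf a b with hu_def
  set z := a ^ n with hz_def
  have hul : u ^ l = u := by
    rw [show l = 2 * k + 1 by linarith, zpow_add_one, zpow_mul, hu, one_zpow, one_mul]
  rw [hul] at hlm
  have huu : u * u = 1 := by rw [← zpow_two]; exact hu
  have hz2 : z ^ (2 : ℤ) = 1 := by
    refine eq_one_of_zpow_odd hG hm ?_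
    have h2 : a * u * a⁻¹ * (a * u * a⁻¹) = 1 := by
      calc a * u * a⁻¹ * (a * u * a⁻¹) = a * (u * u) * a⁻¹ := by group
        _ = 1 := by rw [huu, mul_one, mul_inv_cancel]
    rw [hlm, ← zpow_two, S.data.mul_zpow' S.data.u_mem (zpow_mem S.data.pow_mem m), hu, one_mul,
      ← zpow_mul] at h2
    rw [← zpow_mul, mul_comm]
    exact h2
  have hzz : z * z = 1 := by rw [← zpow_two]; exact hz2
  have hzm : z ^ m = z := by
    obtain ⟨k', rfl⟩ := hm
    rw [zpow_add_one, zpow_mul, hz2, one_zpow, one_mul]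
  rw [hzm] at hlm
  have hA : ∀ f ∈ commutator G, f ∈ P := by
    intro f hf
    obtain ⟨p, q, rfl⟩ := S.data.exists_repr hG hf
    exact P.mul_mem (P.zpow_mem (S.invol_mem hG R S.data.u_mem huu) p)
      (P.zpow_mem (S.invol_mem hG R S.data.pow_mem hzz) q)
  have hu1 : u ≠ 1 := fun e => S.data.u_not_mem_derR hG (by rw [← hu_def, e]; exact one_mem _)
  have hz1 : z ≠ 1 := fun e => S.data.top (by rw [← hz_def, e]; exact one_mem _)
  have huz : u ≠ z := fun e => S.data.u_not_mem_derR hG (by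
    rw [← hu_def, e]; exact S.data.pow_mem_derR hG)
  set W := (commutator G).subgroupOf P with hW
  have hWc : Nat.card W = 4 := by
    let o : Fin 4 → W :=
      ![1, ⟨⟨u, hA _ S.data.u_mem⟩, S.data.u_mem⟩, ⟨⟨z, hA _ S.data.pow_mem⟩, S.data.pow_mem⟩,
        ⟨⟨u * z, hA _ (mul_mem S.data.u_mem S.data.pow_mem)⟩, mul_mem S.data.u_mem S.data.pow_mem⟩]
    have h3 : u * z ≠ 1 := fun e => huz (by
      rw [eq_inv_of_mul_eq_one_left e, inv_eq_of_mul_eq_one_left hzz])
    have h4 : u * z ≠ u := fun e => hz1 (mul_eq_left.mp e)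
    have h5 : u * z ≠ z := fun e => hu1 (mul_eq_right.mp e)
    have hinj : Function.Injective o := by
      intro x y hxy
      have hxy' : (((o x : W) : P) : G) = ((o y : W) : P) := by rw [hxy]
      fin_cases x <;> fin_cases y <;> simp [o] at hxy' ⊢ <;>
        simp [hu1, hu1.symm, hz1, hz1.symm, huz, huz.symm, h3, h3.symm, h4, h4.symm, h5, h5.symm]
          at hxy'
    have hsurj : Function.Surjective o := fun w => by
      rcases S.invol_cases hG S.data.u_mem S.data.pow_mem huu hzz hu1 hz1 huz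
        (Subgroup.mem_subgroupOf.mp w.2) (hexp _ (w : P).2) with e | e | e | e
      · exact ⟨0, Subtype.ext (Subtype.ext e.symm)⟩
      · exact ⟨1, Subtype.ext (Subtype.ext e.symm)⟩
      · exact ⟨2, Subtype.ext (Subtype.ext e.symm)⟩
      · exact ⟨3, Subtype.ext (Subtype.ext e.symm)⟩
    rw [← Nat.card_eq_of_bijective o ⟨hinj, hsurj⟩, Nat.card_fin]
  have hN : ∀ x : G, x ∈ Subgroup.normalizer (P : Set G) := fun x =>
    mem_normalizer_of_move fun y _ => hA _ (comm_mem x y)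
  let ψ : G →* MulAut P := (conjHomOn P).comp
    (MonoidHom.mk' (fun x => (⟨x, hN x⟩ : Subgroup.normalizer (P : Set G))) fun _ _ => rfl)
  have hψ : ∀ (x : G) (y : P), (ψ x y : G) = x * y * x⁻¹ := fun _ _ => rfl
  have hψP : ∀ x ∈ P, ψ x = 1 := fun x hx => MulEquiv.ext fun y => Subtype.ext (by
    rw [hψ, (hab x hx y y.2).eq, mul_inv_cancel_right]; rfl)
  -- `a * a` fixes the derived subgroup and moves the element of type `b`
  have hzfix : a * z * a⁻¹ = z := by rw [hz_def, ← pow_succ', pow_succ, mul_inv_cancel_right]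
  have ha2u : a * a * u * (a * a)⁻¹ = u := by
    calc a * a * u * (a * a)⁻¹ = a * (a * u * a⁻¹) * a⁻¹ := by group
      _ = a * (u * z) * a⁻¹ := by rw [hlm]
      _ = a * u * a⁻¹ * (a * z * a⁻¹) := by group
      _ = u := by rw [hlm, hzfix, mul_assoc, hzz, mul_one]
  have ha2A : ∀ f ∈ commutator G, a * a * f * (a * a)⁻¹ = f := by
    intro f hf
    obtain ⟨p, q, rfl⟩ := S.data.exists_repr hG hf
    rw [← hu_def, ← hz_def, conj_zmul, ha2u]
    congr 2
    calc a * a * z * (a * a)⁻¹ = a * (a * z * a⁻¹) * a⁻¹ := by group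
      _ = z := by rw [hzfix, hzfix]
  have ha2β : a * a * (a ^ (2 * j) * b * f₀) * (a * a)⁻¹ = z * (a ^ (2 * j) * b * f₀) := by
    have e1 : a * a * b * (a * a)⁻¹ = z * b := by
      calc a * a * b * (a * a)⁻¹ = a * u * a⁻¹ * u * b := by rw [hu_def, uOf]; group
        _ = z * b := by
          rw [hlm, (S.data.commute S.data.u_mem S.data.pow_mem).eq, mul_assoc z, huu, mul_one]
    have hzc : Commute (a ^ (2 * j)) z := by
      rw [hz_def, ← zpow_natCast]; exact Commute.zpow_zpow_self a _ _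
    calc a * a * (a ^ (2 * j) * b * f₀) * (a * a)⁻¹
        = a ^ (2 * j) * (a * a * b * (a * a)⁻¹) * (a * a * f₀ * (a * a)⁻¹) := by group
      _ = z * (a ^ (2 * j) * b * f₀) := by
        rw [e1, ha2A _ S.mem_f, ← mul_assoc (a ^ (2 * j)), hzc.eq]
        simp only [mul_assoc]
  set β := a ^ (2 * j) * b * f₀ with hβ
  have hgen : ∀ x : G, ψ x ∈ Subgroup.zpowers (ψ a) := by
    have hb : ψ b ∈ Subgroup.zpowers (ψ a) := by
      have h1 := hψP β S.mem_beta
      rw [hβ, map_mul, map_mul, map_zpow, hψP f₀ (hA _ S.mem_f), mul_one] at h1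
      rw [eq_inv_of_mul_eq_one_right h1]
      exact inv_mem (Subgroup.zpow_mem_zpowers _ _)
    intro x
    obtain ⟨i, e, f, hf, rfl⟩ := S.data.exists_coset x
    rw [map_mul, map_mul, map_zpow, map_zpow, hψP f (hA f hf), mul_one]
    exact mul_mem (Subgroup.zpow_mem_zpowers _ _) (zpow_mem hb e)
  have hord : orderOf (ψ a) = 2 ^ (1 + 1) := by
    refine orderOf_eq_prime_pow ?_ ?_
    · intro h
      rw [pow_one, ← map_pow, pow_two] at h
      have h2 := congrArg Subtype.val (DFunLike.congr_fun h ⟨β, S.mem_beta⟩)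
      rw [hψ] at h2
      exact hz1 (mul_eq_right.mp (ha2β.symm.trans h2))
    · rw [show 2 ^ (1 + 1) = 2 * 2 from rfl, pow_mul, ← map_pow, pow_two a, ← map_pow, pow_two]
      refine MulEquiv.ext fun y => Subtype.ext ?_
      rw [hψ]
      show _ = (y : G)
      have h4 : ∀ w : G, a * a * (a * a) * w * (a * a * (a * a))⁻¹ =
          a * a * (a * a * w * (a * a)⁻¹) * (a * a)⁻¹ := fun w => by group
      rcases S.mem_or_mul_mem hG hfree hexp y.2 with hy | hy
      · rw [h4, ha2A _ hy, ha2A _ hy]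
      · have hf := ha2A _ hy
        have hy' : (y : G) = β * (β * y) := by rw [← mul_assoc, hexp _ S.mem_beta, one_mul]
        have hstep : ∀ c : G, a * a * (c * (β * y)) * (a * a)⁻¹ =
            a * a * c * (a * a)⁻¹ * (β * y) := fun c => by
          have e : ∀ q : G, a * a * (c * q) * (a * a)⁻¹ =
              a * a * c * (a * a)⁻¹ * (a * a * q * (a * a)⁻¹) := fun q => by group
          rw [e, hf]
        have hzfix2 : a * a * z * (a * a)⁻¹ = z := ha2A _ S.data.pow_mem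
        rw [h4, hy', hstep, ha2β, hstep, show a * a * (z * β) * (a * a)⁻¹ =
          a * a * z * (a * a)⁻¹ * (a * a * β * (a * a)⁻¹) by group, hzfix2, ha2β, ← mul_assoc z z, hzz,
          one_mul]
  obtain ⟨hle, hrad, hmax⟩ := R.induced hG hab
  have hTeq : (conjHomOn P).range = Subgroup.zpowers (ψ a) := by
    refine le_antisymm ?_ (Subgroup.zpowers_le.mpr ⟨_, rfl⟩)
    rintro _ ⟨g, rfl⟩
    exact hgen (g : G)
  have hT : Nat.card (conjHomOn P).range = 4 := by
    rw [hTeq, Nat.card_zpowers, hord]; norm_num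
  refine false_of_cyclic (fun x => Subtype.ext (hexp x x.2)) (S.card_P hG hfree hexp hWc) Δ
    (conjHomOn P).range hle hrad hmax hT ?_
  rw [hTeq]
  infer_instance

end Small

end CfsgLib.FusionBicyclic
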