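import Cfsg.Agent.Lib.FusionBicyclic.SmallCore

/-!
The small case with an involution `o` congruent to `a ^ n`: an element of `a ^ 2 S'` moving the
element of type `b` exactly by `o`.
-/

set_option autoImplicit false
set_option linter.unusedSectionVars false
set_option linter.style.haveILetI false

namespace CfsgLib.FusionBicyclic

variable {G : Type*} [Group G] [Finite G]

namespace Small

variable {a b : G} {n : ℕ} {P : Subgroup G} {j : ℤ} {f₀ : G} (S : Small a b n P j f₀)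
  (hG : IsPGroup 2 G) {Δ : Subgroup (MulAut P)} (R : Rad P Δ)
include S hG R

theorem omega_data {o : G} (ho : o ∈ commutator G) (ho2 : o * o = 1)
    (hoz : (a ^ n)⁻¹ * o ∈ sqSub G) :
    (∀ i : ℤ, ∀ f ∈ commutator G, a ^ (2 * i) * f ∈ P → a ^ (2 * i) * f ∈ commutator G) ∧
      ∃ x₀ : G, (∃ f ∈ commutator G, x₀ = a * a * f) ∧
        x₀ * (a ^ (2 * j) * b * f₀) * x₀⁻¹ * (a ^ (2 * j) * b * f₀)⁻¹ = o ∧
        ∀ d ∈ commutator G, d ∈ P → x₀ * d * x₀⁻¹ * d⁻¹ ∈ fr P := by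
  have h := S.data
  set β := a ^ (2 * j) * b * f₀ with hβ
  set u := uOf a b with hu
  obtain ⟨l, m, hl, hm, hlm⟩ := h.exists_conj hG
  obtain ⟨i₀, r, hwe⟩ := h.exists_w_eq hG hoz
  obtain ⟨K, hK⟩ := S.exists_twist hG
  obtain ⟨t, ht⟩ := h.exists_conj_sq hG
  have hoe : ∀ e : ℤ, o ^ (2 * e) = 1 := fun e => by rw [zpow_mul, zpow_two, ho2, one_zpow]
  have hw2 : ∀ e : ℤ, wOf a b ^ (2 * e) = u ^ (4 * r * e) := fun e => by
    rw [hwe, h.mul_zpow' (zpow_mem ho _) (zpow_mem h.u_mem _), ← zpow_mul, ← zpow_mul,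
      show i₀ * (2 * e) = 2 * (i₀ * e) by ring, hoe, one_mul]
    congr 1
    ring
  have hβu : ∀ x : ℤ, β * u ^ x * β⁻¹ = u ^ ((4 * r * K - 1) * x) := fun x => by
    have := hK x 0
    rw [zpow_zero, mul_one] at this
    rw [this, show (2 : ℤ) * K * x = 2 * (K * x) by ring, hw2, ← zpow_neg, ← zpow_add]
    congr 1
    ring
  have hsq2 : ∀ x : ℤ, a * a * u ^ x * (a * a)⁻¹ = u ^ ((1 + 4 * r * t) * x) := fun x => by
    have := ht x 0
    rw [zpow_zero, mul_one] at this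
    rw [this, show (2 : ℤ) * t * x = 2 * (t * x) by ring, hw2, ← zpow_add]
    congr 1
    ring
  have hao : a * a * o * (a * a)⁻¹ = o := by
    obtain ⟨p, q, hpq⟩ := h.exists_repr hG ho
    rw [hpq, ht, show (2 : ℤ) * t * p = 2 * p * t by ring, zpow_mul,
      h.w_zpow_eq_one_of_sq hG (x := p) (y := q) (hpq ▸ ho2), one_zpow, mul_one]
  have hoP : o ∈ P := S.invol_mem hG R ho ho2
  have hβo : Commute β o := S.invol_comm hG ho ho2 S.mem_beta
  -- the element `x₀`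
  obtain ⟨y, hy⟩ : ∃ y : ℤ, β * (a * a * u ^ y) * β⁻¹ = o * (a * a * u ^ y) := by
    have he := S.congr_comm hG
    set e₀ := β * (a * a) * β⁻¹ * (a * a)⁻¹ with he₀
    have hoe₀ : o⁻¹ * e₀ ∈ sqSub G := by
      have := mul_mem (inv_mem hoz) he
      simpa [mul_assoc] using this
    obtain ⟨g, hg, hgg⟩ := h.mem_sqSub_iff.mp hoe₀
    obtain ⟨i, x, rfl⟩ := h.exists_repr' hG hoz hg
    have he₀' : e₀ = o * u ^ (2 * x) := by
      rw [← mul_inv_cancel_left o e₀, ← hgg, ← zpow_two,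
        h.mul_zpow' (zpow_mem ho _) (zpow_mem h.u_mem _), ← zpow_mul, ← zpow_mul, mul_comm i 2, hoe,
        one_mul, mul_comm x 2]
    obtain ⟨c, hc⟩ := h.exists_conj_even hG (-1)
    have hinv : (a * a)⁻¹ * u ^ (2 * x) * (a * a) = u ^ (2 * x * (1 + 4 * r * c)) := by
      have := hc (2 * x) 0
      rw [zpow_zero, mul_one, show (2 : ℤ) * c * (2 * x) = 2 * (c * (2 * x)) by ring, hw2, ← zpow_add,
        show (2 : ℤ) * -1 = -2 by norm_num, zpow_neg, zpow_two, inv_inv] at this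
      rw [this]
      congr 1
      ring
    have hodd : Odd (2 * r * K - 1) := ⟨r * K - 1, by ring⟩
    obtain ⟨y, hy⟩ : u ^ (-(2 * x * (1 + 4 * r * c))) ∈ Subgroup.zpowers (u ^ (2 * (2 * r * K - 1))) := by
      refine mem_of_zpow_odd hG hodd ⟨-(x * (1 + 4 * r * c)), ?_⟩
      show (u ^ _) ^ _ = _
      rw [← zpow_mul, ← zpow_mul]
      congr 1
      ring
    have hy' : u ^ (2 * (2 * r * K - 1) * y) = u ^ (-(2 * x * (1 + 4 * r * c))) := by
      rw [zpow_mul]; exact hy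
    refine ⟨y, ?_⟩
    have e : β * (a * a * u ^ y) * β⁻¹ = e₀ * (a * a) * (β * u ^ y * β⁻¹) := by rw [he₀]; group
    rw [e, hβu, he₀', show o * u ^ (2 * x) * (a * a) =
      o * (a * a) * ((a * a)⁻¹ * u ^ (2 * x) * (a * a)) by simp [mul_assoc], hinv,
      show (4 * r * K - 1) * y = 2 * (2 * r * K - 1) * y + y by ring, zpow_add, hy', mul_assoc,
      ← mul_assoc (u ^ (2 * x * _)), ← zpow_add, add_neg_cancel, zpow_zero, one_mul, mul_assoc]
  set x₀ := a * a * u ^ y with hx₀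
  have hx₀u : ∀ x : ℤ, x₀ * u ^ x * x₀⁻¹ = u ^ ((1 + 4 * r * t) * x) := fun x => by
    rw [← hsq2, hx₀]; group
  have hx₀o : Commute x₀ o := by
    refine Commute.mul_left ?_ (h.commute (zpow_mem h.u_mem _) ho)
    exact mul_inv_eq_iff_eq_mul.mp hao
  obtain ⟨q, hN, hmin, hD⟩ := h.exists_level hG hoz hoP
  set N : ℤ := 2 ^ q
  set L := Subgroup.zpowers (u ^ (2 * N)) with hL
  have hLfr : L ≤ fr P := Subgroup.zpowers_le.mpr (by
    rw [show 2 * N = N * 2 by ring, zpow_mul, zpow_two]; exact sq_mem_fr hG hN)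
  have hmemL : ∀ x : ℤ, 2 * N ∣ x → u ^ x ∈ L := fun x ⟨k, hk⟩ =>
    ⟨k, by show (u ^ (2 * N)) ^ k = _; rw [hk, ← zpow_mul]⟩
  have hLnorm : x₀ ∈ Subgroup.normalizer (L : Set G) := by
    refine mem_normalizer_of_move fun g ⟨k, hk⟩ => ?_
    rw [← hk]
    show x₀ * (u ^ (2 * N)) ^ k * x₀⁻¹ * ((u ^ (2 * N)) ^ k)⁻¹ ∈ L
    rw [← zpow_mul, hx₀u, ← zpow_neg, ← zpow_add]
    exact hmemL _ ⟨4 * r * t * k, by ring⟩
  have hd : ∀ d ∈ commutator G, d ∈ P → x₀ * d * x₀⁻¹ * d⁻¹ ∈ L := by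
    intro d hdA hdP
    obtain ⟨i, k, rfl⟩ := hD d hdA hdP
    have e : x₀ * (o ^ i * u ^ (N * k)) * x₀⁻¹ * (o ^ i * u ^ (N * k))⁻¹ =
        (x₀ * o ^ i * x₀⁻¹) * (x₀ * u ^ (N * k) * x₀⁻¹ * (u ^ (N * k))⁻¹) * (o ^ i)⁻¹ := by group
    rw [e, (hx₀o.zpow_right i).eq, mul_inv_cancel_right, hx₀u, ← zpow_neg, ← zpow_add,
      (h.commute (zpow_mem ho i) (zpow_mem h.u_mem _)).eq, mul_inv_cancel_right]
    exact hmemL _ ⟨2 * r * t * k, by ring⟩
  have hx₀β : x₀ * β * x₀⁻¹ * β⁻¹ = o := by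
    have e : x₀ * β * x₀⁻¹ * β⁻¹ = x₀ * (β * x₀ * β⁻¹)⁻¹ := by group
    rw [e, hy, mul_inv_rev, mul_inv_cancel_left, inv_eq_of_mul_eq_one_left ho2]
  refine ⟨?_, x₀, ⟨_, zpow_mem h.u_mem y, hx₀⟩, hx₀β, fun d hdA hdP => hLfr (hd d hdA hdP)⟩
  -- the elements `a ^ (2 * i) * f` of `P` lie in the derived subgroup
  intro i f hf hgP
  by_contra hgA
  have hni : ¬ (n : ℤ) ∣ 2 * i := fun ⟨k, hk⟩ => hgA (by
    rw [hk, zpow_mul, zpow_natCast]; exact mul_mem (zpow_mem h.pow_mem k) hf)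
  obtain ⟨k, hO⟩ := h.exists_congr_power hG i hf hni
  set O := (a ^ (2 * i) * f) ^ (2 * k) with hOdef
  have hOfr : O ∈ fr P := zpow_even_mem_fr hG hgP k
  obtain ⟨e, hOe⟩ : ∃ e : ℤ, O = o * u ^ (2 * e) := by
    have : o⁻¹ * O ∈ sqSub G := by
      have := mul_mem (inv_mem hoz) hO
      simpa [mul_assoc] using this
    obtain ⟨g, hg, hgg⟩ := h.mem_sqSub_iff.mp this
    obtain ⟨i', x, rfl⟩ := h.exists_repr' hG hoz hg
    refine ⟨x, ?_⟩
    rw [← mul_inv_cancel_left o O, ← hgg, ← zpow_two,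
      h.mul_zpow' (zpow_mem ho _) (zpow_mem h.u_mem _), ← zpow_mul, ← zpow_mul, mul_comm i' 2, hoe,
      one_mul, mul_comm x 2]
  have hNe : N ∣ 2 * e := hmin _ (by
    have := P.mul_mem (P.inv_mem hoP) (fr_le P hOfr)
    rwa [hOe, inv_mul_cancel_left] at this)
  have hodd : Odd (2 * r * K - 1) := ⟨r * K - 1, by ring⟩
  have hcop : IsCoprime N (2 * r * K - 1) := (Int.prime_two.coprime_iff_not_dvd.mpr
    (fun h2 => Int.not_even_iff_odd.mpr hodd (even_iff_two_dvd.mpr h2))).pow_left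
  obtain ⟨s, hs⟩ : u ^ (2 * e) ∈ Subgroup.zpowers (u ^ (2 * (2 * r * K - 1))) := by
    refine mem_of_zpow_odd hG hodd ⟨e, ?_⟩
    show (u ^ _) ^ _ = _
    rw [← zpow_mul, ← zpow_mul]
    congr 1
    ring
  have hs' : u ^ (2 * s * (2 * r * K - 1)) = u ^ (2 * e) := by
    rw [show 2 * s * (2 * r * K - 1) = 2 * (2 * r * K - 1) * s by ring, zpow_mul]; exact hs
  have hNs : N ∣ 2 * s := by
    refine hcop.dvd_of_dvd_mul_right (hmin _ ?_)
    rw [hs']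
    obtain ⟨q', hq'⟩ := hNe
    rw [hq', zpow_mul]
    exact zpow_mem hN q'
  set x := x₀ * u ^ s with hx
  have hxP : x ∈ P := by
    refine R.mem_of_trivial_fr hG (R.forall_comm_mem stable_fr (fr_le P)
      (s := {g | g ∈ P ∧ (g = β ∨ ∃ i : ℤ, ∃ f ∈ commutator G, g = a ^ (2 * i) * f)}) (fun g hg => hg.1)
      (fun g hg => ?_) ?_)
    · obtain ⟨e', i', f', hf', rfl, hg'⟩ := S.exists_mul g hg
      exact mul_mem (zpow_mem (Subgroup.subset_closure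
          (show β ∈ {g | g ∈ P ∧ (g = β ∨ ∃ i : ℤ, ∃ f ∈ commutator G, g = a ^ (2 * i) * f)} from
            ⟨S.mem_beta, Or.inl rfl⟩)) e')
        (Subgroup.subset_closure ⟨hg', Or.inr ⟨i', f', hf', rfl⟩⟩)
    rintro g ⟨hgP', rfl | ⟨i', f', hf', rfl⟩⟩
    · have e1 : x * β * x⁻¹ * β⁻¹ = x * (β * x₀ * β⁻¹ * (β * u ^ s * β⁻¹))⁻¹ := by rw [hx]; group
      rw [e1, hy, hβu, show (4 * r * K - 1) * s = 2 * s * (2 * r * K - 1) + s by ring, zpow_add, hs',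
        hx, show x₀ * u ^ s * (o * x₀ * (u ^ (2 * e) * u ^ s))⁻¹ =
          x₀ * (u ^ (2 * e))⁻¹ * x₀⁻¹ * o⁻¹ by group,
        inv_eq_of_mul_eq_one_left ho2, ← zpow_neg, hx₀u,
        (h.commute (zpow_mem h.u_mem _) ho).eq, show o * u ^ ((1 + 4 * r * t) * -(2 * e)) =
          o * u ^ (2 * e) * u ^ (-(2 * e) * (2 + 4 * r * t)) by rw [mul_assoc o, ← zpow_add]; congr 2; ring,
        ← hOe]
      obtain ⟨q', hq'⟩ := hNe
      exact mul_mem hOfr (hLfr (hmemL _ ⟨-(q' * (1 + 2 * r * t)), by rw [hq']; ring⟩))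
    · obtain ⟨i₁, hi₁⟩ := S.even_index hG hf' hgP'
      obtain ⟨f₁, hf₁, hg₁⟩ : ∃ f₁ ∈ commutator G, a ^ (2 * i') * f' = x₀ ^ (2 * i₁) * f₁ := by
        refine eq_mul_of_quot ?_
        rw [mul_of_quot_one hf', map_zpow _ x₀, hx₀, mul_of_quot_one (zpow_mem h.u_mem y), ← zpow_two,
          map_zpow, map_zpow, ← zpow_mul, hi₁]
        congr 1
        ring
      have hβx : β * x₀ ^ (2 * i₁) * β⁻¹ = x₀ ^ (2 * i₁) := by
        rw [← conj_zpow, hy, (hx₀o.symm).mul_zpow, hoe, one_mul]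
      set g := a ^ (2 * i') * f' with hgdef
      set X := x₀ ^ (2 * i₁) with hX
      have hDn : x₀ ∈ Subgroup.normalizer ((P ⊓ commutator G : Subgroup G) : Set G) :=
        mem_normalizer_of_move fun d hd' =>
          ⟨fr_le P (hLfr (hd d hd'.2 hd'.1)),
            commutator_def G ▸ Subgroup.commutator_mem_commutator (Subgroup.mem_top x₀) (Subgroup.mem_top d)⟩
      obtain ⟨i₂, xf, hf₁e⟩ := h.exists_repr' hG hoz hf₁
      have hxf : N ∣ 2 * xf := by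
        refine hcop.dvd_of_dvd_mul_right (hmin _ ?_)
        have hdP : β * g * β⁻¹ * g⁻¹ ∈ P ⊓ commutator G :=
          ⟨P.mul_mem (P.mul_mem (P.mul_mem S.mem_beta hgP') (P.inv_mem S.mem_beta)) (P.inv_mem hgP'),
            comm_mem β g⟩
        have h1 := ((Subgroup.mem_normalizer_iff.mp
          ((Subgroup.normalizer _).inv_mem ((Subgroup.normalizer _).zpow_mem hDn (2 * i₁)))) _).mp hdP
        have e1 : X⁻¹ * (β * g * β⁻¹ * g⁻¹) * X⁻¹⁻¹ =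
            X⁻¹ * (β * X * β⁻¹) * (β * f₁ * β⁻¹) * f₁⁻¹ := by rw [hg₁]; group
        rw [← hX, e1, hβx, inv_mul_cancel, one_mul, hf₁e] at h1
        have e2 : β * (o ^ i₂ * u ^ xf) * β⁻¹ * (o ^ i₂ * u ^ xf)⁻¹ =
            β * o ^ i₂ * β⁻¹ * (β * u ^ xf * β⁻¹ * (u ^ xf)⁻¹) * (o ^ i₂)⁻¹ := by group
        rw [e2, (hβo.zpow_right i₂).eq, mul_inv_cancel_right, hβu, ← zpow_neg, ← zpow_add,
          (h.commute (zpow_mem ho i₂) (zpow_mem h.u_mem _)).eq, mul_inv_cancel_right] at h1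
        rw [show 2 * xf * (2 * r * K - 1) = (4 * r * K - 1) * xf + -xf by ring]
        exact h1.1
      obtain ⟨c, hc⟩ := h.exists_conj_even hG i'
      have hgu : g * (u ^ s)⁻¹ * g⁻¹ = u ^ (-(s * (1 + 4 * r * c))) := by
        have e1 : g * (u ^ s)⁻¹ * g⁻¹ = a ^ (2 * i') * (f' * u ^ (-s) * f'⁻¹) * (a ^ (2 * i'))⁻¹ := by
          rw [hgdef]; group
        have h0 := hc (-s) 0
        rw [zpow_zero, mul_one] at h0
        rw [e1, (h.commute hf' (zpow_mem h.u_mem _)).eq, mul_inv_cancel_right, h0,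
          show (2 : ℤ) * c * -s = 2 * (c * -s) by ring, hw2, ← zpow_add]
        congr 1
        ring
      have e2 : x * g * x⁻¹ * g⁻¹ =
          x₀ * (u ^ s * (g * (u ^ s)⁻¹ * g⁻¹)) * x₀⁻¹ * (x₀ * g * x₀⁻¹ * g⁻¹) := by rw [hx]; group
      have e3 : x₀ * g * x₀⁻¹ * g⁻¹ = X * (x₀ * f₁ * x₀⁻¹ * f₁⁻¹) * X⁻¹ := by rw [hg₁, hX]; group
      rw [e2, e3, hgu, ← zpow_add]
      obtain ⟨qs, hqs⟩ := hNs
      obtain ⟨qf, hqf⟩ := hxf
      refine hLfr (mul_mem ((Subgroup.mem_normalizer_iff.mp hLnorm _).mp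
        (hmemL _ ⟨-(r * c * qs), by linear_combination -2 * r * c * hqs⟩))
        ((Subgroup.mem_normalizer_iff.mp ((Subgroup.normalizer _).zpow_mem hLnorm (2 * i₁)) _).mp ?_))
      have e4 : x₀ * (o ^ i₂ * u ^ xf) * x₀⁻¹ * (o ^ i₂ * u ^ xf)⁻¹ =
          (x₀ * o ^ i₂ * x₀⁻¹) * (x₀ * u ^ xf * x₀⁻¹ * (u ^ xf)⁻¹) * (o ^ i₂)⁻¹ := by group
      rw [hf₁e, e4, (hx₀o.zpow_right i₂).eq, mul_inv_cancel_right, hx₀u, ← zpow_neg, ← zpow_add,
        (h.commute (zpow_mem ho i₂) (zpow_mem h.u_mem _)).eq, mul_inv_cancel_right]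
      exact hmemL _ ⟨r * t * qf, by linear_combination 2 * r * t * hqf⟩
  refine S.no (u ^ (y + s)) (zpow_mem h.u_mem _) ?_
  rw [zpow_add, ← mul_assoc]
  exact hxP

end Small

end CfsgLib.FusionBicyclic
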