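import Cfsg.Agent.Lib.FusionBicyclic.SmallNoOmega
import Cfsg.Agent.Lib.FusionBicyclic.SmallOmega
import Cfsg.Agent.Lib.FusionBicyclic.SmallEight

/-!
No radical data on a subgroup containing an element of type `b` and none of type `a ^ 2`.
-/

set_option autoImplicit false
set_option linter.unusedSectionVars false
set_option linter.style.haveILetI false

namespace CfsgLib.FusionBicyclic

variable {G : Type*} [Group G] [Finite G]

namespace Small

variable {a b : G} {n : ℕ} {P : Subgroup G} {j : ℤ} {f₀ : G} (S : Small a b n P j f₀)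
  (hG : IsPGroup 2 G) {Δ : Subgroup (MulAut P)} (R : Rad P Δ)
include S hG R

theorem false_of_omega {o : G} (ho : o ∈ commutator G) (ho2 : o * o = 1)
    (hoz : (a ^ n)⁻¹ * o ∈ sqSub G) : False := by
  have h := S.data
  obtain ⟨hfree, x₀, ⟨f, hf, hx₀⟩, hc, hd⟩ := S.omega_data hG R ho ho2 hoz
  have hx₀P : x₀ ∉ P := hx₀ ▸ S.no f hf
  set β := a ^ (2 * j) * b * f₀ with hβ
  have hexp := S.sq_eq_one_of_mover hG hfree R hx₀P (hc ▸ ho) (by rw [hc]; exact ho2) hd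
  by_cases hu2 : uOf a b ^ (2 : ℤ) = 1
  · exact S.false_of_eight_small hG hfree hexp R hu2
  have ho1 : o ≠ 1 := fun e => h.top (by
    have := inv_mem hoz; rwa [e, mul_one, inv_inv] at this)
  have hoP : o ∈ P := S.invol_mem hG R ho ho2
  have hN1 : x₀ ∈ Subgroup.normalizer (P : Set G) := by
    refine S.mem_normalizer_of_gens hG hfree ?_ fun d hdA hdP => ?_
    · have e : x₀ * β * x₀⁻¹ = o * β := by rw [← hc]; group
      rw [e]; exact P.mul_mem hoP S.mem_beta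
    · have := P.mul_mem (fr_le P (hd d hdA hdP)) hdP
      simpa using this
  -- a root of an involution of `⟨u⟩`
  haveI : Fact (Nat.Prime 2) := ⟨Nat.prime_two⟩
  obtain ⟨k, hk⟩ := IsPGroup.iff_orderOf.mp hG (uOf a b)
  rcases k with _ | _ | k
  · exact hu2 (orderOf_dvd_iff_zpow_eq_one.mp (by rw [hk]; norm_num))
  · exact hu2 (orderOf_dvd_iff_zpow_eq_one.mp (by rw [hk]; norm_num))
  set q := uOf a b ^ (2 ^ k) with hq
  have hqA : q ∈ commutator G := Subgroup.pow_mem _ h.u_mem _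
  have hq4 : q ^ (4 : ℤ) = 1 := by
    rw [show (4 : ℤ) = ((4 : ℕ) : ℤ) from rfl, zpow_natCast, hq, ← pow_mul,
      show 2 ^ k * 4 = 2 ^ (k + 1 + 1) by ring, ← hk, pow_orderOf_eq_one]
  have hq2 : q * q ≠ 1 := fun e => by
    rw [hq, ← pow_add] at e
    have h1 := Nat.le_of_dvd (by positivity) (orderOf_dvd_of_pow_eq_one e)
    rw [hk] at h1
    have := Nat.two_pow_pos k
    rw [pow_succ, pow_succ] at h1
    omega
  obtain ⟨K, hK⟩ := S.exists_twist hG
  have hqβ : q * β * q⁻¹ * β⁻¹ = q ^ (2 : ℤ) * wOf a b ^ (2 * (-(K * 2 ^ k))) := by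
    have h1 := hK ((2 : ℤ) ^ k) 0
    rw [zpow_zero, mul_one, show uOf a b ^ ((2 : ℤ) ^ k) = q by rw [hq, ← zpow_natCast]; push_cast; rfl,
      ← hβ] at h1
    have e : q * β * q⁻¹ * β⁻¹ = q * (β * q * β⁻¹)⁻¹ := by group
    rw [e, h1, mul_inv_rev, inv_inv, ← mul_assoc,
      (h.commute hqA (inv_mem (zpow_mem h.w_mem _))).eq, mul_assoc, ← zpow_two,
      (h.commute (inv_mem (zpow_mem h.w_mem _)) (zpow_mem hqA 2)).eq, ← zpow_neg]
    congr 2
    ring
  have hsq : q * β * q⁻¹ * β⁻¹ ∈ sqSub G := by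
    rw [hqβ, zpow_two, zpow_mul, zpow_two]
    exact mul_mem (sq_mem_sqSub hqA) (zpow_mem (sq_mem_sqSub h.w_mem) _)
  have hc2 : q * β * q⁻¹ * β⁻¹ * (q * β * q⁻¹ * β⁻¹) = 1 := by
    have hw4 : wOf a b ^ (4 * (2 : ℤ) ^ k) = 1 := by
      have h1 := h.conj_a hG (4 * (2 : ℤ) ^ k) 0
      have hu4 : uOf a b ^ (4 * (2 : ℤ) ^ k) = 1 := by
        rw [mul_comm, zpow_mul, show uOf a b ^ ((2 : ℤ) ^ k) = q by
          rw [hq, ← zpow_natCast]; push_cast; rfl, hq4]
      rw [hu4, zpow_zero, one_mul, one_mul, mul_one, mul_inv_cancel] at h1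
      exact h1.symm
    rw [hqβ, ← zpow_two, h.mul_zpow' (zpow_mem hqA _) (zpow_mem h.w_mem _), ← zpow_mul, ← zpow_mul,
      show (2 : ℤ) * 2 = 4 by norm_num, hq4, one_mul,
      show 2 * -(K * (2 : ℤ) ^ k) * 2 = 4 * (2 : ℤ) ^ k * -K by ring, zpow_mul, hw4, one_zpow]
  have hN2 : q ∈ Subgroup.normalizer (P : Set G) := by
    refine S.mem_normalizer_of_gens hG hfree ?_ fun d hdA hdP => ?_
    · have e : q * β * q⁻¹ = q * β * q⁻¹ * β⁻¹ * β := (inv_mul_cancel_right _ _).symm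
      rw [e]
      exact P.mul_mem (S.invol_mem hG R (sqSub_le hsq) hc2) S.mem_beta
    · rw [(h.commute hqA hdA).eq, mul_inv_cancel_right]; exact hdP
  refine S.false_of_eight hG hfree hexp R hu2 hN1 hN2 (by rw [hc]; exact ho1) ?_ ?_
  · intro e
    refine hq2 (S.sq_eq_one_of_comm hG hqA ?_)
    exact (mul_inv_eq_iff_eq_mul.mp (mul_inv_eq_one.mp e)).symm
  · intro e
    refine h.top ?_
    rw [hc] at e
    have := mul_mem hsq (inv_mem hoz)
    rw [← e, mul_inv_rev, inv_inv, ← mul_assoc, mul_inv_cancel, one_mul] at this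
    exact this

theorem false_of_no_omega (hno : ∀ o ∈ commutator G, o * o = 1 → (a ^ n)⁻¹ * o ∉ sqSub G) : False := by
  classical
  haveI : Fact (Nat.Prime 2) := ⟨Nat.prime_two⟩
  have h := S.data
  have hn4 : n = 4 := by
    obtain ⟨r, hr2, hr⟩ := h.exists_pow_two hG
    rcases eq_or_lt_of_le hr2 with e | hlt
    · rw [hr, ← e]; norm_num
    · obtain ⟨o, ho, ho2, hoz⟩ := h.exists_omega hG (hr ▸ Nat.pow_dvd_pow 2 hlt)
      exact absurd hoz (hno o ho ho2)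
  have hfree : ∀ i : ℤ, ∀ f ∈ commutator G, a ^ (2 * i) * f ∈ P →
      a ^ (2 * i) * f ∈ commutator G := by
    intro i f hf hx
    obtain ⟨k, hk⟩ := S.even_index hG hf hx
    rw [hk, show 2 * (k + k) = ((n : ℕ) : ℤ) * k by rw [hn4]; push_cast; ring, zpow_mul, zpow_natCast]
    exact mul_mem (zpow_mem h.pow_mem k) hf
  set β := a ^ (2 * j) * b * f₀ with hβ
  obtain ⟨c, d, hcA, hdA, hc2, hd2, hc1, hd1, hcd⟩ := h.exists_two_invol hG
  obtain ⟨s, hs, rfl⟩ := h.mem_sqSub_iff.mp (h.invol_mem_sqSub hG hno hcA hc2)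
  obtain ⟨t, ht, rfl⟩ := h.mem_sqSub_iff.mp (h.invol_mem_sqSub hG hno hdA hd2)
  by_cases hA : commutator G ≤ P
  · obtain ⟨t', ht'⟩ := h.exists_conj_sq hG
    refine S.no 1 (one_mem _) ?_
    rw [mul_one]
    refine S.mem_of_two_squares hG hfree R hs (hA hs) ht (hA ht) hc1 hd1 hcd (comm_mem _ _)
      (hA (comm_mem _ _)) fun g hgA _ => ?_
    obtain ⟨x, y, rfl⟩ := h.exists_repr hG hgA
    rw [ht', (h.commute hgA (zpow_mem h.w_mem _)).eq, mul_inv_cancel_right,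
      show 2 * t' * x = 2 * (t' * x) by ring]
    exact zpow_even_mem_fr hG (hA h.w_mem) _
  -- an element of least order outside `P`
  have hex : ∃ m : ℕ, ∃ σ ∈ commutator G, σ ∉ P ∧ orderOf σ = m := by
    obtain ⟨σ, hσ, hσP⟩ := Set.not_subset.mp hA
    exact ⟨_, σ, hσ, hσP, rfl⟩
  obtain ⟨σ, hσA, hσP, hσo⟩ := Nat.find_spec hex
  have hmin : ∀ g ∈ commutator G, orderOf g < orderOf σ → g ∈ P := fun g hg hlt => by
    by_contra hgP
    exact Nat.find_min hex (hσo ▸ hlt) ⟨g, hg, hgP, rfl⟩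
  obtain ⟨k, hk⟩ := IsPGroup.iff_orderOf.mp hG σ
  rcases k with _ | k
  · rw [pow_zero, orderOf_eq_one_iff] at hk
    exact hσP (hk ▸ one_mem _)
  obtain ⟨K, hK⟩ := S.exists_twist hG
  -- movers inside the derived subgroup
  have hmov : ∀ g ∈ commutator G, ∀ N : ℕ, g ^ (2 * N) = 1 → (g * β * g⁻¹ * β⁻¹) ^ N = 1 := by
    intro g hg N hgN
    obtain ⟨x, y, rfl⟩ := h.exists_repr hG hg
    set g := uOf a b ^ x * (a ^ n) ^ y with hgd
    have hw : wOf a b ^ (x * (2 * (N : ℤ))) = 1 := by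
      have h1 : a * g ^ (2 * N) * a⁻¹ = g ^ (2 * N) * wOf a b ^ (x * (2 * (N : ℤ))) := by
        rw [← conj_pow, hgd, h.conj_a hG, (h.commute hg (zpow_mem h.w_mem _)).mul_pow]
        rw [zpow_mul, show (2 * (N : ℤ)) = ((2 * N : ℕ) : ℤ) by push_cast; rfl, zpow_natCast]
      rw [hgN, mul_one, mul_inv_cancel, one_mul] at h1
      exact h1.symm
    have e : g * β * g⁻¹ * β⁻¹ = g * (β * g * β⁻¹)⁻¹ := by group
    rw [e, hgd, hK, ← hgd, mul_inv_rev, inv_inv, ← mul_assoc,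
      (h.commute hg (inv_mem (zpow_mem h.w_mem _))).eq, mul_assoc,
      ← pow_two g, (h.commute (inv_mem (zpow_mem h.w_mem _)) (Subgroup.pow_mem _ hg 2)).mul_pow,
      ← pow_mul, hgN, mul_one, inv_pow, ← zpow_natCast, ← zpow_mul,
      show 2 * K * x * (N : ℤ) = x * (2 * (N : ℤ)) * K by ring, zpow_mul, hw, one_zpow, inv_one]
  have hσmem : σ * β * σ⁻¹ * β⁻¹ ∈ P := by
    refine hmin _ (comm_mem _ _) (lt_of_le_of_lt
      (Nat.le_of_dvd (Nat.two_pow_pos k) (orderOf_dvd_of_pow_eq_one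
        (hmov σ hσA (2 ^ k) (by rw [← pow_succ', ← hk, pow_orderOf_eq_one])))) ?_)
    rw [hk, pow_succ]
    have := Nat.two_pow_pos k
    omega
  have hσd : ∀ g ∈ commutator G, g ∈ P → σ * g * σ⁻¹ * g⁻¹ ∈ fr P := fun g hg _ => by
    rw [(h.commute hσA hg).eq, mul_inv_cancel_right, mul_inv_cancel]; exact one_mem _
  by_cases hst : s ∈ P ∧ t ∈ P
  · exact hσP (S.mem_of_two_squares hG hfree R hs hst.1 ht hst.2 hc1 hd1 hcd (comm_mem _ _) hσmem hσd)
  have hs4 : s ^ (4 : ℕ) = 1 := by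
    rw [show (4 : ℕ) = 2 * 2 from rfl, pow_mul, pow_two s, pow_two (s * s), hc2]
  have ht4 : t ^ (4 : ℕ) = 1 := by
    rw [show (4 : ℕ) = 2 * 2 from rfl, pow_mul, pow_two t, pow_two (t * t), hd2]
  have hσ4 : σ ^ (4 : ℕ) = 1 := by
    have hgo : ∀ g ∈ commutator G, g ∉ P → g ^ (4 : ℕ) = 1 → σ ^ (4 : ℕ) = 1 := by
      intro g hg hgP hg4
      have hle : orderOf σ ≤ 4 :=
        (not_lt.mp fun hlt => hgP (hmin g hg hlt)).trans
          (Nat.le_of_dvd (by norm_num) (orderOf_dvd_of_pow_eq_one hg4))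
      refine orderOf_dvd_iff_pow_eq_one.mp ?_
      rw [hk] at hle ⊢
      have hk2 : k + 1 ≤ 2 := (Nat.pow_le_pow_iff_right (show 1 < 2 by norm_num)).mp
        (show 2 ^ (k + 1) ≤ 2 ^ 2 from hle)
      exact Nat.pow_dvd_pow 2 hk2
    rcases not_and_or.mp hst with hs' | ht'
    · exact hgo s hs hs' hs4
    · exact hgo t ht ht' ht4
  have hexp := S.sq_eq_one_of_mover hG hfree R hσP (comm_mem _ _)
    (by rw [← pow_two]; exact hmov σ hσA 2 hσ4) hσd
  have hu2 : uOf a b ^ (2 : ℤ) ≠ 1 := fun e => h.u_not_mem_derR hG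
    (Subgroup.mem_sup_left (h.invol_mem_sqSub hG hno h.u_mem (by rw [← zpow_two]; exact e)))
  have hnorm : ∀ g ∈ commutator G, g ^ (4 : ℕ) = 1 → g ∈ Subgroup.normalizer (P : Set G) := by
    intro g hg hg4
    refine S.mem_normalizer_of_gens hG hfree ?_ fun e heA heP => ?_
    · rw [show g * β * g⁻¹ = g * β * g⁻¹ * β⁻¹ * β from (inv_mul_cancel_right _ _).symm]
      exact P.mul_mem (S.invol_mem hG R (comm_mem _ _) (by rw [← pow_two]; exact hmov g hg 2 hg4))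
        S.mem_beta
    · rw [(h.commute hg heA).eq, mul_inv_cancel_right]; exact heP
  refine S.false_of_eight hG hfree hexp R hu2 (hnorm s hs hs4) (hnorm t ht ht4) ?_ ?_ ?_
  · intro e
    exact hc1 (S.sq_eq_one_of_comm hG hs (mul_inv_eq_iff_eq_mul.mp (mul_inv_eq_one.mp e)).symm)
  · intro e
    exact hd1 (S.sq_eq_one_of_comm hG ht (mul_inv_eq_iff_eq_mul.mp (mul_inv_eq_one.mp e)).symm)
  · intro e
    have e1 : t⁻¹ * s * β = β * (t⁻¹ * s) := by
      have e2 : s * β * s⁻¹ = t * β * t⁻¹ := mul_right_cancel e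
      calc t⁻¹ * s * β = t⁻¹ * (s * β * s⁻¹) * s := by group
        _ = t⁻¹ * (t * β * t⁻¹) * s := by rw [e2]
        _ = _ := by group
    have h2 := S.sq_eq_one_of_comm hG (mul_mem (inv_mem ht) hs) e1.symm
    refine hcd ?_
    rw [← zpow_two, h.mul_zpow' (inv_mem ht) hs, inv_zpow, inv_mul_eq_one, zpow_two, zpow_two] at h2
    exact h2.symm

/-- The small case. -/
theorem false_of_small : False := by
  by_cases hex : ∃ o ∈ commutator G, o * o = 1 ∧ (a ^ n)⁻¹ * o ∈ sqSub G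
  · obtain ⟨o, ho, ho2, hoz⟩ := hex
    exact S.false_of_omega hG R ho ho2 hoz
  · exact S.false_of_no_omega hG R fun o ho ho2 hoz => hex ⟨o, ho, ho2, hoz⟩

end Small

end CfsgLib.FusionBicyclic
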