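import Cfsg.Agent.Lib.FusionBicyclic.CasesSplit
import Cfsg.Agent.Lib.FusionBicyclic.CaseSmall

/-!
# A radical proper subgroup is impossible

Assembly of the case split for S5217.
-/

set_option autoImplicit false

namespace CfsgLib.FusionBicyclic

variable {G : Type*} [Group G] {a b : G} {n : ℕ}

/-- No proper subgroup is centric, radical and with a Sylow-controlled automiser. -/
theorem Data.false_of_proper (h : Data a b n) [Finite G] (hG : IsPGroup 2 G) {P : Subgroup G}
    {Δ : Subgroup (MulAut P)} (R : Rad P Δ) (hP : P ≠ ⊤) : False :=
  h.false_of_proper' hG R hP fun _ _ S => S.false_of_small hG R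

end CfsgLib.FusionBicyclic
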