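import Cfsg.Agent.Lib.FusionBicyclic.SmallBase
import Cfsg.Agent.Lib.FusionBicyclic.CaseOdd
import Cfsg.Agent.Lib.FusionBicyclic.CaseLarge
import Mathlib.GroupTheory.Abelianization.Defs

/-!
No radical data on a proper subgroup: the split into the cases.
-/

set_option autoImplicit false
set_option linter.unusedSectionVars false
set_option linter.style.haveILetI false

namespace CfsgLib.FusionBicyclic

variable {G : Type*} [Group G] {a b : G} {n : ℕ}

theorem of_eq_one_iff {x : G} : Abelianization.of x = 1 ↔ x ∈ commutator G :=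
  QuotientGroup.eq_one_iff x

theorem of_eq_mul {g c : G} (he : Abelianization.of g = Abelianization.of c) :
    ∃ f ∈ commutator G, g = c * f :=
  ⟨c⁻¹ * g, of_eq_one_iff.mp (by rw [map_mul, map_inv, he, inv_mul_cancel]),
    (mul_inv_cancel_left _ _).symm⟩

/-- Coordinates modulo the derived subgroup. -/
theorem Data.exists_form (h : Data a b n) (x : G) :
    ∃ i e : ℤ, ∃ f ∈ commutator G, x = a ^ i * b ^ e * f := by
  haveI : (Subgroup.zpowers b ⊔ commutator G).Normal :=
    Subgroup.Normal.of_commutator_le (G := G) le_sup_right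
  have htop : Subgroup.zpowers a ⊔ (Subgroup.zpowers b ⊔ commutator G) = ⊤ := by
    rw [eq_top_iff, ← h.gen, Subgroup.closure_le]
    rintro w (hw | hw) <;> subst w
    · exact Subgroup.mem_sup_left (Subgroup.mem_zpowers _)
    · exact Subgroup.mem_sup_right (Subgroup.mem_sup_left (Subgroup.mem_zpowers _))
  obtain ⟨_, ⟨i, rfl⟩, y, hy, hxy⟩ :=
    Subgroup.mem_sup_of_normal_right.mp (htop ▸ Subgroup.mem_top x)
  obtain ⟨_, ⟨e, rfl⟩, f, hf, hbf⟩ := Subgroup.mem_sup_of_normal_right.mp hy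
  exact ⟨i, e, f, hf, by rw [← hxy, ← hbf, ← mul_assoc]⟩

/-- An element with odd exponent of `a` replaces `a`. -/
theorem Data.change_gen (h : Data a b n) [Finite G] (hG : IsPGroup 2 G) {i e : ℤ} {f : G}
    (hi : Odd i) (hf : f ∈ commutator G) : Data (a ^ i * b ^ e * f) b n := by
  haveI : Fact (Nat.Prime 2) := ⟨Nat.prime_two⟩
  haveI := hG.isNilpotent
  set g := a ^ i * b ^ e * f with hg
  have hog : Abelianization.of g = Abelianization.of a ^ i * Abelianization.of b ^ e := by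
    rw [hg, map_mul, map_mul, map_zpow, map_zpow, of_eq_one_iff.mpr hf, mul_one]
  obtain ⟨r, hr2, hr⟩ := h.exists_pow_two hG
  have hmem : ∀ k m : ℤ, g ^ k * b ^ m ∈ commutator G ↔ (n : ℤ) ∣ k ∧ 2 ∣ m := by
    intro k m
    have e1 : Abelianization.of (g ^ k * b ^ m) =
        Abelianization.of (a ^ (i * k) * b ^ (e * k + m)) := by
      rw [map_mul, map_mul, map_zpow, map_zpow, map_zpow, map_zpow, hog, mul_zpow, ← zpow_mul,
        ← zpow_mul, mul_assoc, ← zpow_add]
    rw [← of_eq_one_iff, e1, of_eq_one_iff, h.mem_iff]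
    obtain ⟨d, hd⟩ := h.four
    constructor
    · rintro ⟨h1, h2⟩
      have hk : (n : ℤ) ∣ k := by
        refine IsCoprime.dvd_of_dvd_mul_left ?_ h1
        rw [hr]
        push_cast
        obtain ⟨s, rfl⟩ := hi
        exact IsCoprime.pow_left ⟨-s, 1, by ring⟩
      have h2k : (2 : ℤ) ∣ e * k :=
        Dvd.dvd.mul_left ((Dvd.intro (2 * (d : ℤ)) (by rw [hd]; push_cast; ring)).trans hk) _
      exact ⟨hk, by have := dvd_sub h2 h2k; rwa [add_sub_cancel_left] at this⟩
    · rintro ⟨h1, h2⟩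
      exact ⟨Dvd.dvd.mul_left h1 _, dvd_add (Dvd.dvd.mul_left
        ((Dvd.intro (2 * (d : ℤ)) (by rw [hd]; push_cast; ring)).trans h1) _) h2⟩
  have hgn : g ^ n ∈ commutator G := by
    have := (hmem n 0).mpr ⟨dvd_rfl, dvd_zero _⟩
    simpa using this
  refine ⟨?_, h.sq, h.comm, h.noncyclic, h.four, h.pos, hgn, hmem, ?_, h.chain⟩
  · refine frattini_nongenerating (top_le_iff.mp ?_)
    set K := Subgroup.closure ({g, b} : Set G) ⊔ frattini G with hK
    have hgK : g ∈ K := Subgroup.mem_sup_left (Subgroup.subset_closure (Or.inl rfl))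
    have hbK : b ∈ K := Subgroup.mem_sup_left (Subgroup.subset_closure (Or.inr rfl))
    have hfK : f ∈ K := Subgroup.mem_sup_right (CfsgLib.PGroups.commutator_le_frattini hG hf)
    have haK : a ∈ K := by
      refine mem_of_zpow_odd hG hi ?_
      rw [show a ^ i = g * f⁻¹ * (b ^ e)⁻¹ by rw [hg]; group]
      exact mul_mem (mul_mem hgK (inv_mem hfK)) (inv_mem (zpow_mem hbK e))
    rw [← h.gen, Subgroup.closure_le]
    rintro w (hw | hw) <;> subst w
    exacts [haK, hbK]
  · intro htop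
    obtain ⟨d, hd⟩ := h.four
    obtain ⟨f', hf', hg2⟩ : ∃ f' ∈ commutator G, g * g = a ^ (2 * i) * f' := by
      refine of_eq_mul ?_
      have hb : Abelianization.of b * Abelianization.of b = 1 := by
        rw [← map_mul]; exact of_eq_one_iff.mpr (derR_le h.sq)
      rw [map_mul, map_zpow, hog, mul_mul_mul_comm, ← mul_zpow (Abelianization.of b), hb, one_zpow,
        mul_one, ← zpow_add, two_mul]
    set π := QuotientGroup.mk' (sqSub G)
    have h4 : π ((a ^ (4 * i))⁻¹ * (g * g * (g * g))) = 1 :=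
      (QuotientGroup.eq_one_iff _).mpr (by rw [hg2]; exact h.sq_mem_even hG i hf')
    rw [map_mul, map_inv, inv_mul_eq_one] at h4
    refine h.top (mem_of_zpow_odd hG hi ?_)
    rw [← QuotientGroup.eq_one_iff]
    show π ((a ^ n) ^ i) = 1
    calc π ((a ^ n) ^ i) = π (a ^ (4 * i)) ^ d := by
          rw [← map_pow]
          congr 1
          rw [← zpow_natCast (a ^ (4 * i)), ← zpow_mul, ← zpow_natCast a n, ← zpow_mul, hd]
          congr 1
          push_cast
          ring
      _ = π (g ^ n) := by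
          rw [h4, ← map_pow, hd, pow_mul]
          congr 2
          simp [pow_succ, mul_assoc]
      _ = 1 := (QuotientGroup.eq_one_iff _).mpr htop

/-- The split into the cases, the small case being a hypothesis. -/
theorem Data.false_of_proper' (h : Data a b n) [Finite G] (hG : IsPGroup 2 G) {P : Subgroup G}
    {Δ : Subgroup (MulAut P)} (R : Rad P Δ) (hP : P ≠ ⊤)
    (hsmall : ∀ (j : ℤ) (f₀ : G), Small a b n P j f₀ → False) : False := by
  classical
  haveI : Fact (Nat.Prime 2) := ⟨Nat.prime_two⟩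
  haveI := hG.isNilpotent
  have hb2 : ∀ t : ℤ, (b * b) ^ t ∈ commutator G := fun t => zpow_mem (derR_le h.sq) t
  have hbev : ∀ m : ℤ, Even m → b ^ m ∈ commutator G := by
    rintro _ ⟨t, rfl⟩
    rw [← two_mul, zpow_mul, zpow_two]; exact hb2 t
  by_cases hodd : ∃ x ∈ P, ∃ i e : ℤ, ∃ f ∈ commutator G, Odd i ∧ x = a ^ i * b ^ e * f
  · obtain ⟨g, hgP, i, e, f, hf, hi, rfl⟩ := hodd
    have h' := h.change_gen hG (e := e) hi hf
    refine h'.false_of_odd hG R hgP fun x hx => ?_
    obtain ⟨k, m, f', hf', hxe⟩ := h'.exists_form x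
    rcases Int.even_or_odd m with hm | hm
    · exact ⟨k, b ^ m * f', mul_mem (hbev m hm) hf', by rw [hxe, mul_assoc]⟩
    · exfalso
      refine hP (frattini_nongenerating (top_le_iff.mp ?_))
      have hbK : b ∈ P ⊔ frattini G := by
        refine mem_of_zpow_odd hG hm ?_
        have e1 : b ^ m = ((a ^ i * b ^ e * f) ^ k)⁻¹ * x * f'⁻¹ := by rw [hxe]; group
        rw [e1]
        exact mul_mem (Subgroup.mem_sup_left (mul_mem (inv_mem (zpow_mem hgP k)) hx))
          (Subgroup.mem_sup_right (inv_mem (CfsgLib.PGroups.commutator_le_frattini hG hf')))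
      rw [← h'.gen, Subgroup.closure_le]
      rintro w (hw | hw) <;> subst w
      exacts [Subgroup.mem_sup_left hgP, hbK]
  have hM : ∀ x ∈ P, ∃ i e : ℤ, ∃ f ∈ commutator G, x = a ^ (2 * i) * b ^ e * f := by
    intro x hx
    obtain ⟨i, e, f, hf, rfl⟩ := h.exists_form x
    rcases Int.even_or_odd i with ⟨t, rfl⟩ | hi
    · exact ⟨t, e, f, hf, by rw [two_mul]⟩
    · exact absurd ⟨_, hx, i, e, f, hf, hi, rfl⟩ hodd
  by_cases hbeta : ∃ x ∈ P, ∃ j e : ℤ, ∃ f ∈ commutator G, Odd e ∧ x = a ^ (2 * j) * b ^ e * f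
  · obtain ⟨x, hx, j, e, f, hf, ⟨t, rfl⟩, rfl⟩ := hbeta
    obtain ⟨f₀, hf₀, hβ⟩ : ∃ f₀ ∈ commutator G, a ^ (2 * j) * b * f₀ ∈ P := by
      obtain ⟨f₀, hf₀, heq⟩ : ∃ f₀ ∈ commutator G,
          a ^ (2 * j) * b ^ (2 * t + 1) * f = a ^ (2 * j) * b * f₀ := by
        refine of_eq_mul ?_
        rw [map_mul, of_eq_one_iff.mpr hf, mul_one, map_mul, map_mul, zpow_add_one, map_mul,
          of_eq_one_iff.mpr (hbev (2 * t) (even_two_mul t)), one_mul]
      exact ⟨f₀, hf₀, heq ▸ hx⟩
    by_cases hg : ∃ h₀ ∈ commutator G, a * a * h₀ ∈ P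
    · obtain ⟨h₀, hh₀, hgP⟩ := hg
      obtain ⟨f', hf', heq⟩ : ∃ f' ∈ commutator G,
          a ^ (2 * j) * b * f₀ * ((a * a * h₀) ^ j)⁻¹ = b * f' := by
        refine of_eq_mul ?_
        simp only [map_mul, map_inv, map_zpow, of_eq_one_iff.mpr hf₀, of_eq_one_iff.mpr hh₀, mul_one]
        rw [zpow_mul, zpow_two, mul_comm ((Abelianization.of a * Abelianization.of a) ^ j),
          mul_inv_cancel_right]
      exact h.false_of_large hG R hM hf' hh₀ (heq ▸ mul_mem hβ (inv_mem (zpow_mem hgP j))) hgP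
    · exact hsmall j f₀ ⟨h, hf₀, hβ, hM, fun h₀ hh₀ hmem => hg ⟨h₀, hh₀, hmem⟩⟩
  · refine h.false_of_even hG R fun x hx => ?_
    obtain ⟨i, e, f, hf, rfl⟩ := hM x hx
    rcases Int.even_or_odd e with he | he
    · exact ⟨i, b ^ e * f, mul_mem (hbev e he) hf, by rw [mul_assoc]⟩
    · exact absurd ⟨_, hx, i, e, f, hf, he, rfl⟩ hbeta

end CfsgLib.FusionBicyclic
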