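import Cfsg.Agent.Lib.FusionBicyclic.Basic
import Mathlib.Algebra.Ring.Parity
import Mathlib.Tactic.Ring
import Mathlib.Tactic.Linarith

/-!
The derived subgroup of a nonmetacyclic bicyclic `2`-group: counting in `S = ⟨a⟩⟨y⟩` shows that it
is two-generated modulo squares, and that `a ^ |aS'|` is not a square in `S'`.
-/

set_option autoImplicit false
set_option linter.unusedSectionVars false
set_option linter.style.haveILetI false

namespace CfsgLib.FusionBicyclic

open scoped commutatorElement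

variable {G : Type*} [Group G]

/-- The third term of the series of the derived subgroup modulo squares. -/
def derL3 (G : Type*) [Group G] : Subgroup G :=
  sqSub G ⊔ ⁅⁅commutator G, (⊤ : Subgroup G)⁆, (⊤ : Subgroup G)⁆

/-- The fourth term. -/
def derL4 (G : Type*) [Group G] : Subgroup G :=
  sqSub G ⊔ ⁅⁅⁅commutator G, (⊤ : Subgroup G)⁆, (⊤ : Subgroup G)⁆, (⊤ : Subgroup G)⁆

instance derL3_normal : (derL3 G).Normal :=
  haveI : ⁅commutator G, (⊤ : Subgroup G)⁆.Normal := Subgroup.commutator_normal _ _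
  haveI : ⁅⁅commutator G, (⊤ : Subgroup G)⁆, (⊤ : Subgroup G)⁆.Normal := Subgroup.commutator_normal _ _
  Subgroup.sup_normal _ _

instance derL4_normal : (derL4 G).Normal :=
  haveI : ⁅commutator G, (⊤ : Subgroup G)⁆.Normal := Subgroup.commutator_normal _ _
  haveI : ⁅⁅commutator G, (⊤ : Subgroup G)⁆, (⊤ : Subgroup G)⁆.Normal := Subgroup.commutator_normal _ _
  haveI : ⁅⁅⁅commutator G, (⊤ : Subgroup G)⁆, (⊤ : Subgroup G)⁆, (⊤ : Subgroup G)⁆.Normal :=
    Subgroup.commutator_normal _ _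
  Subgroup.sup_normal _ _

theorem derL3_le_derR : derL3 G ≤ derR G :=
  sup_le_sup_left (Subgroup.commutator_mono (Subgroup.commutator_le_left _ _) le_rfl) _

theorem derL4_le_derL3 : derL4 G ≤ derL3 G :=
  sup_le_sup_left
    (Subgroup.commutator_mono (Subgroup.commutator_mono (Subgroup.commutator_le_left _ _) le_rfl) le_rfl) _

theorem sqSub_le_derL4 : sqSub G ≤ derL4 G := le_sup_left

/-- Commutators of elements of `N = sq ⊔ K` with anything lie in `sq ⊔ [K, G]`. -/
theorem commElt_mem_sup {K : Subgroup G} [K.Normal] {f : G} (hf : f ∈ sqSub G ⊔ K) (g : G) :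
    g * f * g⁻¹ * f⁻¹ ∈ sqSub G ⊔ ⁅K, (⊤ : Subgroup G)⁆ := by
  haveI : ⁅K, (⊤ : Subgroup G)⁆.Normal := Subgroup.commutator_normal _ _
  haveI : (sqSub G ⊔ ⁅K, (⊤ : Subgroup G)⁆).Normal := Subgroup.sup_normal _ _
  set π := QuotientGroup.mk' (sqSub G ⊔ ⁅K, (⊤ : Subgroup G)⁆)
  have hle : sqSub G ⊔ K ≤ (Subgroup.centralizer {π g}).comap π := by
    refine sup_le (fun s hs => ?_) (fun s hs => ?_)
    · rw [Subgroup.mem_comap, Subgroup.mem_centralizer_singleton_iff,
        show π s = 1 from (QuotientGroup.eq_one_iff _).mpr (Subgroup.mem_sup_left hs)]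
      simp
    · rw [Subgroup.mem_comap, Subgroup.mem_centralizer_singleton_iff]
      refine commutatorElement_eq_one_iff_mul_comm.mp ?_
      rw [← map_commutatorElement]
      exact (QuotientGroup.eq_one_iff _).mpr
        (Subgroup.mem_sup_right (Subgroup.commutator_mem_commutator hs (Subgroup.mem_top g)))
  have h0 : Commute (π g) (π f) := by
    have h := Subgroup.mem_centralizer_singleton_iff.mp (hle hf)
    first | exact h | exact h.symm
  rw [← QuotientGroup.eq_one_iff]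
  show π (g * f * g⁻¹ * f⁻¹) = 1
  rw [map_mul, map_mul, map_mul, map_inv, map_inv, h0.eq, mul_inv_cancel_right, mul_inv_cancel]

theorem commElt_mem_derR {f : G} (hf : f ∈ commutator G) (g : G) :
    g * f * g⁻¹ * f⁻¹ ∈ derR G :=
  commElt_mem_sup (Subgroup.mem_sup_right hf) g

theorem commElt_mem_derL3 {f : G} (hf : f ∈ derR G) (g : G) :
    g * f * g⁻¹ * f⁻¹ ∈ derL3 G :=
  haveI : ⁅commutator G, (⊤ : Subgroup G)⁆.Normal := Subgroup.commutator_normal _ _
  commElt_mem_sup (K := ⁅commutator G, (⊤ : Subgroup G)⁆) hf g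

theorem commElt_mem_derL4 {f : G} (hf : f ∈ derL3 G) (g : G) :
    g * f * g⁻¹ * f⁻¹ ∈ derL4 G :=
  haveI : ⁅commutator G, (⊤ : Subgroup G)⁆.Normal := Subgroup.commutator_normal _ _
  haveI : ⁅⁅commutator G, (⊤ : Subgroup G)⁆, (⊤ : Subgroup G)⁆.Normal := Subgroup.commutator_normal _ _
  commElt_mem_sup (K := ⁅⁅commutator G, (⊤ : Subgroup G)⁆, (⊤ : Subgroup G)⁆) hf g

/-- If `K ≤ ⟨f⟩ ⊔ N` and `K` is central modulo `N'`, and the two generators centralise `f` modulo
`N'`, then `[K, G] ≤ N'`. -/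
theorem commutator_le_of_gen {a b : G} (hgen : Subgroup.closure ({a, b} : Set G) = ⊤)
    {N M : Subgroup G} [N.Normal] (hM : ∀ m ∈ M, ∀ g : G, g * m * g⁻¹ * m⁻¹ ∈ N) {K : Subgroup G}
    {f : G} (hK : K ≤ Subgroup.zpowers f ⊔ M) (ha : a * f * a⁻¹ * f⁻¹ ∈ N)
    (hb : b * f * b⁻¹ * f⁻¹ ∈ N) : ⁅K, (⊤ : Subgroup G)⁆ ≤ N := by
  set π := QuotientGroup.mk' N
  have hcomm : ∀ g h : G, g * h * g⁻¹ * h⁻¹ ∈ N → π g * π h = π h * π g := by
    intro g h hgh
    have h1 : π (g * h * g⁻¹ * h⁻¹) = 1 := (QuotientGroup.eq_one_iff _).mpr hgh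
    rw [map_mul, map_mul, map_mul, map_inv, map_inv, mul_inv_eq_one, mul_inv_eq_iff_eq_mul] at h1
    exact h1
  have hall : Subgroup.zpowers f ⊔ M ≤ (Subgroup.center (G ⧸ N)).comap π := by
    refine sup_le (Subgroup.zpowers_le.mpr ?_) (fun m hm => ?_)
    · rw [Subgroup.mem_comap, Subgroup.mem_center_iff]
      intro q
      obtain ⟨g, rfl⟩ := QuotientGroup.mk'_surjective N q
      have hle : Subgroup.closure ({a, b} : Set G) ≤ (Subgroup.centralizer {π f}).comap π := by
        rw [Subgroup.closure_le]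
        rintro _ (rfl | rfl) <;> rw [SetLike.mem_coe, Subgroup.mem_comap,
          Subgroup.mem_centralizer_singleton_iff]
        · first | exact hcomm _ _ ha | exact (hcomm _ _ ha).symm
        · first | exact hcomm _ _ hb | exact (hcomm _ _ hb).symm
      have h := Subgroup.mem_centralizer_singleton_iff.mp (hle (hgen ▸ Subgroup.mem_top g))
      first | exact h | exact h.symm
    · rw [Subgroup.mem_comap, Subgroup.mem_center_iff]
      intro q
      obtain ⟨g, rfl⟩ := QuotientGroup.mk'_surjective N q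
      exact hcomm _ _ (hM m hm g)
  rw [Subgroup.commutator_le]
  intro k hk g _
  rw [← QuotientGroup.eq_one_iff]
  show π ⁅k, g⁆ = 1
  rw [map_commutatorElement, commutatorElement_eq_one_iff_mul_comm]
  exact (Subgroup.mem_center_iff.mp (hall (hK hk)) (π g)).symm

/-- A subgroup generated by one element and a subgroup, normal as soon as it is centralised. -/
theorem normal_zpowers_sup {N : Subgroup G} [N.Normal] {f : G}
    (hf : ∀ g : G, g * f * g⁻¹ * f⁻¹ ∈ N) : (Subgroup.zpowers f ⊔ N).Normal := by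
  refine ⟨fun n hn g => ?_⟩
  have hle : Subgroup.zpowers f ⊔ N ≤
      (Subgroup.zpowers f ⊔ N).comap (MulAut.conj g).toMonoidHom := by
    refine sup_le (Subgroup.zpowers_le.mpr ?_) (fun r hr => ?_)
    · show g * f * g⁻¹ ∈ Subgroup.zpowers f ⊔ N
      have h1 : g * f * g⁻¹ = g * f * g⁻¹ * f⁻¹ * f := (inv_mul_cancel_right _ _).symm
      rw [h1]
      exact mul_mem (Subgroup.mem_sup_right (hf g)) (Subgroup.mem_sup_left (Subgroup.mem_zpowers f))
    · exact Subgroup.mem_sup_right ((inferInstance : N.Normal).conj_mem r hr g)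
  exact hle hn

/-- The facts about a nonmetacyclic bicyclic `2`-group with noncyclic derived subgroup used in
the analysis of essential subgroups. -/
structure Data (a b : G) (n : ℕ) : Prop where
  gen : Subgroup.closure ({a, b} : Set G) = ⊤
  sq : b * b ∈ derR G
  comm : ∀ f ∈ commutator G, ∀ g ∈ commutator G, f * g = g * f
  noncyclic : ¬ IsCyclic (commutator G)
  four : 4 ∣ n
  pos : 0 < n
  pow_mem : a ^ n ∈ commutator G
  mem_iff : ∀ i e : ℤ, a ^ i * b ^ e ∈ commutator G ↔ (n : ℤ) ∣ i ∧ 2 ∣ e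
  top : a ^ n ∉ sqSub G
  chain : derL3 G ≤ sqSub G

theorem comm_mem (a b : G) : a * b * a⁻¹ * b⁻¹ ∈ commutator G := by
  rw [← commutatorElement_def, commutator_def]
  exact Subgroup.commutator_mem_commutator (Subgroup.mem_top _) (Subgroup.mem_top _)

theorem commutator_le_zpowers_sup {a b : G} (hgen : Subgroup.closure ({a, b} : Set G) = ⊤) :
    commutator G ≤ Subgroup.zpowers (a * b * a⁻¹ * b⁻¹) ⊔ derR G := by
  haveI := normal_zpowers_sup (N := derR G) (fun g => commElt_mem_derR (comm_mem a b) g)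
  exact commutator_le_of_mem hgen (Subgroup.mem_sup_left (Subgroup.mem_zpowers _))

/-- The commutator of `b` with `u` is small. -/
theorem conj_b_mem {a b : G} (hb : b * b ∈ derR G) :
    b * (a * b * a⁻¹ * b⁻¹) * b⁻¹ * (a * b * a⁻¹ * b⁻¹)⁻¹ ∈ derL3 G := by
  set u := a * b * a⁻¹ * b⁻¹ with hu
  have h1 : a * (b * b) * a⁻¹ * (b * b)⁻¹ = u * (b * u * b⁻¹) := by rw [hu]; group
  have h2 : u * (b * u * b⁻¹) ∈ derL3 G := h1 ▸ commElt_mem_derL3 hb a
  have h3 : b * u * b⁻¹ * u⁻¹ = u⁻¹ * (u * (b * u * b⁻¹)) * u * (u * u)⁻¹ := by group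
  rw [h3]
  refine mul_mem ?_ (inv_mem (Subgroup.mem_sup_left (sq_mem_sqSub (comm_mem a b))))
  have := (derL3_normal (G := G)).conj_mem _ h2 u⁻¹
  rwa [inv_inv] at this

theorem derR_le_zpowers_sup {a b : G} (hgen : Subgroup.closure ({a, b} : Set G) = ⊤)
    (hb : b * b ∈ derR G) :
    derR G ≤ Subgroup.zpowers (a * (a * b * a⁻¹ * b⁻¹) * a⁻¹ * (a * b * a⁻¹ * b⁻¹)⁻¹) ⊔ derL3 G := by
  set u := a * b * a⁻¹ * b⁻¹
  set w := a * u * a⁻¹ * u⁻¹
  haveI := normal_zpowers_sup (N := derL3 G)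
    (fun g => commElt_mem_derL3 (commElt_mem_derR (comm_mem a b) a) g)
  refine sup_le (le_sup_of_le_right le_sup_left) ?_
  exact commutator_le_of_gen hgen (M := derR G)
    (fun m hm g => Subgroup.mem_sup_right (commElt_mem_derL3 hm g))
    (commutator_le_zpowers_sup hgen) (Subgroup.mem_sup_left (Subgroup.mem_zpowers w))
    (Subgroup.mem_sup_right (conj_b_mem hb))

theorem derL3_le_zpowers_sup {a b : G} (hgen : Subgroup.closure ({a, b} : Set G) = ⊤)
    (hb : b * b ∈ derR G) (hab : ∀ f ∈ commutator G, ∀ g ∈ commutator G, f * g = g * f) :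
    derL3 G ≤ Subgroup.zpowers
      (a * (a * (a * b * a⁻¹ * b⁻¹) * a⁻¹ * (a * b * a⁻¹ * b⁻¹)⁻¹) * a⁻¹ *
        (a * (a * b * a⁻¹ * b⁻¹) * a⁻¹ * (a * b * a⁻¹ * b⁻¹)⁻¹)⁻¹) ⊔ derL4 G := by
  set u := a * b * a⁻¹ * b⁻¹ with hu
  set w := a * u * a⁻¹ * u⁻¹ with hw
  set v := a * w * a⁻¹ * w⁻¹
  have huA : u ∈ commutator G := comm_mem a b
  have hwR : w ∈ derR G := commElt_mem_derR huA a
  haveI := normal_zpowers_sup (N := derL4 G) (fun g => commElt_mem_derL4 (commElt_mem_derL3 hwR a) g)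
  refine sup_le (le_sup_of_le_right sqSub_le_derL4) ?_
  refine commutator_le_of_gen hgen (M := derL3 G)
    (fun m hm g => Subgroup.mem_sup_right (commElt_mem_derL4 hm g))
    (le_sup_right.trans (derR_le_zpowers_sup hgen hb))
    (Subgroup.mem_sup_left (Subgroup.mem_zpowers v)) ?_
  -- `b w b⁻¹ w⁻¹ = [a, b u b⁻¹ u⁻¹]` as `[a, b]` centralises the derived subgroup
  set v' := b * u * b⁻¹ * u⁻¹ with hv'
  have hmem : b * u * b⁻¹ ∈ commutator G := (inferInstance : (commutator G).Normal).conj_mem u huA b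
  have hbw : b * w * b⁻¹ * w⁻¹ = a * v' * a⁻¹ * v'⁻¹ := by
    have e1 : b * w * b⁻¹ = a * (b * u * b⁻¹) * a⁻¹ * (b * u * b⁻¹)⁻¹ := by
      have hcb : b * (a * u * a⁻¹) * b⁻¹ = a * (b * u * b⁻¹) * a⁻¹ := by
        have hk : b * a = u⁻¹ * (a * b) := by rw [hu]; group
        have hg : a * (b * u * b⁻¹) * a⁻¹ ∈ commutator G :=
          (inferInstance : (commutator G).Normal).conj_mem _ hmem a
        calc b * (a * u * a⁻¹) * b⁻¹ = b * a * u * (b * a)⁻¹ := by group
          _ = u⁻¹ * (a * (b * u * b⁻¹) * a⁻¹) * u := by rw [hk]; group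
          _ = _ := by rw [mul_assoc, hab _ hg _ huA, inv_mul_cancel_left]
      calc b * w * b⁻¹ = b * (a * u * a⁻¹) * b⁻¹ * (b * u * b⁻¹)⁻¹ := by rw [hw]; group
        _ = _ := by rw [hcb]
    have hTu : a * u * a⁻¹ ∈ commutator G := (inferInstance : (commutator G).Normal).conj_mem u huA a
    have e2 : a * v' * a⁻¹ * v'⁻¹ =
        a * (b * u * b⁻¹) * a⁻¹ * ((a * u * a⁻¹)⁻¹ * u) * (b * u * b⁻¹)⁻¹ := by rw [hv']; group
    rw [e1, e2, hw]
    set X := a * (b * u * b⁻¹) * a⁻¹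
    set Y := a * u * a⁻¹
    set Z := b * u * b⁻¹
    calc X * Z⁻¹ * (Y * u⁻¹)⁻¹ = X * (Z⁻¹ * (u * Y⁻¹)) := by group
      _ = X * ((u * Y⁻¹) * Z⁻¹) := by
          rw [hab _ (inv_mem hmem) _ (mul_mem huA (inv_mem hTu))]
      _ = X * (Y⁻¹ * u) * Z⁻¹ := by rw [hab _ huA _ (inv_mem hTu)]; group
  rw [hbw]
  exact Subgroup.mem_sup_right (commElt_mem_derL4 (conj_b_mem hb) a)

/-- A bicyclic group with generators in the wanted position. -/
theorem exists_gen_factor [Finite G] (hG : IsPGroup 2 G) (hb : IsBicyclic G)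
    (hm : ¬ Cfsg.IsMetacyclic G) (hnc : ¬ IsCyclic (commutator G)) :
    ∃ a b y : G, Subgroup.closure ({a, b} : Set G) = ⊤ ∧ b * b ∈ derR G ∧
      ∀ g, ∃ i j : ℤ, g = a ^ i * y ^ j := by
  haveI : Fact (Nat.Prime 2) := ⟨Nat.prime_two⟩
  haveI := hG.isNilpotent
  obtain ⟨a, b, hgen, hsq⟩ := exists_gen hG hb hm
  obtain ⟨x₀, y₀, hxy⟩ := hb
  set H := Subgroup.zpowers b ⊔ frattini G
  have hcf : commutator G ≤ frattini G := CfsgLib.PGroups.commutator_le_frattini hG
  haveI hHn : H.Normal := Subgroup.Normal.of_commutator_le (G := G) (hcf.trans le_sup_right)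
  have hnot : ¬ (x₀ ∈ H ∧ y₀ ∈ H) := by
    rintro ⟨hx, hy⟩
    have hH : H = ⊤ := top_le_iff.mp (closure_eq_top hxy ▸ (Subgroup.closure_le _).mpr (by
      rintro _ (rfl | rfl)
      · exact hx
      · exact hy))
    have hbt : Subgroup.zpowers b = ⊤ := frattini_nongenerating hH
    refine hnc ?_
    have hbot : commutator G = ⊥ := by
      rw [commutator_def, eq_bot_iff, Subgroup.commutator_le]
      intro p _ q _
      obtain ⟨i, rfl⟩ := (hbt ▸ Subgroup.mem_top p : p ∈ Subgroup.zpowers b)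
      obtain ⟨j, rfl⟩ := (hbt ▸ Subgroup.mem_top q : q ∈ Subgroup.zpowers b)
      rw [commutatorElement_eq_one_iff_commute.mpr (Commute.zpow_zpow_self b i j)]
      exact one_mem _
    rw [hbot]
    infer_instance
  have key : ∀ x y : G, x ∉ H → (∀ g, ∃ i j : ℤ, g = x ^ i * y ^ j) →
      ∃ a b y : G, Subgroup.closure ({a, b} : Set G) = ⊤ ∧ b * b ∈ derR G ∧
        ∀ g, ∃ i j : ℤ, g = a ^ i * y ^ j := by
    intro x y hx hxy
    refine ⟨x, b, y, ?_, hsq, hxy⟩
    have htop : Subgroup.zpowers a ⊔ H = ⊤ := by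
      refine top_le_iff.mp (hgen ▸ (Subgroup.closure_le _).mpr ?_)
      rintro _ (rfl | rfl)
      · exact Subgroup.mem_sup_left (Subgroup.mem_zpowers _)
      · exact Subgroup.mem_sup_right (Subgroup.mem_sup_left (Subgroup.mem_zpowers _))
    obtain ⟨_, ⟨i, rfl⟩, h, hh, hxe⟩ := Subgroup.mem_sup_of_normal_right.mp (htop ▸ Subgroup.mem_top x)
    have ha2 : a * a ∈ H := by
      rw [← pow_two]
      exact Subgroup.mem_sup_right (CfsgLib.PGroups.pow_mem_frattini hG a)
    obtain ⟨t, rfl⟩ : Odd i := by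
      rcases Int.even_or_odd i with ⟨t, rfl⟩ | h'
      · refine absurd ?_ hx
        rw [← hxe]
        show a ^ (t + t) * h ∈ H
        rw [zpow_add, ← (Commute.refl a).mul_zpow]
        exact mul_mem (zpow_mem ha2 t) hh
      · exact h'
    refine frattini_nongenerating (top_le_iff.mp (hgen ▸ (Subgroup.closure_le _).mpr ?_))
    have hHle : H ≤ Subgroup.closure ({x, b} : Set G) ⊔ frattini G :=
      sup_le_sup_right (Subgroup.zpowers_le.mpr (Subgroup.subset_closure
        (show b ∈ ({x, b} : Set G) from Or.inr rfl))) _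
    rintro g (hg | hg) <;> rw [SetLike.mem_coe, hg]
    · have hh2 : (a * a) ^ t ∈ H := zpow_mem ha2 t
      have he : a = ((a * a) ^ t)⁻¹ * (x * h⁻¹) := by
        rw [← hxe]
        show a = _ * (a ^ (2 * t + 1) * h * h⁻¹)
        rw [mul_inv_cancel_right, zpow_add_one, (Commute.refl a).mul_zpow, ← zpow_add, two_mul,
          inv_mul_cancel_left]
      rw [he]
      exact mul_mem (hHle (inv_mem hh2))
        (mul_mem (Subgroup.mem_sup_left (Subgroup.subset_closure (Or.inl rfl))) (hHle (inv_mem hh)))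
    · exact hHle (Subgroup.mem_sup_left (Subgroup.mem_zpowers _))
  by_cases hx : x₀ ∈ H
  · exact key y₀ x₀ (fun hy => hnot ⟨hx, hy⟩) (exists_swap hxy)
  · exact key x₀ y₀ hx hxy

/-- The data exist. -/
theorem exists_data [Finite G] (hG : IsPGroup 2 G) (hb : IsBicyclic G)
    (hm : ¬ Cfsg.IsMetacyclic G) (hnc : ¬ IsCyclic (commutator G)) :
    ∃ (a b : G) (n : ℕ), Data a b n := by
  classical
  haveI : Fact (Nat.Prime 2) := ⟨Nat.prime_two⟩
  haveI := hG.isNilpotent
  have hab : ∀ f ∈ commutator G, ∀ g ∈ commutator G, f * g = g * f :=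
    fun f hf g hg => commutator_comm hb hf hg
  obtain ⟨a, b, y, hgen, hsq, hay⟩ := exists_gen_factor hG hb hm hnc
  have hcf : commutator G ≤ frattini G := CfsgLib.PGroups.commutator_le_frattini hG
  set A := commutator G with hA
  set πA := QuotientGroup.mk' A
  set n := orderOf (πA a) with hn
  have hnpos : 0 < n := orderOf_pos _
  have haz : ∀ i : ℤ, a ^ i ∈ A ↔ (n : ℤ) ∣ i := fun i => by
    rw [hn, orderOf_dvd_iff_zpow_eq_one, ← map_zpow]
    exact (QuotientGroup.eq_one_iff _).symm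
  have han : a ^ n ∈ A := by
    rw [← zpow_natCast]; exact (haz n).mpr dvd_rfl
  have hb2 : b * b ∈ A := derR_le hsq
  have hnoA : ∀ i : ℤ, a ^ i * b ∉ A := by
    intro i h
    refine hnc ?_
    have htop : Subgroup.zpowers a = ⊤ := by
      refine frattini_nongenerating (top_le_iff.mp (hgen ▸ (Subgroup.closure_le _).mpr ?_))
      rintro g (hg | hg)
      · subst hg; exact Subgroup.mem_sup_left (Subgroup.mem_zpowers _)
      · have e : g = (a ^ i)⁻¹ * (a ^ i * b) := by rw [inv_mul_cancel_left]; exact hg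
        rw [SetLike.mem_coe, e]
        exact mul_mem (Subgroup.mem_sup_left (inv_mem (zpow_mem (Subgroup.mem_zpowers a) i)))
          (Subgroup.mem_sup_right (hcf h))
    have hbot : commutator G = ⊥ := by
      rw [commutator_def, eq_bot_iff, Subgroup.commutator_le]
      intro p _ q _
      obtain ⟨j, rfl⟩ := (htop ▸ Subgroup.mem_top p : p ∈ Subgroup.zpowers a)
      obtain ⟨k, rfl⟩ := (htop ▸ Subgroup.mem_top q : q ∈ Subgroup.zpowers a)
      rw [commutatorElement_eq_one_iff_commute.mpr (Commute.zpow_zpow_self a j k)]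
      exact one_mem _
    rw [hA, hbot]
    infer_instance
  have hmem : ∀ i e : ℤ, a ^ i * b ^ e ∈ A ↔ (n : ℤ) ∣ i ∧ 2 ∣ e := by
    intro i e
    rcases Int.even_or_odd' e with ⟨t, rfl | rfl⟩
    · have ht : b ^ (2 * t) ∈ A := by rw [zpow_mul, zpow_two]; exact zpow_mem hb2 t
      rw [Subgroup.mul_mem_cancel_right _ ht, haz]
      exact ⟨fun h => ⟨h, dvd_mul_right 2 t⟩, fun h => h.1⟩
    · refine ⟨fun h => ?_, fun h => absurd h.2 (by omega)⟩
      have ht : (b * b) ^ t ∈ A := zpow_mem hb2 t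
      exfalso
      refine hnoA i ?_
      have : a ^ i * b = a ^ i * b ^ (2 * t + 1) * ((b * b) ^ t)⁻¹ := by
        rw [(Commute.refl b).mul_zpow, ← zpow_add, ← two_mul, mul_assoc, ← zpow_neg, ← zpow_add]
        simp
      rw [this]
      exact mul_mem h (inv_mem ht)
  have hfix : a * a ^ n * a⁻¹ = a ^ n := by rw [← pow_succ', pow_succ, mul_inv_cancel_right]
  set u := a * b * a⁻¹ * b⁻¹ with hu
  set w := a * u * a⁻¹ * u⁻¹ with hw
  have huA : u ∈ A := comm_mem a b
  have hwR : w ∈ derR G := commElt_mem_derR huA a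
  -- `A` is not contained in the lower terms
  have hlt : ¬ A ≤ derR G := by
    intro h
    have h2 := le_of_le_sup_commutator (M := sqSub G) (V := A) h
    refine hnc ?_
    have hbot : commutator G = ⊥ :=
      eq_bot_iff.mpr ((le_of_le_sup_sqSub hG hab (M := ⊥) bot_le (h2.trans le_sup_right)))
    rw [hA, hbot]
    infer_instance
  have hR3 : derR G ≤ derL3 G → derR G ≤ sqSub G := by
    intro h
    exact sup_le le_rfl (le_of_le_sup_commutator (M := sqSub G) (le_sup_right.trans h))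
  have hL34 : derL3 G ≤ derL4 G → derL3 G ≤ sqSub G := by
    intro h
    exact sup_le le_rfl (le_of_le_sup_commutator (M := sqSub G) (le_sup_right.trans h))
  -- `derR` is not inside the squares
  have hR : ¬ derR G ≤ sqSub G := by
    intro h
    refine hnc ?_
    have hle : A ≤ Subgroup.zpowers u :=
      le_of_le_sup_sqSub hG hab (Subgroup.zpowers_le.mpr huA)
        ((commutator_le_zpowers_sup hgen).trans (sup_le_sup_left h _))
    rw [le_antisymm hle (Subgroup.zpowers_le.mpr huA)]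
    infer_instance
  -- fixed elements of `a`
  have hfixR : ∀ f ∈ A, a * f * a⁻¹ * f⁻¹ ∈ derL3 G → f ∈ derR G := by
    intro f hf hfx
    by_contra hfR
    obtain ⟨_, ⟨e, rfl⟩, r, hr, hfe⟩ :=
      Subgroup.mem_sup_of_normal_right.mp (commutator_le_zpowers_sup hgen hf)
    simp only at hfe
    obtain ⟨t, ht⟩ : Odd e := by
      rcases Int.even_or_odd e with ⟨t, rfl⟩ | h
      · refine absurd ?_ hfR
        rw [← hfe]
        refine mul_mem ?_ hr
        rw [← two_mul, zpow_mul, zpow_two]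
        exact zpow_mem (Subgroup.mem_sup_left (sq_mem_sqSub huA)) t
      · exact h
    refine hR (hR3 ((derR_le_zpowers_sup hgen hsq).trans (sup_le (Subgroup.zpowers_le.mpr ?_) le_rfl)))
    set π := QuotientGroup.mk' (derL3 G)
    rw [← QuotientGroup.eq_one_iff]
    show π w = 1
    have hr' : π (a * r * a⁻¹ * r⁻¹) = 1 := (QuotientGroup.eq_one_iff _).mpr (commElt_mem_derL3 hr a)
    rw [map_mul, map_mul, map_mul, map_inv, map_inv, mul_inv_eq_one] at hr'
    have hfx' : π (a * f * a⁻¹ * f⁻¹) = 1 := (QuotientGroup.eq_one_iff _).mpr hfx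
    rw [map_mul, map_mul, map_mul, map_inv, map_inv, mul_inv_eq_one, ← hfe, map_mul] at hfx'
    have hcu : π a * π u ^ e * (π a)⁻¹ = π u ^ e := by
      have h1 : π a * (π (u ^ e) * π r) * (π a)⁻¹ =
          π a * π u ^ e * (π a)⁻¹ * (π a * π r * (π a)⁻¹) := by rw [map_zpow]; group
      rw [h1, hr', map_zpow] at hfx'
      exact mul_right_cancel hfx'
    have hu2 : π u * π u = 1 := by
      rw [← map_mul]
      exact (QuotientGroup.eq_one_iff _).mpr (Subgroup.mem_sup_left (sq_mem_sqSub huA))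
    rw [ht, zpow_add_one, zpow_mul, zpow_two, hu2, one_zpow, one_mul] at hcu
    rw [hw, map_mul, map_mul, map_mul, map_inv, map_inv, hcu, mul_inv_cancel]
  set v := a * w * a⁻¹ * w⁻¹ with hv
  -- fixed elements of `a` in `derR`
  have hfix3 : ¬ derL3 G ≤ sqSub G → ∀ f ∈ derR G, a * f * a⁻¹ * f⁻¹ ∈ derL4 G → f ∈ derL3 G := by
    intro hno f hf hfx
    by_contra hf3
    obtain ⟨_, ⟨e, rfl⟩, r, hr, hfe⟩ :=
      Subgroup.mem_sup_of_normal_right.mp (derR_le_zpowers_sup hgen hsq hf)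
    simp only at hfe
    obtain ⟨t, ht⟩ : Odd e := by
      rcases Int.even_or_odd e with ⟨t, rfl⟩ | h
      · refine absurd ?_ hf3
        rw [← hfe]
        refine mul_mem ?_ hr
        rw [← two_mul, zpow_mul, zpow_two]
        exact zpow_mem (Subgroup.mem_sup_left (sq_mem_sqSub (derR_le hwR))) t
      · exact h
    refine hno (hL34 ((derL3_le_zpowers_sup hgen hsq hab).trans (sup_le (Subgroup.zpowers_le.mpr ?_) le_rfl)))
    set π := QuotientGroup.mk' (derL4 G)
    rw [← QuotientGroup.eq_one_iff]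
    show π v = 1
    have hr' : π (a * r * a⁻¹ * r⁻¹) = 1 := (QuotientGroup.eq_one_iff _).mpr (commElt_mem_derL4 hr a)
    rw [map_mul, map_mul, map_mul, map_inv, map_inv, mul_inv_eq_one] at hr'
    have hfx' : π (a * f * a⁻¹ * f⁻¹) = 1 := (QuotientGroup.eq_one_iff _).mpr hfx
    rw [map_mul, map_mul, map_mul, map_inv, map_inv, mul_inv_eq_one, ← hfe, map_mul] at hfx'
    have hcu : π a * π w ^ e * (π a)⁻¹ = π w ^ e := by
      have h1 : π a * (π (w ^ e) * π r) * (π a)⁻¹ =
          π a * π w ^ e * (π a)⁻¹ * (π a * π r * (π a)⁻¹) := by rw [map_zpow]; group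
      rw [h1, hr', map_zpow] at hfx'
      exact mul_right_cancel hfx'
    have hu2 : π w * π w = 1 := by
      rw [← map_mul]
      exact (QuotientGroup.eq_one_iff _).mpr (sqSub_le_derL4 (sq_mem_sqSub (derR_le hwR)))
    rw [ht, zpow_add_one, zpow_mul, zpow_two, hu2, one_zpow, one_mul] at hcu
    rw [hv, map_mul, map_mul, map_mul, map_inv, map_inv, hcu, mul_inv_cancel]
  -- powers of `y`
  obtain ⟨j, h, hhH, hy⟩ : ∃ (j : ℤ) (h : G), h ∈ Subgroup.zpowers b ⊔ A ∧ y = a ^ j * h := by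
    haveI : (Subgroup.zpowers b ⊔ A).Normal := Subgroup.Normal.of_commutator_le (G := G) le_sup_right
    have htop : Subgroup.zpowers a ⊔ (Subgroup.zpowers b ⊔ A) = ⊤ := by
      refine top_le_iff.mp (hgen ▸ (Subgroup.closure_le _).mpr ?_)
      rintro _ (rfl | rfl)
      · exact Subgroup.mem_sup_left (Subgroup.mem_zpowers _)
      · exact Subgroup.mem_sup_right (Subgroup.mem_sup_left (Subgroup.mem_zpowers _))
    obtain ⟨_, ⟨j, rfl⟩, h, hh, hye⟩ :=
      Subgroup.mem_sup_of_normal_right.mp (htop ▸ Subgroup.mem_top y)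
    exact ⟨j, h, hh, hye.symm⟩
  have hh2 : h * h ∈ A := by
    obtain ⟨_, ⟨e, rfl⟩, f, hf, rfl⟩ := Subgroup.mem_sup_of_normal_right.mp hhH
    have h1 : b ^ e * f * (b ^ e * f) = (b * b) ^ e * ((b ^ e)⁻¹ * f * b ^ e * f) := by
      rw [(Commute.refl b).mul_zpow]; group
    show b ^ e * f * (b ^ e * f) ∈ A
    rw [h1]
    refine mul_mem (zpow_mem hb2 e) (mul_mem ?_ hf)
    have := (inferInstance : A.Normal).conj_mem f hf (b ^ e)⁻¹
    rwa [inv_inv] at this
  obtain ⟨k, hkA, hy2⟩ : ∃ k ∈ A, y * y = a ^ (2 * j) * k := by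
    refine ⟨(a ^ (2 * j))⁻¹ * (y * y), ?_, (mul_inv_cancel_left _ _).symm⟩
    have : (a ^ (2 * j))⁻¹ * (y * y) = (a ^ j)⁻¹ * h * a ^ j * h⁻¹ * (h * h) := by
      rw [hy]; group
    rw [this]
    refine mul_mem ?_ hh2
    have := comm_mem ((a ^ j)⁻¹) h
    rwa [inv_inv] at this
  have ha2c : ∀ (f : G), f ∈ A → ∀ i : ℤ, a ^ (2 * i) * f * (a ^ (2 * i))⁻¹ * f⁻¹ ∈ derL3 G := by
    intro f hf i
    set π := QuotientGroup.mk' (derL3 G)
    have hone : ∀ g ∈ derR G, π a * π g * (π a)⁻¹ = π g := by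
      intro g hg
      have h1 : π (a * g * a⁻¹ * g⁻¹) = 1 := (QuotientGroup.eq_one_iff _).mpr (commElt_mem_derL3 hg a)
      rwa [map_mul, map_mul, map_mul, map_inv, map_inv, mul_inv_eq_one] at h1
    have hc : Commute (π a * π a) (π f) := by
      set d := a * f * a⁻¹ * f⁻¹
      have hd : d ∈ derR G := commElt_mem_derR hf a
      have h1 : π a * π f * (π a)⁻¹ = π d * π f := by
        rw [← map_inv, ← map_mul, ← map_mul, ← map_mul]; congr 1; simp [d]
      have hd2 : π d * π d = 1 := by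
        rw [← map_mul]
        exact (QuotientGroup.eq_one_iff _).mpr (Subgroup.mem_sup_left (sq_mem_sqSub (derR_le hd)))
      have h2 : π a * π a * π f * (π a * π a)⁻¹ = π f :=
        calc π a * π a * π f * (π a * π a)⁻¹ = π a * (π a * π f * (π a)⁻¹) * (π a)⁻¹ := by group
          _ = π a * (π d * π f) * (π a)⁻¹ := by rw [h1]
          _ = π a * π d * (π a)⁻¹ * (π a * π f * (π a)⁻¹) := by group
          _ = _ := by rw [hone d hd, h1, ← mul_assoc, hd2, one_mul]
      exact mul_inv_eq_iff_eq_mul.mp h2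
    rw [← QuotientGroup.eq_one_iff]
    show π (a ^ (2 * i) * f * (a ^ (2 * i))⁻¹ * f⁻¹) = 1
    rw [map_mul, map_mul, map_mul, map_inv, map_inv, map_zpow, zpow_mul, zpow_two,
      (hc.zpow_left i).eq, mul_inv_cancel_right, mul_inv_cancel]
  obtain ⟨z, hz, hy4⟩ : ∃ z ∈ derL3 G, y ^ (4 : ℤ) = a ^ (4 * j) * z := by
    refine ⟨(a ^ (4 * j))⁻¹ * (y * y * (y * y)), ?_, ?_⟩
    · have h1 : (a ^ (4 * j))⁻¹ * (y * y * (y * y)) =
          (a ^ (2 * (-j)) * k * (a ^ (2 * (-j)))⁻¹ * k⁻¹) * (k * k) := by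
        rw [hy2]; group
      rw [h1]
      exact mul_mem (ha2c k hkA (-j)) (Subgroup.mem_sup_left (sq_mem_sqSub hkA))
    · rw [mul_inv_cancel_left]; simp [zpow_ofNat, pow_succ, mul_assoc]
  -- the counting bound
  have hcount : ∀ (N : Subgroup G) [N.Normal] (d : ℕ), 0 < d →
      (∃ i : ℤ, (a ^ i)⁻¹ * y ^ (d : ℤ) ∈ N) → ∀ m : ℕ, 0 < m → a ^ m ∈ N →
      Nat.card (G ⧸ N) ≤ m * d := by
    intro N _ d hd ⟨i, hi⟩ m hm hmN
    let f : Fin m × Fin d → G ⧸ N := fun p => QuotientGroup.mk (a ^ (p.1 : ℕ) * y ^ (p.2 : ℕ))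
    refine le_of_le_of_eq (Nat.card_le_card_of_surjective f fun q => ?_) (by simp)
    obtain ⟨g, rfl⟩ := QuotientGroup.mk_surjective q
    obtain ⟨s, t, rfl⟩ := hay g
    set π := QuotientGroup.mk' N
    have hdz : (0 : ℤ) < d := by exact_mod_cast hd
    have hmz : (0 : ℤ) < m := by exact_mod_cast hm
    have hyd : π y ^ (d : ℤ) = π a ^ i := by
      have h0 : π ((a ^ i)⁻¹ * y ^ (d : ℤ)) = 1 := (QuotientGroup.eq_one_iff _).mpr hi
      rw [map_mul, map_inv, inv_mul_eq_one, map_zpow, map_zpow] at h0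
      exact h0.symm
    have ham : π a ^ (m : ℤ) = 1 := by
      rw [zpow_natCast, ← map_pow]; exact (QuotientGroup.eq_one_iff _).mpr hmN
    set s' := s + i * (t / d) with hs'
    have h1 : π (a ^ s * y ^ t) = π a ^ s' * π y ^ (t % d) := by
      rw [map_mul, map_zpow, map_zpow]
      conv_lhs => rw [← Int.emod_add_mul_ediv t d, add_comm]
      rw [zpow_add, zpow_mul, hyd, ← zpow_mul, ← mul_assoc, ← zpow_add]
    have h2 : π a ^ s' = π a ^ (s' % m) := by
      conv_lhs => rw [← Int.emod_add_mul_ediv s' m, zpow_add, zpow_mul, ham, one_zpow, mul_one]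
    refine ⟨(⟨(s' % m).toNat, by have := Int.emod_lt_of_pos s' hmz; omega⟩,
      ⟨(t % d).toNat, by have := Int.emod_lt_of_pos t hdz; omega⟩), ?_⟩
    show π _ = π (a ^ s * y ^ t)
    rw [h1, h2, map_mul, map_pow, map_pow, ← zpow_natCast, ← zpow_natCast,
      Int.toNat_of_nonneg (Int.emod_nonneg _ hmz.ne'), Int.toNat_of_nonneg (Int.emod_nonneg _ hdz.ne')]
  have hindexA : 2 * n ≤ Nat.card (G ⧸ A) := by
    let f : Fin n × Fin 2 → G ⧸ A := fun p => QuotientGroup.mk (a ^ ((p.1 : ℕ) : ℤ) * b ^ ((p.2 : ℕ) : ℤ))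
    refine le_of_eq_of_le (by simp [mul_comm]) (Nat.card_le_card_of_injective f fun p q hpq => ?_)
    have hab' : ∀ g h : G ⧸ A, g * h = h * g := by
      intro g h
      obtain ⟨g, rfl⟩ := QuotientGroup.mk_surjective g
      obtain ⟨h, rfl⟩ := QuotientGroup.mk_surjective h
      rw [← QuotientGroup.mk_mul, ← QuotientGroup.mk_mul, QuotientGroup.eq]
      have := comm_mem h⁻¹ g⁻¹
      rwa [inv_inv, inv_inv, show h⁻¹ * g⁻¹ * h * g = (g * h)⁻¹ * (h * g) by group] at this
    have hd : πA (a ^ (((q.1 : ℕ) : ℤ) - (p.1 : ℕ)) * b ^ (((q.2 : ℕ) : ℤ) - (p.2 : ℕ))) = 1 := by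
      have hpq' : πA a ^ ((p.1 : ℕ) : ℤ) * πA b ^ ((p.2 : ℕ) : ℤ) =
          πA a ^ ((q.1 : ℕ) : ℤ) * πA b ^ ((q.2 : ℕ) : ℤ) := by
        rw [← map_zpow, ← map_zpow, ← map_zpow, ← map_zpow, ← map_mul, ← map_mul]; exact hpq
      rw [map_mul, map_zpow, map_zpow, zpow_sub, zpow_sub]
      calc _ = (πA a ^ ((p.1 : ℕ) : ℤ))⁻¹ * (πA a ^ ((q.1 : ℕ) : ℤ) * πA b ^ ((q.2 : ℕ) : ℤ)) *
            (πA b ^ ((p.2 : ℕ) : ℤ))⁻¹ := by
            rw [hab' (πA a ^ ((q.1 : ℕ) : ℤ)) (πA a ^ ((p.1 : ℕ) : ℤ))⁻¹]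
            simp only [mul_assoc]
        _ = 1 := by rw [← hpq', inv_mul_cancel_left, mul_inv_cancel]
    obtain ⟨h1, h2⟩ := (hmem _ _).mp ((QuotientGroup.eq_one_iff _).mp hd)
    have e1 : p.1 = q.1 := by
      obtain ⟨c, hc⟩ := h1
      have := p.1.2; have := q.1.2
      rcases lt_trichotomy c 0 with h | h | h
      · nlinarith
      · subst h; ext; omega
      · nlinarith
    have e2 : p.2 = q.2 := by
      have := p.2.2; have := q.2.2
      ext; omega
    exact Prod.ext e1 e2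
  have hrel : ∀ N M : Subgroup G, N < M → N.index ≥ 2 * M.index := by
    intro N M hNM
    rw [← Subgroup.relIndex_mul_index hNM.le]
    refine Nat.mul_le_mul_right _ ?_
    have h1 : N.relIndex M ≠ 0 := Nat.card_pos.ne'
    have h2 : N.relIndex M ≠ 1 := fun h => not_le_of_gt hNM (Subgroup.relIndex_eq_one.mp h)
    omega
  have hAR : derR G < A := lt_of_le_not_ge derR_le hlt
  have hchain : derL3 G ≤ sqSub G := by
    by_contra hno
    have h34 : derL4 G < derL3 G :=
      lt_of_le_not_ge derL4_le_derL3 (fun h => hno (hL34 h))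
    have h3R : derL3 G < derR G :=
      lt_of_le_not_ge derL3_le_derR (fun h => hno ((derL3_le_derR).trans (hR3 h)))
    have hidx : 16 * n ≤ Nat.card (G ⧸ derL4 G) := by
      have := hrel _ _ h34; have := hrel _ _ h3R; have := hrel _ _ hAR
      simp only [Subgroup.index_eq_card] at *
      omega
    have hanL3 : a ^ n ∈ derL3 G := by
      have hx : a * a ^ n * a⁻¹ * (a ^ n)⁻¹ = 1 := by rw [hfix, mul_inv_cancel]
      exact hfix3 hno _ (hfixR _ han (hx ▸ one_mem _)) (hx ▸ one_mem _)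
    by_cases hz4 : ∃ i : ℤ, (a ^ i)⁻¹ * y ^ (4 : ℤ) ∈ derL4 G
    · have := hcount (derL4 G) 4 (by norm_num) hz4 (n * 2) (by omega)
        (by rw [pow_mul, pow_two]; exact sqSub_le_derL4 (sq_mem_sqSub han))
      omega
    · -- `y ^ 8 ∈ ⟨a⟩` and `a ^ n ∈ derL4`
      have hv4 : derL3 G ≤ Subgroup.zpowers v ⊔ derL4 G := derL3_le_zpowers_sup hgen hsq hab
      have hodd : ∀ f ∈ derL3 G, f ∉ derL4 G → v⁻¹ * f ∈ derL4 G := by
        intro f hf hf4
        obtain ⟨_, ⟨e, rfl⟩, r, hr, rfl⟩ := Subgroup.mem_sup_of_normal_right.mp (hv4 hf)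
        have hvv : v * v ∈ derL4 G := sqSub_le_derL4 (sq_mem_sqSub (derR_le (derL3_le_derR
          (commElt_mem_derL3 hwR a))))
        rcases Int.even_or_odd e with ⟨t, rfl⟩ | ⟨t, rfl⟩
        · refine absurd ?_ hf4
          refine mul_mem ?_ hr
          show v ^ (t + t) ∈ derL4 G
          rw [← two_mul, zpow_mul, zpow_two]
          exact zpow_mem hvv t
        · have h1 : v⁻¹ * (v ^ (2 * t + 1) * r) = (v * v) ^ t * r := by
            rw [(Commute.refl v).mul_zpow, ← zpow_add, ← two_mul]; group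
          rw [h1]
          exact mul_mem (zpow_mem hvv t) hr
      have hz' : z ∉ derL4 G := fun h => hz4 ⟨4 * j, by rw [hy4, inv_mul_cancel_left]; exact h⟩
      have han4 : a ^ n ∈ derL4 G := by
        by_contra hn4
        refine hz4 ⟨4 * j + n, ?_⟩
        have e : (a ^ (4 * j + (n : ℤ)))⁻¹ * y ^ (4 : ℤ) = (v⁻¹ * a ^ n)⁻¹ * (v⁻¹ * z) := by
          rw [hy4, zpow_add, zpow_natCast]; group
        rw [e]
        exact mul_mem (inv_mem (hodd _ hanL3 hn4)) (hodd _ hz hz')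
      have h8 : ∃ i : ℤ, (a ^ i)⁻¹ * y ^ (8 : ℤ) ∈ derL4 G := by
        refine ⟨8 * j, ?_⟩
        have e : (a ^ (8 * j))⁻¹ * y ^ (8 : ℤ) =
            ((a ^ (4 * j))⁻¹ * z * a ^ (4 * j) * z⁻¹) * (z * z) := by
          rw [show (8 : ℤ) = 4 + 4 by norm_num, zpow_add, hy4]; group
        rw [e]
        refine mul_mem ?_ (sqSub_le_derL4 (sq_mem_sqSub (derR_le (derL3_le_derR hz))))
        have := commElt_mem_derL4 hz (a ^ (4 * j))⁻¹
        rwa [inv_inv] at this
      have := hcount (derL4 G) 8 (by norm_num) h8 n hnpos han4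
      omega
  have htop : a ^ n ∉ sqSub G := by
    intro h
    have hidx : 8 * n ≤ Nat.card (G ⧸ sqSub G) := by
      have h1 : sqSub G < derR G := lt_of_le_not_ge le_sup_left hR
      have := hrel _ _ h1; have := hrel _ _ hAR
      simp only [Subgroup.index_eq_card] at *
      omega
    have := hcount (sqSub G) 4 (by norm_num)
      ⟨4 * j, by rw [Nat.cast_ofNat, hy4, inv_mul_cancel_left]; exact hchain hz⟩ n hnpos h
    omega
  have hfour : 4 ∣ n := by
    obtain ⟨r, hr⟩ := IsPGroup.iff_orderOf.mp (hG.to_quotient A) (πA a)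
    rw [← hn] at hr
    rcases r with _ | _ | r
    · exfalso
      refine hnoA 0 ?_
      have haA : a ∈ A := by simpa [hr] using han
      have : (Subgroup.zpowers b) = ⊤ := by
        refine frattini_nongenerating (top_le_iff.mp (hgen ▸ (Subgroup.closure_le _).mpr ?_))
        rintro _ (rfl | rfl)
        · exact Subgroup.mem_sup_right (hcf haA)
        · exact Subgroup.mem_sup_left (Subgroup.mem_zpowers _)
      obtain ⟨i, hi⟩ := (this ▸ Subgroup.mem_top a : a ∈ Subgroup.zpowers b)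
      exact absurd (show u ∈ sqSub G from by
        rw [hu, ← show b ^ i = a from hi]
        have : b ^ i * b * (b ^ i)⁻¹ * b⁻¹ = 1 := by group
        rw [this]; exact one_mem _)
        (fun hus => hlt ((commutator_le_zpowers_sup hgen).trans
          (sup_le (Subgroup.zpowers_le.mpr (Subgroup.mem_sup_left hus)) le_rfl)))
    · exfalso
      have hn2 : a * a = a ^ n := by rw [hr]; simp [pow_two]
      have hanR : a ^ n ∈ derR G := by
        refine hfixR _ han ?_
        rw [hfix, mul_inv_cancel]; exact one_mem _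
      have h1 : a * a * b * (a * a)⁻¹ * b⁻¹ ∈ derL3 G := by
        have := inv_mem (commElt_mem_derL3 hanR b)
        rwa [← hn2, show (b * (a * a) * b⁻¹ * (a * a)⁻¹)⁻¹ = a * a * b * (a * a)⁻¹ * b⁻¹ by simp [mul_assoc]]
          at this
      have h2 : w = a * a * b * (a * a)⁻¹ * b⁻¹ * (u⁻¹ * u⁻¹) := by
        have e : a * a * b * (a * a)⁻¹ * b⁻¹ = a * u * a⁻¹ * u := by
          rw [hu]; simp only [mul_inv_rev, inv_inv, mul_assoc, inv_mul_cancel_left]
        rw [e, hw]; group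
      have hw3 : w ∈ derL3 G := by
        rw [h2]
        exact mul_mem h1 (Subgroup.mem_sup_left (sq_mem_sqSub (inv_mem huA)))
      exact hR (hR3 ((derR_le_zpowers_sup hgen hsq).trans (sup_le (Subgroup.zpowers_le.mpr hw3) le_rfl)))
    · exact ⟨2 ^ r, by rw [hr]; ring⟩
  exact ⟨a, b, n, hgen, hsq, hab, hnc, hfour, hnpos, han, hmem, htop, hchain⟩

end CfsgLib.FusionBicyclic
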