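import Cfsg.Agent.Lib.FusionBicyclic.Structure
import Cfsg.Agent.Lib.CoprimeAction.Aut
import Cfsg.Prelude.Def_KGroupFacts

/-!
Radical data on a subgroup `P` of a `2`-group, and the basic criterion: an element acting trivially
on both layers of an invariant chain `Φ(P) ≤ Y ≤ P` lies in `P`.
-/

set_option autoImplicit false
set_option linter.unusedSectionVars false
set_option linter.style.haveILetI false

namespace CfsgLib.FusionBicyclic

variable {G : Type*} [Group G] {P : Subgroup G} {Δ : Subgroup (MulAut P)}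

/-- The Frattini subgroup of `P`, inside `G`. -/
def fr (P : Subgroup G) : Subgroup G := (frattini P).map P.subtype

theorem fr_le (P : Subgroup G) : fr P ≤ P := Subgroup.map_subtype_le _

theorem mem_fr {x : G} (hx : x ∈ P) : x ∈ fr P ↔ (⟨x, hx⟩ : P) ∈ frattini P :=
  Subgroup.mem_map_iff_mem P.subtype_injective (x := (⟨x, hx⟩ : P))

theorem sq_mem_fr [Finite G] (hG : IsPGroup 2 G) {x : G} (hx : x ∈ P) : x * x ∈ fr P := by
  haveI : Fact (Nat.Prime 2) := ⟨Nat.prime_two⟩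
  exact ⟨⟨x, hx⟩ * ⟨x, hx⟩,
    pow_two (⟨x, hx⟩ : P) ▸ CfsgLib.PGroups.pow_mem_frattini (hG.to_subgroup P) _, rfl⟩

theorem zpow_even_mem_fr [Finite G] (hG : IsPGroup 2 G) {x : G} (hx : x ∈ P) (k : ℤ) :
    x ^ (2 * k) ∈ fr P := by
  rw [zpow_mul, zpow_two]
  exact zpow_mem (sq_mem_fr hG hx) k

theorem comm_mem_fr [Finite G] (hG : IsPGroup 2 G) {x y : G} (hx : x ∈ P) (hy : y ∈ P) :
    x * y * x⁻¹ * y⁻¹ ∈ fr P := by
  haveI : Fact (Nat.Prime 2) := ⟨Nat.prime_two⟩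
  exact ⟨_, CfsgLib.PGroups.commutator_le_frattini (hG.to_subgroup P) (comm_mem ⟨x, hx⟩ ⟨y, hy⟩), rfl⟩

theorem fr_conj_mem {g x : G} (hg : g ∈ P) (hx : x ∈ fr P) : g * x * g⁻¹ ∈ fr P := by
  obtain ⟨x, hx, rfl⟩ := hx
  exact ⟨_, (inferInstance : (frattini P).Normal).conj_mem x hx ⟨g, hg⟩, rfl⟩

/-- What a saturated system that is not inner leaves inside the group. -/
structure Rad (P : Subgroup G) (Δ : Subgroup (MulAut P)) : Prop where
  centric : Subgroup.centralizer (P : Set G) ≤ P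
  notTwo : ¬ IsPGroup 2 Δ
  conj : ∀ g ∈ Subgroup.normalizer (P : Set G), ∀ φ : MulAut P,
    (∀ x : P, (φ x : G) = g * x * g⁻¹) → φ ∈ Δ
  radical : ∀ K : Subgroup (MulAut P), K ≤ Δ →
    (∀ d ∈ Δ, ∀ k ∈ K, d * k * d⁻¹ ∈ K) → IsPGroup 2 K → K ≤ Cfsg.Inn P
  sylow : ∀ K : Subgroup (MulAut P), K ≤ Δ → IsPGroup 2 K →
    (∀ g ∈ Subgroup.normalizer (P : Set G), ∀ φ : MulAut P,
      (∀ x : P, (φ x : G) = g * x * g⁻¹) → φ ∈ K) →
    ∀ k ∈ K, ∃ g ∈ Subgroup.normalizer (P : Set G), ∀ x : P, (k x : G) = g * x * g⁻¹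

/-- A set of elements of `P` preserved by `Δ`. -/
def Stable (Δ : Subgroup (MulAut P)) (s : Set G) : Prop :=
  ∀ φ ∈ Δ, ∀ x : P, (x : G) ∈ s → (φ x : G) ∈ s

theorem stable_self : Stable Δ (P : Set G) := fun _ _ _ _ => SetLike.coe_mem _

theorem stable_fr : Stable Δ (fr P : Set G) := by
  intro φ _ x hx
  have hx' : x ∈ frattini P := (mem_fr x.2).mp hx
  haveI : (frattini P).Characteristic := inferInstance
  exact ⟨φ x, (Subgroup.characteristic_iff_le_comap.mp inferInstance φ) hx', rfl⟩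

theorem Stable.closure {s : Set G} (hs : Stable Δ s) (hsP : s ⊆ P) :
    Stable Δ (Subgroup.closure s : Set G) := by
  intro φ hφ x hx
  have hle : Subgroup.closure s ≤
      (((Subgroup.closure s).subgroupOf P).comap φ.toMonoidHom).map P.subtype := by
    rw [Subgroup.closure_le]
    intro y hy
    exact ⟨⟨y, hsP hy⟩, Subgroup.subset_closure (hs φ hφ ⟨y, hsP hy⟩ hy), rfl⟩
  obtain ⟨x', hx', hxe⟩ := hle hx
  obtain rfl : x' = x := Subtype.ext hxe
  exact hx'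

theorem Stable.sup {Y Z : Subgroup G} (hY : Stable Δ (Y : Set G)) (hZ : Stable Δ (Z : Set G))
    (hYP : Y ≤ P) (hZP : Z ≤ P) : Stable Δ ((Y ⊔ Z : Subgroup G) : Set G) := by
  rw [Subgroup.sup_eq_closure]
  refine Stable.closure (fun φ hφ x hx => ?_) (Set.union_subset hYP hZP)
  rcases hx with hx | hx
  · exact Or.inl (hY φ hφ x hx)
  · exact Or.inr (hZ φ hφ x hx)

/-- An element moving `P` into itself normalises it. -/
theorem mem_normalizer_of_move [Finite G] {g : G} (h : ∀ x ∈ P, g * x * g⁻¹ * x⁻¹ ∈ P) :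
    g ∈ Subgroup.normalizer (P : Set G) := by
  have hmaps : ∀ x ∈ P, g * x * g⁻¹ ∈ P := fun x hx => by
    simpa using P.mul_mem (h x hx) hx
  have hinj : Function.Injective (fun x : P => (⟨g * x * g⁻¹, hmaps x x.2⟩ : P)) := fun x y e =>
    Subtype.ext (mul_left_cancel (mul_right_cancel (congrArg Subtype.val e :)))
  rw [Subgroup.mem_normalizer_iff]
  intro x
  refine ⟨hmaps x, fun hx => ?_⟩
  obtain ⟨y, hy⟩ := Finite.injective_iff_surjective.mp hinj ⟨_, hx⟩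
  have : g * (y : G) * g⁻¹ = g * x * g⁻¹ := congrArg Subtype.val hy
  exact mul_left_cancel (mul_right_cancel this) ▸ y.2

/-- Conjugation by an element of the normaliser. -/
def conjOn (g : Subgroup.normalizer (P : Set G)) : MulAut P where
  toFun x := ⟨g * x * (g : G)⁻¹, (Subgroup.mem_normalizer_iff.mp g.2 x).mp x.2⟩
  invFun x := ⟨(g : G)⁻¹ * x * g, (Subgroup.mem_normalizer_iff.mp g.2 _).mpr (by
    simp [mul_assoc])⟩
  left_inv x := Subtype.ext (by simp [mul_assoc])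
  right_inv x := Subtype.ext (by simp [mul_assoc])
  map_mul' x y := Subtype.ext (by simp [mul_assoc])

theorem conjOn_apply (g : Subgroup.normalizer (P : Set G)) (x : P) :
    (conjOn g x : G) = g * x * (g : G)⁻¹ := rfl

theorem Rad.conjOn_mem (R : Rad P Δ) (g : Subgroup.normalizer (P : Set G)) : conjOn g ∈ Δ :=
  R.conj g g.2 _ fun _ => rfl

/-- The automorphisms in `Δ` acting trivially on `P / Y` and on `Y / fr P`. -/
def stab (Δ : Subgroup (MulAut P)) {Y : Subgroup G} (hY : Stable Δ (Y : Set G)) :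
    Subgroup (MulAut P) where
  carrier := {φ | φ ∈ Δ ∧ (∀ x : P, (φ x : G) * (x : G)⁻¹ ∈ Y) ∧
    ∀ x : P, (x : G) ∈ Y → (φ x : G) * (x : G)⁻¹ ∈ fr P}
  one_mem' := ⟨one_mem _, fun x => by simp, fun x _ => by simp⟩
  mul_mem' := by
    rintro φ ψ ⟨hφ, h1, h2⟩ ⟨hψ, g1, g2⟩
    refine ⟨mul_mem hφ hψ, fun x => ?_, fun x hx => ?_⟩
    · have := mul_mem (h1 (ψ x)) (g1 x)
      simpa [mul_assoc] using this
    · have := mul_mem (h2 (ψ x) (hY ψ hψ x hx)) (g2 x hx)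
      simpa [mul_assoc] using this
  inv_mem' := by
    rintro φ ⟨hφ, h1, h2⟩
    refine ⟨inv_mem hφ, fun x => ?_, fun x hx => ?_⟩
    · have := inv_mem (h1 (φ⁻¹ x))
      rw [MulAut.apply_inv_self, mul_inv_rev, inv_inv] at this
      exact this
    · have := inv_mem (h2 (φ⁻¹ x) (hY _ (inv_mem hφ) x hx))
      rw [MulAut.apply_inv_self, mul_inv_rev, inv_inv] at this
      exact this

theorem isPGroup_stab [Finite G] (hG : IsPGroup 2 G) {Y : Subgroup G}
    (hY : Stable Δ (Y : Set G)) (hYP : Y ≤ P) : IsPGroup 2 (stab Δ hY) := by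
  haveI : Fact (Nat.Prime 2) := ⟨Nat.prime_two⟩
  -- the square of an element is trivial on `P / fr P`
  have hsq : ∀ φ ∈ stab Δ hY, φ * φ ∈ stab Δ (stable_self (P := P) (Δ := Δ)) := by
    rintro φ ⟨hφ, h1, h2⟩
    refine ⟨mul_mem hφ hφ, fun x => P.mul_mem (SetLike.coe_mem _) (P.inv_mem x.2), fun x _ => ?_⟩
    obtain ⟨e', he'⟩ : ∃ e' : P, e' = φ x * x⁻¹ := ⟨_, rfl⟩
    set e : G := (e' : G) with he
    have heY : e ∈ Y := by rw [he, he']; exact h1 x
    have hφx : φ x = e' * x := by rw [he', inv_mul_cancel_right]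
    have hee : (φ e' : G) * e⁻¹ ∈ fr P := h2 _ heY
    have hval : ((φ * φ) x : G) * (x : G)⁻¹ = (φ e' : G) * e⁻¹ * (e * e) := by
      show (φ (φ x) : G) * _ = _
      have e2 : (φ (φ x) : G) = (φ e' : G) * (e * x) := by
        rw [hφx, map_mul, Subgroup.coe_mul, hφx]
        rfl
      rw [e2]
      group
    rw [hval]
    exact mul_mem hee (sq_mem_fr hG e'.2)
  have hp : IsPGroup 2 (stab Δ (stable_self (P := P) (Δ := Δ))) := by
    refine CfsgLib.CoprimeAction.isPGroup_of_trivial_on_frattini_quotient (hG.to_subgroup P) _ ?_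
    rintro φ ⟨-, -, h2⟩ x
    have h := h2 x x.2
    have h' : φ x * x⁻¹ ∈ frattini P :=
      (Subgroup.mem_map_iff_mem P.subtype_injective).mp h
    have := (inferInstance : (frattini P).Normal).conj_mem _ h' x⁻¹
    simpa [mul_assoc] using this
  intro φ
  obtain ⟨k, hk⟩ := hp ⟨_, hsq φ φ.2⟩
  refine ⟨k + 1, Subtype.ext ?_⟩
  have hk' := congrArg Subtype.val hk
  simp only [Subgroup.coe_pow, Subgroup.coe_one] at hk'
  rw [Subgroup.coe_pow, Subgroup.coe_one, pow_succ', pow_mul, pow_two]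
  exact hk'

/-- The criterion. -/
theorem Rad.mem_of_trivial [Finite G] (hG : IsPGroup 2 G) (R : Rad P Δ) {Y : Subgroup G}
    (hY : Stable Δ (Y : Set G)) (hfr : fr P ≤ Y) (hYP : Y ≤ P) {g : G}
    (h1 : ∀ x ∈ P, g * x * g⁻¹ * x⁻¹ ∈ Y) (h2 : ∀ y ∈ Y, g * y * g⁻¹ * y⁻¹ ∈ fr P) : g ∈ P := by
  have hg := mem_normalizer_of_move fun x hx => hYP (h1 x hx)
  have hle : stab Δ hY ≤ Δ := fun φ hφ => hφ.1
  have hnor : ∀ d ∈ Δ, ∀ k ∈ stab Δ hY, d * k * d⁻¹ ∈ stab Δ hY := by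
    rintro d hd k ⟨hk, k1, k2⟩
    refine ⟨mul_mem (mul_mem hd hk) (inv_mem hd), fun x => ?_, fun x hx => ?_⟩
    · have h := hY d hd ⟨_, hYP (k1 (d⁻¹ x))⟩ (k1 (d⁻¹ x))
      have e : d ⟨_, hYP (k1 (d⁻¹ x))⟩ = d (k (d⁻¹ x)) * x⁻¹ := by
        rw [show (⟨_, hYP (k1 (d⁻¹ x))⟩ : P) = k (d⁻¹ x) * (d⁻¹ x)⁻¹ from rfl, map_mul, map_inv,
          MulAut.apply_inv_self]
      rw [e] at h
      exact h
    · have hx' := hY d⁻¹ (inv_mem hd) x hx
      have h := stable_fr d hd ⟨_, fr_le P (k2 _ hx')⟩ (k2 _ hx')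
      have e : d ⟨_, fr_le P (k2 _ hx')⟩ = d (k (d⁻¹ x)) * x⁻¹ := by
        rw [show (⟨_, fr_le P (k2 _ hx')⟩ : P) = k (d⁻¹ x) * (d⁻¹ x)⁻¹ from rfl, map_mul, map_inv,
          MulAut.apply_inv_self]
      rw [e] at h
      exact h
  have hmem : conjOn ⟨g, hg⟩ ∈ stab Δ hY :=
    ⟨R.conjOn_mem _, fun x => h1 x x.2, fun x hx => h2 x hx⟩
  obtain ⟨p, hp⟩ := R.radical _ hle hnor (isPGroup_stab hG hY hYP) hmem
  have hc : (p : G)⁻¹ * g ∈ Subgroup.centralizer (P : Set G) := by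
    rw [Subgroup.mem_centralizer_iff]
    intro x hx
    have := congrArg Subtype.val (DFunLike.congr_fun hp ⟨x, hx⟩)
    have e : (p : G) * x * (p : G)⁻¹ = g * x * g⁻¹ := this
    calc x * ((p : G)⁻¹ * g) = (p : G)⁻¹ * ((p : G) * x * (p : G)⁻¹) * g := by group
      _ = (p : G)⁻¹ * (g * x * g⁻¹) * g := by rw [e]
      _ = _ := by group
  simpa using P.mul_mem p.2 (R.centric hc)

/-- An element acting trivially modulo `fr P` lies in `P`. -/
theorem Rad.mem_of_trivial_fr [Finite G] (hG : IsPGroup 2 G) (R : Rad P Δ) {g : G}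
    (h : ∀ x ∈ P, g * x * g⁻¹ * x⁻¹ ∈ fr P) : g ∈ P :=
  R.mem_of_trivial hG stable_fr le_rfl (fr_le P) h fun y hy => h y (fr_le P hy)

/-- A stable subgroup is normalised by `P`. -/
theorem Rad.conj_mem_of_stable [Finite G] (R : Rad P Δ) {Y : Subgroup G} (hY : Stable Δ (Y : Set G))
    (hYP : Y ≤ P) {p y : G} (hp : p ∈ P) (hy : y ∈ Y) : p * y * p⁻¹ ∈ Y :=
  hY _ (R.conjOn_mem ⟨p, Subgroup.le_normalizer hp⟩) ⟨y, hYP hy⟩ hy

/-- A property of commutators that only needs checking on generators. -/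
theorem Rad.forall_comm_mem [Finite G] (R : Rad P Δ) {Y : Subgroup G} (hY : Stable Δ (Y : Set G))
    (hYP : Y ≤ P) {s : Set G} (hsP : s ⊆ P) (hs : P ≤ Subgroup.closure s) {g : G}
    (h : ∀ x ∈ s, g * x * g⁻¹ * x⁻¹ ∈ Y) : ∀ x ∈ P, g * x * g⁻¹ * x⁻¹ ∈ Y := by
  have hsc : Subgroup.closure s ≤ P := (Subgroup.closure_le P).mpr hsP
  intro x hx
  have hxc := hs hx
  clear hx
  induction hxc using Subgroup.closure_induction with
  | mem x hx => exact h x hx
  | one => simp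
  | mul x y hx hy ihx ihy =>
    have e : g * (x * y) * g⁻¹ * (x * y)⁻¹ =
        g * x * g⁻¹ * x⁻¹ * (x * (g * y * g⁻¹ * y⁻¹) * x⁻¹) := by group
    rw [e]
    exact mul_mem ihx (R.conj_mem_of_stable hY hYP (hsc hx) ihy)
  | inv x hx ih =>
    have e : g * x⁻¹ * g⁻¹ * x⁻¹⁻¹ = x⁻¹ * (g * x * g⁻¹ * x⁻¹)⁻¹ * x⁻¹⁻¹ := by group
    rw [e]
    exact R.conj_mem_of_stable hY hYP (P.inv_mem (hsc hx)) (inv_mem ih)

end CfsgLib.FusionBicyclic
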