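import Cfsg.Agent.Lib.FusionBicyclic.ModelCore
import Mathlib.GroupTheory.PGroup

/-!
The local configuration in a two-generated 2-group with cyclic derived subgroup `⟨u⟩`,
`u = [a, b]`, in which `b²` is a power of `u²` and the group is not metacyclic.
-/

set_option autoImplicit false
set_option linter.style.haveILetI false
set_option linter.unusedSectionVars false
set_option maxRecDepth 20000

namespace CfsgLib.FusionBicyclic

open Cfsg Subgroup

variable {Ω : Type*} [Group Ω]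

theorem zpow_odd_eq {c : Ω} (hc : c * c = 1) {j : ℤ} (hj : Odd j) : c ^ j = c := by
  obtain ⟨r, rfl⟩ := hj
  rw [zpow_add_one, zpow_mul, zpow_two, hc, one_zpow, one_mul]

theorem zpow_inv_of_conj {b u : Ω} (h : b * u * b⁻¹ = u⁻¹) (i : ℤ) :
    b * u ^ i * b⁻¹ = u ^ (-i) := by
  rw [← conj_zpow, h, inv_zpow, ← zpow_neg]

/-- The configuration of a non-metacyclic bicyclic 2-group with cyclic derived subgroup. -/
theorem hasEssentialData_of_shape {S : Subgroup Ω} [Finite S] (hS : IsPGroup 2 S) {a b u : Ω}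
    (hu : u = a * b * a⁻¹ * b⁻¹) (ha : a ∈ S) (hb : b ∈ S) (hgen : S ≤ closure {a, b})
    (hcomm : ∀ g ∈ S, ∀ r ∈ S, g * r * g⁻¹ * r⁻¹ ∈ zpowers u) (hb2 : b * b ∈ zpowers (u ^ 2))
    (hbL : b ∉ zpowers u ⊔ zpowers a) (hua : u ∉ zpowers a) (huab : u ∉ zpowers (a * b)) :
    HasEssentialData S := by
  classical
  haveI : Fact (Nat.Prime 2) := ⟨Nat.prime_two⟩
  have huS : u ∈ S := hu ▸ mul_mem (mul_mem (mul_mem ha hb) (inv_mem ha)) (inv_mem hb)
  have hu1 : u ≠ 1 := fun h => hua (h ▸ one_mem _)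
  have hab : a * b * a⁻¹ = u * b := by rw [hu]; group
  obtain ⟨k, hk⟩ : ∃ k, orderOf u = 2 ^ k := by
    obtain ⟨k, hk⟩ := IsPGroup.iff_orderOf.1 hS ⟨u, huS⟩
    exact ⟨k, by rw [← hk, Subgroup.orderOf_mk]⟩
  obtain ⟨l, rfl⟩ : ∃ l, k = l + 1 := Nat.exists_eq_succ_of_ne_zero (by
    rintro rfl
    exact hu1 (orderOf_eq_one_iff.1 (by rw [hk, pow_zero])))
  set n : ℤ := (2 : ℤ) ^ (l + 1) with hn
  have hdvd : ∀ e : ℤ, u ^ e = 1 ↔ n ∣ e := fun e => by
    rw [← orderOf_dvd_iff_zpow_eq_one, hk, hn]; push_cast; rfl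
  have hzeq : ∀ e f : ℤ, n ∣ e - f → u ^ e = u ^ f := fun e f h => by
    have := (hdvd _).2 h
    rw [zpow_sub, mul_inv_eq_one] at this
    exact this
  have h2n : (2 : ℤ) ∣ n := ⟨2 ^ l, by rw [hn, pow_succ, mul_comm]⟩
  -- the subgroup generated by `u` is normalised by `S`
  have hnorm : ∀ g ∈ S, ∀ v ∈ zpowers u, g * v * g⁻¹ ∈ zpowers u := fun g hg v hv => by
    have := mul_mem (hcomm g hg v ((zpowers_le.2 huS) hv)) hv
    rwa [inv_mul_cancel_right] at this
  -- odd exponents of conjugates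
  have hodd : ∀ (g : Ω) (e : ℤ), g * u * g⁻¹ = u ^ e → Odd e := by
    intro g e he
    rw [← Int.not_even_iff_odd]
    rintro ⟨r, rfl⟩
    have h0 : (u ^ (r + r)) ^ (2 ^ l : ℤ) = 1 := by
      rw [← zpow_mul]
      exact (hdvd _).2 ⟨r, by rw [hn, pow_succ]; ring⟩
    rw [← he, conj_zpow] at h0
    have h1 := (hdvd _).1 (conj_eq_one_iff.1 h0)
    have h2 := Int.le_of_dvd (by positivity) h1
    rw [hn, pow_succ] at h2
    have : (0 : ℤ) < 2 ^ l := by positivity
    omega
  obtain ⟨α, hα⟩ := mem_zpowers_iff.1 (hnorm a ha u (mem_zpowers u))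
  obtain ⟨β, hβ⟩ := mem_zpowers_iff.1 (hnorm b hb u (mem_zpowers u))
  obtain ⟨γ, hγ⟩ := hodd a α hα.symm
  obtain ⟨i, hi⟩ := mem_zpowers_iff.1 hb2
  have hbb : b * b = u ^ (2 * i) := by rw [← hi, zpow_mul]; norm_cast
  have h1 : n ∣ 2 * i * (β - 1) := by
    refine (hdvd _).1 ?_
    have e : b * u ^ (2 * i) * b⁻¹ = u ^ (β * (2 * i)) := by rw [← conj_zpow, ← hβ, ← zpow_mul]
    rw [← hbb, show b * (b * b) * b⁻¹ = b * b by group, hbb] at e
    rw [show 2 * i * (β - 1) = β * (2 * i) - 2 * i by ring, zpow_sub, ← e, mul_inv_cancel]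
  have h2 : n ∣ 1 + β - 2 * i * (α - 1) := by
    refine (hdvd _).1 ?_
    have e : a * u ^ (2 * i) * a⁻¹ = u ^ (1 + β + 2 * i) := by
      rw [← hbb, show a * (b * b) * a⁻¹ = (a * b * a⁻¹) * (a * b * a⁻¹) by group, hab,
        show u * b * (u * b) = u * (b * u * b⁻¹) * (b * b) by group, ← hβ, hbb, zpow_add, zpow_add,
        zpow_one]
    rw [← conj_zpow, ← hα, ← zpow_mul] at e
    rw [show 1 + β - 2 * i * (α - 1) = (1 + β + 2 * i) - α * (2 * i) by ring, zpow_sub, ← e,
      mul_inv_cancel]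
  have h4i : n ∣ 4 * i := by
    have h : n ∣ 4 * i * (i * (α - 1) - 1) := by
      rw [show 4 * i * (i * (α - 1) - 1) = 2 * i * (β - 1) - 2 * i * (1 + β - 2 * i * (α - 1)) by ring]
      exact dvd_sub h1 (dvd_mul_of_dvd_right h2 _)
    refine IsCoprime.dvd_of_dvd_mul_right ?_ h
    rw [hn]
    exact IsCoprime.pow_left ⟨i * γ, -1, by rw [hγ]; ring⟩
  have hbu : b * u * b⁻¹ = u⁻¹ := by
    rw [← hβ, ← zpow_neg_one]
    refine hzeq _ _ ?_
    rw [show β - (-1) = (1 + β - 2 * i * (α - 1)) + 4 * i * γ by rw [hγ]; ring]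
    exact dvd_add h2 (dvd_mul_of_dvd_left h4i _)
  -- the involution of `⟨u⟩`
  set z : Ω := u ^ ((2 : ℤ) ^ l) with hz
  have hinv2 : ∀ v ∈ zpowers u, v * v = 1 → v = 1 ∨ v = z := by
    rintro _ ⟨e, rfl⟩ h
    change u ^ e * u ^ e = 1 at h
    rw [← zpow_add, hdvd, hn, pow_succ, show e + e = e * 2 by ring] at h
    obtain ⟨r, hr⟩ := (mul_dvd_mul_iff_right (two_ne_zero' ℤ)).1 h
    show u ^ e = 1 ∨ u ^ e = z
    rcases Int.even_or_odd r with ⟨s, hs⟩ | ⟨s, hs⟩
    · exact Or.inl ((hdvd _).2 ⟨s, by rw [hr, hn, hs, pow_succ]; ring⟩)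
    · exact Or.inr (hzeq _ _ ⟨s, by rw [hr, hn, hs, pow_succ]; ring⟩)
  have hz2 : z * z = 1 := by
    rw [hz, ← zpow_add]; exact (hdvd _).2 ⟨1, by rw [hn, pow_succ]; ring⟩
  have hzu : z ∈ zpowers u := ⟨_, rfl⟩
  have hz1 : z ≠ 1 := fun h => by
    have := Int.le_of_dvd (by positivity) ((hdvd _).1 h)
    rw [hn, pow_succ] at this
    have : (0 : ℤ) < 2 ^ l := by positivity
    omega
  have hzc : ∀ g ∈ S, g * z * g⁻¹ = z := fun g hg => by
    rcases hinv2 _ (hnorm g hg z hzu) (by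
      rw [show g * z * g⁻¹ * (g * z * g⁻¹) = g * (z * z) * g⁻¹ by group, hz2]; group) with h | h
    · exact absurd (conj_eq_one_iff.1 h) hz1
    · exact h
  have hbb' : b * b = 1 ∨ b * b = z := hinv2 _ (hbb ▸ zpow_mem (mem_zpowers u) _) (by
    rw [hbb, ← zpow_add, hdvd, show 2 * i + 2 * i = 4 * i by ring]; exact h4i)
  -- the element `x`
  obtain ⟨m, hm1, hm2, hm0⟩ : ∃ m : ℤ, n ∣ 1 + α + 2 * m ∧ (n ∣ 4 → n ∣ m * (α - 1)) ∧
      (l = 0 → m = 0) := by
    rcases Nat.eq_zero_or_pos l with rfl | hl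
    · refine ⟨0, ?_, fun _ => by simp, fun _ => rfl⟩
      rw [hn, hγ]
      exact ⟨γ + 1, by ring⟩
    · refine ⟨-(γ + 1), by rw [hγ]; exact ⟨0, by ring⟩, fun h => h.trans ?_, fun h => by omega⟩
      obtain ⟨r, hr⟩ := (Int.even_mul_succ_self γ).two_dvd
      exact ⟨-r, by rw [hγ, show -(γ + 1) * (2 * γ + 1 - 1) = -2 * (γ * (γ + 1)) by ring, hr]; ring⟩
  set x : Ω := u ^ m * (a * a) with hx
  have hxS : x ∈ S := mul_mem (zpow_mem huS _) (mul_mem ha ha)
  have hau : ∀ e : ℤ, a * u ^ e * a⁻¹ = u ^ (α * e) := fun e => by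
    rw [← conj_zpow, ← hα, ← zpow_mul]
  have hxu : ∀ e : ℤ, x * u ^ e * x⁻¹ = u ^ (α * (α * e)) := fun e => by
    rw [hx, show u ^ m * (a * a) * u ^ e * (u ^ m * (a * a))⁻¹ =
      u ^ m * (a * (a * u ^ e * a⁻¹) * a⁻¹) * (u ^ m)⁻¹ by group, hau, hau, ← zpow_add, ← zpow_neg,
      ← zpow_add]
    ring_nf
  have hxfix : ∀ e : ℤ, n ∣ 8 * e → x * u ^ e = u ^ e * x := fun e he => by
    have h : x * u ^ e * x⁻¹ = u ^ e := by
      rw [hxu]
      refine hzeq _ _ (he.trans ?_)
      obtain ⟨r, hr⟩ := (Int.even_mul_succ_self γ).two_dvd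
      refine ⟨r, ?_⟩
      rw [hγ, show (2 * γ + 1) * ((2 * γ + 1) * e) - e = 4 * (γ * (γ + 1)) * e by ring, hr]
      ring
    exact mul_inv_eq_iff_eq_mul.1 h
  have hbu' : ∀ e : ℤ, b * u ^ e = u ^ (-e) * b := fun e =>
    mul_inv_eq_iff_eq_mul.1 (zpow_inv_of_conj hbu e)
  have hxb : x * b = b * x := by
    have h : x * b * x⁻¹ = b := by
      have e : x * b * x⁻¹ = u ^ (1 + α + 2 * m) * b := by
        rw [hx, show u ^ m * (a * a) * b * (u ^ m * (a * a))⁻¹ =
          u ^ m * (a * (a * b * a⁻¹) * a⁻¹) * (u ^ m)⁻¹ by group, hab,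
          show a * (u * b) * a⁻¹ = (a * u ^ (1 : ℤ) * a⁻¹) * (a * b * a⁻¹) by rw [zpow_one]; group,
          hau, hab, mul_assoc (u ^ m), ← zpow_neg,
          show u ^ (α * 1) * (u * b) * u ^ (-m) = u ^ (α * 1) * u * (b * u ^ (-m)) by group, hbu',
          neg_neg, ← zpow_add_one, ← mul_assoc, ← mul_assoc, ← zpow_add, ← zpow_add]
        ring_nf
      rw [e, (hdvd _).2 hm1, one_mul]
    exact mul_inv_eq_iff_eq_mul.1 h
  have haa : a * a ∈ zpowers u ⊔ zpowers x := by
    have : a * a = (u ^ m)⁻¹ * x := by rw [hx]; group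
    rw [this]
    exact mul_mem (mem_sup_left (inv_mem (zpow_mem (mem_zpowers u) _)))
      (mem_sup_right (mem_zpowers x))
  -- elements of `⟨u⟩ ⊔ ⟨c⟩`
  have hLform : ∀ c ∈ S, ∀ g ∈ zpowers u ⊔ zpowers c, ∃ e f : ℤ, g = u ^ e * c ^ f := by
    intro c hc g hg
    have hn' : zpowers c ≤ normalizer (zpowers u : Set Ω) := by
      rw [zpowers_le, mem_normalizer_iff]
      refine fun v => ⟨hnorm c hc v, fun hv => ?_⟩
      have := hnorm c⁻¹ (inv_mem hc) _ hv
      rwa [show c⁻¹ * (c * v * c⁻¹) * c⁻¹⁻¹ = v by group] at this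
    rw [← SetLike.mem_coe, coe_mul_of_right_le_normalizer_left _ _ hn'] at hg
    obtain ⟨_, ⟨e, rfl⟩, _, ⟨f, rfl⟩, h⟩ := Set.mem_mul.1 hg
    exact ⟨e, f, h.symm⟩
  have hxL : zpowers u ⊔ zpowers x ≤ zpowers u ⊔ zpowers a :=
    sup_le le_sup_left (zpowers_le.2 (mul_mem (mem_sup_left (zpow_mem (mem_zpowers u) _))
      (mem_sup_right (mul_mem (mem_zpowers a) (mem_zpowers a)))))
  -- every element as `v b^e a^f`
  have hform : ∀ g ∈ S, ∃ v ∈ zpowers u, ∃ e f : ℤ, g = v * (b ^ e * a ^ f) := by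
    have hpS : ∀ e f : ℤ, b ^ e * a ^ f ∈ S := fun e f => mul_mem (zpow_mem hb e) (zpow_mem ha f)
    suffices ∀ g ∈ closure ({a, b} : Set Ω), ∃ v ∈ zpowers u, ∃ e f : ℤ, g = v * (b ^ e * a ^ f) from
      fun g hg => this g (hgen hg)
    intro g hg
    induction hg using closure_induction with
    | mem g hg =>
      rcases hg with rfl | rfl
      · exact ⟨1, one_mem _, 0, 1, by simp⟩
      · exact ⟨1, one_mem _, 1, 0, by simp⟩
    | one => exact ⟨1, one_mem _, 0, 0, by simp⟩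
    | mul g g' hg' hg'' ih ih' =>
      obtain ⟨v, hv, e, f, rfl⟩ := ih
      obtain ⟨v', hv', e', f', rfl⟩ := ih'
      refine ⟨v * ((b ^ e * a ^ f) * v' * (b ^ e * a ^ f)⁻¹) *
        (b ^ e * (a ^ f * b ^ e' * (a ^ f)⁻¹ * (b ^ e')⁻¹) * (b ^ e)⁻¹),
        mul_mem (mul_mem hv (hnorm _ (hpS e f) _ hv'))
          (hnorm _ (zpow_mem hb e) _ (hcomm _ (zpow_mem ha f) _ (zpow_mem hb e'))),
        e + e', f + f', ?_⟩
      rw [zpow_add, zpow_add]
      group
    | inv g hg' ih =>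
      obtain ⟨v, hv, e, f, rfl⟩ := ih
      refine ⟨(a ^ f)⁻¹ * (b ^ e)⁻¹ * v⁻¹ * ((a ^ f)⁻¹ * (b ^ e)⁻¹)⁻¹ *
        ((a ^ (-f)) * b ^ (-e) * (a ^ (-f))⁻¹ * (b ^ (-e))⁻¹),
        mul_mem (hnorm _ (mul_mem (inv_mem (zpow_mem ha f)) (inv_mem (zpow_mem hb e))) _ (inv_mem hv))
          (hcomm _ (zpow_mem ha _) _ (zpow_mem hb _)), -e, -f, ?_⟩
      group
  have hpar : ∀ e : ℤ, b ^ e ∈ zpowers u ∨ ∃ v ∈ zpowers u, b ^ e = v * b := by
    intro e
    rcases Int.even_or_odd e with ⟨r, rfl⟩ | ⟨r, rfl⟩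
    · left
      rw [← two_mul, zpow_mul, zpow_two, hbb]
      exact zpow_mem (zpow_mem (mem_zpowers u) _) _
    · right
      refine ⟨(b * b) ^ r, hbb ▸ zpow_mem (zpow_mem (mem_zpowers u) _) _, ?_⟩
      rw [zpow_add_one, zpow_mul, zpow_two]
  have hnf : ∀ g ∈ S, ∃ v ∈ zpowers u, ∃ w, (w = 1 ∨ w = b) ∧
      ∃ j : ℤ, ∃ t, (t = 1 ∨ t = a) ∧ g = v * w * x ^ j * t := by
    intro g hg
    obtain ⟨v, hv, e, f, rfl⟩ := hform g hg
    obtain ⟨r, t, ht, hft⟩ : ∃ r : ℤ, ∃ t, (t = 1 ∨ t = a) ∧ a ^ f = (a * a) ^ r * t := by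
      rcases Int.even_or_odd f with ⟨r, rfl⟩ | ⟨r, rfl⟩
      · exact ⟨r, 1, Or.inl rfl, by rw [← two_mul, zpow_mul, zpow_two, mul_one]⟩
      · exact ⟨r, a, Or.inr rfl, by rw [zpow_add_one, zpow_mul, zpow_two]⟩
    obtain ⟨e', j, hj⟩ := hLform x hxS _ (zpow_mem haa r)
    rw [hft, hj]
    rcases hpar e with h | ⟨v', hv', h⟩
    · exact ⟨v * b ^ e * u ^ e', mul_mem (mul_mem hv h) (zpow_mem (mem_zpowers u) _), 1, Or.inl rfl,
        j, t, ht, by group⟩
    · refine ⟨v * v' * (b * u ^ e' * b⁻¹), mul_mem (mul_mem hv hv')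
        (hnorm b hb _ (zpow_mem (mem_zpowers u) _)), b, Or.inr rfl, j, t, ht, ?_⟩
      rw [h]; group
  -- the centraliser of `b`
  have hxjb : ∀ j : ℤ, x ^ j * b * (x ^ j)⁻¹ = b := fun j => by
    rw [(Commute.zpow_left (show Commute x b from hxb) j).eq, mul_inv_cancel_right]
  have hcentb : ∀ g ∈ S, g * b = b * g → g ∈ zpowers z ⊔ zpowers x ⊔ zpowers b := by
    intro g hg hgb
    obtain ⟨_, ⟨e, rfl⟩, w, hw, j, t, ht, rfl⟩ := hnf g hg
    have hwb : w * b = b * w := by rcases hw with hw | hw <;> subst w <;> simp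
    have hwS : w ∈ S := by rcases hw with hw | hw <;> subst w <;> [exact one_mem S; exact hb]
    have hgb' : u ^ e * w * x ^ j * t * b * (u ^ e * w * x ^ j * t)⁻¹ = b := by
      rw [hgb, mul_inv_cancel_right]
    rcases ht with ht | ht <;> subst t
    · have h3 : u ^ (e + e) * b = b := by
        refine Eq.trans ?_ hgb'
        rw [show u ^ e * w * x ^ j * 1 * b * (u ^ e * w * x ^ j * 1)⁻¹ =
          u ^ e * (w * (x ^ j * b * (x ^ j)⁻¹) * w⁻¹) * (u ^ e)⁻¹ by group, hxjb, hwb,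
          mul_inv_cancel_right, mul_assoc, ← zpow_neg, hbu', neg_neg, ← mul_assoc, ← zpow_add]
      rw [mul_eq_right, zpow_add] at h3
      have hz' : u ^ e ∈ zpowers z := by
        rcases hinv2 _ (zpow_mem (mem_zpowers u) e) h3 with h | h <;> rw [h]
        exacts [one_mem _, mem_zpowers z]
      rw [mul_one]
      refine mul_mem (mul_mem (mem_sup_left (mem_sup_left hz')) ?_)
        (mem_sup_left (mem_sup_right (zpow_mem (mem_zpowers x) j)))
      rcases hw with hw | hw <;> subst w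
      exacts [one_mem _, mem_sup_right (mem_zpowers b)]
    · exfalso
      obtain ⟨d, hd⟩ := mem_zpowers_iff.1
        (hnorm (w * x ^ j) (mul_mem hwS (zpow_mem hxS j)) u (mem_zpowers u))
      obtain ⟨d', hd'⟩ := hodd _ d hd.symm
      have h3 : u ^ (e + d + e) * b = b := by
        refine Eq.trans ?_ hgb'
        rw [show u ^ e * w * x ^ j * a * b * (u ^ e * w * x ^ j * a)⁻¹ =
          u ^ e * (w * x ^ j * (a * b * a⁻¹) * (w * x ^ j)⁻¹) * (u ^ e)⁻¹ by group, hab,
          show w * x ^ j * (u * b) * (w * x ^ j)⁻¹ =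
            (w * x ^ j * u * (w * x ^ j)⁻¹) * (w * (x ^ j * b * (x ^ j)⁻¹) * w⁻¹) by group,
          hxjb, hwb, mul_inv_cancel_right, ← hd, ← mul_assoc, ← zpow_add, mul_assoc, ← zpow_neg,
          hbu', neg_neg, ← mul_assoc, ← zpow_add]
      rw [mul_eq_right, hdvd] at h3
      have := h2n.trans h3
      omega
  have hgenu : ∀ (c : Ω) (e : ℤ), Odd e → u ^ e ∈ zpowers c → u ∈ zpowers c := by
    intro c e he hc
    have hcop : IsCoprime e n := by
      obtain ⟨r, rfl⟩ := he
      rw [hn]; exact IsCoprime.pow_right ⟨1, -r, by ring⟩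
    obtain ⟨p', q', hpq⟩ := hcop
    have h : u = (u ^ e) ^ p' := by
      rw [← zpow_mul]
      conv_lhs => rw [← zpow_one u]
      exact hzeq _ _ ⟨q', by rw [← hpq]; ring⟩
    rw [h]; exact zpow_mem hc _
  have hxz : ∀ j : ℤ, Odd j → x ^ j = z → False := by
    intro j hj hjz
    have hx2 : x * x = 1 := by
      have h1 : x ^ (j * 2) = 1 := by rw [zpow_mul, hjz, zpow_two, hz2]
      obtain ⟨kx, hkx⟩ := IsPGroup.iff_orderOf.1 hS ⟨x, hxS⟩
      rw [Subgroup.orderOf_mk] at hkx
      rw [← orderOf_dvd_iff_zpow_eq_one, hkx] at h1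
      have h2 : ((2 ^ kx : ℕ) : ℤ) ∣ 2 := by
        refine IsCoprime.dvd_of_dvd_mul_left ?_ h1
        obtain ⟨r, rfl⟩ := hj
        push_cast
        exact IsCoprime.pow_left ⟨-r, 1, by ring⟩
      rw [← zpow_two, ← orderOf_dvd_iff_zpow_eq_one, hkx]
      exact h2
    rw [zpow_odd_eq hx2 hj] at hjz
    have haa' : a * a = u ^ (-m + (2 : ℤ) ^ l) := by
      rw [zpow_add, ← hz, ← hjz, hx, zpow_neg, inv_mul_cancel_left]
    rcases Int.even_or_odd (-m + (2 : ℤ) ^ l) with he | he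
    · refine huab (hgenu _ (1 - (-m + (2 : ℤ) ^ l) + 2 * i) ?_ ?_)
      · obtain ⟨r, hr⟩ := he
        exact ⟨-r + i, by rw [hr]; ring⟩
      · have hab2 : a * b * (a * b) = u ^ (1 - (-m + (2 : ℤ) ^ l) + 2 * i) := by
          calc a * b * (a * b) = (a * b * a⁻¹) * (a * a) * b := by group
            _ = u * (b * u ^ (-m + (2 : ℤ) ^ l)) * b := by rw [hab, haa', mul_assoc u]
            _ = u ^ (1 + -(-m + (2 : ℤ) ^ l) + 2 * i) := by
              rw [hbu', zpow_add, zpow_add, zpow_one, ← hbb]; group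
            _ = _ := by ring_nf
        rw [← hab2]; exact mul_mem (mem_zpowers _) (mem_zpowers _)
    · refine hua (hgenu _ _ he ?_)
      rw [← haa']; exact mul_mem (mem_zpowers _) (mem_zpowers _)
  -- the two possible configurations
  suffices ∃ c : ℕ, c ≤ l ∧ l ≤ c + 1 ∧ u ^ ((2 : ℤ) ^ c) ∉
      zpowers (u ^ ((2 : ℤ) ^ c) * u ^ ((2 : ℤ) ^ c)) ⊔ zpowers x ∧
      ∃ y ∈ zpowers x, y * y * (b * b) = u ^ ((2 : ℤ) ^ c) * u ^ ((2 : ℤ) ^ c) ∧
        (y = 1 ∨ y * y = u ^ ((2 : ℤ) ^ c) * u ^ ((2 : ℤ) ^ c)) by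
    obtain ⟨c, hcl, hlc, hpC, y, hy, hyb, hy2⟩ := this
    set p : Ω := u ^ ((2 : ℤ) ^ c) with hp
    have hpu : p ∈ zpowers u := ⟨_, rfl⟩
    have hpS : p ∈ S := zpow_mem huS _
    have hd2 : n ∣ (2 : ℤ) ^ c * 4 := by
      rw [hn, show (2 : ℤ) ^ c * 4 = 2 ^ (c + 2) by rw [pow_add]; norm_num]
      exact pow_dvd_pow 2 (by omega)
    have hpp : p * p = u ^ ((2 : ℤ) ^ (c + 1)) := by
      rw [hp, ← zpow_add, pow_succ, mul_two]
    have hppz : p * p = 1 ∨ p * p = z := hinv2 _ (mul_mem hpu hpu) (by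
      rw [hpp, ← zpow_add, hdvd]
      exact hd2.trans (dvd_of_eq (by rw [pow_succ]; ring)))
    have hzp : z ∈ zpowers p := by
      rcases hppz with h | h
      · rcases hinv2 p hpu h with h' | h'
        · exact absurd (h' ▸ one_mem _) hpC
        · rw [← h']; exact mem_zpowers p
      · rw [← h]; exact mul_mem (mem_zpowers p) (mem_zpowers p)
    have hp4 : p ^ 4 = 1 := by
      rw [show p ^ 4 = (p ^ 2) ^ 2 from (pow_mul p 2 2), pow_two p]
      rcases hppz with h | h <;> rw [h]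
      exacts [one_pow 2, (pow_two z).trans hz2]
    have hxp : x * p = p * x := hxfix _ (hd2.trans ⟨2, by ring⟩)
    have hbp : b * p * b⁻¹ = p⁻¹ := by rw [hp, zpow_inv_of_conj hbu, zpow_neg]
    obtain ⟨yj, hyj⟩ := mem_zpowers_iff.1 hy
    have hyS : y ∈ S := hyj ▸ zpow_mem hxS _
    have hyp : y * p = p * y := hyj ▸ (Commute.zpow_left (show Commute x p from hxp) yj).eq
    have hyb' : y * b = b * y := hyj ▸ (Commute.zpow_left (show Commute x b from hxb) yj).eq
    set C : Subgroup Ω := zpowers (p * p) ⊔ zpowers x with hC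
    obtain ⟨q, hq⟩ : ∃ q : Ω, q = b * y := ⟨_, rfl⟩
    have hqS : q ∈ S := hq ▸ mul_mem hb hyS
    have hxC : x ∈ C := mem_sup_right (mem_zpowers x)
    have hyC : y ∈ C := mem_sup_right hy
    have hCle : C ≤ zpowers p ⊔ zpowers x :=
      sup_le_sup_right (zpowers_le.2 (mul_mem (mem_zpowers p) (mem_zpowers p))) _
    have hCL : C ≤ zpowers u ⊔ zpowers a :=
      hCle.trans ((sup_le_sup_right (zpowers_le.2 hpu) _).trans hxL)
    have hyL : y ∈ zpowers u ⊔ zpowers a := hCL hyC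
    have hC0 : C ≤ centralizer {b} := by
      refine sup_le (zpowers_le.2 ?_) (zpowers_le.2 (mem_centralizer_singleton_iff.2 hxb))
      rw [mem_centralizer_singleton_iff]
      rcases hppz with h | h <;> rw [h]
      · simp
      · exact (mul_inv_eq_iff_eq_mul.1 (hzc b hb)).symm
    have hCp : C ≤ centralizer {p} :=
      sup_le (zpowers_le.2 (mem_centralizer_singleton_iff.2 (mul_assoc p p p)))
        (zpowers_le.2 (mem_centralizer_singleton_iff.2 hxp))
    have hCb : ∀ d ∈ C, d * b = b * d := fun d hd => mem_centralizer_singleton_iff.1 (hC0 hd)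
    have hCy : C ≤ centralizer {x} :=
      sup_le (zpowers_le.2 (mem_centralizer_singleton_iff.2 (by
        rw [mul_assoc, ← hxp, ← mul_assoc, ← hxp, mul_assoc])))
        (zpowers_le.2 (mem_centralizer_singleton_iff.2 rfl))
    have hCC : ∀ d ∈ C, ∀ d' ∈ C, d * d' = d' * d := by
      intro d hd d' hd'
      have h : C ≤ centralizer {d} := by
        refine sup_le (zpowers_le.2 (mem_centralizer_singleton_iff.2 ?_)) (zpowers_le.2
          (mem_centralizer_singleton_iff.2 (mem_centralizer_singleton_iff.1 (hCy hd)).symm))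
        have := mem_centralizer_singleton_iff.1 (hCp hd)
        rw [mul_assoc, ← this, ← mul_assoc, ← this, mul_assoc]
      exact (mem_centralizer_singleton_iff.1 (h hd')).symm
    -- the shape of `P`
    set P' : Subgroup Ω := zpowers p ⊔ zpowers x ⊔ zpowers b with hP'
    have hPeq : zpowers p ⊔ zpowers q ⊔ C = P' := by
      have hbm : b ∈ zpowers p ⊔ zpowers q ⊔ C := by
        rw [show b = q * y⁻¹ by rw [hq]; group]
        exact mul_mem (mem_sup_left (mem_sup_right (mem_zpowers q))) (inv_mem (mem_sup_right hyC))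
      refine le_antisymm (sup_le (sup_le ?_ ?_) (hCle.trans le_sup_left))
        (sup_le (sup_le ?_ ?_) (zpowers_le.2 hbm))
      · exact le_sup_left.trans le_sup_left
      · rw [zpowers_le, hq]
        exact mul_mem (mem_sup_right (mem_zpowers b)) (mem_sup_left (mem_sup_right hy))
      · exact le_sup_left.trans le_sup_left
      · exact le_sup_right.trans le_sup_right
    have hPform : ∀ r ∈ P', ∃ e j : ℤ, ∃ w, (w = 1 ∨ w = b) ∧ r = p ^ e * x ^ j * w := by
      intro r hr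
      let W : Subgroup Ω := zpowers p ⊔ zpowers x
      have hWform : ∀ s ∈ W, ∃ e j : ℤ, s = p ^ e * x ^ j := by
        intro s hs
        have hn' : zpowers x ≤ normalizer (zpowers p : Set Ω) := by
          rw [zpowers_le, mem_normalizer_iff]
          intro v
          constructor
          · rintro ⟨e, rfl⟩
            refine ⟨e, ?_⟩
            show p ^ e = _
            rw [(Commute.zpow_right (show Commute x p from hxp) e).eq, mul_inv_cancel_right]
          · rintro ⟨e, he⟩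
            refine ⟨e, ?_⟩
            show p ^ e = v
            change p ^ e = x * v * x⁻¹ at he
            have h5 : x * p ^ e * x⁻¹ = p ^ e := by
              rw [(Commute.zpow_right (show Commute x p from hxp) e).eq, mul_inv_cancel_right]
            rw [← h5] at he
            exact mul_left_cancel (mul_right_cancel he)
        rw [← SetLike.mem_coe, coe_mul_of_right_le_normalizer_left _ _ hn'] at hs
        obtain ⟨_, ⟨e, rfl⟩, _, ⟨j, rfl⟩, h⟩ := Set.mem_mul.1 hs
        exact ⟨e, j, h.symm⟩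
      have hbW : zpowers b ≤ normalizer (W : Set Ω) := by
        rw [zpowers_le]
        haveI : Finite ((W : Set Ω) : Type _) :=
          Finite.of_injective _ (Subgroup.inclusion_injective
            (sup_le (zpowers_le.2 hpS) (zpowers_le.2 hxS) : W ≤ S))
        refine mem_normalizer_fintype fun s hs => ?_
        obtain ⟨e, j, rfl⟩ := hWform s hs
        rw [show b * (p ^ e * x ^ j) * b⁻¹ = (b * p * b⁻¹) ^ e * (b * x * b⁻¹) ^ j by
          rw [conj_zpow, conj_zpow]; group, hbp, ← hxb, mul_inv_cancel_right]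
        exact mul_mem (mem_sup_left (zpow_mem (inv_mem (mem_zpowers p)) e))
          (mem_sup_right (zpow_mem (mem_zpowers x) j))
      rw [hP', ← SetLike.mem_coe, coe_mul_of_right_le_normalizer_left _ _ hbW] at hr
      obtain ⟨s, hs, _, ⟨f, rfl⟩, h⟩ := Set.mem_mul.1 hr
      have hbbW : b * b ∈ W := mem_sup_left (by
        rcases hbb' with h' | h' <;> rw [h']
        exacts [one_mem _, hzp])
      rcases Int.even_or_odd f with ⟨g, rfl⟩ | ⟨g, rfl⟩
      · obtain ⟨e, j, hej⟩ := hWform _ (mul_mem hs (zpow_mem hbbW g))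
        refine ⟨e, j, 1, Or.inl rfl, ?_⟩
        rw [mul_one, ← hej, ← h, ← zpow_two, ← zpow_mul, two_mul]
      · obtain ⟨e, j, hej⟩ := hWform _ (mul_mem hs (zpow_mem hbbW g))
        refine ⟨e, j, b, Or.inr rfl, ?_⟩
        rw [← hej, ← h, ← zpow_two, ← zpow_mul, mul_assoc, ← zpow_add_one]
    have hcap : ∀ v ∈ zpowers u, v ∈ P' → v ∈ zpowers p := by
      intro v hv hvP
      obtain ⟨e, j, w, hw, rfl⟩ := hPform v hvP
      have hxj : p ^ e * x ^ j ∈ zpowers u ⊔ zpowers a :=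
        hxL (mul_mem (mem_sup_left (zpow_mem hpu e)) (mem_sup_right (zpow_mem (mem_zpowers x) j)))
      rcases hw with hw | hw <;> subst w
      · rw [mul_one] at hv ⊢
        have h5 : x ^ j ∈ zpowers u := by
          have := mul_mem (inv_mem (zpow_mem hpu e)) hv
          rwa [inv_mul_cancel_left] at this
        obtain ⟨r, hr⟩ := mem_zpowers_iff.1 h5
        have h6 : x ^ j * x ^ j = 1 := by
          have e1 : b * x ^ j * b⁻¹ = x ^ j := by
            rw [← (Commute.zpow_left (show Commute x b from hxb) j).eq, mul_inv_cancel_right]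
          have e2 : u ^ (-r) = u ^ r := by rw [← zpow_inv_of_conj hbu r, hr, e1]
          rw [← hr]
          nth_rewrite 1 [← e2]
          rw [← zpow_add, neg_add_cancel, zpow_zero]
        refine mul_mem (zpow_mem (mem_zpowers p) e) ?_
        rcases hinv2 _ h5 h6 with h | h <;> rw [h]
        exacts [one_mem _, hzp]
      · refine absurd ?_ hbL
        have := mul_mem (inv_mem hxj) (mem_sup_left hv : p ^ e * x ^ j * b ∈ zpowers u ⊔ zpowers a)
        rwa [inv_mul_cancel_left] at this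
    have hcentP : ∀ g ∈ S, g * b = b * g → g ∈ P' := fun g hg h =>
      (sup_le_sup_right (sup_le_sup_right (zpowers_le.2 hzp) _) _) (hcentb g hg h)
    have hPconj : ∀ r ∈ P', ∃ e : ℤ, r * b * r⁻¹ = (p * p) ^ e * b := by
      intro r hr
      obtain ⟨e, j, w, hw, rfl⟩ := hPform r hr
      refine ⟨e, ?_⟩
      have hwb : w * b * w⁻¹ = b := by rcases hw with hw | hw <;> subst w <;> simp
      rw [show p ^ e * x ^ j * w * b * (p ^ e * x ^ j * w)⁻¹ =
        p ^ e * (x ^ j * (w * b * w⁻¹) * (x ^ j)⁻¹) * (p ^ e)⁻¹ by group, hwb, hxjb, ← zpow_neg, hp,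
        ← zpow_mul, ← zpow_mul, mul_assoc, hbu', ← mul_assoc, ← zpow_add, ← zpow_add, ← zpow_mul]
      ring_nf
    -- the element `τ`
    obtain ⟨τ, hτS, hτb, hτx, hτp⟩ : ∃ τ ∈ S, τ * b * τ⁻¹ = p * b ∧ τ * x * τ⁻¹ = x ∧
        (τ * p * τ⁻¹ = p ∨ τ * p * τ⁻¹ = p⁻¹) := by
      rcases Nat.eq_zero_or_pos c with rfl | hc
      · have hp1 : p = u := by rw [hp, pow_zero, zpow_one]
        have hn4 : n ∣ 4 := by simpa using hd2
        refine ⟨a, ha, by rw [hp1]; exact hab, ?_, ?_⟩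
        · rw [hx, show a * (u ^ m * (a * a)) * a⁻¹ = a * u ^ m * a⁻¹ * (a * a) by group, hau]
          rw [hzeq (α * m) m (by rw [show α * m - m = m * (α - 1) by ring]; exact hm2 hn4)]
        · rw [hp1, ← hα]
          rcases Int.even_or_odd γ with ⟨r, hr⟩ | ⟨r, hr⟩
          · exact Or.inl ((hzeq α 1 (hn4.trans ⟨r, by rw [hγ, hr]; ring⟩)).trans (zpow_one u))
          · exact Or.inr ((hzeq α (-1) (hn4.trans ⟨r + 1, by rw [hγ, hr]; ring⟩)).trans
              (zpow_neg_one u))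
      · obtain ⟨c', rfl⟩ : ∃ c', c = c' + 1 := ⟨c - 1, by omega⟩
        refine ⟨u ^ ((2 : ℤ) ^ c'), zpow_mem huS _, ?_, ?_, Or.inl ?_⟩
        · rw [← zpow_neg, mul_assoc, hbu', neg_neg, ← mul_assoc, ← zpow_add, hp, pow_succ, mul_two]
        · rw [← hxfix _ (hd2.trans (dvd_of_eq (by rw [pow_succ]; ring))), mul_inv_cancel_right]
        · rw [hp, ← zpow_neg, ← zpow_add, ← zpow_add]; ring_nf
    have hτy : τ * y * τ⁻¹ = y := by rw [← hyj, ← conj_zpow, hτx]
    have hτC : ∀ d ∈ C, τ * d * τ⁻¹ = d := by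
      have h : C ≤ centralizer {τ} := by
        refine sup_le (zpowers_le.2 (mem_centralizer_singleton_iff.2 ?_))
          (zpowers_le.2 (mem_centralizer_singleton_iff.2 (mul_inv_eq_iff_eq_mul.1 hτx).symm))
        rcases hppz with h | h <;> rw [h]
        · simp
        · exact (mul_inv_eq_iff_eq_mul.1 (hzc τ hτS)).symm
      exact fun d hd => by
        rw [← mem_centralizer_singleton_iff.1 (h hd), mul_inv_cancel_right]
    have hτP : τ ∉ P' := by
      intro h
      obtain ⟨e, he⟩ := hPconj τ h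
      rw [hτb] at he
      exact hpC (mul_right_cancel he ▸ mem_sup_left (zpow_mem (mem_zpowers _) e))
    have hσb : p * b * p⁻¹ = p * p * b := by
      rw [hp, ← zpow_neg, mul_assoc, hbu', neg_neg, ← mul_assoc]
    have hτP' : ∀ r ∈ P', τ * r * τ⁻¹ ∈ P' := by
      have h : P' ≤ P'.comap (MulAut.conj τ).toMonoidHom := by
        refine sup_le (sup_le (zpowers_le.2 ?_) (zpowers_le.2 ?_)) (zpowers_le.2 ?_)
        · show τ * p * τ⁻¹ ∈ P'
          rcases hτp with h | h <;> rw [h]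
          exacts [mem_sup_left (mem_sup_left (mem_zpowers p)),
            inv_mem (mem_sup_left (mem_sup_left (mem_zpowers p)))]
        · show τ * x * τ⁻¹ ∈ P'
          rw [hτx]; exact mem_sup_left (mem_sup_right (mem_zpowers x))
        · show τ * b * τ⁻¹ ∈ P'
          rw [hτb]
          exact mul_mem (mem_sup_left (mem_sup_left (mem_zpowers p))) (mem_sup_right (mem_zpowers b))
      exact fun r hr => h hr
    refine hasEssentialData (p := p) (q := q) (τ := τ) C (zpowers u ⊔ zpowers y ⊔ zpowers b) hpS hqS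
      (sup_le (zpowers_le.2 (mul_mem hpS hpS)) (zpowers_le.2 hxS))
      (sup_le (sup_le (zpowers_le.2 huS) (zpowers_le.2 hyS)) (zpowers_le.2 hb)) hp4 ?_ ?_
      (fun d hd => mem_centralizer_singleton_iff.1 (hCp hd)) ?_ hCC
      (mem_sup_left (mem_zpowers _)) hpC ?_ ?_ ?_ hτS (hPeq ▸ hτP) hτp ?_ hτC ?_ ?_
      (mem_sup_left (mem_sup_left hpu))
      (hq.symm ▸ mul_mem (mem_sup_right (mem_zpowers b))
        (mem_sup_left (mem_sup_right (mem_zpowers y)))) ?_
    · rw [← hyb, hq]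
      calc b * y * (b * y) = b * (y * b) * y := by group
        _ = b * b * (y * y) := by rw [hyb']; group
        _ = (y * y) * (b * b) := by
            have hc : Commute y b := hyb'
            exact ((hc.mul_right hc).mul_left (hc.mul_right hc)).symm.eq
    · rw [hq, show b * y * p * (b * y)⁻¹ = b * (y * p * y⁻¹) * b⁻¹ by group, hyp, mul_inv_cancel_right,
        hbp]
    · intro d hd
      rw [hq, ← mul_assoc, hCb d hd, mul_assoc, hCC d hd y hyC, ← mul_assoc]
    · intro h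
      exact hbL (by rw [show b = q * y⁻¹ by rw [hq]; group]; exact mul_mem (hCL h) (inv_mem hyL))
    · intro h
      refine hbL ?_
      rw [show b = q * p * (y * p)⁻¹ by rw [hq]; group]
      exact mul_mem (hCL h) (inv_mem (mul_mem hyL (mem_sup_left hpu)))
    · intro g hg _ hgq hgC
      rw [hPeq]
      refine hcentP g hg ?_
      have h1 : g * y = y * g := hgC y hyC
      rw [show b = q * y⁻¹ by rw [hq]; group, ← mul_assoc, hgq, mul_assoc,
        show g * y⁻¹ = y⁻¹ * g by rw [eq_inv_mul_iff_mul_eq, ← mul_assoc, ← h1, mul_inv_cancel_right],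
        ← mul_assoc]
    · rw [hq, show τ * (b * y) * τ⁻¹ = (τ * b * τ⁻¹) * (τ * y * τ⁻¹) by group, hτb, hτy, mul_assoc]
    · intro g hg hgP
      rw [hPeq] at hgP ⊢
      have h1 := hgP b (mem_sup_right (mem_zpowers b))
      obtain ⟨v, hv, hgv⟩ : ∃ v ∈ zpowers u, g * b * g⁻¹ = v * b :=
        ⟨g * b * g⁻¹ * b⁻¹, hcomm g hg b hb, by group⟩
      rw [hgv] at h1
      have hvP : v ∈ zpowers p := hcap v hv (by
        have := mul_mem h1 (inv_mem (mem_sup_right (mem_zpowers b) : b ∈ P'))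
        rwa [mul_inv_cancel_right] at this)
      -- an element of `P ∪ τ P` moves `b` in the same way
      have hkey : ∀ h ∈ S, h * b * h⁻¹ = v * b → h⁻¹ * g ∈ P' := fun h hh hhb => by
        refine hcentP _ (mul_mem (inv_mem hh) hg) ?_
        have e : g * b * g⁻¹ = h * b * h⁻¹ := hgv.trans hhb.symm
        calc h⁻¹ * g * b = h⁻¹ * (g * b * g⁻¹) * g := by group
          _ = h⁻¹ * (h * b * h⁻¹) * g := by rw [e]
          _ = _ := by group
      obtain ⟨e, he⟩ := mem_zpowers_iff.1 hvP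
      rcases Int.even_or_odd e with ⟨r, hr⟩ | ⟨r, hr⟩
      · left
        have hh : p ^ r ∈ P' := mem_sup_left (mem_sup_left (zpow_mem (mem_zpowers p) r))
        have := mul_mem hh (hkey (p ^ r) (zpow_mem hpS r) (by
          rw [← he, hr, hp, ← zpow_mul, ← zpow_mul, ← zpow_neg, mul_assoc, hbu', neg_neg, ← mul_assoc,
            ← zpow_add, ← mul_add]))
        rwa [mul_inv_cancel_left] at this
      · right
        have hh : τ * p ^ r ∈ S := mul_mem hτS (zpow_mem hpS r)
        have h2 := mul_mem (mem_sup_left (mem_sup_left (zpow_mem (mem_zpowers p) r)) : p ^ r ∈ P')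
          (hkey _ hh (by
            rw [show τ * p ^ r * b * (τ * p ^ r)⁻¹ = τ * (p ^ r * b * (p ^ r)⁻¹) * τ⁻¹ by group,
              show p ^ r * b * (p ^ r)⁻¹ = (p * p) ^ r * b by
                rw [hp, ← zpow_neg, ← zpow_mul, ← zpow_mul, mul_assoc, hbu', ← mul_assoc, ← zpow_add,
                  ← zpow_add, ← zpow_mul]; ring_nf,
              show τ * ((p * p) ^ r * b) * τ⁻¹ = (τ * (p * p) ^ r * τ⁻¹) * (τ * b * τ⁻¹) by group,
              hτC _ (mem_sup_left (zpow_mem (mem_zpowers _) r)), hτb, ← he, hr, ← mul_assoc,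
              zpow_add_one, zpow_mul, zpow_two]))
        have h3 := hτP' _ h2
        rwa [show τ * (p ^ r * ((τ * p ^ r)⁻¹ * g)) * τ⁻¹ = g * τ⁻¹ by group] at h3
    · intro g hg r hr
      exact mem_sup_left (mem_sup_left (hcomm g hg r hr))
    · rcases hppz with h | h
      · exact Or.inl h
      · refine Or.inr ⟨y, hyC, mem_sup_left (mem_sup_right (mem_zpowers y)), hy2, fun d hd hdK => ?_⟩
        -- the elements of the displacement group
        have hK1 : zpowers b ≤ normalizer ((zpowers u ⊔ zpowers y : Subgroup Ω) : Set Ω) := by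
          rw [zpowers_le]
          haveI : Finite (((zpowers u ⊔ zpowers y : Subgroup Ω) : Set Ω) : Type _) :=
            Finite.of_injective _ (Subgroup.inclusion_injective
              (sup_le (zpowers_le.2 huS) (zpowers_le.2 hyS) : zpowers u ⊔ zpowers y ≤ S))
          refine mem_normalizer_fintype fun s hs => ?_
          obtain ⟨e, f, rfl⟩ := hLform y hyS s hs
          rw [show b * (u ^ e * y ^ f) * b⁻¹ = (b * u ^ e * b⁻¹) * (b * y * b⁻¹) ^ f by
            rw [conj_zpow]; group, ← hyb', mul_inv_cancel_right]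
          exact mul_mem (mem_sup_left (hnorm b hb _ (zpow_mem (mem_zpowers u) e)))
            (mem_sup_right (zpow_mem (mem_zpowers y) f))
        rw [← SetLike.mem_coe, coe_mul_of_right_le_normalizer_left _ _ hK1] at hdK
        obtain ⟨s, hs, _, ⟨f, rfl⟩, hds⟩ := Set.mem_mul.1 hdK
        have hsL : s ∈ zpowers u ⊔ zpowers a :=
          (sup_le le_sup_left (zpowers_le.2 hyL) : zpowers u ⊔ zpowers y ≤ _) hs
        have hyz : y * y = 1 ∨ y * y = z := by
          rcases hy2 with h' | h'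
          · left; rw [h', mul_one]
          · right; rw [h', h]
        have hd' : ∀ s' ∈ zpowers u ⊔ zpowers y, s' ∈ C →
            s' = 1 ∨ s' = p * p ∨ s' = y ∨ s' = y * (p * p) := by
          intro s' hs' hs'C
          obtain ⟨e, g, rfl⟩ := hLform y hyS s' hs'
          have hue : u ^ e ∈ C := by
            have := mul_mem hs'C (inv_mem (zpow_mem hyC g))
            rwa [mul_inv_cancel_right] at this
          have h6 : u ^ e * u ^ e = 1 := by
            have e2 : u ^ (-e) = u ^ e := by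
              rw [← zpow_inv_of_conj hbu e, ← hCb _ hue, mul_inv_cancel_right]
            nth_rewrite 1 [← e2]
            rw [← zpow_add, neg_add_cancel, zpow_zero]
          have h7 : ∀ w : Ω, w = 1 ∨ w = p * p → ∀ v : Ω, (v = 1 ∨ v = y ∨ v = p * p ∨ v = p * p * y) →
              w * v = 1 ∨ w * v = p * p ∨ w * v = y ∨ w * v = y * (p * p) := by
            have hzy : p * p * y = y * (p * p) := hCC _ (mem_sup_left (mem_zpowers _)) _ hyC
            have hzz : p * p * (p * p) = 1 := by rw [h]; exact hz2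
            rintro w (rfl | rfl) v (rfl | rfl | rfl | rfl)
            · exact Or.inl (mul_one 1)
            · exact Or.inr (Or.inr (Or.inl (one_mul _)))
            · exact Or.inr (Or.inl (one_mul _))
            · exact Or.inr (Or.inr (Or.inr (by rw [one_mul, hzy])))
            · exact Or.inr (Or.inl (mul_one _))
            · exact Or.inr (Or.inr (Or.inr hzy))
            · exact Or.inl hzz
            · exact Or.inr (Or.inr (Or.inl (by rw [← mul_assoc, hzz, one_mul])))
          refine h7 _ (by rw [h]; exact hinv2 _ (zpow_mem (mem_zpowers u) e) h6) _ ?_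
          rw [h]
          rcases Int.even_or_odd g with ⟨r, rfl⟩ | ⟨r, rfl⟩
          · rw [← two_mul, zpow_mul, zpow_two]
            rcases hyz with h8 | h8 <;> rw [h8]
            · exact Or.inl (one_zpow r)
            · rcases Int.even_or_odd r with ⟨r', rfl⟩ | hr'
              · rw [← two_mul, zpow_mul, zpow_two, hz2, one_zpow]; exact Or.inl rfl
              · rw [zpow_odd_eq hz2 hr']; exact Or.inr (Or.inr (Or.inl rfl))
          · rw [zpow_add_one, zpow_mul, zpow_two]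
            rcases hyz with h8 | h8 <;> rw [h8]
            · rw [one_zpow, one_mul]; exact Or.inr (Or.inl rfl)
            · rcases Int.even_or_odd r with ⟨r', rfl⟩ | hr'
              · rw [← two_mul, zpow_mul, zpow_two, hz2, one_zpow, one_mul]; exact Or.inr (Or.inl rfl)
              · rw [zpow_odd_eq hz2 hr']; exact Or.inr (Or.inr (Or.inr rfl))
        rcases Int.even_or_odd f with ⟨g, rfl⟩ | ⟨g, rfl⟩
        · refine hd' d ?_ hd
          rw [← hds]
          refine mul_mem hs ?_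
          show b ^ (g + g) ∈ _
          rw [← two_mul, zpow_mul, zpow_two, hbb]
          exact mem_sup_left (zpow_mem (zpow_mem (mem_zpowers u) _) g)
        · refine absurd ?_ hbL
          have hbg : (b * b) ^ g ∈ zpowers u ⊔ zpowers a :=
            mem_sup_left (hbb ▸ zpow_mem (zpow_mem (mem_zpowers u) _) g)
          have := mul_mem (inv_mem (mul_mem hsL hbg)) (hCL hd)
          rw [← hds] at this
          simp only [zpow_add_one, zpow_mul, zpow_two] at this
          rwa [show (s * (b * b) ^ g)⁻¹ * (s * ((b * b) ^ g * b)) = b by group] at this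
  -- the choice of the configuration
  rcases Nat.eq_zero_or_pos l with rfl | hl
  · have hzu' : z = u := by rw [hz, pow_zero, zpow_one]
    have hbb1 : b * b = 1 := by
      rw [hbb]; exact (hdvd _).2 ⟨i, by rw [hn]; ring⟩
    refine ⟨0, le_rfl, by omega, ?_, 1, one_mem _, ?_, Or.inl rfl⟩
    · rw [pow_zero, zpow_one, show u * u = 1 by rw [← hzu']; exact hz2, zpowers_one_eq_bot, bot_sup_eq]
      intro h
      refine hua ((zpowers_le.2 ?_) h)
      rw [hx, hm0 rfl, zpow_zero, one_mul]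
      exact mul_mem (mem_zpowers a) (mem_zpowers a)
    · rw [pow_zero, zpow_one, hbb1, mul_one, mul_one, ← hzu', hz2]
  · by_cases hD : b * b = 1 ∧ z ∉ zpowers x
    · refine ⟨l, le_rfl, by omega, ?_, 1, one_mem _, ?_, Or.inl rfl⟩
      · rw [← hz, hz2, zpowers_one_eq_bot, bot_sup_eq]; exact hD.2
      · rw [← hz, hz2, hD.1, mul_one, mul_one]
    obtain ⟨l', rfl⟩ : ∃ l', l = l' + 1 := ⟨l - 1, by omega⟩
    have hpp : u ^ ((2 : ℤ) ^ l') * u ^ ((2 : ℤ) ^ l') = z := by
      rw [hz, ← zpow_add, pow_succ, mul_two]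
    have hpC : u ^ ((2 : ℤ) ^ l') ∉ zpowers (u ^ ((2 : ℤ) ^ l') * u ^ ((2 : ℤ) ^ l')) ⊔ zpowers x := by
      intro h
      rw [hpp] at h
      have hle : zpowers z ⊔ zpowers x ≤ centralizer {b} :=
        sup_le (zpowers_le.2 (mem_centralizer_singleton_iff.2
          (mul_inv_eq_iff_eq_mul.1 (hzc b hb)).symm))
          (zpowers_le.2 (mem_centralizer_singleton_iff.2 hxb))
      have h1 := mem_centralizer_singleton_iff.1 (hle h)
      rw [hbu'] at h1
      have h2 := mul_right_cancel h1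
      rw [← mul_inv_eq_one, ← zpow_neg, neg_neg, hpp] at h2
      exact hz1 h2
    refine ⟨l', by omega, le_rfl, hpC, ?_⟩
    rcases hbb' with hb1 | hb1
    · have hzx : z ∈ zpowers x := by_contra fun h => hD ⟨hb1, h⟩
      obtain ⟨j, hj⟩ := mem_zpowers_iff.1 hzx
      rcases Int.even_or_odd j with ⟨r, rfl⟩ | hj'
      · refine ⟨x ^ r, zpow_mem (mem_zpowers x) r, ?_, Or.inr ?_⟩
        · rw [hb1, mul_one, hpp, ← zpow_add, hj]
        · rw [hpp, ← zpow_add, hj]
      · exfalso
        exact hxz j hj' hj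
    · exact ⟨1, one_mem _, by rw [hpp, hb1, mul_one, one_mul], Or.inl rfl⟩

end CfsgLib.FusionBicyclic
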