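import Cfsg.Agent.Lib.FusionBicyclic.Amalgam
import Cfsg.Agent.Lib.FusionBicyclic.ModelShape
import Cfsg.Prelude.Def_OddOrderLocal
import Mathlib.GroupTheory.SpecificGroups.Cyclic

/-!
A non-metacyclic two-generated 2-group with cyclic derived subgroup supports a saturated fusion
system that is not the inner one.
-/

set_option autoImplicit false
set_option linter.style.haveILetI false
set_option linter.unusedSectionVars false

namespace CfsgLib.FusionBicyclic

open Cfsg Cfsg.FusionSystem CfsgLib.Alperin CfsgLib.FusionBasics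

variable {Ω : Type*} [Group Ω] {S : Subgroup Ω}

/-- The system of all injective maps displacing into `K`. -/
def dispSystem [Finite S] (K : Subgroup Ω) (hKS : ∀ g ∈ S, ∀ r ∈ S, g * r * g⁻¹ * r⁻¹ ∈ K) :
    FusionSystem S where
  Hom Q := {φ | Q ≤ S ∧ (∀ x : Q, φ x ∈ S) ∧ Function.Injective φ ∧
    ∀ x : Q, φ x * (x : Ω)⁻¹ ∈ K}
  le_of_mem h := ⟨h.1, h.2.1⟩
  injective_of_mem h := h.2.2.1
  conj_mem := fun {Q g} hQ hg => ⟨hQ,
    fun x => S.mul_mem (S.mul_mem hg (hQ x.2)) (S.inv_mem hg),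
    fun x y h => Subtype.ext (mul_left_cancel (mul_right_cancel (h :))),
    fun x => hKS g hg x (hQ x.2)⟩
  comp_mem := by
    intro Q R φ ψ hφ hψ h
    refine ⟨hφ.1, fun x => hψ.2.1 _, fun x y e => hφ.2.2.1 (congrArg Subtype.val (hψ.2.2.1 e) :),
      fun x => ?_⟩
    have h1 := K.mul_mem (hψ.2.2.2 ⟨φ x, h x⟩) (hφ.2.2.2 x)
    rwa [show ψ ⟨φ x, h x⟩ * (φ x)⁻¹ * (φ x * (x : Ω)⁻¹) = ψ ⟨φ x, h x⟩ * (x : Ω)⁻¹ by group] at h1
  inv_mem := by
    intro Q φ ⟨hQ, hφS, hinj, hK⟩
    let e := MonoidHom.ofInjective hinj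
    let ψ : φ.range →* Ω := Q.subtype.comp e.symm.toMonoidHom
    have hψ : ∀ x : Q, ψ ⟨φ x, ⟨x, rfl⟩⟩ = (x : Ω) := fun x => by
      show ((e.symm (e x) : Q) : Ω) = x
      rw [MulEquiv.symm_apply_apply]
    refine ⟨ψ, ⟨?_, fun y => hQ (e.symm y).2, Subtype.val_injective.comp e.symm.injective, ?_⟩, hψ⟩
    · rintro _ ⟨x, rfl⟩; exact hφS x
    · rintro ⟨_, x, rfl⟩
      have h1 := K.inv_mem (hK x)
      rw [mul_inv_rev, inv_inv] at h1
      rw [hψ]
      exact h1

/-- A finite group without nontrivial elements of odd order is a 2-group. -/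
theorem isPGroup_two_of_odd {A : Type*} [Group A] [Finite A]
    (h : ∀ a : A, Odd (orderOf a) → a = 1) : IsPGroup 2 A := by
  refine IsPGroup.iff_orderOf.2 fun a => ?_
  obtain ⟨k, m, hm, hkm⟩ := Nat.exists_eq_two_pow_mul_odd (orderOf_pos a).ne'
  refine ⟨k, ?_⟩
  have ho : orderOf (a ^ 2 ^ k) = m := by
    rw [orderOf_pow_of_dvd (pow_ne_zero _ two_ne_zero) ⟨m, hkm⟩, hkm,
      Nat.mul_div_cancel_left _ (Nat.two_pow_pos k)]
  have h1 := h (a ^ 2 ^ k) (by rw [ho]; exact hm)
  rw [h1, orderOf_one] at ho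
  rw [hkm, ← ho, mul_one]

/-- The local data give a saturated system that is not inner. -/
theorem exists_noninner_of_data [Finite S] (hS : IsPGroup 2 S) (h : HasEssentialData S) :
    ∃ F : FusionSystem S, F.IsSaturated 2 ∧
      ¬ ∀ Q : Subgroup Ω, F.Hom Q = (innerFusionSystem S).Hom Q := by
  obtain ⟨P, Δ, K, hP, hKle, hC, hN, hΔ, hcard, hnn, hKS, hKΔ, hsub⟩ := h
  refine exists_saturated_of_isPGroup hS P hP hC hN Δ hΔ hcard hnn fun Q hQ hnc => ?_
  haveI := finite_of_le hQ.1
  haveI := finite_mulAut (P := Q)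
  by_cases hin : InConj S P Q
  · refine isPGroup_two_of_odd fun α hodd => ?_
    obtain ⟨t, ht, htQ⟩ := hin
    have hdisp : ∀ x : Q, (((α : MulAut Q) x : Q) : Ω) * (x : Ω)⁻¹ ∈ K := by
      have h1 := ((mem_autGroup_iff _ hQ.1).mp α.2).2 (dispSystem K hKS) (fun δ hδ =>
        ⟨hP, fun x => hP (δ x).2, Subtype.val_injective.comp δ.injective, hKΔ δ hδ⟩)
      exact h1.2.2.2
    have hinj : Function.Injective (conjHom Q t) :=
      (system hP hΔ).injective_of_mem ((system hP hΔ).conj_mem hQ.1 ht)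
    set R := (conjHom Q t).range with hR
    have hconj : (system hP hΔ).IsConj Q R := ⟨_, (system hP hΔ).conj_mem hQ.1 ht, rfl⟩
    have hRP : R < P := by
      refine lt_of_le_of_ne ?_ fun e => hnc ⟨t⁻¹, S.inv_mem ht, fun y hy => ?_⟩
      · rintro _ ⟨x, rfl⟩
        exact htQ x x.2
      · obtain ⟨x, hx⟩ := e.ge hy
        rw [← hx, conjHom_apply, show t⁻¹ * (t * (x : Ω) * t⁻¹) * t⁻¹⁻¹ = x by group]
        exact x.2
    let e : Q ≃* R := MonoidHom.ofInjective hinj
    have hval : ∀ x : Q, ((e x : R) : Ω) = t * (x : Ω) * t⁻¹ := fun x => rfl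
    have h1 : MulAut.congr e (α : MulAut Q) = 1 := by
      refine hsub R hRP (hQ.2 R hconj) _ (fun r => ?_) ?_
      · obtain ⟨x, rfl⟩ := e.surjective r
        show ((e ((α : MulAut Q) (e.symm (e x))) : R) : Ω) * ((e x : R) : Ω)⁻¹ ∈ K
        rw [e.symm_apply_apply, hval, hval]
        have hk := hdisp x
        have h2 := K.mul_mem (hKS t ht _ (hKle hk)) hk
        rwa [inv_mul_cancel_right, show t * ((((α : MulAut Q) x : Q) : Ω) * (x : Ω)⁻¹) * t⁻¹ =
          t * (((α : MulAut Q) x : Q) : Ω) * t⁻¹ * (t * (x : Ω) * t⁻¹)⁻¹ by group] at h2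
      · rwa [MulEquiv.orderOf_eq, Subgroup.orderOf_coe]
    refine Subtype.ext ?_
    exact (MulAut.congr e).injective (h1.trans (map_one _).symm)
  · refine (isPGroup_autInducedBy hS Q).to_le fun α hα => ?_
    obtain ⟨-, g, hg, hx⟩ :=
      inner_of_not_inConj hP hΔ ((mem_autGroup_iff _ hQ.1).mp hα) hin
    exact mem_autInducedBy_iff.mpr ⟨g, hg, hx⟩

section Metacyclic

open Subgroup

variable {H : Type*} [Group H]

/-- If the commutators lie in a cyclic subgroup and one more element generates modulo it, the group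
is metacyclic. -/
theorem isMetacyclic_of_gen {c d : H} (hN : ∀ g r : H, g * r * g⁻¹ * r⁻¹ ∈ zpowers c)
    (hgen : zpowers c ⊔ zpowers d = ⊤) : IsMetacyclic H := by
  have hn : (zpowers c).Normal := ⟨fun v hv g => by
    have := mul_mem (hN g v) hv
    rwa [inv_mul_cancel_right] at this⟩
  haveI := hn
  refine ⟨zpowers c, hn, inferInstance, ⟨⟨(d : H ⧸ zpowers c), fun q => ?_⟩⟩⟩
  induction q using QuotientGroup.induction_on with
  | _ g =>
    obtain ⟨y, hy, w, hw, rfl⟩ := mem_sup_of_normal_left.1 (hgen ▸ mem_top g)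
    obtain ⟨j, rfl⟩ := mem_zpowers_iff.1 hw
    refine mem_zpowers_iff.2 ⟨j, ?_⟩
    rw [QuotientGroup.mk_mul, (QuotientGroup.eq_one_iff y).2 hy, one_mul, QuotientGroup.mk_zpow]

/-- A cyclic derived subgroup of a two-generated group is generated by the commutator. -/
theorem comm_mem_zpowers [Finite H] (hc : IsCyclic (commutator H)) {a b : H}
    (hgen : closure ({a, b} : Set H) = ⊤) (g r : H) :
    g * r * g⁻¹ * r⁻¹ ∈ zpowers (a * b * a⁻¹ * b⁻¹) := by
  set u := a * b * a⁻¹ * b⁻¹ with hu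
  have hu' : u ∈ commutator H := commutator_mem_commutator (mem_top a) (mem_top b)
  have hn : (zpowers u).Normal := ⟨fun v hv g => by
    obtain ⟨j, rfl⟩ := mem_zpowers_iff.1 hv
    haveI := hc
    obtain ⟨e, he⟩ := MonoidHom.map_cyclic ((MulAut.conjNormal g : MulAut (commutator H)).toMonoidHom)
    have h1 := congrArg Subtype.val (he ⟨u, hu'⟩)
    rw [MulEquiv.coe_toMonoidHom, MulAut.conjNormal_apply] at h1
    rw [← conj_zpow, h1]
    exact zpow_mem (zpow_mem (mem_zpowers u) e) j⟩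
  haveI := hn
  set π := QuotientGroup.mk' (zpowers u)
  have hab : Commute (π a) (π b) := by
    have h1 : π (a * b * a⁻¹ * b⁻¹) = 1 := (QuotientGroup.eq_one_iff u).2 (mem_zpowers u)
    rw [map_mul, map_mul, map_mul, map_inv, map_inv, mul_inv_eq_one, mul_inv_eq_iff_eq_mul] at h1
    exact h1
  have hall : ∀ x : H, Commute (π x) (π a) ∧ Commute (π x) (π b) := fun x => by
    have hx : x ∈ closure ({a, b} : Set H) := hgen ▸ mem_top x
    induction hx using closure_induction with
    | mem x hx =>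
      rcases hx with h | h <;> subst h
      exacts [⟨Commute.refl _, hab⟩, ⟨hab.symm, Commute.refl _⟩]
    | one => rw [map_one]; exact ⟨Commute.one_left _, Commute.one_left _⟩
    | mul x y _ _ ih ih' => rw [map_mul]; exact ⟨ih.1.mul_left ih'.1, ih.2.mul_left ih'.2⟩
    | inv x _ ih => rw [map_inv]; exact ⟨ih.1.inv_left, ih.2.inv_left⟩
  have hcen : ∀ x y : H, Commute (π x) (π y) := fun x y => by
    have hy : y ∈ closure ({a, b} : Set H) := hgen ▸ mem_top y
    induction hy using closure_induction with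
    | mem y hy => rcases hy with h | h <;> subst h; exacts [(hall x).1, (hall x).2]
    | one => rw [map_one]; exact Commute.one_right _
    | mul y z _ _ ih ih' => rw [map_mul]; exact ih.mul_right ih'
    | inv y _ ih => rw [map_inv]; exact ih.inv_right
  refine (QuotientGroup.eq_one_iff _).1 ?_
  show π (g * r * g⁻¹ * r⁻¹) = 1
  rw [map_mul, map_mul, map_mul, map_inv, map_inv, (hcen g r).eq]
  group

end Metacyclic

/-- **The model**: a non-metacyclic 2-group `⟨a, b⟩` with cyclic derived subgroup, `b²` being a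
power of `[a, b]²`, supports a saturated system other than the inner one. -/
theorem exists_noninner_of_cyclic {Ω : Type*} [Group Ω] {S : Subgroup Ω} [Finite S]
    (hS : IsPGroup 2 S) (hc : IsCyclic ↥(commutator ↥S)) (hm : ¬ Cfsg.IsMetacyclic ↥S) (a b : ↥S)
    (hgen : Subgroup.closure ({a, b} : Set ↥S) = ⊤)
    (hb : b * b ∈ Subgroup.zpowers ((a * b * a⁻¹ * b⁻¹) ^ 2)) :
    ∃ F : FusionSystem S, F.IsSaturated 2 ∧
      ¬ ∀ Q : Subgroup Ω, F.Hom Q = (innerFusionSystem S).Hom Q := by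
  set u : ↥S := a * b * a⁻¹ * b⁻¹ with hu
  have hcomm := comm_mem_zpowers hc hgen
  have hmem : ∀ (c x : ↥S), ((x : Ω) ∈ Subgroup.zpowers (c : Ω) ↔ x ∈ Subgroup.zpowers c) :=
    fun c x => by
      rw [← Subgroup.coe_subtype, ← MonoidHom.map_zpowers]
      exact Subgroup.mem_map_iff_mem S.subtype_injective
  refine exists_noninner_of_data hS (hasEssentialData_of_shape hS (a := (a : Ω)) (b := (b : Ω))
    (u := (u : Ω)) (by rw [hu]; push_cast; rfl) a.2 b.2 ?_ ?_ ?_ ?_ ?_ ?_)
  · have h := congrArg (Subgroup.map S.subtype) hgen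
    rw [MonoidHom.map_closure, Set.image_pair, ← MonoidHom.range_eq_map, Subgroup.range_subtype] at h
    exact h.ge
  · intro g hg r hr
    exact (hmem u (⟨g, hg⟩ * ⟨r, hr⟩ * ⟨g, hg⟩⁻¹ * ⟨r, hr⟩⁻¹)).2 (hcomm _ _)
  · exact (hmem (u ^ 2) (b * b)).2 hb
  · intro h
    refine hm (isMetacyclic_of_gen (c := u) (d := a) hcomm ?_)
    rw [eq_top_iff, ← hgen, Subgroup.closure_le]
    have h' : (b : ↥S) ∈ Subgroup.zpowers u ⊔ Subgroup.zpowers a := by
      have e : Subgroup.zpowers (u : Ω) ⊔ Subgroup.zpowers (a : Ω) =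
          (Subgroup.zpowers u ⊔ Subgroup.zpowers a).map S.subtype := by
        rw [Subgroup.map_sup, MonoidHom.map_zpowers, MonoidHom.map_zpowers]; rfl
      rw [e] at h
      exact (Subgroup.mem_map_iff_mem S.subtype_injective).1 h
    rintro w (hw | hw) <;> subst w
    exacts [Subgroup.mem_sup_right (Subgroup.mem_zpowers _), h']
  · intro h
    refine hm (isMetacyclic_of_gen (c := a) (d := b)
      (fun g r => (Subgroup.zpowers_le.2 ((hmem a u).1 h)) (hcomm g r)) ?_)
    rw [eq_top_iff, ← hgen, Subgroup.closure_le]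
    rintro w (hw | hw) <;> subst w
    exacts [Subgroup.mem_sup_left (Subgroup.mem_zpowers _),
      Subgroup.mem_sup_right (Subgroup.mem_zpowers _)]
  · intro h
    refine hm (isMetacyclic_of_gen (c := a * b) (d := b)
      (fun g r => (Subgroup.zpowers_le.2 ((hmem (a * b) u).1 h)) (hcomm g r)) ?_)
    rw [eq_top_iff, ← hgen, Subgroup.closure_le]
    rintro w (hw | hw) <;> subst w
    · have := mul_mem
        (Subgroup.mem_sup_left (Subgroup.mem_zpowers (a * b)) :
          a * b ∈ Subgroup.zpowers (a * b) ⊔ Subgroup.zpowers b)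
        (inv_mem (Subgroup.mem_sup_right (Subgroup.mem_zpowers b)))
      rwa [mul_inv_cancel_right] at this
    · exact Subgroup.mem_sup_right (Subgroup.mem_zpowers _)

end CfsgLib.FusionBicyclic
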