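import Cfsg.Prelude.Def_FusionSystem
import Mathlib.GroupTheory.SpecificGroups.Quaternion
import Mathlib.GroupTheory.Index
import Cfsg.Agent.Lib.Cores.Basic

/-!
Local data for a saturated fusion system with one essential subgroup `P = ⟨p, q⟩ C`, where `⟨p, q⟩`
is an image of the quaternion group of order eight (a four group is also such an image) and `C` is
an abelian subgroup centralising it.
-/

set_option autoImplicit false
set_option linter.style.haveILetI false
set_option linter.unusedSectionVars false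
set_option maxRecDepth 20000

namespace CfsgLib.FusionBicyclic

open Cfsg Subgroup

/-- The data from which a saturated system with one essential subgroup is built. -/
def HasEssentialData {Ω : Type*} [Group Ω] (S : Subgroup Ω) : Prop :=
  ∃ (P : Subgroup Ω) (Δ : Subgroup (MulAut P)) (K : Subgroup Ω), P ≤ S ∧ K ≤ S ∧
    FusionSystem.centralizerIn S P ≤ P ∧
    Nat.card (FusionSystem.normalizerIn S P) = 2 * Nat.card P ∧
    autInducedBy S P ≤ Δ ∧ Nat.card Δ = 3 * Nat.card (autInducedBy S P) ∧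
    ¬ ((autInducedBy S P).subgroupOf Δ).Normal ∧
    (∀ g ∈ S, ∀ r ∈ S, g * r * g⁻¹ * r⁻¹ ∈ K) ∧
    (∀ δ ∈ Δ, ∀ r : P, ((δ r : P) : Ω) * (r : Ω)⁻¹ ∈ K) ∧
    ∀ R : Subgroup Ω, R < P → FusionSystem.centralizerIn S R ≤ R → ∀ φ : MulAut R,
      (∀ r : R, ((φ r : R) : Ω) * (r : Ω)⁻¹ ∈ K) → Odd (orderOf φ) → φ = 1

/-! ### The quaternion group of order eight -/

/-- The quaternion group of order eight. -/
abbrev Q8 := QuaternionGroup 2

/-- An automorphism of order three. -/
def thFun : Q8 → Q8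
  | .a i => (QuaternionGroup.xa 0) ^ i.val
  | .xa i => QuaternionGroup.xa 1 * (QuaternionGroup.xa 0) ^ i.val

/-- The automorphism induced by an element normalising the cyclic subgroup generated by `a 1`. -/
def gamFun (s : Bool) : Q8 → Q8
  | .a i => .a (if s then i else -i)
  | .xa i => .xa (3 + (if s then i else -i))

theorem thFun_mul : ∀ v w : Q8, thFun (v * w) = thFun v * thFun w := by decide

theorem thFun_cube : ∀ v : Q8, thFun (thFun (thFun v)) = v := by decide

theorem thFun_centre : thFun 1 = 1 ∧ thFun (.a 2) = .a 2 := by decide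

theorem gam_th : ∀ s : Bool, ∃ w : Q8, ∀ v : Q8,
    gamFun s (thFun v) = w * thFun (thFun (gamFun s v)) * w⁻¹ := by decide

theorem q8_gen : ∀ v : Q8, v = 1 ∨ v = .a 2 ∨ v = .a 1 ∨ v = .a 3 ∨ v = .xa 0 ∨ v = .xa 2 ∨
    v = .xa 1 ∨ v = .xa 3 := by decide

/-- The automorphism of order three as a homomorphism. -/
def th : Q8 →* Q8 := MonoidHom.mk' thFun thFun_mul

section Hom

variable {Ω : Type*} [Group Ω] {p q : Ω} (hp4 : p ^ 4 = 1) (hq2 : q * q = p * p)
  (hqp : q * p * q⁻¹ = p⁻¹)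

/-- The powers of `p`, indexed modulo four. -/
def pe (p : Ω) (i : ZMod (2 * 2)) : Ω := p ^ i.val

include hp4 in
theorem pe_add (i j : ZMod (2 * 2)) : pe p (i + j) = pe p i * pe p j := by
  unfold pe
  rw [← pow_add, ZMod.val_add]
  exact (pow_eq_pow_mod (i.val + j.val) hp4).symm

include hp4 in
theorem pe_neg (i : ZMod (2 * 2)) : pe p (-i) = (pe p i)⁻¹ := by
  refine eq_inv_of_mul_eq_one_left ?_
  rw [← pe_add hp4, neg_add_cancel]
  exact pow_zero p

include hqp in
theorem pe_swap (i : ZMod (2 * 2)) : pe p i * q = q * (pe p i)⁻¹ := by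
  have h : q * (pe p i)⁻¹ * q⁻¹ = pe p i := by
    unfold pe
    rw [← inv_pow, ← conj_pow, show q * p⁻¹ * q⁻¹ = (q * p * q⁻¹)⁻¹ by group, hqp, inv_inv]
  conv_lhs => rw [← h]
  rw [inv_mul_cancel_right]

/-- The homomorphism from the quaternion group given by two generators. -/
def qHom : Q8 →* Ω :=
  MonoidHom.mk' (fun v => match v with | .a i => pe p i | .xa i => q * pe p i) (by
    rintro (i | i) (j | j)
    · exact pe_add hp4 i j
    · show q * pe p (j - i) = pe p i * (q * pe p j)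
      rw [← mul_assoc, pe_swap hqp, mul_assoc, ← pe_neg hp4, ← pe_add hp4, neg_add_eq_sub]
    · show q * pe p (i + j) = q * pe p i * pe p j
      rw [pe_add hp4, mul_assoc]
    · show pe p (((2 : ℕ) : ZMod (2 * 2)) + j - i) = q * pe p i * (q * pe p j)
      rw [show q * pe p i * (q * pe p j) = q * (pe p i * q) * pe p j by group, pe_swap hqp,
        show q * (q * (pe p i)⁻¹) * pe p j = q * q * ((pe p i)⁻¹ * pe p j) by group, hq2,
        ← pe_neg hp4, ← pe_add hp4, neg_add_eq_sub, show p * p = pe p 2 from (pow_two p).symm,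
        ← pe_add hp4, add_sub_assoc]
      rfl)

theorem qHom_a (i : ZMod (2 * 2)) : qHom hp4 hq2 hqp (.a i) = pe p i := rfl

theorem qHom_xa (i : ZMod (2 * 2)) : qHom hp4 hq2 hqp (.xa i) = q * pe p i := rfl

theorem qHom_mem {K : Subgroup Ω} (hp : p ∈ K) (hq : q ∈ K) (v : Q8) :
    qHom hp4 hq2 hqp v ∈ K := by
  rcases v with i | i
  · exact pow_mem hp _
  · exact mul_mem hq (pow_mem hp _)

theorem qHom_comm {c : Ω} (hp : c * p = p * c) (hq : c * q = q * c) (v : Q8) :
    c * qHom hp4 hq2 hqp v = qHom hp4 hq2 hqp v * c := by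
  have h := qHom_mem hp4 hq2 hqp (K := centralizer {c})
    (mem_centralizer_singleton_iff.2 hp.symm) (mem_centralizer_singleton_iff.2 hq.symm) v
  exact (mem_centralizer_singleton_iff.1 h).symm

end Hom

/-! ### Automorphisms of odd order -/

section Odd

variable {R : Type*} [Group R]

/-- An automorphism of odd order moving an element by a fixed element of order dividing four fixes
it. -/
theorem fix_of_mul {φ : MulAut R} (hodd : Odd (orderOf φ)) {t i : R} (ht : φ t = t * i)
    (hi : φ i = i) (hi4 : i ^ 4 = 1) : φ t = t := by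
  have hn : ∀ n : ℕ, (φ ^ n) t = t * i ^ n := by
    intro n
    induction n with
    | zero => simp
    | succ n ih =>
      rw [pow_succ' φ, MulAut.mul_apply, ih, map_mul, map_pow, ht, hi, mul_assoc, ← pow_succ']
  have h1 := hn (orderOf φ)
  rw [pow_orderOf_eq_one, MulAut.one_apply] at h1
  have h2 : i ^ orderOf φ = 1 := (mul_eq_left).1 h1.symm
  have h3 : (orderOf φ).Coprime 4 := (Nat.coprime_two_right.2 hodd).pow_right 2
  have : orderOf i = 1 := Nat.eq_one_of_dvd_coprimes h3 (orderOf_dvd_of_pow_eq_one h2)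
    (orderOf_dvd_of_pow_eq_one hi4)
  rw [ht, orderOf_eq_one_iff.1 this, mul_one]

end Odd

/-! ### The construction -/

variable {Ω : Type*} [Group Ω]

/-- The data exist as soon as the local configuration does. -/
theorem hasEssentialData {S : Subgroup Ω} [Finite S] {p q τ : Ω} (C K : Subgroup Ω)
    (hp : p ∈ S) (hq : q ∈ S) (hC : C ≤ S) (hK : K ≤ S) (hp4 : p ^ 4 = 1) (hq2 : q * q = p * p)
    (hqp : q * p * q⁻¹ = p⁻¹) (hCp : ∀ c ∈ C, c * p = p * c) (hCq : ∀ c ∈ C, c * q = q * c)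
    (hCC : ∀ c ∈ C, ∀ d ∈ C, c * d = d * c) (hp2 : p * p ∈ C) (hpC : p ∉ C) (hqC : q ∉ C)
    (hqpC : q * p ∉ C)
    (hcent : ∀ g ∈ S, g * p = p * g → g * q = q * g → (∀ c ∈ C, g * c = c * g) →
      g ∈ zpowers p ⊔ zpowers q ⊔ C)
    (hτ : τ ∈ S) (hτP : τ ∉ zpowers p ⊔ zpowers q ⊔ C)
    (hτp : τ * p * τ⁻¹ = p ∨ τ * p * τ⁻¹ = p⁻¹) (hτq : τ * q * τ⁻¹ = p * q)
    (hτC : ∀ c ∈ C, τ * c * τ⁻¹ = c)
    (hN : ∀ g ∈ S, (∀ r ∈ zpowers p ⊔ zpowers q ⊔ C, g * r * g⁻¹ ∈ zpowers p ⊔ zpowers q ⊔ C) →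
      g ∈ zpowers p ⊔ zpowers q ⊔ C ∨ g * τ⁻¹ ∈ zpowers p ⊔ zpowers q ⊔ C)
    (hKS : ∀ g ∈ S, ∀ r ∈ S, g * r * g⁻¹ * r⁻¹ ∈ K) (hpK : p ∈ K) (hqK : q ∈ K)
    (hab : p * p = 1 ∨ ∃ y ∈ C, y ∈ K ∧ (y = 1 ∨ y * y = p * p) ∧
      ∀ c ∈ C, c ∈ K → c = 1 ∨ c = p * p ∨ c = y ∨ c = y * (p * p)) :
    HasEssentialData S := by
  classical
  set ι := qHom hp4 hq2 hqp with hι
  have hcomm : ∀ (v : Q8) (c : C), Commute (ι v) (c : Ω) := fun v c =>
    (qHom_comm hp4 hq2 hqp (hCp c c.2) (hCq c c.2) v).symm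
  set F : Q8 × C →* Ω := ι.noncommCoprod C.subtype hcomm with hF
  have hFap : ∀ v (c : C), F (v, c) = ι v * c := fun v c => rfl
  have hι1 : ι (.a 1) = p := pow_one p
  have hιq : ι (.xa 0) = q := by
    show q * pe p 0 = q
    rw [pe, ZMod.val_zero, pow_zero, mul_one]
  set P : Subgroup Ω := zpowers p ⊔ zpowers q ⊔ C with hP
  have hrange : F.range = P := by
    refine le_antisymm ?_ ?_
    · rintro _ ⟨⟨v, c⟩, rfl⟩
      rw [hFap]
      exact mul_mem (qHom_mem hp4 hq2 hqp (mem_sup_left (mem_sup_left (mem_zpowers p)))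
        (mem_sup_left (mem_sup_right (mem_zpowers q))) v) (mem_sup_right c.2)
    · refine sup_le (sup_le (zpowers_le.2 ⟨(.a 1, 1), ?_⟩) (zpowers_le.2 ⟨(.xa 0, 1), ?_⟩))
        (fun c hc => ⟨(1, ⟨c, hc⟩), ?_⟩)
      · rw [hFap, hι1]; exact mul_one p
      · rw [hFap, hιq]; exact mul_one q
      · rw [hFap, map_one, one_mul]
  have hFP : ∀ x, F x ∈ P := fun x => hrange ▸ ⟨x, rfl⟩
  have hPS : P ≤ S := sup_le (sup_le (zpowers_le.2 hp) (zpowers_le.2 hq)) hC
  haveI : Finite P := Finite.of_injective _ (Subgroup.inclusion_injective hPS)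
  set f : Q8 × C →* P := F.codRestrict P hFP with hf
  have hfsurj : Function.Surjective f := fun x => by
    obtain ⟨w, hw⟩ : (x : Ω) ∈ F.range := by rw [hrange]; exact x.2
    exact ⟨w, Subtype.ext hw⟩
  have hfval : ∀ v (c : C), ((f (v, c) : P) : Ω) = ι v * c := fun v c => rfl
  have hp3 : pe p 3 = p⁻¹ := by
    rw [show (3 : ZMod (2 * 2)) = -1 from by decide, pe_neg hp4]; exact congrArg _ hι1
  -- the kernel of `f`
  have hker : ∀ v, ι v ∈ C → v = 1 ∨ v = .a 2 := by
    intro v hv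
    have hqp3 : q * pe p 2 ∈ C → False := fun h => hqC (by
      have := mul_mem h (inv_mem hp2)
      rwa [show pe p 2 = p * p from pow_two p, mul_inv_cancel_right] at this)
    rcases q8_gen v with h | h | h | h | h | h | h | h <;> subst h
    · exact Or.inl rfl
    · exact Or.inr rfl
    · exact absurd (hι1 ▸ hv) hpC
    · exact absurd (inv_mem_iff.1 (hp3 ▸ hv)) hpC
    · exact absurd (hιq ▸ hv) hqC
    · exact (hqp3 hv).elim
    · exact absurd (show q * p ∈ C by rw [← pow_one p]; exact hv) hqpC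
    · refine absurd ?_ hqpC
      have := mul_mem hv hp2
      rwa [show ι (.xa 3) = q * p⁻¹ from congrArg (q * ·) hp3,
        show q * p⁻¹ * (p * p) = q * p by group] at this
  -- the automorphism of order three
  set g3 : Q8 × C →* P := f.comp (th.prodMap (MonoidHom.id C)) with hg3
  have hg3k : f.ker ≤ g3.ker := by
    rintro ⟨v, c⟩ hvc
    have hval : ι v * (c : Ω) = 1 := congrArg Subtype.val hvc
    have hv : ι v ∈ C := by rw [eq_inv_of_mul_eq_one_left hval]; exact inv_mem c.2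
    have hfix : thFun v = v := by
      rcases hker v hv with rfl | rfl
      exacts [thFun_centre.1, thFun_centre.2]
    refine Subtype.ext ?_
    show ι (thFun v) * (c : Ω) = 1
    rw [hfix, hval]
  set θ₀ : P →* P := f.liftOfSurjective hfsurj ⟨g3, hg3k⟩ with hθ₀
  have hθap : ∀ v (c : C), θ₀ (f (v, c)) = f (thFun v, c) := fun v c =>
    f.liftOfRightInverse_comp_apply _ (Function.rightInverse_surjInv hfsurj) ⟨g3, hg3k⟩ (v, c)
  have hθ3 : ∀ x, θ₀ (θ₀ (θ₀ x)) = x := fun x => by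
    obtain ⟨⟨v, c⟩, rfl⟩ := hfsurj x
    rw [hθap, hθap, hθap, thFun_cube]
  set θ : MulAut P := MonoidHom.toMulEquiv θ₀ (θ₀.comp θ₀) (MonoidHom.ext hθ3)
    (MonoidHom.ext hθ3) with hθ
  have hθf : ∀ v (c : C), θ (f (v, c)) = f (thFun v, c) := hθap
  have hθ3' : θ ^ 3 = 1 := by
    refine MulEquiv.ext fun x => ?_
    rw [pow_succ, pow_two, MulAut.mul_apply, MulAut.mul_apply, MulAut.one_apply]
    exact hθ3 x
  -- the automorphism induced by `τ`
  obtain ⟨sg, hsg⟩ : ∃ s : Bool, ∀ i, τ * pe p i * τ⁻¹ = pe p (if s then i else -i) := by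
    rcases hτp with h | h
    · exact ⟨true, fun i => by rw [if_pos rfl, pe, ← conj_pow, h]⟩
    · exact ⟨false, fun i => by
        rw [if_neg (by decide), pe_neg hp4, pe, ← conj_pow, h, inv_pow]⟩
  have hτι : ∀ v, τ * ι v * τ⁻¹ = ι (gamFun sg v) := by
    rintro (i | i)
    · exact hsg i
    · show τ * (q * pe p i) * τ⁻¹ = q * pe p (3 + if sg then i else -i)
      rw [show τ * (q * pe p i) * τ⁻¹ = (τ * q * τ⁻¹) * (τ * pe p i * τ⁻¹) by group, hτq, hsg,
        pe_add hp4, ← mul_assoc q, hp3]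
      congr 1
      calc p * q = (q * p * q⁻¹)⁻¹ * q := by rw [hqp, inv_inv]
        _ = q * p⁻¹ := by group
  have hτf : ∀ v (c : C), τ * (f (v, c) : Ω) * τ⁻¹ = f (gamFun sg v, c) := fun v c => by
    rw [hfval, hfval, show τ * (ι v * c) * τ⁻¹ = (τ * ι v * τ⁻¹) * (τ * c * τ⁻¹) by group, hτι,
      hτC c c.2]
  have hτPP : ∀ r ∈ P, τ * r * τ⁻¹ ∈ P := fun r hr => by
    obtain ⟨⟨v, c⟩, hvc⟩ := hfsurj ⟨r, hr⟩
    have hr' : (f (v, c) : Ω) = r := congrArg Subtype.val hvc
    rw [← hr', hτf]; exact SetLike.coe_mem _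
  have hτn : τ ∈ normalizer (P : Set Ω) :=
    haveI : Finite ((P : Set Ω) : Type _) := inferInstanceAs (Finite P)
    mem_normalizer_fintype hτPP
  set cτ : MulAut P := MulEquiv.ofBijective (MonoidHom.mk' (fun x : P => (⟨τ * x * τ⁻¹, hτPP x x.2⟩ : P))
    (fun x y => Subtype.ext (by push_cast; group))) (Finite.injective_iff_bijective.1 (fun x y h =>
      Subtype.ext (mul_left_cancel (mul_right_cancel (congrArg Subtype.val h))))) with hcτ
  have hcval : ∀ x : P, ((cτ x : P) : Ω) = τ * (x : Ω) * τ⁻¹ := fun x => rfl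
  have hcf : ∀ v (c : C), cτ (f (v, c)) = f (gamFun sg v, c) := fun v c => Subtype.ext (hτf v c)
  -- inner automorphisms
  set I : Subgroup (MulAut P) := (MulAut.conj : P →* MulAut P).range with hI
  haveI : I.Normal := ⟨by
    rintro _ ⟨r, rfl⟩ φ
    refine ⟨φ r, MulEquiv.ext fun x => ?_⟩
    simp only [MulAut.mul_apply, MulAut.conj_apply]
    rw [map_mul, map_mul, map_inv, MulAut.apply_inv_self]⟩
  have hconjval : ∀ (r x : P), ((MulAut.conj r x : P) : Ω) = (r : Ω) * x * (r : Ω)⁻¹ := fun r x => rfl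
  have hN2 : ∀ g ∈ S, (∀ r ∈ P, g * r * g⁻¹ ∈ P) → g ∈ P ∨ g * τ⁻¹ ∈ P := hN
  have hcentP : FusionSystem.centralizerIn S P ≤ P := by
    intro g hg
    obtain ⟨hgS, hgc⟩ := mem_inf.1 hg
    have h : ∀ r ∈ P, g * r = r * g := fun r hr => (mem_centralizer_iff.1 hgc r hr).symm
    exact hcent g hgS (h p (mem_sup_left (mem_sup_left (mem_zpowers p))))
      (h q (mem_sup_left (mem_sup_right (mem_zpowers q)))) (fun c hc => h c (mem_sup_right hc))
  have hτ2 : τ * τ ∈ P := by
    rcases hN2 (τ * τ) (mul_mem hτ hτ) (fun r hr => by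
      rw [show τ * τ * r * (τ * τ)⁻¹ = τ * (τ * r * τ⁻¹) * τ⁻¹ by group]
      exact hτPP _ (hτPP r hr)) with h | h
    · exact h
    · rw [mul_inv_cancel_right] at h; exact absurd h hτP
  have hA : autInducedBy S P = I ⊔ zpowers cτ := by
    refine le_antisymm ((closure_le _).2 ?_) (sup_le ?_ (zpowers_le.2 ?_))
    · rintro α ⟨g, hg, hα⟩
      rcases hN2 g hg (fun r hr => by rw [← hα ⟨r, hr⟩]; exact SetLike.coe_mem _) with h | h
      · have e : α = MulAut.conj (⟨g, h⟩ : P) := MulEquiv.ext fun x => Subtype.ext (hα x)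
        exact mem_sup_left ⟨_, e.symm⟩
      · have e : α = MulAut.conj (⟨g * τ⁻¹, h⟩ : P) * cτ := MulEquiv.ext fun x => Subtype.ext (by
          rw [hα, MulAut.mul_apply, hconjval, hcval]; group)
        rw [e]
        exact mul_mem (mem_sup_left ⟨_, rfl⟩) (mem_sup_right (mem_zpowers cτ))
    · rintro _ ⟨r, rfl⟩
      exact subset_closure ⟨r, hPS r.2, fun x => rfl⟩
    · exact subset_closure ⟨τ, hτ, hcval⟩
  -- in the automorphism group modulo inner automorphisms
  set π := QuotientGroup.mk' I with hπ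
  set cb := π cτ with hcb
  set tb := π θ with htb
  have hcI : cτ ∉ I := by
    rintro ⟨r, hr⟩
    have hmem : (r : Ω)⁻¹ * τ ∈ P := by
      refine hcentP (mem_inf.2 ⟨mul_mem (inv_mem (hPS r.2)) hτ, mem_centralizer_iff.2 fun x hx => ?_⟩)
      have h : (r : Ω) * x * (r : Ω)⁻¹ = τ * x * τ⁻¹ :=
        congrArg (fun φ : MulAut P => ((φ ⟨x, hx⟩ : P) : Ω)) hr
      calc x * ((r : Ω)⁻¹ * τ) = (r : Ω)⁻¹ * ((r : Ω) * x * (r : Ω)⁻¹) * τ := by group
        _ = _ := by rw [h]; group
    have := mul_mem r.2 hmem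
    rw [mul_inv_cancel_left] at this
    exact hτP this
  have hc2 : cb ^ 2 = 1 := by
    rw [hcb, ← map_pow]
    refine (QuotientGroup.eq_one_iff _).2 ⟨⟨τ * τ, hτ2⟩, MulEquiv.ext fun x => Subtype.ext ?_⟩
    rw [pow_two, MulAut.mul_apply, hconjval, hcval, hcval]
    group
  have hc1 : cb ≠ 1 := fun h => hcI ((QuotientGroup.eq_one_iff _).1 h)
  have ht3 : tb ^ 3 = 1 := by rw [htb, ← map_pow, hθ3', map_one]
  have ht1 : tb ≠ 1 := by
    intro h
    obtain ⟨r, hr⟩ := (QuotientGroup.eq_one_iff _).1 h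
    obtain ⟨⟨v, c⟩, hvc⟩ := hfsurj r
    have h1 : (r : Ω) * p * (r : Ω)⁻¹ = q := by
      have := congrArg (fun φ : MulAut P => ((φ (f (.a 1, 1)) : P) : Ω)) hr
      simp only [hconjval, hθf] at this
      rw [show thFun (.a 1) = .xa 0 from by decide, hfval, hfval, hι1, hιq] at this
      simpa using this
    rw [← hvc, hfval, show ι v * c * p * (ι v * c)⁻¹ = ι v * (c * p) * (c : Ω)⁻¹ * (ι v)⁻¹ by group,
      hCp c c.2, show ι v * (p * c) * (c : Ω)⁻¹ * (ι v)⁻¹ = ι v * p * (ι v)⁻¹ by group] at h1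
    have key : ∀ v : Q8, v * .a 1 * v⁻¹ = .a 1 ∨ v * .a 1 * v⁻¹ = .a 3 := by decide
    have h2 : ι v * p * (ι v)⁻¹ = p ∨ ι v * p * (ι v)⁻¹ = p⁻¹ := by
      rw [← hι1, ← map_inv, ← map_mul, ← map_mul]
      rcases key v with e | e <;> rw [e]
      · exact Or.inl rfl
      · exact Or.inr ((show ι (.a 3) = p⁻¹ from hp3).trans (by rw [hι1]))
    rw [h1] at h2
    rcases h2 with h2 | h2
    · exact hqpC (by rw [h2]; exact hp2)
    · exact hqpC (by rw [h2, inv_mul_cancel]; exact one_mem C)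
  have hrel : cb * tb * cb⁻¹ = tb⁻¹ := by
    obtain ⟨w, hw⟩ := gam_th sg
    have e : cτ * θ = MulAut.conj (f (w, 1)) * (θ * θ * cτ) := MulEquiv.ext fun x => by
      obtain ⟨⟨v, c⟩, rfl⟩ := hfsurj x
      simp only [MulAut.mul_apply, MulAut.conj_apply, hθf, hcf]
      rw [hw, ← map_inv, ← map_mul, ← map_mul]
      congr 1
      ext
      · rfl
      · simp
    have e' := congrArg π e
    rw [map_mul, map_mul, map_mul, map_mul, ← hcb, ← htb,
      show π (MulAut.conj (f (w, 1))) = 1 from (QuotientGroup.eq_one_iff _).2 ⟨_, rfl⟩, one_mul] at e'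
    rw [e', mul_inv_cancel_right, eq_inv_iff_mul_eq_one, ← pow_two, ← pow_succ, ht3]
  have hzc : Nat.card (zpowers cb) = 2 := by rw [Nat.card_zpowers, orderOf_eq_prime hc2 hc1]
  haveI : Fact (Nat.Prime 3) := ⟨Nat.prime_three⟩
  have hzt : Nat.card (zpowers tb) = 3 := by rw [Nat.card_zpowers, orderOf_eq_prime ht3 ht1]
  have hnorm : zpowers cb ≤ normalizer ((zpowers tb : Subgroup (MulAut P ⧸ I)) : Set (MulAut P ⧸ I)) := by
    rw [zpowers_le]
    haveI : Finite ((zpowers tb : Subgroup (MulAut P ⧸ I)) : Set (MulAut P ⧸ I)) :=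
      inferInstanceAs (Finite (zpowers tb))
    refine mem_normalizer_fintype fun n hn => ?_
    obtain ⟨k, rfl⟩ := mem_zpowers_iff.1 hn
    rw [← conj_zpow, hrel]
    exact zpow_mem (inv_mem (mem_zpowers tb)) k
  have hD : Nat.card ↥(zpowers cb ⊔ zpowers tb) = 6 := by
    let m : zpowers cb × zpowers tb → ↥(zpowers cb ⊔ zpowers tb) :=
      fun x => ⟨x.1 * x.2, mul_mem (mem_sup_left x.1.2) (mem_sup_right x.2.2)⟩
    have hm : Function.Bijective m := by
      refine ⟨fun x y h => ?_, fun x => ?_⟩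
      · have hval : (x.1 : MulAut P ⧸ I) * x.2 = (y.1 : MulAut P ⧸ I) * y.2 := congrArg Subtype.val h
        have heq : (y.1 : MulAut P ⧸ I)⁻¹ * x.1 = (y.2 : MulAut P ⧸ I) * (x.2 : MulAut P ⧸ I)⁻¹ := by
          rw [eq_mul_inv_iff_mul_eq, mul_assoc, hval, inv_mul_cancel_left]
        have hd : (y.1 : MulAut P ⧸ I)⁻¹ * x.1 ∈ zpowers cb ⊓ zpowers tb :=
          mem_inf.2 ⟨mul_mem (inv_mem y.1.2) x.1.2, heq ▸ mul_mem y.2.2 (inv_mem x.2.2)⟩
        rw [inf_eq_bot_of_coprime (by rw [hzc, hzt]; norm_num), mem_bot, inv_mul_eq_one] at hd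
        rw [hd] at hval
        exact Prod.ext (Subtype.ext hd.symm) (Subtype.ext (mul_left_cancel hval))
      · have hx := x.2
        rw [← SetLike.mem_coe, coe_mul_of_left_le_normalizer_right _ _ hnorm] at hx
        obtain ⟨a, ha, b, hb, hab⟩ := Set.mem_mul.1 hx
        exact ⟨(⟨a, ha⟩, ⟨b, hb⟩), Subtype.ext hab⟩
    rw [← Nat.card_eq_of_bijective m hm, Nat.card_prod, hzc, hzt]
  set Δ : Subgroup (MulAut P) := (zpowers cb ⊔ zpowers tb).comap π with hΔ
  have hAc : autInducedBy S P = (zpowers cb).comap π := by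
    rw [hA, hcb, ← MonoidHom.map_zpowers, comap_map_eq, QuotientGroup.ker_mk', sup_comm]
  have hAΔ : autInducedBy S P ≤ Δ := hAc ▸ comap_mono le_sup_left
  have hΔK : ∀ δ ∈ Δ, ∀ r : P, ((δ r : P) : Ω) * (r : Ω)⁻¹ ∈ K := by
    let Φ : Subgroup (MulAut P) :=
      { carrier := {δ | ∀ r : P, ((δ r : P) : Ω) * (r : Ω)⁻¹ ∈ K}
        one_mem' := fun r => by simp
        mul_mem' := fun {a b} ha hb r => by
          have := mul_mem (ha (b r)) (hb r)
          rw [← mul_assoc, inv_mul_cancel_right] at this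
          exact this
        inv_mem' := fun {a} ha r => by
          have := inv_mem (ha (a⁻¹ r))
          rwa [MulAut.apply_inv_self, mul_inv_rev, inv_inv] at this }
    have hle : Δ ≤ Φ := by
      rw [hΔ, hcb, htb, ← MonoidHom.map_zpowers, ← MonoidHom.map_zpowers, ← Subgroup.map_sup, comap_map_eq,
        QuotientGroup.ker_mk']
      refine sup_le (sup_le (zpowers_le.2 fun r => ?_) (zpowers_le.2 fun r => ?_)) ?_
      · rw [hcval]; exact hKS τ hτ r (hPS r.2)
      · obtain ⟨⟨v, c⟩, rfl⟩ := hfsurj r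
        rw [hθf, hfval, hfval,
          show ι (thFun v) * (c : Ω) * (ι v * c)⁻¹ = ι (thFun v) * (ι v)⁻¹ by group]
        exact mul_mem (qHom_mem hp4 hq2 hqp hpK hqK _) (inv_mem (qHom_mem hp4 hq2 hqp hpK hqK _))
      · rintro _ ⟨w, rfl⟩ r
        rw [hconjval]; exact hKS w (hPS w.2) r (hPS r.2)
    exact fun δ hδ => hle hδ
  refine ⟨P, Δ, K, hPS, hK, hcentP, ?_, hAΔ, ?_, ?_, hKS, hΔK, ?_⟩
  · -- the normaliser
    set N := FusionSystem.normalizerIn S P with hNdef
    have hPN : P ≤ N := le_inf hPS le_normalizer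
    have hidx : (P.subgroupOf N).index = 2 := by
      refine index_eq_two_iff.2 ⟨⟨τ⁻¹, inv_mem (mem_inf.2 ⟨hτ, hτn⟩)⟩, fun b => ?_⟩
      simp only [mem_subgroupOf, Subgroup.coe_mul]
      rcases hN2 b (mem_inf.1 b.2).1 (fun r hr => (mem_normalizer_iff.1 (mem_inf.1 b.2).2 r).1 hr)
        with h | h
      · exact Or.inr ⟨h, fun h' => hτP (by
          have := mul_mem (inv_mem h) h'
          rwa [inv_mul_cancel_left, inv_mem_iff] at this)⟩
      · exact Or.inl ⟨h, fun h' => hτP (by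
          have := mul_mem (inv_mem h') h
          rwa [inv_mul_cancel_left, inv_mem_iff] at this)⟩
    rw [← (P.subgroupOf N).card_mul_index, hidx, Nat.card_congr (subgroupOfEquivOfLe hPN).toEquiv,
      mul_comm]
  · rw [hAc, CfsgLib.Cores.card_comap_mk', CfsgLib.Cores.card_comap_mk', hzc, hD]
    ring
  · intro hn
    have hθΔ : θ ∈ Δ := show π θ ∈ zpowers cb ⊔ zpowers tb from mem_sup_right (mem_zpowers tb)
    have hcA : cτ ∈ autInducedBy S P := hA ▸ mem_sup_right (mem_zpowers cτ)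
    have h := hn.conj_mem ⟨cτ, hAΔ hcA⟩ (show cτ ∈ autInducedBy S P from hcA) ⟨θ, hθΔ⟩
    rw [mem_subgroupOf, hAc] at h
    obtain ⟨k, hk⟩ := mem_zpowers_iff.1 (show tb * cb * tb⁻¹ ∈ zpowers cb from by
      simpa only [mem_comap, Subgroup.coe_mul, Subgroup.coe_inv, map_mul, map_inv] using h)
    rcases Int.emod_two_eq_zero_or_one k with e | e
    · rw [← zpow_mod_orderOf, orderOf_eq_prime hc2 hc1, Nat.cast_two, e, zpow_zero] at hk
      exact hc1 (conj_eq_one_iff.1 hk.symm)
    · rw [← zpow_mod_orderOf, orderOf_eq_prime hc2 hc1, Nat.cast_two, e, zpow_one] at hk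
      have hct : cb * tb * cb⁻¹ = tb := by
        calc cb * tb * cb⁻¹ = (tb * cb * tb⁻¹) * tb * cb⁻¹ := by rw [← hk]
          _ = tb := by group
      rw [hrel, inv_eq_iff_mul_eq_one, ← pow_two] at hct
      exact ht1 (by rw [pow_succ, hct, one_mul] at ht3; exact ht3)
  · -- subgroups of `P`
    intro R hR hRc φ hφ hodd
    obtain ⟨hRP, hne⟩ := lt_iff_le_and_ne.1 hR |>.imp id id
    have hCR : C ≤ R := fun c hc => hRc (mem_inf.2 ⟨hC hc, mem_centralizer_iff.2 fun x hx => by
      obtain ⟨⟨v, d⟩, hvd⟩ := hfsurj ⟨x, hRP hx⟩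
      have hx' : (f (v, d) : Ω) = x := congrArg Subtype.val hvd
      rw [← hx', hfval, mul_assoc, hCC _ d.2 _ hc, ← mul_assoc, (hcomm v ⟨c, hc⟩).eq, mul_assoc]⟩)
    rcases eq_or_ne (p * p) 1 with hab' | hne1
    · -- `P` is abelian
      replace hab := hab'
      refine absurd (fun x hx => hRc (mem_inf.2 ⟨hPS hx, mem_centralizer_iff.2 fun r hr => ?_⟩)) hR.not_ge
      obtain ⟨⟨v, c⟩, hvc⟩ := hfsurj ⟨x, hx⟩
      obtain ⟨⟨v', c'⟩, hvc'⟩ := hfsurj ⟨r, hRP hr⟩
      have hpq : q * p = p * q := by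
        calc q * p = q * p * q⁻¹ * q := by group
          _ = _ := by rw [hqp, inv_eq_of_mul_eq_one_right hab]
      have hv : ι v' * ι v = ι v * ι v' :=
        (qHom_comm hp4 hq2 hqp (qHom_comm hp4 hq2 hqp (c := p) rfl hpq.symm v').symm
          (qHom_comm hp4 hq2 hqp (c := q) hpq rfl v').symm v)
      rw [← show (f (v, c) : Ω) = x from congrArg Subtype.val hvc,
        ← show (f (v', c') : Ω) = r from congrArg Subtype.val hvc', hfval, hfval]
      calc ι v' * c' * (ι v * c) = ι v' * ((c' : Ω) * ι v) * c := by group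
        _ = (ι v' * ι v) * ((c' : Ω) * c) := by rw [← (hcomm v c').eq]; group
        _ = (ι v * ι v') * ((c : Ω) * c') := by rw [hv, hCC _ c.2 _ c'.2]
        _ = ι v * (ι v' * (c : Ω)) * c' := by group
        _ = ι v * ((c : Ω) * ι v') * c' := by rw [(hcomm v' c).eq]
        _ = _ := by group
    -- the elements of `R`
    obtain ⟨y, hy, hyK, hy2, hCK⟩ := hab.resolve_left hne1
    set z : Ω := p * p with hz
    have hιz : ι (.a 2) = z := pow_two p
    have hzR : z ∈ R := hCR hp2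
    have hmemR : ∀ r ∈ R, ∃ v, ∃ c ∈ C, r = ι v * c ∧ ι v ∈ R := by
      intro r hr
      obtain ⟨⟨v, c⟩, hvc⟩ := hfsurj ⟨r, hRP hr⟩
      have hr' : r = ι v * c := (congrArg Subtype.val hvc).symm
      refine ⟨v, c, c.2, hr', ?_⟩
      have := mul_mem hr (inv_mem (hCR c.2))
      rwa [hr', mul_inv_cancel_right] at this
    obtain ⟨v₀, hv₀R, hv₀⟩ : ∃ v₀ : Q8, ι v₀ ∈ R ∧ v₀ ≠ 1 ∧ v₀ ≠ .a 2 := by
      by_contra hcon
      push Not at hcon
      refine hpC ?_
      have hpR : p ∈ R := hRc (mem_inf.2 ⟨hp, mem_centralizer_iff.2 fun x hx => by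
        obtain ⟨v, c, hc, rfl, hvR⟩ := hmemR x hx
        have hvC : ι v ∈ C := by
          by_cases h : v = 1
          · rw [h, map_one]; exact one_mem C
          · rw [hcon v hvR h, hιz]; exact hp2
        rw [mul_assoc, hCp c hc, ← mul_assoc, hCp _ hvC, mul_assoc]⟩)
      obtain ⟨v, c, hc, hvc, hvR⟩ := hmemR p hpR
      have hvC : ι v ∈ C := by
        by_cases h : v = 1
        · rw [h, map_one]; exact one_mem C
        · rw [hcon v hvR h, hιz]; exact hp2
      rw [hvc]; exact mul_mem hvC hc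
    -- `R` meets the quaternion group in a cyclic subgroup
    have hother : ∀ v : Q8, ι v ∈ R → v = 1 ∨ v = .a 2 ∨ v = v₀ ∨ v = v₀ * .a 2 := by
      intro v hvR
      by_contra hv
      have key : ∀ v₀ v : Q8, (v₀ ≠ 1 ∧ v₀ ≠ .a 2) →
          ¬ (v = 1 ∨ v = .a 2 ∨ v = v₀ ∨ v = v₀ * .a 2) → ∀ w : Q8,
          w = 1 ∨ w = .a 2 ∨ w = v₀ ∨ w = v₀ * .a 2 ∨ w = v ∨ w = v * .a 2 ∨ w = v₀ * v ∨
            w = v₀ * v * .a 2 := by decide
      refine hne (le_antisymm hRP fun x hx => ?_)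
      obtain ⟨⟨w, c⟩, hwc⟩ := hfsurj ⟨x, hx⟩
      rw [← show ι w * c = x from congrArg Subtype.val hwc]
      refine mul_mem ?_ (hCR c.2)
      have h2R : ι (.a 2) ∈ R := hιz ▸ hzR
      rcases key v₀ v hv₀ hv w with e | e | e | e | e | e | e | e <;> rw [e]
      · rw [map_one]; exact one_mem R
      · exact h2R
      · exact hv₀R
      · rw [map_mul]; exact mul_mem hv₀R h2R
      · exact hvR
      · rw [map_mul]; exact mul_mem hvR h2R
      · rw [map_mul]; exact mul_mem hv₀R hvR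
      · rw [map_mul, map_mul]; exact mul_mem (mul_mem hv₀R hvR) h2R
    set t₀ : Ω := ι v₀ with ht₀
    have ht₀C : ∀ c ∈ C, t₀ * c = c * t₀ := fun c hc => hcomm v₀ ⟨c, hc⟩
    have ht₀2 : t₀ * t₀ = z := by
      have key : ∀ v₀ : Q8, (v₀ ≠ 1 ∧ v₀ ≠ .a 2) → v₀ * v₀ = .a 2 := by decide
      rw [ht₀, ← map_mul, key v₀ hv₀, hιz]
    have hz2 : z * z = 1 := by rw [hz, ← hp4]; simp only [pow_succ, pow_zero, one_mul, mul_assoc]
    have hmemR' : ∀ r ∈ R, ∃ c ∈ C, r = c ∨ r = t₀ * c := by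
      intro r hr
      obtain ⟨v, c, hc, rfl, hvR⟩ := hmemR r hr
      rcases hother v hvR with e | e | e | e
      · exact ⟨c, hc, Or.inl (by rw [e, map_one, one_mul])⟩
      · exact ⟨z * c, mul_mem hp2 hc, Or.inl (by rw [e, hιz])⟩
      · exact ⟨c, hc, Or.inr (by rw [e])⟩
      · exact ⟨z * c, mul_mem hp2 hc, Or.inr (by rw [e, map_mul, hιz, mul_assoc])⟩
    have hRab : ∀ a b : R, a * b = b * a := by
      rintro ⟨a, ha⟩ ⟨b, hb⟩
      refine Subtype.ext ?_
      show a * b = b * a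
      obtain ⟨c, hc, hac⟩ := hmemR' a ha
      obtain ⟨d, hd, hbd⟩ := hmemR' b hb
      have k1 := ht₀C c hc
      have k2 := ht₀C d hd
      have k3 := hCC c hc d hd
      rcases hac with rfl | rfl <;> rcases hbd with rfl | rfl
      · exact k3
      · rw [← mul_assoc, ← k1, mul_assoc, k3, ← mul_assoc]
      · rw [mul_assoc, k3, ← mul_assoc, k2, mul_assoc]
      · calc t₀ * c * (t₀ * d) = t₀ * (c * t₀) * d := by group
          _ = t₀ * (t₀ * c) * d := by rw [k1]
          _ = t₀ * t₀ * (c * d) := by group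
          _ = t₀ * t₀ * (d * c) := by rw [k3]
          _ = t₀ * (t₀ * d) * c := by group
          _ = t₀ * (d * t₀) * c := by rw [k2]
          _ = _ := by group
    have ht₀K : t₀ ∈ K := qHom_mem hp4 hq2 hqp hpK hqK v₀
    -- the elements of `R ⊓ K`
    have hyy : y * y = 1 ∨ y * y = z := hy2.imp (fun h => by rw [h, mul_one]) id
    have hTelts : ∀ t ∈ R, t ∈ K → ∃ c, (c = 1 ∨ c = z ∨ c = y ∨ c = y * z) ∧ (t = c ∨ t = t₀ * c) := by
      intro t ht htK
      obtain ⟨c, hc, h⟩ := hmemR' t ht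
      rcases h with rfl | rfl
      · exact ⟨t, hCK t hc htK, Or.inl rfl⟩
      · refine ⟨c, hCK c hc ?_, Or.inr rfl⟩
        have := mul_mem (inv_mem ht₀K) htK
        rwa [inv_mul_cancel_left] at this
    have hzc' : ∀ c ∈ C, z * c = c * z := fun c hc => hCC z hp2 c hc
    have hCz : ∀ c ∈ C, c * z * (c * z) = c * c := fun c hc => by
      calc c * z * (c * z) = c * (z * c) * z := by group
        _ = c * c * (z * z) := by rw [hzc' c hc]; group
        _ = _ := by rw [hz2, mul_one]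
    have hzne : z ≠ 1 := hne1
    have hsq : ∀ t ∈ R, t ∈ K → t * t = 1 ∨ t * t = z := by
      intro t ht htK
      obtain ⟨c, hc, hct⟩ := hTelts t ht htK
      have hcC : c ∈ C := by
        rcases hc with rfl | rfl | rfl | rfl
        exacts [one_mem C, hp2, hy, mul_mem hy hp2]
      have hcc : c * c = 1 ∨ c * c = z := by
        rcases hc with rfl | rfl | rfl | rfl
        · exact Or.inl (mul_one 1)
        · exact Or.inl hz2
        · exact hyy
        · rw [hCz y hy]; exact hyy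
      rcases hct with rfl | rfl
      · exact hcc
      · have e : t₀ * c * (t₀ * c) = z * (c * c) := by
          calc t₀ * c * (t₀ * c) = t₀ * (c * t₀) * c := by group
            _ = t₀ * t₀ * (c * c) := by rw [← ht₀C c hcC]; group
            _ = _ := by rw [ht₀2]
        rw [e]
        rcases hcc with h | h <;> rw [h]
        · exact Or.inr (mul_one z)
        · exact Or.inl hz2
    set zR : R := ⟨z, hzR⟩ with hzRdef
    set tR : R := ⟨t₀, hv₀R⟩ with htRdef
    have hφK : ∀ r : R, (r : Ω) ∈ K → ((φ r : R) : Ω) ∈ K := fun r hr => by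
      have := mul_mem (hφ r) hr
      rwa [inv_mul_cancel_right] at this
    have hφz : φ zR = zR := by
      have e : zR = tR * tR := Subtype.ext ht₀2.symm
      have h1 := hsq _ (φ tR).2 (hφK tR ht₀K)
      have h2 : (φ zR : Ω) = (φ tR : Ω) * (φ tR : Ω) := by rw [e, map_mul]; rfl
      rcases h1 with h1 | h1
      · exfalso
        have h3 : φ zR = φ 1 := by rw [map_one]; exact Subtype.ext (h2.trans h1)
        exact hzne (congrArg Subtype.val (φ.injective h3))
      · exact Subtype.ext (h2.trans h1)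
    -- the involutions of `R ⊓ K`
    set w : Ω := if y = 1 then 1 else t₀ * y with hwdef
    have hwmem : w ∈ R := by
      rw [hwdef]; split_ifs
      · exact one_mem R
      · exact mul_mem hv₀R (hCR hy)
    have hinv : ∀ t ∈ R, t ∈ K → t * t = 1 → t = 1 ∨ t = z ∨ t = w ∨ t = w * z := by
      intro t ht htK htt
      obtain ⟨c, hc, hct⟩ := hTelts t ht htK
      by_cases hy1 : y = 1
      · rw [hwdef, if_pos hy1, one_mul]
        subst hy1
        have hc' : c = 1 ∨ c = z := by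
          rcases hc with h | h | h | h
          exacts [Or.inl h, Or.inr h, Or.inl h, Or.inr (by rwa [one_mul] at h)]
        rcases hct with rfl | rfl
        · rcases hc' with h | h
          exacts [Or.inl h, Or.inr (Or.inl h)]
        · exfalso
          apply hzne
          rcases hc' with h | h <;> subst h
          · rwa [mul_one, ht₀2] at htt
          · calc z = z * (z * z) := by rw [hz2, mul_one]
              _ = t₀ * t₀ * (z * z) := by rw [ht₀2]
              _ = t₀ * (t₀ * z) * z := by group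
              _ = t₀ * (z * t₀) * z := by rw [ht₀C z hp2]
              _ = t₀ * z * (t₀ * z) := by group
              _ = 1 := htt
      · rw [hwdef, if_neg hy1]
        have hy2' : y * y = z := hy2.resolve_left hy1
        rcases hct with rfl | rfl
        · rcases hc with h | h | h | h
          · exact Or.inl h
          · exact Or.inr (Or.inl h)
          · exfalso; rw [h, hy2'] at htt; exact hzne htt
          · exfalso; rw [h, hCz y hy, hy2'] at htt; exact hzne htt
        · rcases hc with h | h | h | h <;> subst h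
          · exfalso; rw [mul_one, ht₀2] at htt; exact hzne htt
          · exfalso
            apply hzne
            calc z = z * (z * z) := by rw [hz2, mul_one]
              _ = t₀ * t₀ * (z * z) := by rw [ht₀2]
              _ = t₀ * (t₀ * z) * z := by group
              _ = t₀ * (z * t₀) * z := by rw [ht₀C z hp2]
              _ = t₀ * z * (t₀ * z) := by group
              _ = 1 := htt
          · exact Or.inr (Or.inr (Or.inl rfl))
          · exact Or.inr (Or.inr (Or.inr (mul_assoc _ _ _).symm))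
    set wR : R := ⟨w, hwmem⟩ with hwRdef
    have hz4 : zR ^ 4 = 1 := by
      rw [show (4 : ℕ) = 2 * 2 from rfl, pow_mul, show zR ^ 2 = 1 from Subtype.ext (by
        push_cast; rw [pow_two]; exact hz2), one_pow]
    have hwK : w ∈ K := by
      rw [hwdef]; split_ifs
      exacts [one_mem K, mul_mem ht₀K hyK]
    have hφw : φ wR = wR := by
      have hw2 : wR * wR = 1 := by
        refine Subtype.ext ?_
        show w * w = 1
        rw [hwdef]; split_ifs with hy1
        · exact mul_one 1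
        · calc t₀ * y * (t₀ * y) = t₀ * (y * t₀) * y := by group
            _ = t₀ * t₀ * (y * y) := by rw [← ht₀C y hy]; group
            _ = 1 := by rw [ht₀2, hy2.resolve_left hy1, hz2]
      have hw2' : ((φ wR : R) : Ω) * (φ wR : R) = 1 := by
        rw [← Subgroup.coe_mul, ← map_mul, hw2, map_one]; rfl
      rcases hinv _ (φ wR).2 (hφK wR hwK) hw2' with h | h | h | h
      · have : φ wR = φ 1 := by rw [map_one]; exact Subtype.ext h
        rw [φ.injective this, map_one]
      · have : φ wR = φ zR := by rw [hφz]; exact Subtype.ext h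
        rw [φ.injective this, hφz]
      · exact Subtype.ext h
      · exact fix_of_mul hodd (i := zR) (Subtype.ext h) hφz hz4
    have hinvfix : ∀ t : R, (t : Ω) ∈ K → t * t = 1 → φ t = t := by
      intro t htK htt
      rcases hinv _ t.2 htK (congrArg Subtype.val htt) with h | h | h | h
      · rw [show t = 1 from Subtype.ext h, map_one]
      · rw [show t = zR from Subtype.ext h, hφz]
      · rw [show t = wR from Subtype.ext h, hφw]
      · rw [show t = wR * zR from Subtype.ext h, map_mul, hφw, hφz]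
    have hfixK : ∀ t : R, (t : Ω) ∈ K → φ t = t := by
      intro t htK
      have hi : t⁻¹ * φ t * (t⁻¹ * φ t) = 1 := by
        have h1 : φ (t * t) = t * t := by
          rcases hsq _ t.2 htK with h | h
          · rw [show t * t = 1 from Subtype.ext h, map_one]
          · rw [show t * t = zR from Subtype.ext h, hφz]
        rw [map_mul] at h1
        calc t⁻¹ * φ t * (t⁻¹ * φ t) = t⁻¹ * ((φ t * t⁻¹) * φ t) := by group
          _ = t⁻¹ * ((t⁻¹ * φ t) * φ t) := by rw [hRab (φ t) t⁻¹]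
          _ = t⁻¹ * t⁻¹ * (φ t * φ t) := by group
          _ = _ := by rw [h1]; group
      refine fix_of_mul hodd (i := t⁻¹ * φ t) (mul_inv_cancel_left t _).symm
        (hinvfix _ (mul_mem (inv_mem htK) (hφK t htK)) hi) ?_
      rw [show (4 : ℕ) = 2 * 2 from rfl, pow_mul, show (t⁻¹ * φ t) ^ 2 = 1 from (pow_two _).trans hi,
        one_pow]
    refine MulEquiv.ext fun r => ?_
    have hiK : ((r⁻¹ * φ r : R) : Ω) ∈ K := by
      rw [hRab r⁻¹ (φ r)]; exact hφ r
    refine fix_of_mul hodd (i := r⁻¹ * φ r) (mul_inv_cancel_left r _).symm (hfixK _ hiK) ?_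
    rw [show (4 : ℕ) = 2 * 2 from rfl, pow_mul, pow_two (r⁻¹ * φ r)]
    rcases hsq _ (r⁻¹ * φ r).2 hiK with h | h
    · rw [show (r⁻¹ * φ r) * (r⁻¹ * φ r) = 1 from Subtype.ext h, one_pow]
    · rw [show (r⁻¹ * φ r) * (r⁻¹ * φ r) = zR from Subtype.ext h, pow_two]
      exact Subtype.ext hz2

end CfsgLib.FusionBicyclic
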