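import Cfsg.Agent.Lib.Alperin.Theorem
import Cfsg.Agent.Lib.FusionExamples.Abelian
import Cfsg.Agent.Lib.Cores.PCore

/-!
From a saturated system on a `2`-group that is not inner to radical data inside `S`: a
self-centralizing subgroup `P` of `S` and a group `Δ` of automorphisms of `P`, not a `2`-group,
in which the automorphisms induced by `S` form a Sylow `2`-subgroup.
-/

set_option autoImplicit false
set_option linter.style.haveILetI false

namespace CfsgLib.FusionBicyclic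

open Cfsg Cfsg.FusionSystem CfsgLib.Alperin

variable {Ω : Type*} [Group Ω] {S : Subgroup Ω} [Finite S]

/-- A saturated `2`-system that is not inner has a fully normalized centric subgroup that is `S`
or radical and whose automorphism group is not a `2`-group. -/
theorem exists_fullyNormalized_radical (hS : IsPGroup 2 S) {F : FusionSystem S}
    (hF : F.IsSaturated 2)
    (hne : ¬ ∀ P : Subgroup Ω, F.Hom P = (innerFusionSystem S).Hom P) :
    ∃ Q : Subgroup Ω, F.IsFullyNormalized Q ∧ F.IsCentric Q ∧ (Q = S ∨ F.IsRadical 2 Q) ∧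
      ¬ IsPGroup 2 (F.autGroup Q) := by
  haveI : Fact (Nat.Prime 2) := ⟨Nat.prime_two⟩
  by_contra hcon
  refine hne fun P => Set.Subset.antisymm
    (alperin_centric_radical hS hF (innerFusionSystem S) (fun Q hQ hQc hQr α hα => ?_) P)
    (FusionExamples.inner_le F P)
  have hp : IsPGroup 2 (F.autGroup Q) := by
    by_contra h
    exact hcon ⟨Q, hQ, hQc, hQr, h⟩
  obtain ⟨-, R, hR⟩ := (centralized_automized_of_fullyNormalized hS hF hQ).2
  have htop : (R : Subgroup (F.autGroup Q)) = ⊤ :=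
    (R.is_maximal' (Q := ⊤) (hp.to_subgroup ⊤) le_top).symm
  have hmem : (⟨α, hα⟩ : F.autGroup Q) ∈ (R : Subgroup (F.autGroup Q)) :=
    htop ▸ Subgroup.mem_top _
  rw [hR] at hmem
  exact autInducedBy_le_autGroup (innerFusionSystem S) hQ.1 (Subgroup.mem_subgroupOf.mp hmem)

/-- A saturated `2`-system that is not inner yields radical data inside the group `S`. -/
theorem exists_radical (hS : IsPGroup 2 S) {F : FusionSystem S} (hF : F.IsSaturated 2)
    (hne : ¬ ∀ P : Subgroup Ω, F.Hom P = (innerFusionSystem S).Hom P) :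
    ∃ (P : Subgroup ↥S) (Δ : Subgroup (MulAut P)),
      Subgroup.centralizer (P : Set ↥S) ≤ P ∧ ¬ IsPGroup 2 Δ ∧
      (∀ g ∈ Subgroup.normalizer (P : Set ↥S), ∀ φ : MulAut P,
        (∀ x : P, (φ x : ↥S) = g * x * g⁻¹) → φ ∈ Δ) ∧
      (P ≠ ⊤ → ∀ K : Subgroup (MulAut P), K ≤ Δ →
        (∀ d ∈ Δ, ∀ k ∈ K, d * k * d⁻¹ ∈ K) → IsPGroup 2 K → K ≤ Inn P) ∧
      (∀ K : Subgroup (MulAut P), K ≤ Δ → IsPGroup 2 K →
        (∀ g ∈ Subgroup.normalizer (P : Set ↥S), ∀ φ : MulAut P,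
          (∀ x : P, (φ x : ↥S) = g * x * g⁻¹) → φ ∈ K) →
        ∀ k ∈ K, ∃ g ∈ Subgroup.normalizer (P : Set ↥S),
          ∀ x : P, (k x : ↥S) = g * x * g⁻¹) := by
  haveI : Fact (Nat.Prime 2) := ⟨Nat.prime_two⟩
  obtain ⟨Q, hQn, hQc, hQr, hnp⟩ := exists_fullyNormalized_radical hS hF hne
  have hQS : Q ≤ S := hQn.1
  set e : ↥(Q.subgroupOf S) ≃* ↥Q := Subgroup.subgroupOfEquivOfLe hQS
  set c : MulAut Q ≃* MulAut (Q.subgroupOf S) := MulAut.congr e.symm
  -- `c α` is `α`, read inside the group `S`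
  have hc : ∀ (α : MulAut Q) (x : Q.subgroupOf S),
      (((c α x : Q.subgroupOf S) : ↥S) : Ω) = ((α (e x) : Q) : Ω) := fun α x => rfl
  have hind : ∀ g : ↥S, ∀ φ : MulAut (Q.subgroupOf S),
      (∀ x : Q.subgroupOf S, (φ x : ↥S) = g * x * g⁻¹) → c.symm φ ∈ autInducedBy S Q :=
    fun g φ hφ => mem_autInducedBy_iff.mpr
      ⟨g, g.2, fun q => congrArg Subtype.val (hφ (e.symm q))⟩
  refine ⟨Q.subgroupOf S, (F.autGroup Q).map c.toMonoidHom, fun g hg => ?_, fun h => hnp ?_,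
    fun g _ φ hφ => ?_, fun hPtop K hK hKn hKp k hk => ?_, fun K hK hKp hKS k hk => ?_⟩
  · exact Subgroup.mem_subgroupOf.mpr (hQc.2 Q (isConj_refl F hQS)
      ⟨g.2, fun q hq => congrArg Subtype.val (hg ⟨q, hQS hq⟩ hq)⟩)
  · exact h.of_equiv (Subgroup.equivMapOfInjective _ _ c.injective).symm
  · exact ⟨c.symm φ, autInducedBy_le_autGroup F hQS (hind g φ hφ), c.apply_symm_apply φ⟩
  · have hrad : F.IsRadical 2 Q := hQr.resolve_left fun h =>
      hPtop (Subgroup.subgroupOf_eq_top.mpr h.ge)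
    obtain ⟨α, hα, rfl⟩ := hK hk
    set N : Subgroup (F.autGroup Q) := K.comap (c.toMonoidHom.comp (F.autGroup Q).subtype)
    have hN : N.Normal := ⟨fun n hn a => by
      have h := hKn _ (Subgroup.mem_map_of_mem c.toMonoidHom a.2) _ hn
      show c ((a : MulAut Q) * n * (a : MulAut Q)⁻¹) ∈ K
      rw [map_mul, map_mul, map_inv]
      exact h⟩
    have hNp : IsPGroup 2 N :=
      hKp.comap_of_injective _ (c.injective.comp Subtype.val_injective)
    have h1 : α ∈ Inn Q := hrad.2 ▸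
      ⟨⟨α, hα⟩, CfsgLib.Cores.le_pCore (hN := hN) hNp hk, rfl⟩
    obtain ⟨q, rfl⟩ := h1
    refine ⟨e.symm q, MulEquiv.ext fun x => Subtype.ext (Subtype.ext ?_)⟩
    rfl
  · obtain ⟨-, R, hR⟩ := (centralized_automized_of_fullyNormalized hS hF hQn).2
    set N : Subgroup (F.autGroup Q) := K.comap (c.toMonoidHom.comp (F.autGroup Q).subtype)
    have hNp : IsPGroup 2 N :=
      hKp.comap_of_injective _ (c.injective.comp Subtype.val_injective)
    have hRN : (R : Subgroup (F.autGroup Q)) ≤ N := by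
      rw [hR]
      intro a ha
      obtain ⟨s, hs, hx⟩ := mem_autInducedBy_iff.mp (Subgroup.mem_subgroupOf.mp ha)
      have heq : ∀ x : Q.subgroupOf S,
          ((c (a : MulAut Q) x : Q.subgroupOf S) : ↥S) = ⟨s, hs⟩ * x * ⟨s, hs⟩⁻¹ := fun x =>
        Subtype.ext ((hc _ x).trans (hx (e x)))
      exact hKS ⟨s, hs⟩ (normalizer_of_induced heq) _ heq
    obtain ⟨α, hα, rfl⟩ := hK hk
    have hmem : (⟨α, hα⟩ : F.autGroup Q) ∈ (R : Subgroup (F.autGroup Q)) := by
      rw [← R.is_maximal' hNp hRN]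
      exact hk
    rw [hR] at hmem
    obtain ⟨s, hs, hx⟩ := mem_autInducedBy_iff.mp (Subgroup.mem_subgroupOf.mp hmem)
    have heq : ∀ x : Q.subgroupOf S,
        ((c α x : Q.subgroupOf S) : ↥S) = ⟨s, hs⟩ * x * ⟨s, hs⟩⁻¹ := fun x =>
      Subtype.ext ((hc _ x).trans (hx (e x)))
    exact ⟨⟨s, hs⟩, normalizer_of_induced heq, heq⟩

end CfsgLib.FusionBicyclic
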