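import Cfsg.Agent.Lib.FusionBicyclic.Common

/-!
Coordinates `w' ^ i * u ^ x` on the derived subgroup, `w'` congruent to `a ^ n` modulo squares, and
the trace of a subgroup `P` containing `w'`.
-/

set_option autoImplicit false
set_option linter.unusedSectionVars false
set_option linter.style.haveILetI false

namespace CfsgLib.FusionBicyclic.Data

open CfsgLib.FusionBicyclic

variable {G : Type*} [Group G] {a b : G} {n : ℕ} (h : Data a b n) [Finite G] (hG : IsPGroup 2 G)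
include h hG

theorem mem_derR_of_congr {o : G} (ho : (a ^ n)⁻¹ * o ∈ sqSub G) : o ∈ derR G := by
  have := mul_mem (h.pow_mem_derR hG) (Subgroup.mem_sup_left ho : (a ^ n)⁻¹ * o ∈ derR G)
  rwa [mul_inv_cancel_left] at this

/-- Coordinates with respect to an element congruent to `a ^ n`. -/
theorem exists_repr' {o : G} (ho : (a ^ n)⁻¹ * o ∈ sqSub G) {f : G} (hf : f ∈ commutator G) :
    ∃ i x : ℤ, f = o ^ i * uOf a b ^ x := by
  have hoA : o ∈ commutator G := derR_le (h.mem_derR_of_congr hG ho)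
  haveI : (Subgroup.zpowers o ⊔ sqSub G).Normal := by
    refine normal_zpowers_sup (N := sqSub G) fun g => h.chain ?_
    exact commElt_mem_derL3 (h.mem_derR_of_congr hG ho) g
  have hz : a ^ n ∈ Subgroup.zpowers o ⊔ sqSub G := by
    have h1 : a ^ n = o * ((a ^ n)⁻¹ * o)⁻¹ := by group
    rw [h1]
    exact mul_mem (Subgroup.mem_sup_left (Subgroup.mem_zpowers o))
      (Subgroup.mem_sup_right (inv_mem ho))
  have hle : commutator G ≤ Subgroup.zpowers o ⊔ Subgroup.zpowers (uOf a b) := by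
    refine le_of_le_sup_sqSub hG h.comm
      (sup_le (Subgroup.zpowers_le.mpr hoA) (Subgroup.zpowers_le.mpr h.u_mem)) ?_
    refine (commutator_le_zpowers_sup h.gen).trans (sup_le (le_sup_of_le_left le_sup_right) ?_)
    exact (h.derR_le_pow hG).trans (sup_le ((Subgroup.zpowers_le.mpr hz).trans
      (sup_le_sup_right le_sup_left _)) le_sup_right)
  have hmem := hle hf
  rw [Subgroup.sup_eq_closure] at hmem
  clear hf
  induction hmem using Subgroup.closure_induction with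
  | mem g hg =>
    rcases hg with ⟨i, rfl⟩ | ⟨x, rfl⟩
    · exact ⟨i, 0, by simp⟩
    · exact ⟨0, x, by simp⟩
  | one => exact ⟨0, 0, by simp⟩
  | mul p q _ _ hp hq =>
    obtain ⟨i, x, rfl⟩ := hp
    obtain ⟨j, y, rfl⟩ := hq
    refine ⟨i + j, x + y, ?_⟩
    rw [zpow_add, zpow_add]
    calc o ^ i * uOf a b ^ x * (o ^ j * uOf a b ^ y)
        = o ^ i * (uOf a b ^ x * o ^ j) * uOf a b ^ y := by simp only [mul_assoc]
      _ = _ := by
        rw [(h.commute (zpow_mem h.u_mem x) (zpow_mem hoA j)).eq]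
        simp only [mul_assoc]
  | inv p _ hp =>
    obtain ⟨i, x, rfl⟩ := hp
    refine ⟨-i, -x, ?_⟩
    rw [mul_inv_rev, zpow_neg, zpow_neg]
    exact (h.commute (inv_mem (zpow_mem h.u_mem x)) (inv_mem (zpow_mem hoA i))).eq

theorem even_of_repr_mem {o : G} (ho : (a ^ n)⁻¹ * o ∈ sqSub G) {i x : ℤ}
    (hm : o ^ i * uOf a b ^ x ∈ derR G) : Even x := by
  refine h.even_of_zpow_mem hG ?_
  have := mul_mem (inv_mem (zpow_mem (h.mem_derR_of_congr hG ho) i)) hm
  rwa [inv_mul_cancel_left] at this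

/-- `w` in these coordinates. -/
theorem exists_w_eq {o : G} (ho : (a ^ n)⁻¹ * o ∈ sqSub G) :
    ∃ i r : ℤ, wOf a b = o ^ i * uOf a b ^ (2 * r) := by
  obtain ⟨i, x, hx⟩ := h.exists_repr' hG ho h.w_mem
  obtain ⟨r, hr⟩ := h.even_of_repr_mem hG ho (i := i) (x := x) (hx ▸ h.w_mem_derR)
  exact ⟨i, r, by rw [hx, hr, two_mul]⟩

/-- The trace of a subgroup containing `o`. -/
theorem exists_level {o : G} (ho : (a ^ n)⁻¹ * o ∈ sqSub G) {P : Subgroup G} (hoP : o ∈ P) :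
    ∃ q : ℕ, uOf a b ^ ((2 : ℤ) ^ q) ∈ P ∧
      (∀ x : ℤ, uOf a b ^ x ∈ P → (2 : ℤ) ^ q ∣ x) ∧
      ∀ f ∈ commutator G, f ∈ P → ∃ i j : ℤ, f = o ^ i * uOf a b ^ ((2 : ℤ) ^ q * j) := by
  classical
  haveI : Fact (Nat.Prime 2) := ⟨Nat.prime_two⟩
  obtain ⟨k, hk⟩ := IsPGroup.iff_orderOf.mp hG (uOf a b)
  have hex : ∃ q : ℕ, uOf a b ^ ((2 : ℤ) ^ q) ∈ P := ⟨k, by
    have : ((2 : ℤ) ^ k) = ((orderOf (uOf a b) : ℕ) : ℤ) := by rw [hk]; push_cast; rfl
    rw [this, zpow_natCast, pow_orderOf_eq_one]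
    exact one_mem _⟩
  have hdvd : ∀ x : ℤ, uOf a b ^ x ∈ P → (2 : ℤ) ^ Nat.find hex ∣ x := by
    intro x hx
    rcases eq_or_ne x 0 with rfl | hx0
    · exact dvd_zero _
    obtain ⟨e, o', ho', hxe⟩ := Nat.exists_eq_two_pow_mul_odd (n := x.natAbs) (by simpa using hx0)
    have hmem : uOf a b ^ ((2 : ℤ) ^ e) ∈ P := by
      refine mem_of_zpow_odd hG (m := (o' : ℤ)) (by exact_mod_cast ho') ?_
      rw [← zpow_mul, show (2 : ℤ) ^ e * (o' : ℤ) = (x.natAbs : ℤ) by rw [hxe]; push_cast; rfl]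
      rcases Int.natAbs_eq x with hh | hh
      · rwa [← hh]
      · rw [← inv_mem_iff, ← zpow_neg, ← hh]; exact hx
    refine (pow_dvd_pow 2 (Nat.find_min' hex hmem)).trans (Int.dvd_natAbs.mp ?_)
    rw [hxe]; push_cast; exact dvd_mul_right _ _
  refine ⟨Nat.find hex, Nat.find_spec hex, hdvd, fun f hf hfP => ?_⟩
  obtain ⟨i, x, rfl⟩ := h.exists_repr' hG ho hf
  have hx : uOf a b ^ x ∈ P := by
    have := mul_mem (inv_mem (zpow_mem hoP i)) hfP
    rwa [inv_mul_cancel_left] at this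
  obtain ⟨j, hj⟩ := hdvd x hx
  exact ⟨i, j, by rw [hj]⟩

/-- The action of `a ^ 2`. -/
theorem exists_conj_sq : ∃ t : ℤ, ∀ x y : ℤ,
    a * a * (uOf a b ^ x * (a ^ n) ^ y) * (a * a)⁻¹ =
      uOf a b ^ x * (a ^ n) ^ y * wOf a b ^ (2 * t * x) := by
  obtain ⟨c, hc⟩ := h.exists_conj_even hG 1
  refine ⟨c, fun x y => ?_⟩
  have := hc x y
  rwa [mul_one, zpow_two] at this

/-- For an element of order two of the derived subgroup the `w`-part vanishes twice. -/
theorem w_zpow_eq_one_of_sq {x y : ℤ}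
    (hf : uOf a b ^ x * (a ^ n) ^ y * (uOf a b ^ x * (a ^ n) ^ y) = 1) :
    wOf a b ^ (2 * x) = 1 := by
  set f := uOf a b ^ x * (a ^ n) ^ y with hfdef
  have hfA : f ∈ commutator G := mul_mem (zpow_mem h.u_mem _) (zpow_mem h.pow_mem _)
  have h1 : a * (f * f) * a⁻¹ = 1 := by rw [hf, mul_one, mul_inv_cancel]
  have h2 : a * (f * f) * a⁻¹ = f * f * wOf a b ^ (2 * x) := by
    calc a * (f * f) * a⁻¹ = a * f * a⁻¹ * (a * f * a⁻¹) := by group
      _ = f * wOf a b ^ x * (f * wOf a b ^ x) := by rw [hfdef, h.conj_a hG]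
      _ = f * (wOf a b ^ x * f) * wOf a b ^ x := by simp only [mul_assoc]
      _ = f * f * wOf a b ^ (2 * x) := by
          rw [(h.commute (zpow_mem h.w_mem x) hfA).eq, two_mul, zpow_add]; simp only [mul_assoc]
  rw [h1, hf, one_mul] at h2
  exact h2.symm

/-- An element fixed by a twisted inversion is an involution. -/
theorem sq_eq_one_of_twist_fixed {K x y : ℤ}
    (hf : (uOf a b ^ x * (a ^ n) ^ y)⁻¹ * wOf a b ^ (2 * K * x) = uOf a b ^ x * (a ^ n) ^ y) :
    uOf a b ^ x * (a ^ n) ^ y * (uOf a b ^ x * (a ^ n) ^ y) = 1 := by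
  obtain ⟨l, m, hl, -, hlm⟩ := h.exists_conj hG
  have hw := (h.conj_w hG hlm).1
  set f := uOf a b ^ x * (a ^ n) ^ y with hfdef
  have hfA : f ∈ commutator G := mul_mem (zpow_mem h.u_mem _) (zpow_mem h.pow_mem _)
  have hff : f * f = wOf a b ^ (2 * K * x) := by
    calc f * f = f * (f⁻¹ * wOf a b ^ (2 * K * x)) := by rw [hf]
      _ = _ := mul_inv_cancel_left _ _
  -- `f * w ^ (-(K x))` is an involution
  have hv : uOf a b ^ (x * (1 - (l - 1) * K)) * (a ^ n) ^ (y - m * (K * x)) =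
      f * wOf a b ^ (-(K * x)) := by
    rw [hfdef, hw, h.mul_zpow' (zpow_mem h.u_mem _) (zpow_mem h.pow_mem _), ← zpow_mul, ← zpow_mul,
      show x * (1 - (l - 1) * K) = x + (l - 1) * -(K * x) by ring,
      show y - m * (K * x) = y + m * -(K * x) by ring, zpow_add (uOf a b) x, zpow_add (a ^ n) y]
    calc _ = uOf a b ^ x * (uOf a b ^ ((l - 1) * -(K * x)) * (a ^ n) ^ y) *
          (a ^ n) ^ (m * -(K * x)) := by simp only [mul_assoc]
      _ = _ := by
          rw [(h.commute (zpow_mem h.u_mem _) (zpow_mem h.pow_mem y)).eq]; simp only [mul_assoc]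
  have hw1 := h.w_zpow_eq_one_of_sq hG (x := x * (1 - (l - 1) * K)) (y := y - m * (K * x)) (by
    rw [hv, ← zpow_two, h.mul_zpow' hfA (zpow_mem h.w_mem _), zpow_two, hff, ← zpow_mul, ← zpow_add,
      show 2 * K * x + -(K * x) * 2 = 0 by ring, zpow_zero])
  obtain ⟨q, hq⟩ := hl.sub_odd odd_one
  have hodd : Odd (1 - (l - 1) * K) := ⟨-(q * K), by rw [hq]; ring⟩
  have hw2 : wOf a b ^ (2 * x) = 1 := by
    refine eq_one_of_zpow_odd hG hodd ?_
    rw [← zpow_mul, ← hw1]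
    congr 1
    ring
  rw [hff, show 2 * K * x = 2 * x * K by ring, zpow_mul, hw2, one_zpow]

end CfsgLib.FusionBicyclic.Data
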