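import Cfsg.Agent.Lib.FusionBicyclic.CaseEven

/-!
Subgroups with an element of the coset type `b a ^ (2 * j)` and none of the type `a ^ 2`: basic facts.
-/

set_option autoImplicit false
set_option linter.unusedSectionVars false
set_option linter.style.haveILetI false

namespace CfsgLib.FusionBicyclic

variable {G : Type*} [Group G]

theorem eq_mul_of_quot {g c : G}
    (he : QuotientGroup.mk' (commutator G) g = QuotientGroup.mk' (commutator G) c) :
    ∃ f ∈ commutator G, g = c * f :=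
  ⟨c⁻¹ * g, QuotientGroup.eq.mp he.symm, (mul_inv_cancel_left _ _).symm⟩

theorem quot_comm (g c : G) : QuotientGroup.mk' (commutator G) (g * c) =
    QuotientGroup.mk' (commutator G) (c * g) := by
  refine QuotientGroup.eq.mpr ?_
  have := comm_mem c⁻¹ g⁻¹
  simpa [mul_assoc] using this

theorem mul_of_quot_one {g c : G} (hc : c ∈ commutator G) :
    QuotientGroup.mk' (commutator G) (g * c) = QuotientGroup.mk' (commutator G) g := by
  rw [map_mul, (show QuotientGroup.mk' (commutator G) c = 1 from (QuotientGroup.eq_one_iff c).mpr hc),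
    mul_one]

/-- The hypotheses of the small case. -/
structure Small (a b : G) (n : ℕ) (P : Subgroup G) (j : ℤ) (f₀ : G) : Prop where
  data : Data a b n
  mem_f : f₀ ∈ commutator G
  mem_beta : a ^ (2 * j) * b * f₀ ∈ P
  sub : ∀ x ∈ P, ∃ i e : ℤ, ∃ f ∈ commutator G, x = a ^ (2 * i) * b ^ e * f
  no : ∀ h₀ ∈ commutator G, a * a * h₀ ∉ P

namespace Small

variable {a b : G} {n : ℕ} {P : Subgroup G} {j : ℤ} {f₀ : G} (S : Small a b n P j f₀)
include S

/-- The element of type `b`. -/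
theorem quot_beta :
    QuotientGroup.mk' (commutator G) (a ^ (2 * j) * b * f₀) =
      QuotientGroup.mk' (commutator G) (a ^ (2 * j) * b) :=
  mul_of_quot_one S.mem_f

theorem exists_mul (x : G) (hx : x ∈ P) : ∃ e i : ℤ, ∃ f ∈ commutator G,
    x = (a ^ (2 * j) * b * f₀) ^ e * (a ^ (2 * i) * f) ∧ a ^ (2 * i) * f ∈ P := by
  obtain ⟨i, e, f, hf, rfl⟩ := S.sub x hx
  set β := a ^ (2 * j) * b * f₀ with hβ
  obtain ⟨f', hf', hfe⟩ : ∃ f' ∈ commutator G,
      (β ^ e)⁻¹ * (a ^ (2 * i) * b ^ e * f) = a ^ (2 * (i - j * e)) * f' := by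
    refine eq_mul_of_quot ?_
    rw [map_mul, map_inv, map_zpow, hβ, S.quot_beta, mul_of_quot_one hf, map_mul, map_mul, map_zpow,
      map_zpow, map_zpow, map_zpow]
    set A' := QuotientGroup.mk' (commutator G) a
    set B' := QuotientGroup.mk' (commutator G) b
    have hc : Commute A' B' := by
      show _ * _ = _ * _
      rw [← map_mul, ← map_mul]; exact quot_comm a b
    rw [(hc.zpow_left (2 * j)).mul_zpow, ← zpow_mul, mul_inv_rev, ← zpow_neg, ← zpow_neg,
      mul_assoc, ← mul_assoc (A' ^ _) (A' ^ _), ← zpow_add,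
      ← mul_assoc, ((hc.zpow_zpow _ (-e)).eq).symm, mul_assoc, ← zpow_add, neg_add_cancel, zpow_zero,
      mul_one]
    congr 1
    ring
  exact ⟨e, i - j * e, f', hf', by rw [← hfe, mul_inv_cancel_left],
    hfe ▸ mul_mem (inv_mem (zpow_mem S.mem_beta e)) hx⟩

variable [Finite G] (hG : IsPGroup 2 G)
include hG

theorem even_index {i : ℤ} {f : G} (hf : f ∈ commutator G) (hx : a ^ (2 * i) * f ∈ P) : Even i := by
  by_contra hodd
  rw [Int.not_even_iff_odd] at hodd
  obtain ⟨r, hr2, hr⟩ := S.data.exists_pow_two hG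
  have hcop : IsCoprime i ((2 : ℤ) ^ r) := (Int.prime_two.coprime_iff_not_dvd.mpr
    (fun h2 => Int.not_even_iff_odd.mpr hodd (even_iff_two_dvd.mpr h2))).symm.pow_right
  obtain ⟨k, t, hkt⟩ := hcop
  have hq : QuotientGroup.mk' (commutator G) ((a ^ (2 * i) * f) ^ k) =
      QuotientGroup.mk' (commutator G) (a * a) := by
    have hz : QuotientGroup.mk' (commutator G) ((a ^ n) ^ (-(2 * t))) = 1 :=
      (QuotientGroup.eq_one_iff _).mpr (zpow_mem S.data.pow_mem _)
    rw [map_zpow, mul_of_quot_one hf, ← map_zpow, ← zpow_mul,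
      show 2 * i * k = 2 + ((n : ℕ) : ℤ) * (-(2 * t)) by rw [hr]; push_cast; linear_combination 2 * hkt,
      zpow_add, map_mul, zpow_mul a ((n : ℕ) : ℤ), zpow_natCast, hz, mul_one, zpow_two]
  obtain ⟨f', hf', hfe⟩ := eq_mul_of_quot hq
  exact S.no f' hf' (hfe ▸ zpow_mem hx k)

/-- The action of the element of type `b` on the derived subgroup. -/
theorem exists_twist : ∃ K : ℤ, ∀ x y : ℤ,
    a ^ (2 * j) * b * f₀ * (uOf a b ^ x * (a ^ n) ^ y) * (a ^ (2 * j) * b * f₀)⁻¹ =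
      (uOf a b ^ x * (a ^ n) ^ y)⁻¹ * wOf a b ^ (2 * K * x) := by
  obtain ⟨k, hk⟩ := S.data.exists_conj_b hG
  obtain ⟨c, hc⟩ := S.data.exists_conj_even hG j
  obtain ⟨l, m, -, -, hlm⟩ := S.data.exists_conj hG
  refine ⟨k + c * (-1 + (l - 1) * (2 * k)), fun x y => ?_⟩
  set f := uOf a b ^ x * (a ^ n) ^ y with hf
  have hfA : f ∈ commutator G := mul_mem (zpow_mem S.data.u_mem _) (zpow_mem S.data.pow_mem _)
  have e : a ^ (2 * j) * b * f₀ * f * (a ^ (2 * j) * b * f₀)⁻¹ =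
      a ^ (2 * j) * (b * (f₀ * f * f₀⁻¹) * b⁻¹) * (a ^ (2 * j))⁻¹ := by group
  rw [e, (S.data.commute S.mem_f hfA).eq, mul_inv_cancel_right, hf, hk]
  have hw := (S.data.conj_w hG hlm).1
  have hrep : (uOf a b ^ x * (a ^ n) ^ y)⁻¹ * wOf a b ^ (2 * k * x) =
      uOf a b ^ (-x + (l - 1) * (2 * k * x)) * (a ^ n) ^ (-y + m * (2 * k * x)) := by
    rw [mul_inv_rev, hw, S.data.mul_zpow' (zpow_mem S.data.u_mem _) (zpow_mem S.data.pow_mem _),
      ← zpow_mul, ← zpow_mul, zpow_add (uOf a b), zpow_add (a ^ n), ← zpow_neg, ← zpow_neg,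
      (S.data.commute (zpow_mem S.data.pow_mem (-y)) (zpow_mem S.data.u_mem (-x))).eq]
    rw [mul_assoc (uOf a b ^ (-x)) ((a ^ n) ^ (-y)), ← mul_assoc ((a ^ n) ^ (-y)),
      (S.data.commute (zpow_mem S.data.pow_mem (-y)) (zpow_mem S.data.u_mem ((l - 1) * (2 * k * x)))).eq,
      mul_assoc, ← mul_assoc (uOf a b ^ (-x))]
  rw [hrep, hc, ← hrep, mul_assoc, ← zpow_add]
  congr 2
  ring

/-- An involution of the derived subgroup is centralised by `P`, so lies in it. -/
theorem invol_comm {f : G} (hf : f ∈ commutator G) (hf2 : f * f = 1) {x : G} (hx : x ∈ P) :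
    Commute x f := by
  obtain ⟨e, i, f', hf', rfl, -⟩ := S.exists_mul x hx
  obtain ⟨p, q, rfl⟩ := S.data.exists_repr hG hf
  set f := uOf a b ^ p * (a ^ n) ^ q with hfd
  have hw := S.data.w_zpow_eq_one_of_sq hG (x := p) (y := q) hf2
  obtain ⟨K, hK⟩ := S.exists_twist hG
  obtain ⟨c, hc⟩ := S.data.exists_conj_even hG i
  have h1 : Commute (a ^ (2 * j) * b * f₀) f := by
    refine mul_inv_eq_iff_eq_mul.mp ?_
    rw [hfd, hK, ← hfd, show 2 * K * p = 2 * p * K by ring, zpow_mul, hw, one_zpow, mul_one,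
      inv_eq_of_mul_eq_one_left hf2]
  have h2 : Commute (a ^ (2 * i)) f := by
    refine mul_inv_eq_iff_eq_mul.mp ?_
    rw [hfd, hc, ← hfd, show 2 * c * p = 2 * p * c by ring, zpow_mul, hw, one_zpow, mul_one]
  exact (h1.zpow_left e).mul_left (h2.mul_left (S.data.commute hf' hf))

theorem invol_mem {Δ : Subgroup (MulAut P)} (R : Rad P Δ) {f : G} (hf : f ∈ commutator G)
    (hf2 : f * f = 1) : f ∈ P :=
  R.centric (Subgroup.mem_centralizer_iff.mpr fun x hx => S.invol_comm hG hf hf2 hx)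

/-- An element fixed by the element of type `b` is an involution. -/
theorem sq_eq_one_of_comm {f : G} (hf : f ∈ commutator G)
    (hc : Commute (a ^ (2 * j) * b * f₀) f) : f * f = 1 := by
  obtain ⟨p, q, rfl⟩ := S.data.exists_repr hG hf
  obtain ⟨K, hK⟩ := S.exists_twist hG
  refine S.data.sq_eq_one_of_twist_fixed hG (K := K) ?_
  rw [← hK, hc.eq, mul_inv_cancel_right]

/-- The element of type `b` moves `a * a` by an element congruent to `a ^ n`. -/
theorem congr_comm : (a ^ n)⁻¹ *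
    (a ^ (2 * j) * b * f₀ * (a * a) * (a ^ (2 * j) * b * f₀)⁻¹ * (a * a)⁻¹) ∈ sqSub G := by
  obtain ⟨l, m, hl, hm, hlm⟩ := S.data.exists_conj hG
  obtain ⟨t, ht⟩ := S.data.exists_conj_sq hG
  set π := QuotientGroup.mk' (sqSub G)
  have hsq : ∀ g ∈ commutator G, ∀ s : ℤ, π (g ^ (2 * s)) = 1 := fun g hg s =>
    (QuotientGroup.eq_one_iff _).mpr (by rw [zpow_mul, zpow_two]; exact zpow_mem (sq_mem_sqSub hg) s)
  have hf0 : π (f₀ * (a * a) * f₀⁻¹ * (a * a)⁻¹) = 1 := by
    obtain ⟨p, q, hpq⟩ := S.data.exists_repr hG S.mem_f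
    have e : f₀ * (a * a) * f₀⁻¹ * (a * a)⁻¹ = f₀ * (a * a * f₀ * (a * a)⁻¹)⁻¹ := by simp [mul_assoc]
    rw [e, hpq, ht, mul_inv_rev,
      (S.data.commute (inv_mem (zpow_mem S.data.w_mem _))
        (inv_mem (hpq ▸ S.mem_f))).eq, mul_inv_cancel_left, map_inv, mul_assoc 2 t p,
      hsq _ S.data.w_mem, inv_one]
  have hb : π (a * a * b * (a * a)⁻¹ * b⁻¹) = π (a ^ n) := by
    have e : a * a * b * (a * a)⁻¹ * b⁻¹ = a * uOf a b * a⁻¹ * uOf a b := by rw [uOf]; group
    obtain ⟨q, hq⟩ := hl.add_odd odd_one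
    obtain ⟨q', hq'⟩ := hm.sub_odd odd_one
    rw [e, hlm, mul_assoc, (S.data.commute (zpow_mem S.data.pow_mem m) S.data.u_mem).eq, ← mul_assoc,
      ← zpow_add_one, hq, ← two_mul, map_mul, hsq _ S.data.u_mem, one_mul,
      show m = 2 * q' + 1 by linarith, zpow_add_one, map_mul, hsq _ S.data.pow_mem, one_mul]
  have hzz : (π (a ^ n))⁻¹ = π (a ^ n) := by
    rw [inv_eq_iff_mul_eq_one, ← map_mul]
    exact (QuotientGroup.eq_one_iff _).mpr (sq_mem_sqSub S.data.pow_mem)
  have hzc : Commute (π (a ^ (2 * j))) (π (a ^ n)) := by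
    rw [map_zpow, map_pow]; exact ((Commute.refl (π a)).zpow_left _).pow_right _
  rw [← QuotientGroup.eq_one_iff]
  show π _ = 1
  have e : a ^ (2 * j) * b * f₀ * (a * a) * (a ^ (2 * j) * b * f₀)⁻¹ * (a * a)⁻¹ =
      a ^ (2 * j) * (b * (f₀ * (a * a) * f₀⁻¹ * (a * a)⁻¹) * b⁻¹ *
        (a * a * b * (a * a)⁻¹ * b⁻¹)⁻¹) * (a ^ (2 * j))⁻¹ := by group
  rw [e, map_mul π (a ^ n)⁻¹, map_inv, map_mul, map_mul, map_mul, map_mul, map_mul, hf0, map_inv,
    map_inv, map_inv, hb, mul_one, mul_inv_cancel, one_mul, hzz, hzc.eq, mul_inv_cancel_right,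
    ← map_mul]
  exact (QuotientGroup.eq_one_iff _).mpr (sq_mem_sqSub S.data.pow_mem)

/-- At most four involutions in the derived subgroup. -/
theorem invol_cases {c d : G} (hc : c ∈ commutator G) (hd : d ∈ commutator G) (hc2 : c * c = 1)
    (hd2 : d * d = 1) (hc1 : c ≠ 1) (hd1 : d ≠ 1) (hcd : c ≠ d) {f : G} (hf : f ∈ commutator G)
    (hf2 : f * f = 1) : f = 1 ∨ f = c ∨ f = d ∨ f = c * d := by
  classical
  haveI : IsMulCommutative (commutator G) :=
    ⟨⟨fun x y => Subtype.ext (S.data.comm x x.2 y y.2)⟩⟩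
  let sq : commutator G →* commutator G :=
    MonoidHom.mk' (fun x => x * x) fun x y => by
      show x * y * (x * y) = x * x * (y * y)
      calc x * y * (x * y) = x * (y * x) * y := by simp only [mul_assoc]
        _ = _ := by rw [IsMulCommutative.is_comm.comm y x]; simp only [mul_assoc]
  have hle : Nat.card sq.ker ≤ 4 := by
    have h1 := sq.range.index_mul_card
    have h2 := sq.ker.index_mul_card
    rw [Subgroup.index_ker] at h2
    have hi : sq.range.index ≤ 4 := by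
      let φ : Fin 2 × Fin 2 → commutator G ⧸ sq.range := fun p => QuotientGroup.mk
        (⟨uOf a b, S.data.u_mem⟩ ^ (p.1 : ℕ) * ⟨a ^ n, S.data.pow_mem⟩ ^ (p.2 : ℕ))
      rw [Subgroup.index_eq_card]
      refine le_of_le_of_eq (Nat.card_le_card_of_surjective φ fun q => ?_) (by simp)
      obtain ⟨⟨g, hg⟩, rfl⟩ := QuotientGroup.mk_surjective q
      obtain ⟨x, y, rfl⟩ := S.data.exists_repr hG hg
      refine ⟨(⟨(x % 2).toNat, by omega⟩, ⟨(y % 2).toNat, by omega⟩), QuotientGroup.eq.mpr ?_⟩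
      refine ⟨⟨uOf a b ^ (x / 2) * (a ^ n) ^ (y / 2), mul_mem (zpow_mem S.data.u_mem _)
        (zpow_mem S.data.pow_mem _)⟩, Subtype.ext ?_⟩
      show uOf a b ^ (x / 2) * (a ^ n) ^ (y / 2) * (uOf a b ^ (x / 2) * (a ^ n) ^ (y / 2)) =
        (uOf a b ^ (x % 2).toNat * (a ^ n) ^ (y % 2).toNat)⁻¹ * (uOf a b ^ x * (a ^ n) ^ y)
      rw [← zpow_natCast (uOf a b), ← zpow_natCast (a ^ n), Int.toNat_of_nonneg (by omega),
        Int.toNat_of_nonneg (by omega), ← zpow_two, S.data.mul_zpow' (zpow_mem S.data.u_mem _)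
        (zpow_mem S.data.pow_mem _), ← zpow_mul, ← zpow_mul, eq_inv_mul_iff_mul_eq,
        mul_assoc, ← mul_assoc ((a ^ n) ^ _),
        (S.data.commute (zpow_mem S.data.pow_mem _) (zpow_mem S.data.u_mem _)).eq, mul_assoc,
        ← mul_assoc (uOf a b ^ _) (uOf a b ^ _), ← zpow_add, ← zpow_add,
        show x % 2 + x / 2 * 2 = x by omega, show y % 2 + y / 2 * 2 = y by omega]
    have hpos : 0 < Nat.card sq.range := Nat.card_pos
    nlinarith
  by_contra hcon
  simp only [not_or] at hcon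
  obtain ⟨hf1, hfc, hfd, hfcd⟩ := hcon
  have hcd2 : c * d * (c * d) = 1 := by
    calc c * d * (c * d) = c * (d * c) * d := by simp only [mul_assoc]
      _ = c * c * (d * d) := by rw [(S.data.commute hd hc).eq]; simp only [mul_assoc]
      _ = 1 := by rw [hc2, hd2, one_mul]
  have mk : ∀ g : G, ∀ hg : g ∈ commutator G, g * g = 1 → (⟨g, hg⟩ : commutator G) ∈ sq.ker :=
    fun g hg h2 => Subtype.ext h2
  have hcd1 : c * d ≠ 1 := fun e => hcd (by
    rw [eq_inv_of_mul_eq_one_left e, inv_eq_of_mul_eq_one_left hd2])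
  have hcdc : c * d ≠ c := fun e => hd1 (mul_eq_left.mp e)
  have hcdd : c * d ≠ d := fun e => hc1 (mul_eq_right.mp e)
  let L : List sq.ker := [⟨1, one_mem _⟩, ⟨_, mk c hc hc2⟩, ⟨_, mk d hd hd2⟩,
    ⟨_, mk (c * d) (mul_mem hc hd) hcd2⟩, ⟨_, mk f hf hf2⟩]
  have hL : L.Nodup := by
    refine List.Nodup.of_map (fun z : sq.ker => ((z : commutator G) : G)) ?_
    show List.Nodup [1, c, d, c * d, f]
    refine List.nodup_cons.mpr ⟨?_, List.nodup_cons.mpr ⟨?_, List.nodup_cons.mpr ⟨?_,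
      List.nodup_cons.mpr ⟨?_, List.nodup_singleton _⟩⟩⟩⟩
    · simp only [List.mem_cons, List.not_mem_nil, or_false, not_or]
      exact ⟨Ne.symm hc1, Ne.symm hd1, Ne.symm hcd1, Ne.symm hf1⟩
    · simp only [List.mem_cons, List.not_mem_nil, or_false, not_or]
      exact ⟨hcd, Ne.symm hcdc, Ne.symm hfc⟩
    · simp only [List.mem_cons, List.not_mem_nil, or_false, not_or]
      exact ⟨Ne.symm hcdd, Ne.symm hfd⟩
    · simp only [List.mem_cons, List.not_mem_nil, or_false]
      exact Ne.symm hfcd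
  haveI : Fintype sq.ker := Fintype.ofFinite _
  have h5 := hL.length_le_card
  rw [← Nat.card_eq_fintype_card] at h5
  have hlen : L.length = 5 := rfl
  omega

end Small

end CfsgLib.FusionBicyclic
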