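import Cfsg.Agent.Lib.FusionBicyclic.SmallBase

/-!
The subgroup `⟨β⟩ (P ∩ S')` of the small case: invariant subgroups inside `S'`.
-/

set_option autoImplicit false
set_option linter.unusedSectionVars false
set_option linter.style.haveILetI false

namespace CfsgLib.FusionBicyclic

variable {G : Type*} [Group G]

/-- The elements of `P` moved by `g` into `fr P`. -/
def frMoved (P : Subgroup G) (g : G) : Subgroup G where
  carrier := {y | y ∈ P ∧ g * y * g⁻¹ * y⁻¹ ∈ fr P}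
  one_mem' := ⟨one_mem _, by simp⟩
  mul_mem' := by
    rintro x y ⟨hx, h1⟩ ⟨hy, h2⟩
    refine ⟨mul_mem hx hy, ?_⟩
    have e : g * (x * y) * g⁻¹ * (x * y)⁻¹ =
        g * x * g⁻¹ * x⁻¹ * (x * (g * y * g⁻¹ * y⁻¹) * x⁻¹) := by group
    rw [e]
    exact mul_mem h1 (fr_conj_mem hx h2)
  inv_mem' := by
    rintro x ⟨hx, h1⟩
    refine ⟨inv_mem hx, ?_⟩
    have e : g * x⁻¹ * g⁻¹ * x⁻¹⁻¹ = x⁻¹ * (g * x * g⁻¹ * x⁻¹)⁻¹ * x⁻¹⁻¹ := by group
    rw [e]
    exact fr_conj_mem (inv_mem hx) (inv_mem h1)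

namespace Small

variable {a b : G} {n : ℕ} {P : Subgroup G} {j : ℤ} {f₀ : G} (S : Small a b n P j f₀)
  [Finite G] (hG : IsPGroup 2 G) (hfree : ∀ i : ℤ, ∀ f ∈ commutator G,
    a ^ (2 * i) * f ∈ P → a ^ (2 * i) * f ∈ commutator G)
include S hG hfree

theorem exists_form {x : G} (hx : x ∈ P) :
    ∃ e : ℤ, ∃ d ∈ commutator G, d ∈ P ∧ x = (a ^ (2 * j) * b * f₀) ^ e * d := by
  obtain ⟨e, i, f, hf, rfl, hd⟩ := S.exists_mul x hx
  exact ⟨e, _, hfree i f hf hd, hd, rfl⟩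

theorem sq_beta_mem : a ^ (2 * j) * b * f₀ * (a ^ (2 * j) * b * f₀) ∈ commutator G := by
  have hb2 : QuotientGroup.mk' (commutator G) (b * b) = 1 :=
    (QuotientGroup.eq_one_iff _).mpr (derR_le S.data.sq)
  obtain ⟨f, hf, he⟩ : ∃ f ∈ commutator G,
      a ^ (2 * j) * b * f₀ * (a ^ (2 * j) * b * f₀) = a ^ (2 * (2 * j)) * f := by
    refine eq_mul_of_quot ?_
    rw [map_mul, S.quot_beta, map_mul,
      mul_assoc, ← mul_assoc (QuotientGroup.mk' (commutator G) b), ← map_mul _ b, quot_comm b, map_mul,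
      mul_assoc, ← map_mul _ b b, hb2, mul_one, ← map_mul, ← zpow_add, ← two_mul]
  rw [he]
  exact hfree _ f hf (he ▸ mul_mem S.mem_beta S.mem_beta)

/-- A power of the element of type `b` commuting with `d` and of odd exponent forces `d * d = 1`. -/
theorem sq_eq_one_of_comm_pow {e : ℤ} (he : Odd e) {d : G} (hd : d ∈ commutator G)
    (hc : Commute ((a ^ (2 * j) * b * f₀) ^ e) d) : d * d = 1 := by
  refine S.sq_eq_one_of_comm hG hd ?_
  obtain ⟨t, rfl⟩ := he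
  have h2 : Commute (((a ^ (2 * j) * b * f₀) * (a ^ (2 * j) * b * f₀)) ^ t) d :=
    (S.data.commute (S.sq_beta_mem hG hfree) hd).zpow_left t
  have h := h2.inv_left.mul_left hc
  have e : ((a ^ (2 * j) * b * f₀ * (a ^ (2 * j) * b * f₀)) ^ t)⁻¹ *
      (a ^ (2 * j) * b * f₀) ^ (2 * t + 1) = a ^ (2 * j) * b * f₀ := by
    rw [← zpow_two, ← zpow_mul, zpow_add_one, inv_mul_cancel_left]
  rwa [e] at h

variable {Δ : Subgroup (MulAut P)} (R : Rad P Δ)
include R

/-- An invariant subset of the derived subgroup receiving the movements of `g` puts `g` into `P`. -/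
theorem mem_of_char {s₀ : Set G} (hs₀ : Stable Δ s₀) (hsP : s₀ ⊆ P)
    (hsA : ∀ x ∈ s₀, x ∈ commutator G) {g : G}
    (hgβ : g * (a ^ (2 * j) * b * f₀) * g⁻¹ * (a ^ (2 * j) * b * f₀)⁻¹ ∈ Subgroup.closure s₀)
    (hgd : ∀ d ∈ commutator G, d ∈ P → g * d * g⁻¹ * d⁻¹ ∈ fr P) : g ∈ P := by
  set β := a ^ (2 * j) * b * f₀
  have hcl : Stable Δ (Subgroup.closure s₀ : Set G) := hs₀.closure hsP
  have hclP : Subgroup.closure s₀ ≤ P := (Subgroup.closure_le P).mpr hsP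
  set Y := Subgroup.closure s₀ ⊔ fr P with hY
  have hYP : Y ≤ P := sup_le hclP (fr_le P)
  have hYs : Stable Δ (Y : Set G) := hcl.sup stable_fr hclP (fr_le P)
  have h1 : ∀ x ∈ P, g * x * g⁻¹ * x⁻¹ ∈ Y := by
    refine R.forall_comm_mem hYs hYP (s := {x | x ∈ P ∧ (x = β ∨ x ∈ commutator G)})
      (fun x hx => hx.1) (fun x hx => ?_) ?_
    · obtain ⟨e, d, hd, hdP, rfl⟩ := S.exists_form hG hfree hx
      exact mul_mem (zpow_mem (Subgroup.subset_closure
        (show β ∈ {x | x ∈ P ∧ (x = β ∨ x ∈ commutator G)} from ⟨S.mem_beta, Or.inl rfl⟩)) e)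
        (Subgroup.subset_closure ⟨hdP, Or.inr hd⟩)
    · rintro x ⟨hxP, rfl | hxA⟩
      · exact Subgroup.mem_sup_left hgβ
      · exact Subgroup.mem_sup_right (hgd x hxA hxP)
  have hg := mem_normalizer_of_move fun x hx => hYP (h1 x hx)
  have hle : Y ≤ frMoved P g := by
    refine sup_le ((Subgroup.closure_le _).mpr fun x hx => ⟨hsP hx, hgd x (hsA x hx) (hsP hx)⟩)
      fun x hx => ⟨fr_le P hx, ?_⟩
    exact mul_mem (stable_fr _ (R.conjOn_mem ⟨g, hg⟩) ⟨x, fr_le P hx⟩ hx) (inv_mem hx)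
  exact R.mem_of_trivial hG hYs le_sup_right hYP h1 fun y hy => (hle hy).2

/-- Two different nontrivial squares in `P ∩ S'`. -/
theorem mem_of_two_squares {s t : G} (hs : s ∈ commutator G) (hsP : s ∈ P) (ht : t ∈ commutator G)
    (htP : t ∈ P) (hs2 : s * s ≠ 1) (ht2 : t * t ≠ 1) (hst : s * s ≠ t * t) {g : G}
    (hgβ : g * (a ^ (2 * j) * b * f₀) * g⁻¹ * (a ^ (2 * j) * b * f₀)⁻¹ ∈ commutator G)
    (hgβP : g * (a ^ (2 * j) * b * f₀) * g⁻¹ * (a ^ (2 * j) * b * f₀)⁻¹ ∈ P)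
    (hgd : ∀ d ∈ commutator G, d ∈ P → g * d * g⁻¹ * d⁻¹ ∈ fr P) : g ∈ P := by
  set β := a ^ (2 * j) * b * f₀ with hβ
  refine S.mem_of_char hG hfree R (s₀ := {x | x ∈ P ∧ ∃ s ∈ P, ∃ t ∈ P, Commute x s ∧ Commute x t ∧
    s * s ≠ 1 ∧ t * t ≠ 1 ∧ s * s ≠ t * t}) ?_ (fun x hx => hx.1) ?_
    (Subgroup.subset_closure ⟨hgβP, s, hsP, t, htP, S.data.commute hgβ hs, S.data.commute hgβ ht,
      hs2, ht2, hst⟩) hgd
  · rintro φ - x ⟨-, s, hs, t, ht, hxs, hxt, h1, h2, h3⟩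
    have key : ∀ s' : P, Commute (x : G) s' → Commute (φ x : G) (φ s') := fun s' hc => by
      have : Commute x s' := Subtype.ext hc
      exact congrArg Subtype.val (this.map φ.toMonoidHom).eq
    have hsq : ∀ p q : P, (φ p : G) * φ p = (φ q : G) * φ q → (p : G) * p = (q : G) * q := by
      intro p q e
      exact congrArg Subtype.val (φ.injective (show φ (p * p) = φ (q * q) by
        rw [map_mul, map_mul]; exact Subtype.ext e))
    refine ⟨SetLike.coe_mem _, φ ⟨s, hs⟩, SetLike.coe_mem _, φ ⟨t, ht⟩, SetLike.coe_mem _,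
      key ⟨s, hs⟩ hxs, key ⟨t, ht⟩ hxt, fun e => h1 ?_, fun e => h2 ?_,
      fun e => h3 (hsq ⟨s, hs⟩ ⟨t, ht⟩ e)⟩
    · simpa using hsq ⟨s, hs⟩ 1 (by simpa using e)
    · simpa using hsq ⟨t, ht⟩ 1 (by simpa using e)
  · rintro x ⟨hx, s, hs, t, ht, hxs, hxt, h1, h2, h3⟩
    obtain ⟨e, d, hd, hdP, rfl⟩ := S.exists_form hG hfree hx
    rcases Int.even_or_odd e with ⟨k, rfl⟩ | he
    · rw [← two_mul, zpow_mul, zpow_two]
      exact mul_mem (zpow_mem (S.sq_beta_mem hG hfree) k) hd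
    exfalso
    have hq : ∀ q ∈ commutator G, Commute (β ^ e * d) q → q * q = 1 := fun q hq hc =>
      S.sq_eq_one_of_comm_pow hG hfree he hq (by
        have := hc.mul_left ((S.data.commute hd hq).inv_left)
        rwa [mul_inv_cancel_right] at this)
    have hsqA : ∀ y ∈ P, Commute (β ^ e * d) y → y * y ≠ 1 → y * y = β ^ e * d * (β ^ e * d) := by
      intro y hy hc hy2
      obtain ⟨f, d', hd', hd'P, rfl⟩ := S.exists_form hG hfree hy
      rcases Int.even_or_odd f with ⟨k, rfl⟩ | hf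
      · exfalso
        refine hy2 (hq _ ?_ hc)
        rw [← two_mul, zpow_mul, zpow_two]
        exact mul_mem (zpow_mem (S.sq_beta_mem hG hfree) k) hd'
      obtain ⟨k, hk⟩ : Even (f - e) := hf.sub_odd he
      set y := β ^ f * d' with hyd
      set x := β ^ e * d with hxd
      have hqA : x⁻¹ * y ∈ commutator G := by
        have e1 : x⁻¹ * y = d⁻¹ * ((β * β) ^ k * d') := by
          rw [hxd, hyd, show f = e + 2 * k by linarith, zpow_add, zpow_mul, zpow_two]; group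
        rw [e1]
        exact mul_mem (inv_mem hd) (mul_mem (zpow_mem (S.sq_beta_mem hG hfree) k) hd')
      have hcq : Commute x (x⁻¹ * y) := (Commute.refl x).inv_right.mul_right hc
      have h1' := hq _ hqA hcq
      calc y * y = x * (x⁻¹ * y) * (x * (x⁻¹ * y)) := by group
        _ = x * x * (x⁻¹ * y * (x⁻¹ * y)) := by
          rw [mul_assoc, ← mul_assoc (x⁻¹ * y), ← hcq.eq]; simp only [mul_assoc]
        _ = x * x := by rw [h1', mul_one]
    exact h3 ((hsqA s hs hxs h1).trans (hsqA t ht hxt h2).symm)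

/-- A mover by an involution leaves only elementary abelian `P`. -/
theorem sq_eq_one_of_mover {g : G} (hg : g ∉ P)
    (hc : g * (a ^ (2 * j) * b * f₀) * g⁻¹ * (a ^ (2 * j) * b * f₀)⁻¹ ∈ commutator G)
    (hc2 : g * (a ^ (2 * j) * b * f₀) * g⁻¹ * (a ^ (2 * j) * b * f₀)⁻¹ *
      (g * (a ^ (2 * j) * b * f₀) * g⁻¹ * (a ^ (2 * j) * b * f₀)⁻¹) = 1)
    (hgd : ∀ d ∈ commutator G, d ∈ P → g * d * g⁻¹ * d⁻¹ ∈ fr P) : ∀ x ∈ P, x * x = 1 := by
  set β := a ^ (2 * j) * b * f₀ with hβ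
  set c := g * β * g⁻¹ * β⁻¹
  have hcP : c ∈ P := S.invol_mem hG R hc hc2
  by_cases hd : ∃ d ∈ commutator G, d ∈ P ∧ d * d ≠ 1
  · obtain ⟨d, hdA, hdP, hd2⟩ := hd
    refine absurd (S.mem_of_char hG hfree R (s₀ := {x | x ∈ P ∧ ∀ y ∈ P, Commute x y}) ?_
      (fun x hx => hx.1) ?_ (Subgroup.subset_closure
        ⟨hcP, fun y hy => (S.invol_comm hG hc hc2 hy).symm⟩) hgd) hg
    · rintro φ - x ⟨-, hx⟩
      refine ⟨SetLike.coe_mem _, fun y hy => ?_⟩
      have : Commute x (φ.symm ⟨y, hy⟩) := Subtype.ext (hx _ (SetLike.coe_mem _))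
      have := congrArg Subtype.val (this.map φ.toMonoidHom).eq
      show _ * _ = _ * _
      simpa using this
    · rintro x ⟨hx, hxc⟩
      obtain ⟨e, d', hd', -, rfl⟩ := S.exists_form hG hfree hx
      rcases Int.even_or_odd e with ⟨k, rfl⟩ | he
      · rw [← two_mul, zpow_mul, zpow_two]
        exact mul_mem (zpow_mem (S.sq_beta_mem hG hfree) k) hd'
      refine absurd (S.sq_eq_one_of_comm_pow hG hfree he hdA ?_) hd2
      have := (hxc d hdP).mul_left ((S.data.commute hd' hdA).inv_left)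
      rwa [mul_inv_cancel_right] at this
  push Not at hd
  by_cases hβ2 : β * β = 1
  · intro x hx
    obtain ⟨e, d, hdA, hdP, rfl⟩ := S.exists_form hG hfree hx
    have hcd : Commute (β ^ e) d := (S.invol_comm hG hdA (hd d hdA hdP) S.mem_beta).zpow_left e
    rw [← zpow_two, hcd.mul_zpow, zpow_two d, hd d hdA hdP, mul_one, ← zpow_mul, mul_comm, zpow_mul,
      zpow_two, hβ2, one_zpow]
  refine absurd (S.mem_of_char hG hfree R (s₀ := {x | x ∈ P ∧ x * x = 1}) ?_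
    (fun x hx => hx.1) ?_ (Subgroup.subset_closure ⟨hcP, hc2⟩) hgd) hg
  · rintro φ - x ⟨-, hx⟩
    refine ⟨SetLike.coe_mem _, ?_⟩
    have := congrArg Subtype.val (congrArg φ (show x * x = 1 from Subtype.ext hx))
    simpa using this
  · rintro x ⟨hx, hx2⟩
    obtain ⟨e, d, hdA, hdP, rfl⟩ := S.exists_form hG hfree hx
    rcases Int.even_or_odd e with ⟨k, rfl⟩ | he
    · rw [← two_mul, zpow_mul, zpow_two]
      exact mul_mem (zpow_mem (S.sq_beta_mem hG hfree) k) hdA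
    exfalso
    have hcd : Commute (β ^ e) d := (S.invol_comm hG hdA (hd d hdA hdP) S.mem_beta).zpow_left e
    refine hβ2 (eq_one_of_zpow_odd hG he ?_)
    rw [← zpow_two, hcd.mul_zpow, zpow_two d, hd d hdA hdP, mul_one, ← zpow_mul, mul_comm, zpow_mul,
      zpow_two] at hx2
    exact hx2

end Small

end CfsgLib.FusionBicyclic
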