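import Cfsg.Agent.Lib.FusionBicyclic.SmallCore

/-!
The small case without an involution congruent to `a ^ n`: normalising movers and squares.
-/

set_option autoImplicit false
set_option linter.unusedSectionVars false
set_option linter.style.haveILetI false

namespace CfsgLib.FusionBicyclic

variable {G : Type*} [Group G] [Finite G]

namespace Data

variable {a b : G} {n : ℕ} (h : Data a b n) (hG : IsPGroup 2 G)
include h hG

/-- The derived subgroup has at least two involutions. -/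
theorem exists_two_invol : ∃ c d : G, c ∈ commutator G ∧ d ∈ commutator G ∧ c * c = 1 ∧ d * d = 1 ∧
    c ≠ 1 ∧ d ≠ 1 ∧ c ≠ d := by
  classical
  haveI : Fact (Nat.Prime 2) := ⟨Nat.prime_two⟩
  have hz : (a ^ n)⁻¹ * a ^ n ∈ sqSub G := by rw [inv_mul_cancel]; exact one_mem _
  have hu1 : uOf a b ≠ 1 := fun e => h.u_not_mem_derR hG (by rw [e]; exact one_mem _)
  obtain ⟨k, hk⟩ := IsPGroup.iff_orderOf.mp hG (uOf a b)
  rcases k with _ | k
  · rw [pow_zero, orderOf_eq_one_iff] at hk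
    exact absurd hk hu1
  set c := uOf a b ^ (2 ^ k)
  have hc2 : c * c = 1 := by rw [← pow_two, ← pow_mul, ← pow_succ, ← hk, pow_orderOf_eq_one]
  have hc1 : c ≠ 1 := fun e => by
    have h1 := Nat.le_of_dvd (Nat.two_pow_pos _) (orderOf_dvd_of_pow_eq_one e)
    rw [hk, pow_succ] at h1
    have := Nat.two_pow_pos k
    omega
  -- the least power of `a ^ n` in `⟨u⟩`
  obtain ⟨kz, hkz⟩ := IsPGroup.iff_orderOf.mp hG (a ^ n)
  have hex : ∃ e : ℕ, (a ^ n) ^ (2 ^ e) ∈ Subgroup.zpowers (uOf a b) :=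
    ⟨kz, by rw [← hkz, pow_orderOf_eq_one]; exact one_mem _⟩
  set e := Nat.find hex with he
  have hcyc : ∀ g ∈ commutator G, g ∈ Subgroup.zpowers (uOf a b) → a ^ n ∈ Subgroup.zpowers g →
      uOf a b ∈ Subgroup.zpowers g → False := by
    intro g hg _ h1 h2
    refine h.noncyclic ?_
    have heq : commutator G = Subgroup.zpowers g := by
      refine le_antisymm (fun f hf => ?_) (Subgroup.zpowers_le.mpr hg)
      obtain ⟨x, y, rfl⟩ := h.exists_repr hG hf
      exact mul_mem (zpow_mem h2 _) (zpow_mem h1 _)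
    rw [heq]
    infer_instance
  obtain ⟨x, hx⟩ := Nat.find_spec hex
  have hx' : uOf a b ^ x = (a ^ n) ^ (2 ^ e) := hx
  rcases Nat.eq_zero_or_pos e with h0 | hepos
  · exfalso
    refine hcyc _ h.u_mem (Subgroup.mem_zpowers _) ⟨x, ?_⟩ (Subgroup.mem_zpowers _)
    rw [h0, pow_zero, pow_one] at hx'
    exact hx'
  obtain ⟨e', he'⟩ : ∃ e', e = e' + 1 := ⟨e - 1, by omega⟩
  rcases Int.even_or_odd x with ⟨x', rfl⟩ | hodd
  · refine ⟨c, (a ^ n) ^ (2 ^ e') * uOf a b ^ (-x'), Subgroup.pow_mem _ h.u_mem _,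
      mul_mem (Subgroup.pow_mem _ h.pow_mem _) (zpow_mem h.u_mem _), hc2, ?_, hc1, ?_, ?_⟩
    · rw [← zpow_two, h.mul_zpow' (Subgroup.pow_mem _ h.pow_mem _) (zpow_mem h.u_mem _), zpow_two, ← pow_add,
        ← two_mul, ← pow_succ', ← he', ← hx', ← zpow_mul, ← zpow_add,
        show x' + x' + -x' * 2 = 0 by ring, zpow_zero]
    · intro hd
      refine Nat.find_min hex (by omega : e' < e) ⟨x', ?_⟩
      show uOf a b ^ x' = _
      rw [eq_inv_of_mul_eq_one_left hd, zpow_neg, inv_inv]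
    · intro hd
      refine Nat.find_min hex (by omega : e' < e) ⟨(2 ^ k : ℕ) + x', ?_⟩
      show uOf a b ^ (((2 ^ k : ℕ) : ℤ) + x') = _
      rw [zpow_add, zpow_natCast, show uOf a b ^ (2 ^ k) = c from rfl, hd, mul_assoc, ← zpow_add,
        neg_add_cancel, zpow_zero, mul_one]
  · exfalso
    refine h.u_not_mem_derR hG ((Subgroup.zpowers_le.mpr (h.pow_mem_derR hG)) ?_)
    refine mem_of_zpow_odd hG hodd ?_
    rw [hx']
    exact Subgroup.pow_mem _ (Subgroup.mem_zpowers _) _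

/-- Without an involution congruent to `a ^ n` every involution of the derived subgroup is a
square. -/
theorem invol_mem_sqSub (hno : ∀ o ∈ commutator G, o * o = 1 → (a ^ n)⁻¹ * o ∉ sqSub G) {c : G}
    (hc : c ∈ commutator G) (hc2 : c * c = 1) : c ∈ sqSub G := by
  set π := QuotientGroup.mk' (sqSub G)
  have hsq : ∀ g ∈ commutator G, ∀ s : ℤ, π (g ^ (2 * s)) = 1 := fun g hg s =>
    (QuotientGroup.eq_one_iff _).mpr (by rw [zpow_mul, zpow_two]; exact zpow_mem (sq_mem_sqSub hg) s)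
  have hcong : ∀ g ∈ commutator G, g * g = 1 → π g ≠ π (a ^ n) := fun g hg hg2 e =>
    hno g hg hg2 (QuotientGroup.eq.mp e.symm)
  obtain ⟨x, y, rfl⟩ := h.exists_repr hG hc
  obtain ⟨l, m, hl, hm, hlm⟩ := h.exists_conj hG
  rcases Int.even_or_odd x with ⟨x', hx⟩ | ⟨x', hx⟩
  · rcases Int.even_or_odd y with ⟨y', hy⟩ | ⟨y', hy⟩
    · rw [← QuotientGroup.eq_one_iff]
      show π _ = 1
      rw [map_mul, hx, hy, ← two_mul, ← two_mul, hsq _ h.u_mem, hsq _ h.pow_mem, mul_one]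
    · refine absurd ?_ (hcong _ hc hc2)
      rw [map_mul, hx, ← two_mul, hsq _ h.u_mem, one_mul, hy, zpow_add_one, map_mul,
        hsq _ h.pow_mem, one_mul]
  · exfalso
    have hw2 := h.w_zpow_eq_one_of_sq hG hc2
    refine hcong (wOf a b ^ x) (zpow_mem h.w_mem _) (by rw [← zpow_add, ← two_mul]; exact hw2) ?_
    obtain ⟨q, hq⟩ := hl.sub_odd odd_one
    obtain ⟨m', hm'⟩ := hm
    rw [hx, zpow_add_one, map_mul, hsq _ h.w_mem, one_mul, (h.conj_w hG hlm).1, map_mul, hq,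
      ← two_mul, hsq _ h.u_mem, one_mul, hm', zpow_add_one, map_mul, hsq _ h.pow_mem, one_mul]

end Data

namespace Small

variable {a b : G} {n : ℕ} {P : Subgroup G} {j : ℤ} {f₀ : G} (S : Small a b n P j f₀)
  (hG : IsPGroup 2 G) (hfree : ∀ i : ℤ, ∀ f ∈ commutator G,
    a ^ (2 * i) * f ∈ P → a ^ (2 * i) * f ∈ commutator G)
include S hG hfree

theorem mem_normalizer_of_gens {g : G}
    (hβ : g * (a ^ (2 * j) * b * f₀) * g⁻¹ ∈ P)
    (hd : ∀ d ∈ commutator G, d ∈ P → g * d * g⁻¹ ∈ P) : g ∈ Subgroup.normalizer (P : Set G) := by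
  refine mem_normalizer_of_move fun x hx => ?_
  obtain ⟨e, d, hdA, hdP, rfl⟩ := S.exists_form hG hfree hx
  refine P.mul_mem ?_ (P.inv_mem hx)
  rw [show g * ((a ^ (2 * j) * b * f₀) ^ e * d) * g⁻¹ =
    g * (a ^ (2 * j) * b * f₀) ^ e * g⁻¹ * (g * d * g⁻¹) by group, ← conj_zpow]
  exact P.mul_mem (P.zpow_mem hβ e) (hd d hdA hdP)

end Small

end CfsgLib.FusionBicyclic
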