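import Cfsg.Agent.Lib.FusionBicyclic.Chain

/-!
The action on the noncyclic derived subgroup `A = ⟨u, a ^ n⟩` of a bicyclic `2`-group.
-/

set_option autoImplicit false
set_option linter.unusedSectionVars false
set_option linter.style.haveILetI false

namespace CfsgLib.FusionBicyclic

open scoped commutatorElement

variable {G : Type*} [Group G]

/-- The commutator of the two generators. -/
def uOf (a b : G) : G := a * b * a⁻¹ * b⁻¹

/-- The commutator of `a` with `uOf a b`. -/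
def wOf (a b : G) : G := a * uOf a b * a⁻¹ * (uOf a b)⁻¹

theorem conj_zmul (g x y : G) (i j : ℤ) :
    g * (x ^ i * y ^ j) * g⁻¹ = (g * x * g⁻¹) ^ i * (g * y * g⁻¹) ^ j := by
  rw [conj_zpow, conj_zpow]; group

theorem eq_one_of_zpow_odd [Finite G] (hG : IsPGroup 2 G) {x : G} {m : ℤ} (hm : Odd m)
    (h : x ^ m = 1) : x = 1 := by
  haveI : Fact (Nat.Prime 2) := ⟨Nat.prime_two⟩
  obtain ⟨k, hk⟩ := IsPGroup.iff_orderOf.mp hG x
  have hdvd := orderOf_dvd_iff_zpow_eq_one.mpr h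
  rw [hk] at hdvd
  rcases k with _ | k
  · rwa [pow_zero, orderOf_eq_one_iff] at hk
  · exfalso
    have h2 : (2 : ℤ) ∣ m :=
      (show (2 : ℤ) ∣ ((2 ^ (k + 1) : ℕ) : ℤ) by exact_mod_cast dvd_pow_self 2 k.succ_ne_zero).trans hdvd
    exact Int.not_even_iff_odd.mpr hm (even_iff_two_dvd.mpr h2)

theorem zpow_odd_inj [Finite G] (hG : IsPGroup 2 G) {x y : G} (hxy : Commute x y) {m : ℤ}
    (hm : Odd m) (h : x ^ m = y ^ m) : x = y := by
  refine mul_inv_eq_one.mp (eq_one_of_zpow_odd hG hm ?_)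
  rw [hxy.inv_right.mul_zpow, inv_zpow, h, mul_inv_cancel]

theorem mem_of_zpow_odd [Finite G] (hG : IsPGroup 2 G) {H : Subgroup G} {x : G} {m : ℤ} (hm : Odd m)
    (h : x ^ m ∈ H) : x ∈ H := by
  haveI : Fact (Nat.Prime 2) := ⟨Nat.prime_two⟩
  obtain ⟨k, hk⟩ := IsPGroup.iff_orderOf.mp hG x
  have hcop : IsCoprime m ((orderOf x : ℕ) : ℤ) := by
    rw [hk, Nat.cast_pow]
    exact (Int.prime_two.coprime_iff_not_dvd.mpr
      (fun h2 => Int.not_even_iff_odd.mpr hm (even_iff_two_dvd.mpr h2))).symm.pow_right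
  obtain ⟨s, t, hst⟩ := hcop
  have : (x ^ m) ^ s = x := by
    rw [← zpow_mul, show m * s = 1 - t * (orderOf x : ℤ) by linarith, zpow_sub, zpow_one,
      mul_comm t, zpow_mul, zpow_natCast, pow_orderOf_eq_one, one_zpow, inv_one, mul_one]
  exact this ▸ zpow_mem h s

namespace Data

variable {a b : G} {n : ℕ} (h : Data a b n)
include h

theorem u_mem : uOf a b ∈ commutator G := comm_mem a b

theorem w_mem_derR : wOf a b ∈ derR G := commElt_mem_derR h.u_mem a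

theorem w_mem : wOf a b ∈ commutator G := derR_le h.w_mem_derR

theorem commute {f g : G} (hf : f ∈ commutator G) (hg : g ∈ commutator G) : Commute f g :=
  h.comm f hf g hg

theorem mul_zpow' {f g : G} (hf : f ∈ commutator G) (hg : g ∈ commutator G) (k : ℤ) :
    (f * g) ^ k = f ^ k * g ^ k :=
  (h.commute hf hg).mul_zpow k

theorem mem_sqSub_iff {g : G} : g ∈ sqSub G ↔ ∃ f ∈ commutator G, f * f = g := by
  refine ⟨fun hg => ?_, fun ⟨f, hf, e⟩ => e ▸ sq_mem_sqSub hf⟩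
  induction hg using Subgroup.closure_induction with
  | mem x hx => exact hx
  | one => exact ⟨1, one_mem _, one_mul 1⟩
  | mul x y _ _ ihx ihy =>
    obtain ⟨f, hf, rfl⟩ := ihx
    obtain ⟨g, hg, rfl⟩ := ihy
    refine ⟨f * g, mul_mem hf hg, ?_⟩
    calc f * g * (f * g) = f * (g * f) * g := by simp only [mul_assoc]
      _ = _ := by rw [(h.commute hg hf).eq]; simp only [mul_assoc]
  | inv x _ ih =>
    obtain ⟨f, hf, rfl⟩ := ih
    exact ⟨f⁻¹, inv_mem hf, by rw [mul_inv_rev]⟩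

variable [Finite G] (hG : IsPGroup 2 G)
include hG

theorem not_le_derR : ¬ commutator G ≤ derR G := by
  intro hle
  haveI : Fact (Nat.Prime 2) := ⟨Nat.prime_two⟩
  haveI := hG.isNilpotent
  have h2 := le_of_le_sup_commutator (M := sqSub G) (V := commutator G) hle
  refine h.noncyclic ?_
  rw [eq_bot_iff.mpr ((le_of_le_sup_sqSub hG h.comm (M := ⊥) bot_le (h2.trans le_sup_right)))]
  infer_instance

theorem derR_not_le : ¬ derR G ≤ sqSub G := by
  intro hle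
  refine h.noncyclic ?_
  have hle' : commutator G ≤ Subgroup.zpowers (uOf a b) :=
    le_of_le_sup_sqSub hG h.comm (Subgroup.zpowers_le.mpr h.u_mem)
      ((commutator_le_zpowers_sup h.gen).trans (sup_le_sup_left hle _))
  rw [le_antisymm hle' (Subgroup.zpowers_le.mpr h.u_mem)]
  infer_instance

theorem u_not_mem_derR : uOf a b ∉ derR G := fun hu =>
  h.not_le_derR hG ((commutator_le_zpowers_sup h.gen).trans
    (sup_le (Subgroup.zpowers_le.mpr hu) le_rfl))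

theorem even_of_zpow_mem {x : ℤ} (hx : uOf a b ^ x ∈ derR G) : Even x := by
  rcases Int.even_or_odd x with he | ho
  · exact he
  · exact absurd (mem_of_zpow_odd hG ho hx) (h.u_not_mem_derR hG)

theorem derR_le_w : derR G ≤ Subgroup.zpowers (wOf a b) ⊔ sqSub G :=
  (derR_le_zpowers_sup h.gen h.sq).trans (sup_le_sup_left h.chain _)

theorem w_not_mem_sq : wOf a b ∉ sqSub G := fun hw =>
  h.derR_not_le hG ((h.derR_le_w hG).trans (sup_le (Subgroup.zpowers_le.mpr hw) le_rfl))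

theorem pow_mem_derR : a ^ n ∈ derR G := by
  obtain ⟨_, ⟨e, rfl⟩, r, hr, hfe⟩ :=
    Subgroup.mem_sup_of_normal_right.mp (commutator_le_zpowers_sup h.gen h.pow_mem)
  simp only at hfe
  rcases Int.even_or_odd e with ⟨t, rfl⟩ | he
  · rw [← hfe]
    refine mul_mem ?_ hr
    rw [← two_mul, zpow_mul, zpow_two]
    exact zpow_mem (Subgroup.mem_sup_left (sq_mem_sqSub h.u_mem)) t
  · exfalso
    have hfix : a * a ^ n * a⁻¹ = a ^ n := by rw [← pow_succ', pow_succ, mul_inv_cancel_right]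
    set π := QuotientGroup.mk' (sqSub G)
    have hr' : π (a * r * a⁻¹ * r⁻¹) = 1 :=
      (QuotientGroup.eq_one_iff _).mpr (h.chain (commElt_mem_derL3 hr a))
    have h1 : a * (uOf a b ^ e * r) * a⁻¹ * (uOf a b ^ e * r)⁻¹ =
        (a * uOf a b ^ e * a⁻¹) * (a * r * a⁻¹ * r⁻¹) * (uOf a b ^ e)⁻¹ := by group
    rw [show uOf a b ^ e * r = a ^ n from hfe, hfix, mul_inv_cancel, ← conj_zpow] at h1
    have h2 := congrArg π h1
    rw [map_one, map_mul π, map_mul π, hr', mul_one, ← map_mul] at h2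
    have h3 : (a * uOf a b * a⁻¹) ^ e * (uOf a b ^ e)⁻¹ = wOf a b ^ e := by
      rw [← inv_zpow, ← h.mul_zpow' ((inferInstance : (commutator G).Normal).conj_mem _ h.u_mem a)
        (inv_mem h.u_mem)]
      rfl
    rw [h3] at h2
    exact h.w_not_mem_sq hG (mem_of_zpow_odd hG he ((QuotientGroup.eq_one_iff _).mp h2.symm))

theorem derR_le_pow : derR G ≤ Subgroup.zpowers (a ^ n) ⊔ sqSub G := by
  refine (h.derR_le_w hG).trans (sup_le (Subgroup.zpowers_le.mpr ?_) le_sup_right)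
  obtain ⟨_, ⟨e, rfl⟩, r, hr, hfe⟩ :=
    Subgroup.mem_sup_of_normal_right.mp (h.derR_le_w hG (h.pow_mem_derR hG))
  simp only at hfe
  have he : Odd e := by
    rcases Int.even_or_odd e with ⟨t, rfl⟩ | he
    · refine absurd ?_ h.top
      rw [← hfe, ← two_mul, zpow_mul, zpow_two]
      exact mul_mem (zpow_mem (sq_mem_sqSub h.w_mem) t) hr
    · exact he
  refine mem_of_zpow_odd hG he ?_
  have : wOf a b ^ e = a ^ n * r⁻¹ := by rw [← hfe, mul_inv_cancel_right]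
  rw [this]
  exact mul_mem (Subgroup.mem_sup_left (Subgroup.mem_zpowers _)) (Subgroup.mem_sup_right (inv_mem hr))

/-- Every element of the derived subgroup is `u ^ x * (a ^ n) ^ y`. -/
theorem exists_repr {f : G} (hf : f ∈ commutator G) :
    ∃ x y : ℤ, f = uOf a b ^ x * (a ^ n) ^ y := by
  have hM : Subgroup.zpowers (uOf a b) ⊔ Subgroup.zpowers (a ^ n) ≤ commutator G :=
    sup_le (Subgroup.zpowers_le.mpr h.u_mem) (Subgroup.zpowers_le.mpr h.pow_mem)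
  have hle := le_of_le_sup_sqSub hG h.comm hM
    ((commutator_le_zpowers_sup h.gen).trans (sup_le (le_sup_of_le_left le_sup_left)
      ((h.derR_le_pow hG).trans (sup_le_sup_right le_sup_right _))))
  have hcl : Subgroup.zpowers (uOf a b) ⊔ Subgroup.zpowers (a ^ n) ≤
      Subgroup.closure ({uOf a b, a ^ n} : Set G) :=
    sup_le (Subgroup.zpowers_le.mpr (Subgroup.subset_closure (Or.inl rfl)))
      (Subgroup.zpowers_le.mpr (Subgroup.subset_closure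
        (show a ^ n ∈ ({uOf a b, a ^ n} : Set G) from Or.inr rfl)))
  have hmem := hcl (hle hf)
  clear hf
  have hc : ∀ (s t : ℤ), Commute (uOf a b ^ s) ((a ^ n) ^ t) := fun s t =>
    h.commute (zpow_mem h.u_mem s) (zpow_mem h.pow_mem t)
  induction hmem using Subgroup.closure_induction with
  | mem g hg =>
    rcases hg with rfl | rfl
    · exact ⟨1, 0, by simp⟩
    · exact ⟨0, 1, by simp⟩
  | one => exact ⟨0, 0, by simp⟩
  | mul p q _ _ hp hq =>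
    obtain ⟨x, y, rfl⟩ := hp
    obtain ⟨x', y', rfl⟩ := hq
    refine ⟨x + x', y + y', ?_⟩
    calc uOf a b ^ x * (a ^ n) ^ y * (uOf a b ^ x' * (a ^ n) ^ y')
        = uOf a b ^ x * ((a ^ n) ^ y * uOf a b ^ x') * (a ^ n) ^ y' := by simp only [mul_assoc]
      _ = _ := by rw [← (hc x' y).eq, zpow_add, zpow_add]; simp only [mul_assoc]
  | inv p _ hp =>
    obtain ⟨x, y, rfl⟩ := hp
    exact ⟨-x, -y, by rw [(hc x y).eq, mul_inv_rev, zpow_neg, zpow_neg]⟩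

/-- The action of `a` on `u`. -/
theorem exists_conj :
    ∃ l m : ℤ, Odd l ∧ Odd m ∧ a * uOf a b * a⁻¹ = uOf a b ^ l * (a ^ n) ^ m := by
  obtain ⟨_, ⟨e, rfl⟩, r, hr, hfe⟩ :=
    Subgroup.mem_sup_of_normal_right.mp (h.derR_le_pow hG h.w_mem_derR)
  simp only at hfe
  obtain ⟨t, ht⟩ : Odd e := by
    rcases Int.even_or_odd e with ⟨t, rfl⟩ | he
    · refine absurd ?_ (h.w_not_mem_sq hG)
      rw [← hfe, ← two_mul, zpow_mul, zpow_two]
      exact mul_mem (zpow_mem (sq_mem_sqSub h.pow_mem) t) hr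
    · exact he
  obtain ⟨f, hf, rfl⟩ := h.mem_sqSub_iff.mp hr
  obtain ⟨x, y, rfl⟩ := h.exists_repr hG hf
  refine ⟨2 * x + 1, e + 2 * y, ⟨x, rfl⟩, ⟨t + y, by rw [ht]; ring⟩, ?_⟩
  have he : a * uOf a b * a⁻¹ = wOf a b * uOf a b := (inv_mul_cancel_right _ _).symm
  rw [he, ← hfe, ← zpow_two (uOf a b ^ x * (a ^ n) ^ y),
    h.mul_zpow' (zpow_mem h.u_mem _) (zpow_mem h.pow_mem _), ← zpow_mul, ← zpow_mul]
  set u := uOf a b
  set z := a ^ n
  have hc : ∀ s k : ℤ, Commute (u ^ s) (z ^ k) := fun s k =>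
    h.commute (zpow_mem h.u_mem s) (zpow_mem h.pow_mem k)
  calc z ^ e * (u ^ (x * 2) * z ^ (y * 2)) * u
      = z ^ e * u ^ (x * 2) * (z ^ (y * 2) * u ^ (1 : ℤ)) := by rw [zpow_one]; simp only [mul_assoc]
    _ = u ^ (x * 2) * (z ^ e * u ^ (1 : ℤ)) * z ^ (y * 2) := by
        rw [← (hc (x * 2) e).eq, ← (hc 1 (y * 2)).eq]; simp only [mul_assoc]
    _ = u ^ (2 * x + 1) * z ^ (e + 2 * y) := by
        rw [← (hc 1 e).eq, zpow_add, zpow_add, mul_comm x 2, mul_comm y 2]; simp only [mul_assoc]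

theorem conj_w {l m : ℤ} (hlm : a * uOf a b * a⁻¹ = uOf a b ^ l * (a ^ n) ^ m) :
    wOf a b = uOf a b ^ (l - 1) * (a ^ n) ^ m ∧ a * wOf a b * a⁻¹ = wOf a b ^ l := by
  set u := uOf a b
  set z := a ^ n with hz
  have hc : ∀ s k : ℤ, Commute (u ^ s) (z ^ k) := fun s k =>
    h.commute (zpow_mem h.u_mem s) (zpow_mem h.pow_mem k)
  have hw : wOf a b = u ^ (l - 1) * z ^ m := by
    show a * u * a⁻¹ * u⁻¹ = _
    rw [hlm, mul_assoc, ← zpow_neg_one u, ← (hc (-1) m).eq, ← mul_assoc, ← zpow_add, ← sub_eq_add_neg]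
  refine ⟨hw, ?_⟩
  have hfix : a * z * a⁻¹ = z := by rw [hz, ← pow_succ', pow_succ, mul_inv_cancel_right]
  rw [hw, conj_zmul, hlm, hfix, h.mul_zpow' (zpow_mem h.u_mem _) (zpow_mem h.pow_mem _),
    h.mul_zpow' (zpow_mem h.u_mem _) (zpow_mem h.pow_mem _), ← zpow_mul, ← zpow_mul, ← zpow_mul,
    mul_assoc, ← zpow_add, mul_comm l (l - 1), show m * (l - 1) + m = m * l by ring, zpow_mul (a ^ n) m l]

/-- The action of `b` on the derived subgroup. -/
theorem exists_conj_b : ∃ k : ℤ, ∀ x y : ℤ,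
    b * (uOf a b ^ x * (a ^ n) ^ y) * b⁻¹ = (uOf a b ^ x * (a ^ n) ^ y)⁻¹ * wOf a b ^ (2 * k * x) := by
  obtain ⟨x₀, y₀, hc⟩ := h.exists_repr hG (derR_le h.sq)
  obtain ⟨k, hk⟩ : Even x₀ := by
    refine h.even_of_zpow_mem hG ?_
    have : uOf a b ^ x₀ = b * b * ((a ^ n) ^ y₀)⁻¹ := by rw [hc, mul_inv_cancel_right]
    rw [this]
    exact mul_mem h.sq (inv_mem (zpow_mem (h.pow_mem_derR hG) _))
  obtain ⟨l, m, hl, hm, hlm⟩ := h.exists_conj hG
  obtain ⟨hw, hTw⟩ := h.conj_w hG hlm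
  set u := uOf a b with hu
  set z := a ^ n with hz
  set w := wOf a b with hwdef
  have hn : (commutator G).Normal := inferInstance
  have hfix : a * z * a⁻¹ = z := by rw [hz, ← pow_succ', pow_succ, mul_inv_cancel_right]
  have hTu : a * u * a⁻¹ = w * u := (inv_mul_cancel_right _ _).symm
  -- `u * (b u b⁻¹) = w ^ x₀`
  have hbu : b * u * b⁻¹ = u⁻¹ * w ^ x₀ := by
    have h1 : u * (b * u * b⁻¹) = a * (b * b) * a⁻¹ * (b * b)⁻¹ := by
      show a * b * a⁻¹ * b⁻¹ * (b * (a * b * a⁻¹ * b⁻¹) * b⁻¹) = _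
      group
    have h2 : a * (b * b) * a⁻¹ * (b * b)⁻¹ = w ^ x₀ := by
      rw [hc, conj_zmul, hfix, hTu, h.mul_zpow' h.w_mem h.u_mem, mul_inv_rev]
      rw [show uOf a b = u from rfl, show wOf a b = w from rfl]; group
    rw [← h2, ← h1, inv_mul_cancel_left]
  have hbz : b * z * b⁻¹ = z⁻¹ := by
    have hTb : ∀ f ∈ commutator G, b * (a * f * a⁻¹) * b⁻¹ = a * (b * f * b⁻¹) * a⁻¹ := by
      intro f hf
      have hk : b * a = u⁻¹ * (a * b) := by rw [hu, uOf]; group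
      calc b * (a * f * a⁻¹) * b⁻¹ = b * a * f * (b * a)⁻¹ := by group
        _ = u⁻¹ * (a * (b * f * b⁻¹) * a⁻¹) * u := by rw [hk]; group
        _ = _ := by
            rw [mul_assoc, (h.commute (hn.conj_mem _ (hn.conj_mem f hf b) a) h.u_mem).eq,
              inv_mul_cancel_left]
    -- apply `b` to `a u a⁻¹ = u ^ l * z ^ m`
    have h1 : b * (a * u * a⁻¹) * b⁻¹ = (u ^ l)⁻¹ * w ^ (x₀ * l) * (b * z * b⁻¹) ^ m := by
      rw [hlm, conj_zmul, hbu, h.mul_zpow' (inv_mem h.u_mem) (zpow_mem h.w_mem _), inv_zpow, ← zpow_mul]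
    have h2 : a * (b * u * b⁻¹) * a⁻¹ = (u ^ l)⁻¹ * (z ^ m)⁻¹ * w ^ (x₀ * l) := by
      rw [hbu]
      calc a * (u⁻¹ * w ^ x₀) * a⁻¹ = (a * u * a⁻¹)⁻¹ * (a * w ^ x₀ * a⁻¹) := by group
        _ = _ := by
            rw [← conj_zpow, hTw, hlm, ← zpow_mul, mul_comm l x₀, mul_inv_rev,
              (h.commute (inv_mem (zpow_mem h.pow_mem m)) (inv_mem (zpow_mem h.u_mem l))).eq]
    have h3 := hTb u h.u_mem
    rw [h1, h2] at h3
    have hbzA : b * z * b⁻¹ ∈ commutator G := hn.conj_mem z h.pow_mem b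
    refine zpow_odd_inj hG (h.commute hbzA (inv_mem h.pow_mem)) hm ?_
    rw [inv_zpow]
    refine mul_left_cancel (a := (u ^ l)⁻¹ * w ^ (x₀ * l)) ?_
    rw [h3, mul_assoc, mul_assoc, (h.commute (inv_mem (zpow_mem h.pow_mem m)) (zpow_mem h.w_mem _)).eq]
  refine ⟨k, fun x y => ?_⟩
  rw [conj_zmul, hbu, hbz, h.mul_zpow' (inv_mem h.u_mem) (zpow_mem h.w_mem _), ← zpow_mul, inv_zpow,
    inv_zpow, mul_inv_rev, hk, show (k + k) * x = 2 * k * x by ring, mul_assoc,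
    (h.commute (zpow_mem h.w_mem _) (inv_mem (zpow_mem h.pow_mem y))).eq, ← mul_assoc,
    (h.commute (inv_mem (zpow_mem h.u_mem x)) (inv_mem (zpow_mem h.pow_mem y))).eq]

/-- The action of `a`. -/
theorem conj_a (x y : ℤ) : a * (uOf a b ^ x * (a ^ n) ^ y) * a⁻¹ =
    uOf a b ^ x * (a ^ n) ^ y * wOf a b ^ x := by
  have hfix : a * a ^ n * a⁻¹ = a ^ n := by rw [← pow_succ', pow_succ, mul_inv_cancel_right]
  have hTu : a * uOf a b * a⁻¹ = uOf a b * wOf a b :=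
    (inv_mul_cancel_right _ _).symm.trans (h.commute h.w_mem h.u_mem).eq
  rw [conj_zmul, hfix, hTu, h.mul_zpow' h.u_mem h.w_mem, mul_assoc, mul_assoc,
    (h.commute (zpow_mem h.w_mem _) (zpow_mem h.pow_mem _)).eq]

/-- Even powers of `a` move by squares of powers of `w`. -/
theorem exists_conj_even (i : ℤ) : ∃ c : ℤ, ∀ x y : ℤ,
    a ^ (2 * i) * (uOf a b ^ x * (a ^ n) ^ y) * (a ^ (2 * i))⁻¹ =
      uOf a b ^ x * (a ^ n) ^ y * wOf a b ^ (2 * c * x) := by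
  obtain ⟨l, m, ⟨s, hs⟩, hm, hlm⟩ := h.exists_conj hG
  obtain ⟨-, hTw⟩ := h.conj_w hG hlm
  have hT2w : ∀ e : ℤ, a ^ (2 : ℤ) * wOf a b ^ e * (a ^ (2 : ℤ))⁻¹ = wOf a b ^ (l * l * e) := by
    intro e
    calc a ^ (2 : ℤ) * wOf a b ^ e * (a ^ (2 : ℤ))⁻¹ = a * (a * wOf a b ^ e * a⁻¹) * a⁻¹ := by
          rw [zpow_two]; group
      _ = _ := by rw [← conj_zpow, hTw, ← zpow_mul, ← conj_zpow, hTw, ← zpow_mul, mul_assoc]
  have hnat : ∀ j : ℕ, ∃ c : ℤ, ∀ x y : ℤ,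
      a ^ (2 * (j : ℤ)) * (uOf a b ^ x * (a ^ n) ^ y) * (a ^ (2 * (j : ℤ)))⁻¹ =
        uOf a b ^ x * (a ^ n) ^ y * wOf a b ^ (2 * c * x) := by
    intro j
    induction j with
    | zero => exact ⟨0, fun x y => by simp⟩
    | succ j ih =>
      obtain ⟨c, hc⟩ := ih
      refine ⟨s + 1 + l * l * c, fun x y => ?_⟩
      set f := uOf a b ^ x * (a ^ n) ^ y with hf
      have h2 : a ^ (2 : ℤ) * f * (a ^ (2 : ℤ))⁻¹ = f * wOf a b ^ ((1 + l) * x) := by
        calc a ^ (2 : ℤ) * f * (a ^ (2 : ℤ))⁻¹ = a * (a * f * a⁻¹) * a⁻¹ := by rw [zpow_two]; group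
          _ = a * (f * wOf a b ^ x) * a⁻¹ := by rw [h.conj_a hG]
          _ = a * f * a⁻¹ * (a * wOf a b ^ x * a⁻¹) := by group
          _ = _ := by rw [h.conj_a hG, ← conj_zpow, hTw, ← zpow_mul, mul_assoc, ← zpow_add, ← one_add_mul]
      calc a ^ (2 * ((j + 1 : ℕ) : ℤ)) * f * (a ^ (2 * ((j + 1 : ℕ) : ℤ)))⁻¹
          = a ^ (2 : ℤ) * (a ^ (2 * (j : ℤ)) * f * (a ^ (2 * (j : ℤ)))⁻¹) * (a ^ (2 : ℤ))⁻¹ := by
            clear_value f; push_cast; group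
        _ = (a ^ (2 : ℤ) * f * (a ^ (2 : ℤ))⁻¹) *
              (a ^ (2 : ℤ) * wOf a b ^ (2 * c * x) * (a ^ (2 : ℤ))⁻¹) := by
            rw [hf, hc]; group
        _ = _ := by
            rw [h2, hT2w, mul_assoc, ← zpow_add]
            congr 2
            rw [hs]; ring
  obtain ⟨c, hc⟩ := hnat (i % (orderOf (a ^ (2 : ℤ)) : ℤ)).toNat
  refine ⟨c, fun x y => ?_⟩
  have hpos : (0 : ℤ) < (orderOf (a ^ (2 : ℤ)) : ℤ) := by exact_mod_cast orderOf_pos _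
  have he : a ^ (2 * ((i % (orderOf (a ^ (2 : ℤ)) : ℤ)).toNat : ℤ)) = a ^ (2 * i) := by
    rw [Int.toNat_of_nonneg (Int.emod_nonneg _ hpos.ne'), zpow_mul, zpow_mul]
    exact zpow_mod_orderOf _ _
  rw [← he]
  exact hc x y

theorem exists_pow_two : ∃ r : ℕ, 2 ≤ r ∧ n = 2 ^ r := by
  haveI : Fact (Nat.Prime 2) := ⟨Nat.prime_two⟩
  obtain ⟨k, hk⟩ := IsPGroup.iff_orderOf.mp hG a
  have hdvd : (n : ℤ) ∣ (orderOf a : ℤ) :=
    ((h.mem_iff (orderOf a) 0).mp (by simp [pow_orderOf_eq_one])).1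
  rw [hk] at hdvd
  obtain ⟨r, -, hr⟩ := (Nat.dvd_prime_pow Nat.prime_two).mp (by exact_mod_cast hdvd)
  refine ⟨r, ?_, hr⟩
  by_contra hlt
  have h4 := Nat.le_of_dvd h.pos h.four
  rw [hr] at h4
  interval_cases r <;> norm_num at h4

/-- Commutators `[a ^ 2 ^ i, b]`. -/
theorem exists_delta {l m : ℤ} (hl : Odd l) (hm : Odd m)
    (hlm : a * uOf a b * a⁻¹ = uOf a b ^ l * (a ^ n) ^ m) (i : ℕ) (hi : 1 ≤ i) :
    ∃ X Y α β : ℤ, a ^ 2 ^ i * uOf a b * (a ^ 2 ^ i)⁻¹ = uOf a b ^ X * (a ^ n) ^ Y ∧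
      a ^ 2 ^ i * b * (a ^ 2 ^ i)⁻¹ * b⁻¹ = uOf a b ^ α * (a ^ n) ^ β ∧
      Odd X ∧ Even Y ∧ Even α ∧ (2 ≤ i → 4 ∣ α ∧ Even β) ∧ (3 ≤ i → 4 ∣ β) ∧
      (4 ∣ l - 1 → 4 ∣ X - 1 ∧ ∃ o : ℤ, Odd o ∧ α = 2 ^ i * o) := by
  set u := uOf a b with hu
  set z := a ^ n with hz
  have hfix : a * z * a⁻¹ = z := by rw [hz, ← pow_succ', pow_succ, mul_inv_cancel_right]
  induction i with
  | zero => omega
  | succ i ih =>
    rcases Nat.eq_zero_or_pos i with rfl | hipos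
    · refine ⟨l * l, m * (l + 1), 1 + l, m, ?_, ?_, hl.mul hl, (hl.add_odd odd_one).mul_left m,
        odd_one.add_odd hl, by omega, by omega, fun h4 => ⟨?_, ?_⟩⟩
      · calc a ^ 2 ^ (0 + 1) * u * (a ^ 2 ^ (0 + 1))⁻¹ = a * (a * u * a⁻¹) * a⁻¹ := by
              rw [zero_add, pow_one, pow_two]; group
          _ = _ := by
              rw [hlm, conj_zmul, hlm, hfix, h.mul_zpow' (zpow_mem h.u_mem _) (zpow_mem h.pow_mem _),
                ← zpow_mul, ← zpow_mul, mul_assoc, ← zpow_add, mul_add, mul_one]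
      · calc a ^ 2 ^ (0 + 1) * b * (a ^ 2 ^ (0 + 1))⁻¹ * b⁻¹ = (a * u * a⁻¹) * u := by
              rw [zero_add, pow_one, pow_two, hu, uOf]; simp only [mul_inv_rev, mul_assoc, inv_mul_cancel_left]
          _ = _ := by
              rw [hlm, mul_assoc, (h.commute (zpow_mem h.pow_mem m) h.u_mem).eq, ← mul_assoc,
                ← zpow_add_one, add_comm]
      · obtain ⟨t, ht⟩ := h4
        exact ⟨t * (l + 1), by rw [show l * l - 1 = (l - 1) * (l + 1) by ring, ht]; ring⟩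
      · obtain ⟨t, ht⟩ := h4
        exact ⟨2 * t + 1, ⟨t, rfl⟩, by rw [show l = 4 * t + 1 by linarith]; ring⟩
    · obtain ⟨X, Y, α, β, hX, hα, hXo, hYe, hαe, h2, h3, h4⟩ := ih hipos
      have hAfix : a ^ 2 ^ i * z * (a ^ 2 ^ i)⁻¹ = z := by
        rw [hz, ← pow_add, add_comm, pow_add, mul_inv_cancel_right]
      refine ⟨X * X, Y * (X + 1), α * (X + 1), α * Y + 2 * β, ?_, ?_, hXo.mul hXo,
        hYe.mul_right _, hαe.mul_right _, fun hi2 => ⟨?_, ?_⟩, fun hi3 => ?_, fun hl4 => ?_⟩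
      · calc a ^ 2 ^ (i + 1) * u * (a ^ 2 ^ (i + 1))⁻¹
            = a ^ 2 ^ i * (a ^ 2 ^ i * u * (a ^ 2 ^ i)⁻¹) * (a ^ 2 ^ i)⁻¹ := by
              rw [pow_succ, pow_mul, pow_two]; group
          _ = _ := by
              rw [hX, conj_zmul, hX, hAfix, h.mul_zpow' (zpow_mem h.u_mem _) (zpow_mem h.pow_mem _),
                ← zpow_mul, ← zpow_mul, mul_assoc, ← zpow_add, mul_add, mul_one]
      · calc a ^ 2 ^ (i + 1) * b * (a ^ 2 ^ (i + 1))⁻¹ * b⁻¹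
            = (a ^ 2 ^ i * (a ^ 2 ^ i * b * (a ^ 2 ^ i)⁻¹ * b⁻¹) * (a ^ 2 ^ i)⁻¹) *
                (a ^ 2 ^ i * b * (a ^ 2 ^ i)⁻¹ * b⁻¹) := by
              rw [pow_succ, pow_mul, pow_two]; group
          _ = _ := by
              rw [hα, conj_zmul, hX, hAfix, h.mul_zpow' (zpow_mem h.u_mem _) (zpow_mem h.pow_mem _),
                ← zpow_mul, ← zpow_mul]
              calc u ^ (X * α) * z ^ (Y * α) * z ^ β * (u ^ α * z ^ β)
                  = u ^ (X * α) * (z ^ (Y * α + β) * u ^ α) * z ^ β := by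
                    rw [zpow_add]; simp only [mul_assoc]
                _ = u ^ (X * α + α) * z ^ (Y * α + β + β) := by
                    rw [← (h.commute (zpow_mem h.u_mem α) (zpow_mem h.pow_mem (Y * α + β))).eq,
                      zpow_add u, zpow_add z (Y * α + β)]
                    simp only [mul_assoc]
                    rfl
                _ = _ := by congr 2 <;> ring
      · exact Int.dvd_trans (by norm_num) (mul_dvd_mul (even_iff_two_dvd.mp hαe)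
          (even_iff_two_dvd.mp (hXo.add_odd odd_one)))
      · exact (hαe.mul_right _).add (even_two_mul β)
      · have hβ := (h2 (by omega)).2
        exact dvd_add (Int.dvd_trans (by norm_num)
          (mul_dvd_mul (even_iff_two_dvd.mp hαe) (even_iff_two_dvd.mp hYe)))
          (Int.dvd_trans (by norm_num) (mul_dvd_mul_left 2 (even_iff_two_dvd.mp hβ)))
      · obtain ⟨⟨t, ht⟩, o, ho, hαo⟩ := h4 hl4
        refine ⟨⟨t * (X + 1), by rw [show X * X - 1 = (X - 1) * (X + 1) by ring, ht]; ring⟩,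
          o * (2 * t + 1), ho.mul ⟨t, rfl⟩, ?_⟩
        rw [hαo, show X = 4 * t + 1 by linarith, pow_succ]; ring

/-- The relation coming from `b a ^ n b⁻¹ = (a ^ n)⁻¹`. -/
theorem exists_rel {l m : ℤ} (hl : Odd l) (hm : Odd m)
    (hlm : a * uOf a b * a⁻¹ = uOf a b ^ l * (a ^ n) ^ m) {r : ℕ} (hr : n = 2 ^ r) (hr2 : 2 ≤ r) :
    ∃ α β : ℤ, (a ^ n) ^ (2 - β) = uOf a b ^ α ∧ 4 ∣ α ∧ Even β ∧ (3 ≤ r → 4 ∣ β) ∧
      (4 ∣ l - 1 → ∃ o : ℤ, Odd o ∧ α = 2 ^ r * o) := by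
  obtain ⟨X, Y, α, β, -, hα, -, -, -, h2, h3, h4⟩ := h.exists_delta hG hl hm hlm r (by omega)
  refine ⟨α, β, ?_, (h2 hr2).1, (h2 hr2).2, h3, fun hl4 => (h4 hl4).2⟩
  obtain ⟨k, hk⟩ := h.exists_conj_b hG
  have hb : b * a ^ n * b⁻¹ = (a ^ n)⁻¹ := by simpa using hk 0 1
  rw [← hr] at hα
  have h5 : a ^ n * b * (a ^ n)⁻¹ * b⁻¹ = a ^ n * a ^ n := by
    have : b * (a ^ n)⁻¹ * b⁻¹ = a ^ n := by
      rw [← conj_inv, hb, inv_inv]
    calc a ^ n * b * (a ^ n)⁻¹ * b⁻¹ = a ^ n * (b * (a ^ n)⁻¹ * b⁻¹) := by simp only [mul_assoc]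
      _ = _ := by rw [this]
  rw [h5, ← zpow_two] at hα
  rw [zpow_sub, hα, mul_inv_cancel_right]

/-- For `8 ∣ n` the square of `a ^ n` is a fourth power of `u`. -/
theorem exists_sq_eq {l m : ℤ} (hl : Odd l) (hm : Odd m)
    (hlm : a * uOf a b * a⁻¹ = uOf a b ^ l * (a ^ n) ^ m) {r : ℕ} (hr : n = 2 ^ r) (hr3 : 3 ≤ r) :
    ∃ t : ℤ, (a ^ n) ^ (2 : ℤ) = uOf a b ^ (4 * t) := by
  obtain ⟨α, β, hrel, ⟨α', rfl⟩, -, h3, -⟩ := h.exists_rel hG hl hm hlm hr (by omega)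
  obtain ⟨β', rfl⟩ := h3 hr3
  have ho : Odd (1 - 2 * β') := ⟨-β', by ring⟩
  obtain ⟨t, ht⟩ : (a ^ n) ^ (2 : ℤ) ∈ Subgroup.zpowers (uOf a b ^ (4 : ℤ)) := by
    refine mem_of_zpow_odd hG ho ⟨α', ?_⟩
    rw [← zpow_mul, show (2 : ℤ) * (1 - 2 * β') = 2 - 4 * β' by ring, hrel, zpow_mul]
  exact ⟨t, by rw [zpow_mul]; exact ht.symm⟩

/-- An involution congruent to `a ^ n` modulo squares, when `8 ∣ n`. -/
theorem exists_omega (hn : 8 ∣ n) :
    ∃ o ∈ commutator G, o * o = 1 ∧ (a ^ n)⁻¹ * o ∈ sqSub G := by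
  obtain ⟨r, hr2, hr⟩ := h.exists_pow_two hG
  have hr3 : 3 ≤ r := by
    by_contra hlt
    obtain rfl : r = 2 := by omega
    rw [hr] at hn
    norm_num at hn
  obtain ⟨l, m, hl, hm, hlm⟩ := h.exists_conj hG
  obtain ⟨t, ht⟩ := h.exists_sq_eq hG hl hm hlm hr hr3
  refine ⟨a ^ n * uOf a b ^ (-(2 * t)), mul_mem h.pow_mem (zpow_mem h.u_mem _), ?_, ?_⟩
  · rw [← zpow_two, h.mul_zpow' h.pow_mem (zpow_mem h.u_mem _), ht, ← zpow_mul, ← zpow_add,
      show 4 * t + -(2 * t) * 2 = 0 by ring, zpow_zero]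
  · rw [inv_mul_cancel_left, zpow_neg]
    refine inv_mem ?_
    rw [two_mul, zpow_add]
    exact sq_mem_sqSub (zpow_mem h.u_mem t)

/-- `u ^ n` lies in the subgroup generated by the squares of `a ^ n` and of `w`. -/
theorem pow_n_mem : uOf a b ^ (n : ℤ) ∈
    Subgroup.zpowers ((a ^ n) ^ (2 : ℤ)) ⊔ Subgroup.zpowers (wOf a b ^ (2 : ℤ)) := by
  obtain ⟨r, hr2, hr⟩ := h.exists_pow_two hG
  obtain ⟨l, m, hl, hm, hlm⟩ := h.exists_conj hG
  obtain ⟨q, hq⟩ := hl.sub_odd odd_one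
  rcases Int.even_or_odd q with ⟨q', hq'⟩ | hodd
  · obtain ⟨α, β, hrel, -, ⟨β', hβ'⟩, -, h4⟩ := h.exists_rel hG hl hm hlm hr hr2
    obtain ⟨o, ho, hαo⟩ := h4 ⟨q', by linarith⟩
    refine mem_of_zpow_odd hG ho (Subgroup.mem_sup_left ⟨1 - β', ?_⟩)
    show ((a ^ n) ^ (2 : ℤ)) ^ (1 - β') = _
    rw [← zpow_mul, ← zpow_mul, show 2 * (1 - β') = 2 - β by linarith, hrel, hαo, hr]
    push_cast
    rfl
  · have hw : uOf a b ^ (4 * q) = wOf a b ^ (2 : ℤ) * ((a ^ n) ^ (2 : ℤ)) ^ (-m) := by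
      rw [(h.conj_w hG hlm).1, h.mul_zpow' (zpow_mem h.u_mem _) (zpow_mem h.pow_mem _), ← zpow_mul,
        ← zpow_mul, ← zpow_mul, mul_assoc, ← zpow_add, show m * 2 + 2 * -m = 0 by ring, zpow_zero,
        mul_one]
      congr 1
      linarith
    have h4 : uOf a b ^ (4 : ℤ) ∈
        Subgroup.zpowers ((a ^ n) ^ (2 : ℤ)) ⊔ Subgroup.zpowers (wOf a b ^ (2 : ℤ)) := by
      refine mem_of_zpow_odd hG hodd ?_
      rw [← zpow_mul, hw]
      exact mul_mem (Subgroup.mem_sup_right (Subgroup.mem_zpowers _))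
        (Subgroup.mem_sup_left (zpow_mem (Subgroup.mem_zpowers _) _))
    obtain ⟨d, hd⟩ := h.four
    rw [show (n : ℤ) = 4 * d by rw [hd]; push_cast; rfl, zpow_mul]
    exact zpow_mem h4 d

omit [Finite G] hG in
theorem uOf_eq : uOf a b = a * b * a⁻¹ * b⁻¹ := rfl

/-- `b` acts on `⟨w⟩`. -/
theorem exists_conj_b_w : ∃ e : ℤ, b * wOf a b * b⁻¹ = wOf a b ^ e := by
  obtain ⟨l, m, -, -, hlm⟩ := h.exists_conj hG
  obtain ⟨k, hk⟩ := h.exists_conj_b hG
  refine ⟨-1 + 2 * k * (l - 1), ?_⟩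
  have hw := (h.conj_w hG hlm).1
  rw [zpow_add, zpow_neg_one, hw, hk (l - 1) m, ← hw]

/-- Modulo squares of the derived subgroup an element of `a ^ (2 * j) A` squares like `a ^ (2 * j)`. -/
theorem sq_mem_even (j : ℤ) {f : G} (hf : f ∈ commutator G) :
    (a ^ (4 * j))⁻¹ * (a ^ (2 * j) * f * (a ^ (2 * j) * f)) ∈ sqSub G := by
  obtain ⟨x, y, rfl⟩ := h.exists_repr hG hf
  obtain ⟨c, hc⟩ := h.exists_conj_even hG (-j)
  set f := uOf a b ^ x * (a ^ n) ^ y with hfdef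
  have hA : f ∈ commutator G := mul_mem (zpow_mem h.u_mem _) (zpow_mem h.pow_mem _)
  have h1 : (a ^ (4 * j))⁻¹ * (a ^ (2 * j) * f * (a ^ (2 * j) * f)) =
      a ^ (2 * -j) * f * (a ^ (2 * -j))⁻¹ * f := by group
  rw [h1, hfdef, hc x y, ← hfdef, mul_assoc, (h.commute (zpow_mem h.w_mem _) hA).eq, ← mul_assoc]
  refine mul_mem (sq_mem_sqSub hA) ?_
  rw [show 2 * c * x = c * x + c * x by ring, zpow_add]
  exact sq_mem_sqSub (zpow_mem h.w_mem _)

end Data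

end CfsgLib.FusionBicyclic
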