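import Cfsg.Agent.Lib.FusionBicyclic.Common
import Mathlib.GroupTheory.Abelianization.Defs

/-!
In a bicyclic `2`-group with noncyclic derived subgroup the automorphisms of the whole group form a
`2`-group; and with cyclic derived subgroup the subgroup `derR` lies in the squares of `[a, b]`.
-/

set_option autoImplicit false
set_option linter.unusedSectionVars false
set_option linter.style.haveILetI false

namespace CfsgLib.FusionBicyclic

open scoped commutatorElement

variable {G : Type*} [Group G]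

theorem derR_map_le {H : Type*} [Group H] (f : G →* H) : (derR G).map f ≤ derR H := by
  have hA : (commutator G).map f ≤ commutator H := by
    rw [commutator_def, commutator_def, Subgroup.map_commutator]
    exact Subgroup.commutator_mono le_top le_top
  rw [derR, Subgroup.map_sup, Subgroup.map_commutator]
  refine sup_le_sup ?_ (Subgroup.commutator_mono hA le_top)
  rw [sqSub, MonoidHom.map_closure, Subgroup.closure_le]
  rintro _ ⟨_, ⟨x, hx, rfl⟩, rfl⟩
  rw [map_mul]
  exact sq_mem_sqSub (hA ⟨x, hx, rfl⟩)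

/-- The exponent of `a` in a root of an element of the derived subgroup is even. -/
theorem Data.even_of_sq_mem {a b : G} {n : ℕ} (h : Data a b n) {x : G}
    (hx : x * x ∈ commutator G) :
    ∃ i e : ℤ, Even i ∧ ∃ f ∈ commutator G, x = a ^ i * b ^ e * f := by
  haveI : (Subgroup.zpowers b ⊔ commutator G).Normal :=
    Subgroup.Normal.of_commutator_le (G := G) le_sup_right
  have htop : Subgroup.zpowers a ⊔ (Subgroup.zpowers b ⊔ commutator G) = ⊤ := by
    rw [eq_top_iff, ← h.gen, Subgroup.closure_le]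
    rintro w (hw | hw) <;> subst w
    · exact Subgroup.mem_sup_left (Subgroup.mem_zpowers _)
    · exact Subgroup.mem_sup_right (Subgroup.mem_sup_left (Subgroup.mem_zpowers _))
  obtain ⟨_, ⟨i, rfl⟩, y, hy, hxy⟩ :=
    Subgroup.mem_sup_of_normal_right.mp (htop ▸ Subgroup.mem_top x)
  obtain ⟨_, ⟨e, rfl⟩, f, hf, hbf⟩ := Subgroup.mem_sup_of_normal_right.mp hy
  have hx' : x = a ^ i * b ^ e * f := by rw [← hxy, ← hbf, ← mul_assoc]
  refine ⟨i, e, ?_, f, hf, hx'⟩
  have hmem : a ^ (i + i) * b ^ (e + e) ∈ commutator G := by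
    have h1 : Abelianization.of (a ^ (i + i) * b ^ (e + e)) = Abelianization.of (x * x) := by
      have hf1 : Abelianization.of f = 1 := (QuotientGroup.eq_one_iff f).mpr hf
      rw [hx', zpow_add, zpow_add]
      simp only [map_mul, hf1, mul_one]
      exact mul_mul_mul_comm _ _ _ _
    have h2 : Abelianization.of (x * x) = 1 := (QuotientGroup.eq_one_iff _).mpr hx
    exact (QuotientGroup.eq_one_iff _).mp (h1.trans h2)
  obtain ⟨d, hd⟩ := ((h.mem_iff _ _).mp hmem).1
  obtain ⟨m, hm⟩ := h.four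
  refine ⟨m * d, ?_⟩
  have : i + i = 4 * m * d := by rw [hd, hm]; push_cast; ring
  linarith

/-- The automorphism group of the whole group is a `2`-group. -/
theorem Data.isPGroup_of_top {a b : G} {n : ℕ} (h : Data a b n) [Finite G] (hG : IsPGroup 2 G)
    {P : Subgroup G} (hP : P = ⊤) (Δ : Subgroup (MulAut P)) : IsPGroup 2 Δ := by
  haveI : Fact (Nat.Prime 2) := ⟨Nat.prime_two⟩
  have hmem : ∀ x : G, x ∈ P := fun x => hP ▸ Subgroup.mem_top x
  set X : Set G := {x | x * x ∈ derR G} with hX
  have hXst : Stable Δ X := by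
    intro φ _ x hx
    show ((φ x : P) : G) * (φ x : P) ∈ derR G
    let ψ : G →* G :=
      { toFun := fun g => (φ ⟨g, hmem g⟩ : P)
        map_one' := by
          show ((φ (1 : P) : P) : G) = 1
          rw [map_one]; rfl
        map_mul' := fun g g' => by
          show ((φ (⟨g, hmem g⟩ * ⟨g', hmem g'⟩ : P) : P) : G) = _
          rw [map_mul]; rfl }
    have := derR_map_le ψ ⟨_, hx, rfl⟩
    rwa [map_mul] at this
  have hXP : X ⊆ P := fun x _ => hmem x
  set Y : Subgroup G := Subgroup.closure X ⊔ fr P with hYdef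
  have hY : Stable Δ (Y : Set G) :=
    (hXst.closure hXP).sup stable_fr ((Subgroup.closure_le P).mpr hXP) (fr_le P)
  have hYP : Y ≤ P := fun x _ => hmem x
  have hcomm : ∀ x y : G, x * y * x⁻¹ * y⁻¹ ∈ fr P := fun x y => comm_mem_fr hG (hmem x) (hmem y)
  have hA : commutator G ≤ fr P := by
    rw [commutator_def, Subgroup.commutator_le]
    exact fun x _ y _ => hcomm x y
  haveI hfrn : (fr P).Normal := Subgroup.Normal.of_commutator_le (G := G) hA
  haveI hYn : Y.Normal := Subgroup.Normal.of_commutator_le (G := G) (hA.trans le_sup_right)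
  have hbY : b ∈ Y := Subgroup.mem_sup_left (Subgroup.subset_closure h.sq)
  -- two layers of order at most two
  have htop : ∀ x : G, x ∈ Y ∨ a⁻¹ * x ∈ Y := by
    have haa : a * a ∈ Y := Subgroup.mem_sup_right (sq_mem_fr hG (hmem a))
    intro x
    have hx : x ∈ Subgroup.closure ({a, b} : Set G) := h.gen ▸ Subgroup.mem_top x
    induction hx using Subgroup.closure_induction with
    | mem x hx =>
      rcases hx with hx | hx <;> subst x
      · exact Or.inr (by rw [inv_mul_cancel]; exact one_mem Y)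
      · exact Or.inl hbY
    | one => exact Or.inl (one_mem Y)
    | mul x y _ _ ihx ihy =>
      rcases ihx with hx | hx <;> rcases ihy with hy | hy
      · exact Or.inl (mul_mem hx hy)
      · right
        have := mul_mem (hYn.conj_mem x hx a⁻¹) hy
        rwa [show a⁻¹ * x * a⁻¹⁻¹ * (a⁻¹ * y) = a⁻¹ * (x * y) by group] at this
      · right
        rw [← mul_assoc]; exact mul_mem hx hy
      · left
        have := mul_mem (mul_mem haa (hYn.conj_mem _ hx a⁻¹)) hy
        rwa [show a * a * (a⁻¹ * (a⁻¹ * x) * a⁻¹⁻¹) * (a⁻¹ * y) = x * y by group] at this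
    | inv x _ ih =>
      rcases ih with hx | hx
      · exact Or.inl (inv_mem hx)
      · right
        have := mul_mem (inv_mem haa) (hYn.conj_mem _ (inv_mem hx) a)
        rwa [show (a * a)⁻¹ * (a * (a⁻¹ * x)⁻¹ * a⁻¹) = a⁻¹ * (x⁻¹ * (a * a⁻¹)) by group,
          mul_inv_cancel, mul_one] at this
  have hlow : ∀ x ∈ Y, x ∈ fr P ∨ b⁻¹ * x ∈ fr P := by
    have hbb : b * b ∈ fr P := sq_mem_fr hG (hmem b)
    let W : Subgroup G :=
      { carrier := {x | x ∈ fr P ∨ b⁻¹ * x ∈ fr P}
        one_mem' := Or.inl (one_mem _)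
        mul_mem' := by
          rintro x y (hx | hx) (hy | hy)
          · exact Or.inl (mul_mem hx hy)
          · right
            have := mul_mem (hfrn.conj_mem x hx b⁻¹) hy
            rwa [show b⁻¹ * x * b⁻¹⁻¹ * (b⁻¹ * y) = b⁻¹ * (x * y) by group] at this
          · exact Or.inr (by rw [← mul_assoc]; exact mul_mem hx hy)
          · left
            have := mul_mem (mul_mem hbb (hfrn.conj_mem _ hx b⁻¹)) hy
            rwa [show b * b * (b⁻¹ * (b⁻¹ * x) * b⁻¹⁻¹) * (b⁻¹ * y) = x * y by group] at this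
        inv_mem' := by
          rintro x (hx | hx)
          · exact Or.inl (inv_mem hx)
          · right
            have := mul_mem (inv_mem hbb) (hfrn.conj_mem _ (inv_mem hx) b)
            rwa [show (b * b)⁻¹ * (b * (b⁻¹ * x)⁻¹ * b⁻¹) = b⁻¹ * (x⁻¹ * (b * b⁻¹)) by group,
              mul_inv_cancel, mul_one] at this }
    have hle : Y ≤ W := by
      refine sup_le ((Subgroup.closure_le W).mpr fun x hx => ?_) fun x hx => Or.inl hx
      obtain ⟨i, e, hi, f, hf, rfl⟩ := h.even_of_sq_mem (derR_le hx)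
      have ha : a ^ i ∈ W := by
        obtain ⟨j, rfl⟩ := hi
        rw [← two_mul]
        exact Or.inl (zpow_even_mem_fr hG (hmem a) j)
      exact W.mul_mem (W.mul_mem ha
        (W.zpow_mem (Or.inr (by rw [inv_mul_cancel]; exact one_mem _)) e)) (Or.inl (hA hf))
    exact hle
  refine (isPGroup_stab hG hY hYP).to_le fun φ hφ => ⟨hφ, fun x => ?_, fun x hx => ?_⟩
  · have hkey : ∀ z w : G, z ∈ Y → w ∈ Y → z * w⁻¹ ∈ Y := fun z w hz hw => mul_mem hz (inv_mem hw)
    rcases htop (x : G) with hx | hx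
    · exact hkey _ _ (hY φ hφ x hx) hx
    · rcases htop (φ x : G) with hφx | hφx
      · have h1 := hY φ⁻¹ (inv_mem hφ) (φ x) hφx
        rw [MulAut.inv_apply_self] at h1
        exact hkey _ _ hφx h1
      · have := hYn.conj_mem _ (hkey _ _ hφx hx) a
        rwa [show a * (a⁻¹ * (φ x : G) * (a⁻¹ * (x : G))⁻¹) * a⁻¹ = (φ x : G) * (x : G)⁻¹ by group]
          at this
  · have hkey : ∀ z w : G, z ∈ fr P → w ∈ fr P → z * w⁻¹ ∈ fr P :=
      fun z w hz hw => mul_mem hz (inv_mem hw)
    rcases hlow _ hx with hx' | hx'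
    · exact hkey _ _ (stable_fr φ hφ x hx') hx'
    · rcases hlow _ (hY φ hφ x hx) with hφx | hφx
      · have h1 := stable_fr φ⁻¹ (inv_mem hφ) (φ x) hφx
        rw [MulAut.inv_apply_self] at h1
        exact hkey _ _ hφx h1
      · have := hfrn.conj_mem _ (hkey _ _ hφx hx') b
        rwa [show b * (b⁻¹ * (φ x : G) * (b⁻¹ * (x : G))⁻¹) * b⁻¹ = (φ x : G) * (x : G)⁻¹ by group]
          at this

/-- With cyclic derived subgroup `⟨u⟩`, the subgroup `derR` consists of powers of `u ^ 2`. -/
theorem derR_le_zpowers_sq {u : G} (hu : u ∈ commutator G) (hA : commutator G ≤ Subgroup.zpowers u) :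
    derR G ≤ Subgroup.zpowers (u ^ 2) := by
  have hconj : ∀ g : G, ∃ e : ℤ, g * u * g⁻¹ = u ^ e := fun g => by
    obtain ⟨e, he⟩ := Subgroup.mem_zpowers_iff.mp
      (hA ((inferInstance : (commutator G).Normal).conj_mem u hu g))
    exact ⟨e, he.symm⟩
  set N := Subgroup.zpowers (u ^ 2) with hN
  have heven : ∀ j : ℤ, Even j → u ^ j ∈ N := by
    rintro _ ⟨r, rfl⟩
    refine ⟨r, ?_⟩
    show (u ^ 2) ^ r = u ^ (r + r)
    rw [← two_mul, zpow_mul]; norm_cast
  by_cases huN : u ∈ N
  · exact derR_le.trans (hA.trans (Subgroup.zpowers_le.mpr huN))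
  refine sup_le ?_ ?_
  · rw [sqSub, Subgroup.closure_le]
    rintro _ ⟨f, hf, rfl⟩
    obtain ⟨j, rfl⟩ := Subgroup.mem_zpowers_iff.mp (hA hf)
    rw [← zpow_add]
    exact heven _ ⟨j, rfl⟩
  · rw [Subgroup.commutator_le]
    intro f hf g _
    obtain ⟨j, rfl⟩ := Subgroup.mem_zpowers_iff.mp (hA hf)
    obtain ⟨e, he⟩ := hconj g
    have hodd : Odd e := by
      rw [← Int.not_even_iff_odd]
      rintro ⟨r, rfl⟩
      apply huN
      obtain ⟨e', he'⟩ := hconj g⁻¹
      have h1 : u = u ^ (e' * (r + r)) := by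
        calc u = g⁻¹ * (g * u * g⁻¹) * g⁻¹⁻¹ := by group
          _ = _ := by rw [he, ← conj_zpow, he', ← zpow_mul]
      rw [h1]
      exact heven _ ⟨e' * r, by ring⟩
    have h2 : ⁅u ^ j, g⁆ = u ^ (j - e * j) := by
      calc ⁅u ^ j, g⁆ = u ^ j * (g * u ^ j * g⁻¹)⁻¹ := by rw [commutatorElement_def]; group
        _ = _ := by rw [← conj_zpow, he, ← zpow_mul, ← zpow_sub]
    rw [h2]
    obtain ⟨r, rfl⟩ := hodd
    exact heven _ ⟨-r * j, by ring⟩

end CfsgLib.FusionBicyclic
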